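import Mathlib

/-! Four-groups in `PSL₂(F)`, characteristic not `2`. -/

set_option autoImplicit false
set_option linter.unusedSimpArgs false

namespace Cfsg.Agent.H77.Psl4

open Matrix

variable {F : Type} [Field F]

abbrev M2 (F : Type) := Matrix (Fin 2) (Fin 2) F
abbrev S2 (F : Type) [Field F] := Matrix.SpecialLinearGroup (Fin 2) F

theorem ch (X : M2 F) : X * X = trace X • X - det X • (1 : M2 F) := by
  ext i j
  fin_cases i <;> fin_cases j <;> simp [Matrix.mul_apply, trace_fin_two, det_fin_two] <;> ring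

theorem pol {X Y : M2 F} (hX : trace X = 0) (hY : trace Y = 0) :
    X * Y + Y * X = trace (X * Y) • (1 : M2 F) := by
  rw [trace_fin_two] at hX hY
  have e1 : X 1 1 = -X 0 0 := by linear_combination hX
  have e2 : Y 1 1 = -Y 0 0 := by linear_combination hY
  ext i j
  fin_cases i <;> fin_cases j <;> simp [Matrix.mul_apply, trace_fin_two, e1, e2] <;> ring

theorem sm0 {X : M2 F} (hX : det X = 1) {t : F} (h : t • X = 0) : t = 0 := by
  rcases smul_eq_zero.1 h with h | h
  · exact h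
  · rw [h] at hX; simp at hX

theorem scal {t : F} (h : det (t • (1 : M2 F)) = 1) : t • (1 : M2 F) = 1 ∨ t • (1 : M2 F) = -1 := by
  rw [det_smul, det_one, mul_one, Fintype.card_fin, sq_eq_one_iff] at h
  rcases h with h | h <;> simp [h]

theorem mk_eq {A B : S2 F} : (QuotientGroup.mk A : Matrix.ProjectiveSpecialLinearGroup (Fin 2) F) =
    QuotientGroup.mk B ↔ A.1 = B.1 ∨ A.1 = -B.1 := by
  rw [eq_comm, QuotientGroup.eq, Matrix.SpecialLinearGroup.mem_center_iff]
  have e : A.1 = B.1 * (B⁻¹ * A).1 := by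
    rw [← Matrix.SpecialLinearGroup.coe_mul, mul_inv_cancel_left]
  constructor
  · rintro ⟨r, hr, h⟩
    rw [Fintype.card_fin, sq_eq_one_iff] at hr
    rw [e, ← h]
    rcases hr with rfl | rfl
    · simp
    · rw [map_neg, map_one]; simp
  · have e' : (B⁻¹).1 * B.1 = 1 := by
      rw [← Matrix.SpecialLinearGroup.coe_mul, inv_mul_cancel]; rfl
    rintro (h | h)
    · exact ⟨1, by simp, by rw [Matrix.SpecialLinearGroup.coe_mul, h, e']; simp⟩
    · exact ⟨-1, by simp, by rw [Matrix.SpecialLinearGroup.coe_mul, h, mul_neg, e', map_neg, map_one]⟩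

theorem tr0 {A : M2 F} (d : det A = 1) (h : A * A = -1) : trace A = 0 := by
  have := ch A
  rw [h, d, one_smul] at this
  exact sm0 d (by rw [eq_sub_iff_add_eq, neg_add_cancel] at this; exact this.symm)

theorem sq1 (h2 : (2 : F) ≠ 0) {A : M2 F} (d : det A = 1) (h : A * A = 1) : A = 1 ∨ A = -1 := by
  have := ch A
  rw [h, d, one_smul, eq_sub_iff_add_eq, ← two_smul F] at this
  have t0 : trace A ≠ 0 := fun e => by
    rw [e, zero_smul] at this
    exact h2 (sm0 det_one this)
  have e : A = (2 / trace A) • (1 : M2 F) := by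
    rw [div_eq_inv_mul, mul_smul, this, smul_smul, inv_mul_cancel₀ t0, one_smul]
  rw [e] at d ⊢
  exact scal d

theorem half (h2 : (2 : F) ≠ 0) {A L : M2 F} (tA : trace A = 0) (hA : A * A = -1) (tL : trace L = 0)
    (c : L * A = A * L) : ∃ s : F, L = s • A := by
  have := pol tL tA
  rw [← c, ← two_smul F] at this
  refine ⟨-(2⁻¹ * trace (L * A)), ?_⟩
  have e : L * A = (2⁻¹ * trace (L * A)) • (1 : M2 F) := by
    rw [mul_smul, ← this, smul_smul, inv_mul_cancel₀ h2, one_smul]
  generalize 2⁻¹ * trace (L * A) = s at e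
  have e2 : L * A * A = s • A := by rw [e, smul_mul_assoc, one_mul]
  rw [mul_assoc, hA, mul_neg, mul_one] at e2
  rw [neg_smul, ← e2, neg_neg]

theorem key (h2 : (2 : F) ≠ 0) {A B L : M2 F} (dA : det A = 1) (dB : det B = 1) (dL : det L = 1)
    (hA : A * A = -1) (hB : B * A = -(A * B)) (cA : L * A = A * L)
    (cB : L * B = B * L) : L = 1 ∨ L = -1 := by
  obtain ⟨t, ht⟩ : ∃ t : F, t = 2⁻¹ * trace L := ⟨_, rfl⟩
  obtain ⟨s, hs⟩ := half h2 (tr0 dA hA) hA (L := L - t • 1)
    (by rw [trace_sub, trace_smul, trace_one, ht]; simp; field_simp; ring)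
    (by rw [sub_mul, mul_sub, cA]; simp)
  have e : L = s • A + t • 1 := by rw [← hs]; simp
  have e2 : (2 * s) • (A * B) = 0 := by
    rw [e] at cB
    simp only [add_mul, mul_add, smul_mul_assoc, mul_smul_comm, one_mul, mul_one, hB, smul_neg,
      add_left_inj] at cB
    rw [mul_smul, two_smul]
    nth_rewrite 1 [cB]
    exact neg_add_cancel _
  have s0 : s = 0 := (mul_eq_zero.1 (sm0 (by rw [det_mul, dA, dB, one_mul]) e2)).resolve_left h2
  rw [s0, zero_smul, zero_add] at e
  rw [e] at dL ⊢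
  exact scal dL

theorem fact {F : Type} [Field F] (h2 : (2:F) ≠ 0)
    (a b : Matrix.ProjectiveSpecialLinearGroup (Fin 2) F) (ha : a*a = 1) (hb : b*b = 1)
    (a1 : a ≠ 1) (b1 : b ≠ 1) (ab : a ≠ b) (c : Commute a b) :
    (∀ l, Commute a l → Commute b l → l = 1 ∨ l = a ∨ l = b ∨ l = a*b) ∧
      ∃ w, w*a*w⁻¹ = b ∧ w*b*w⁻¹ = a*b := by
  obtain ⟨A, rfl⟩ := QuotientGroup.mk_surjective a
  obtain ⟨B, rfl⟩ := QuotientGroup.mk_surjective b
  have one : ∀ X : S2 F, (QuotientGroup.mk X : Matrix.ProjectiveSpecialLinearGroup (Fin 2) F) = 1 ↔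
      X.1 = 1 ∨ X.1 = -1 := fun X => by rw [← QuotientGroup.mk_one, mk_eq]; rfl
  have sq : ∀ X : S2 F, (QuotientGroup.mk X : Matrix.ProjectiveSpecialLinearGroup (Fin 2) F) *
      QuotientGroup.mk X = 1 → (QuotientGroup.mk X : Matrix.ProjectiveSpecialLinearGroup (Fin 2) F)
      ≠ 1 → X.1 * X.1 = -1 := fun X h h1 => by
    rw [← QuotientGroup.mk_mul, one] at h
    exact h.resolve_left fun e => h1 ((one X).2 (sq1 h2 X.2 e))
  have cm : ∀ X Y : S2 F, Commute (QuotientGroup.mk X : Matrix.ProjectiveSpecialLinearGroup (Fin 2) F)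
      (QuotientGroup.mk Y) → Y.1 * X.1 = X.1 * Y.1 ∨ Y.1 * X.1 = -(X.1 * Y.1) := fun X Y h => by
    have := h.eq.symm
    rw [← QuotientGroup.mk_mul, ← QuotientGroup.mk_mul, mk_eq] at this
    exact this
  have hA := sq A ha a1
  have hB := sq B hb b1
  have hBA : B.1 * A.1 = -(A.1 * B.1) := by
    refine (cm A B c).resolve_left fun e => ab ?_
    have : (A * B).1 * (A * B).1 = 1 := by
      rw [Matrix.SpecialLinearGroup.coe_mul, mul_assoc, ← mul_assoc B.1, e, mul_assoc, hB,
        ← mul_assoc, hA]; simp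
    have h3 := (one _).2 (sq1 h2 (A * B).2 this)
    rw [QuotientGroup.mk_mul] at h3
    exact (eq_inv_of_mul_eq_one_left h3).trans (inv_eq_of_mul_eq_one_right hb)
  have r1 : ∀ X, A.1 * (A.1 * X) = -X := fun X => by rw [← mul_assoc, hA]; simp
  have r2 : ∀ X, B.1 * (B.1 * X) = -X := fun X => by rw [← mul_assoc, hB]; simp
  have r3 : ∀ X, B.1 * (A.1 * X) = -(A.1 * (B.1 * X)) := fun X => by
    rw [← mul_assoc, hBA, neg_mul, mul_assoc]
  constructor
  · intro l h1 h2'
    obtain ⟨L, rfl⟩ := QuotientGroup.mk_surjective l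
    have K : ∀ X : S2 F, (X * L).1 * A.1 = A.1 * (X * L).1 → (X * L).1 * B.1 = B.1 * (X * L).1 →
        (QuotientGroup.mk L : Matrix.ProjectiveSpecialLinearGroup (Fin 2) F) =
          (QuotientGroup.mk X)⁻¹ := fun X e1 e2 => by
      have := (one _).2 (key h2 A.2 B.2 (X * L).2 hA hBA e1 e2)
      rw [QuotientGroup.mk_mul] at this
      exact eq_inv_of_mul_eq_one_right this
    rcases cm A L h1 with e1 | e1 <;> rcases cm B L h2' with e2 | e2
    · exact Or.inl ((one _).2 (key h2 A.2 B.2 L.2 hA hBA e1 e2))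
    · refine Or.inr (Or.inl ((K A ?_ ?_).trans (inv_eq_of_mul_eq_one_right ha))) <;>
        simp only [Matrix.SpecialLinearGroup.coe_mul, mul_assoc, e1, e2, r1, r2, r3, mul_neg, neg_neg]
    · refine Or.inr (Or.inr (Or.inl ((K B ?_ ?_).trans (inv_eq_of_mul_eq_one_right hb)))) <;>
        simp only [Matrix.SpecialLinearGroup.coe_mul, mul_assoc, e1, e2, r1, r2, r3, mul_neg, neg_neg]
    · refine Or.inr (Or.inr (Or.inr ((K (A * B) ?_ ?_).trans ?_)))
      · simp only [Matrix.SpecialLinearGroup.coe_mul, mul_assoc, e1, e2, r1, r2, r3, mul_neg, neg_neg]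
      · simp only [Matrix.SpecialLinearGroup.coe_mul, mul_assoc, e1, e2, r1, r2, r3, mul_neg, neg_neg]
      · rw [QuotientGroup.mk_mul, _root_.mul_inv_rev, inv_eq_of_mul_eq_one_right ha,
          inv_eq_of_mul_eq_one_right hb, c.eq]
  · obtain ⟨V, hV⟩ : ∃ V : M2 F, V = 1 + A.1 + B.1 + A.1 * B.1 := ⟨_, rfl⟩
    have tAB : trace (A.1 * B.1) = 0 := tr0 (A * B).2 (by
      simp only [mul_assoc, r1, r2, r3, hB, mul_neg, neg_neg, mul_one, hA])
    have tV : trace V = 2 := by
      rw [hV, trace_add, trace_add, trace_add, tr0 A.2 hA, tr0 B.2 hB, tAB, trace_one]; simp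
    have vv : V * V = (2 : F) • V - (4 : F) • (1 : M2 F) := by
      rw [show (4 : F) = 2 + 2 by norm_num, add_smul, two_smul, two_smul, hV]
      simp only [mul_add, add_mul, mul_assoc, r1, r2, r3, hA, hB, hBA, mul_neg, neg_neg, mul_one,
        one_mul]
      abel
    have dV : det V = 4 := by
      have := ch V
      rw [vv, tV, sub_right_inj, ← sub_eq_zero, ← sub_smul] at this
      exact (sub_eq_zero.1 (sm0 det_one this)).symm
    let W : S2 F := ⟨(2 : F)⁻¹ • V, by
      rw [det_smul, dV, Fintype.card_fin]; field_simp; norm_num⟩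
    refine ⟨QuotientGroup.mk W, ?_, ?_⟩ <;> rw [mul_inv_eq_iff_eq_mul]
    · rw [← QuotientGroup.mk_mul, ← QuotientGroup.mk_mul, mk_eq]
      left
      change (2 : F)⁻¹ • V * A.1 = B.1 * (2 : F)⁻¹ • V
      rw [smul_mul_assoc, mul_smul_comm, hV]
      congr 1
      simp only [mul_add, add_mul, mul_assoc, r1, r2, r3, hA, hB, hBA, mul_neg, neg_neg, mul_one,
        one_mul]
      abel
    · rw [← QuotientGroup.mk_mul, ← QuotientGroup.mk_mul, ← QuotientGroup.mk_mul, mk_eq]
      left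
      change (2 : F)⁻¹ • V * B.1 = A.1 * B.1 * (2 : F)⁻¹ • V
      rw [smul_mul_assoc, mul_smul_comm, hV]
      congr 1
      simp only [mul_add, add_mul, mul_assoc, r1, r2, r3, hA, hB, hBA, mul_neg, neg_neg, mul_one,
        one_mul]
      abel

end Cfsg.Agent.H77.Psl4
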