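import Cfsg.Agent.H77.ElusTw
import Cfsg.Agent.H25.Subfield
import Cfsg.Agent.H26.SLBasic
import Cfsg.Agent.H31.HermGeo

/-!
# Conjugating elements of `SL` into subfield groups and similarity groups
-/

set_option autoImplicit false

namespace Cfsg.Agent.H77

open Module Cfsg.Agent.H76
open Matrix (SpecialLinearGroup GeneralLinearGroup)
open scoped Matrix

section Arith

theorem exists_dvd_geom {r k e : ℕ} (hr : r.Prime) {Q₀ N : ℤ} (hQ : ¬ (r : ℤ) ∣ Q₀)
    {S : Finset ℕ} {f : ℕ → ℕ} (h0 : ∀ i ∈ S, Q₀ ^ f i ≠ 1)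
    (h : N * ∏ i ∈ S, (Q₀ ^ f i - 1) ∣ (Q₀ ^ k) ^ e * ∏ i ∈ S, ((Q₀ ^ k) ^ f i - 1))
    (hN : (r : ℤ) ∣ N) :
    ∃ i ∈ S, (r : ℤ) ∣ (Q₀ ^ k) ^ f i - 1 ∧ ((r : ℤ) ∣ Q₀ ^ f i - 1 → r ∣ k) := by
  have hp := Nat.prime_iff_prime_int.mp hr
  have h1 : ∀ i, (Q₀ ^ k) ^ f i - 1 = (∑ j ∈ Finset.range k, (Q₀ ^ f i) ^ j) * (Q₀ ^ f i - 1) :=
    fun i => by rw [geom_sum_mul, ← pow_mul, ← pow_mul, mul_comm]
  simp only [h1, Finset.prod_mul_distrib, ← mul_assoc] at h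
  have h2 := hN.trans ((mul_dvd_mul_iff_right
    (Finset.prod_ne_zero_iff.mpr fun i hi => sub_ne_zero.mpr (h0 i hi))).mp h)
  obtain ⟨i, hi, h3⟩ := (hp.dvd_finsetProd_iff _).mp ((hp.dvd_or_dvd h2).resolve_left
    fun h => hQ (hp.dvd_of_dvd_pow (hp.dvd_of_dvd_pow h)))
  exact ⟨i, hi, h1 i ▸ h3.mul_right _, fun h4 => (dvd_geom_sum_iff_of_dvd h4 k).mp h3⟩

theorem prod_dvd_ordGU {q : ℕ} (hq : 1 ≤ q) (n : ℕ) :
    ∏ i ∈ Finset.range n, ((-(q : ℤ)) ^ (i + 1) - 1) ∣ (H31.ordGU q n : ℤ) := by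
  rw [H31.ordGU, Nat.cast_mul, Nat.cast_prod]
  refine (Finset.prod_dvd_prod_of_dvd _ _ fun i _ => ?_).mul_left _
  rw [← Int.natAbs_dvd, Int.natCast_dvd_natCast]
  split_ifs with h
  · rw [natAbs_neg_pow_sub_one_of_odd h.add_one]
  · rw [natAbs_neg_pow_sub_one_of_even hq (Nat.not_even_iff_odd.mp h).add_one]

theorem pow_ne_one_of_two_le {Q : ℤ} (h : 2 ≤ Q.natAbs) {i : ℕ} (hi : i ≠ 0) : Q ^ i ≠ 1 :=
  fun h1 => by
    have := congrArg Int.natAbs h1
    rw [Int.natAbs_pow, Int.natAbs_one, Nat.pow_eq_one] at this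
    omega

variable {F : Type*} [Field F] [Fintype F]

theorem card_GL_int (n : ℕ) : ∃ e, (Nat.card (GL (Fin n) F) : ℤ) =
    (Fintype.card F : ℤ) ^ e * ∏ i ∈ Finset.range n, ((Fintype.card F : ℤ) ^ (i + 1) - 1) := by
  refine ⟨∑ i ∈ Finset.range n, i, ?_⟩
  rw [Matrix.card_GL_field, Fin.prod_univ_eq_prod_range
    (fun i => Fintype.card F ^ n - Fintype.card F ^ i), ← Finset.prod_pow_eq_pow_sum,
    ← Finset.prod_range_reflect (fun i => (Fintype.card F : ℤ) ^ (i + 1) - 1),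
    ← Finset.prod_mul_distrib, Nat.cast_prod]
  refine Finset.prod_congr rfl fun i hi => ?_
  have hi := Finset.mem_range.mp hi
  rw [Nat.cast_sub (Nat.pow_le_pow_right Fintype.card_pos hi.le), mul_sub, ← pow_add,
    show i + (n - 1 - i + 1) = n by omega]
  simp

theorem card_SL_int (n : ℕ) : ∃ e, (Nat.card (SpecialLinearGroup (Fin (n + 1)) F) : ℤ) =
    (Fintype.card F : ℤ) ^ e * ∏ i ∈ Finset.range n, ((Fintype.card F : ℤ) ^ (i + 2) - 1) := by
  obtain ⟨e, h⟩ := card_GL_int (F := F) (n + 1)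
  refine ⟨e, mul_left_cancel₀ (sub_ne_zero.mpr (card_ne_one' (F := F))) ?_⟩
  rw [← H26.card_units_mul_card_sl, Nat.card_units, Nat.card_eq_fintype_card, Nat.cast_mul,
    Nat.cast_sub Fintype.card_pos, Finset.prod_range_succ'] at h
  rw [← Nat.cast_one (R := ℤ), h]
  simp only [Nat.cast_one]
  ring

end Arith

section Conj

variable {F : Type*} [Field F] [Fintype F] {p : ℕ} [Fact p.Prime] [CharP F p]
  {L : Type*} [Field L] [Algebra F L] [IsAlgClosed L]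
  {ι : Type} [Fintype ι] [DecidableEq ι] {H : Subgroup (GL ι F)} {r : ℕ}

theorem ujord_eq_twist {x y : GL ι F} {c : F} (h : (y : Matrix ι ι F) = c • (x : Matrix ι ι F))
    {b : Lˣ} (hb : (b : L) = algebraMap F L c) : ujord L y = twist b (ujord L x) :=
  HasJ.ujord_eq (by rw [h, map_smul]; exact (hasJ_ujord L x).smul hb)

omit [IsAlgClosed L] in
theorem units_map_zpow_card (c : Fˣ) :
    Units.map (algebraMap F L : F →* L) c ^ (Fintype.card F : ℤ) =
      Units.map (algebraMap F L : F →* L) c := by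
  rw [← map_zpow, zpow_natCast]
  exact congrArg _ (Units.ext (FiniteField.pow_card (c : F)))

theorem exists_conj_det (x g : GL ι F) {z : Lˣ × ℕ} (hz : z ∈ ujord L x) (c : Fˣ) :
    ∃ g' : GL ι F, g'⁻¹ * x * g' = g⁻¹ * x * g ∧
      GeneralLinearGroup.det g' = c ^ z.2 * GeneralLinearGroup.det g := by
  obtain ⟨w, h1, h2⟩ := exists_commute_gl_det_eq _ (mem_med_of_mem_ujord hz) c
  have h3 : w * x = x * w := Units.ext h1
  exact ⟨w * g, by rw [mul_inv_rev, mul_assoc, mul_assoc, ← mul_assoc x, ← h3]; group,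
    by rw [map_mul, h2]⟩

omit [Fintype F] in
theorem exists_sl_conj_mem {x : SpecialLinearGroup ι F} {g : GL ι F}
    (hg : GeneralLinearGroup.det g = 1) (h : g⁻¹ * SpecialLinearGroup.toGL x * g ∈ H) :
    ∃ P : SpecialLinearGroup ι F, P⁻¹ * x * P ∈ H.comap SpecialLinearGroup.toGL := by
  obtain ⟨P, rfl⟩ : g ∈ (SpecialLinearGroup.toGL (n := ι) (R := F)).range := by
    rwa [range_toGL]
  exact ⟨P, by simpa only [Subgroup.mem_comap, map_mul, map_inv] using h⟩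

theorem ujord_conj (x g : GL ι F) : ujord L (g⁻¹ * x * g) = ujord L x :=
  ((isConj_iff_ujord_eq L _ _).mp (isConj_iff.mpr ⟨g⁻¹, by simp⟩)).symm

theorem exists_conj_of_ujord_eq {x y : GL ι F} (h : ujord L y = ujord L x) :
    ∃ g, g⁻¹ * x * g = y := by
  obtain ⟨g, hg⟩ := isConj_iff.mp ((isConj_iff_ujord_eq L _ _).mpr h.symm)
  exact ⟨g⁻¹, by simpa using hg⟩

theorem exists_sl_conj_iff (x : SpecialLinearGroup ι F) {z : Lˣ × ℕ}
    (hz : z ∈ ujord L (SpecialLinearGroup.toGL x)) (hz' : ∀ c : Fˣ, ∃ b, b ^ z.2 = c) :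
    (∃ P : SpecialLinearGroup ι F, P⁻¹ * x * P ∈ H.comap SpecialLinearGroup.toGL) ↔
      ∃ h ∈ H, ujord L h = ujord L (SpecialLinearGroup.toGL x) := by
  refine ⟨fun ⟨P, hP⟩ => ⟨_, hP, by rw [map_mul, map_mul, map_inv, ujord_conj]⟩,
    fun ⟨h, h1, h2⟩ => ?_⟩
  obtain ⟨g, rfl⟩ := exists_conj_of_ujord_eq h2
  obtain ⟨b, hb⟩ := hz' (GeneralLinearGroup.det g)⁻¹
  obtain ⟨g', h3, h4⟩ := exists_conj_det _ g hz b
  exact exists_sl_conj_mem (by rw [h4, hb, inv_mul_cancel]) (h3 ▸ h1)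

theorem exists_units_pow_char (c : Fˣ) : ∃ b : Fˣ, b ^ p = c := by
  obtain ⟨b, hb⟩ := surjective_frobenius F p c
  exact ⟨Units.mk0 b fun h => c.ne_zero (by rw [← hb, h, map_zero]), Units.ext hb⟩

omit [IsAlgClosed L] in
theorem PElt.exists_pow_surj (hr : r.Prime) (hrp : r = 2 ∨ r ≠ p) {Q : ℤ} {n : ℕ}
    {s : Multiset (Lˣ × ℕ)} (h : PElt p Q n r s) : ∃ z ∈ s, ∀ c : Fˣ, ∃ b, b ^ z.2 = c := by
  by_cases h1 : r = p
  · subst h1
    have : CharP L r := charP_of_injective_algebraMap (algebraMap F L).injective r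
    obtain ⟨α, μ, -, rfl, h2, -, e, h3, h4⟩ := h.exists_udata
    have h5 := h2 e h3
    obtain rfl : e = r := by omega
    exact ⟨(α, e), mem_udata.mpr ⟨rfl, h3⟩, exists_units_pow_char⟩
  · obtain ⟨z, hz, -⟩ := h.exists_ne Fact.out hr h1
    exact ⟨z, hz, fun c => ⟨c, by rw [h.one Fact.out hr h1 z hz, pow_one]⟩⟩

variable (L) in
theorem forall_sl_conj_iff [Algebra.IsAlgebraic F L] {n : ℕ} {H : Subgroup (GL (Fin n) F)}
    {R : Multiset (Lˣ × ℕ) → Prop} (hr : r.Prime) (hrp : r = 2 ∨ r ≠ p)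
    (hH : ∀ x : GL (Fin n) F, PElt p (Fintype.card F : ℤ) n r (ujord L x) →
      ((∃ h ∈ H, ujord L h = ujord L x) ↔ R (ujord L x))) :
    (∀ x : SpecialLinearGroup (Fin n) F,
      (∃ c : F, ((x ^ r : SpecialLinearGroup (Fin n) F) : Matrix (Fin n) (Fin n) F) =
        c • (1 : Matrix (Fin n) (Fin n) F)) →
      (∀ c : F, (x : Matrix (Fin n) (Fin n) F) ≠ c • (1 : Matrix (Fin n) (Fin n) F)) →
      ∃ P : SpecialLinearGroup (Fin n) F, P⁻¹ * x * P ∈ H.comap SpecialLinearGroup.toGL) ↔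
    ∀ s, PElt p (Fintype.card F : ℤ) n r s → ddet s = 1 → R s :=
  forall_sl_iff L fun x hx => by
    obtain ⟨z, h1, h2⟩ := hx.exists_pow_surj (F := F) hr hrp
    rw [exists_sl_conj_iff x h1 h2, hH _ hx]

omit [Fintype F] in
theorem forall_specialLinear_iff :
    (∀ x ∈ Geo.specialLinear ι F,
      (∃ z : F, ((x ^ r : GL ι F) : Matrix ι ι F) = z • (1 : Matrix ι ι F)) →
      (∀ z : F, (x : Matrix ι ι F) ≠ z • (1 : Matrix ι ι F)) →
      ∃ g ∈ Geo.specialLinear ι F, g⁻¹ * x * g ∈ H) ↔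
    ∀ x : SpecialLinearGroup ι F,
      (∃ c : F, ((x ^ r : SpecialLinearGroup ι F) : Matrix ι ι F) = c • (1 : Matrix ι ι F)) →
      (∀ c : F, (x : Matrix ι ι F) ≠ c • (1 : Matrix ι ι F)) →
      ∃ P : SpecialLinearGroup ι F, P⁻¹ * x * P ∈ H.comap SpecialLinearGroup.toGL := by
  refine ⟨fun h x h1 h2 => ?_, fun h x hx h1 h2 => ?_⟩
  · obtain ⟨g, h3, h4⟩ := h (SpecialLinearGroup.toGL x) (Units.ext x.2) (by rwa [← map_pow]) h2
    exact exists_sl_conj_mem h3 h4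
  · obtain ⟨x, rfl⟩ : x ∈ (SpecialLinearGroup.toGL (n := ι) (R := F)).range := by
      rwa [range_toGL]
    obtain ⟨P, hP⟩ := h x (by rwa [← map_pow] at h1) h2
    exact ⟨SpecialLinearGroup.toGL P, Units.ext P.2, by
      simpa only [Subgroup.mem_comap, map_mul, map_inv] using hP⟩

omit [Fintype F] in
theorem index_comap_toGL : (H.comap (SpecialLinearGroup.toGL (n := ι) (R := F))).index =
    H.relIndex (Geo.specialLinear ι F) := by
  rw [Subgroup.index_comap, range_toGL]; rfl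

theorem relIndex_mul_dvd_card_GL {N : ℕ} (h : N ∣ Nat.card H) :
    H.relIndex (Geo.specialLinear ι F) * N ∣ Nat.card (GL ι F) := by
  have : (Geo.specialLinear ι F).Normal := MonoidHom.normal_ker _
  have h1 := relIndex_inf_dvd (Geo.specialLinear ι F) (le_top (a := H))
  rw [top_inf_eq, Subgroup.relIndex_top_right] at h1
  exact H.index_mul_card ▸ mul_dvd_mul h1 h

omit [Fintype F] in
theorem exists_gl_toLin' {f : End F (ι → F)} (hf : IsUnit f) :
    ∃ g : GL ι F, Matrix.toLin' (g : Matrix ι ι F) = f := by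
  obtain ⟨g, hg⟩ := hf.map LinearMap.toMatrixAlgEquiv'
  exact ⟨g, by rw [hg]; exact Matrix.toLin'_toMatrix' f⟩

variable {σ : F →+* F} {B : (ι → F) →ₛₗ[σ] (ι → F) →ₗ[F] F} {D : ℤ}

theorem tw_of_sim (hD : DualLaw L σ D) (hB : SepR B) {x : GL ι F} {c : Fˣ}
    (h : ∀ u v, B ((x : Matrix ι ι F) *ᵥ u) ((x : Matrix ι ι F) *ᵥ v) = c * B u v) :
    (ujord L x).map (frob D) = twist (Units.map (algebraMap F L : F →* L) c⁻¹) (ujord L x) :=
  (hasJ_dual hD B hB rfl (f' := ((c⁻¹ : Fˣ) : F) • Matrix.toLin' (x : Matrix ι ι F))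
    (fun v w => by simp [h]) (hasJ_ujord L x)).unique ((hasJ_ujord L x).smul rfl)

end Conj

section Subfield

variable {F : Type*} [Field F] [Fintype F] {L : Type*} [Field L] [Algebra F L] [IsAlgClosed L]
  {ι : Type} [Fintype ι] [DecidableEq ι] {F₀ : Subfield F} {q₀ : ℕ}

theorem ujord_map {K : Type*} [Field K] [PerfectField K] [Algebra K F] [Algebra K L]
    [IsScalarTower K F L] (u : GL ι K) :
    ujord L (GeneralLinearGroup.map (algebraMap K F) u) = ujord L u := by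
  classical
  refine ujord_eq_iff.mpr (Multiset.ext.mpr fun ⟨α, e⟩ => ?_)
  rw [dval_ujord]
  have h : ((GeneralLinearGroup.map (algebraMap K F) u : GL ι F) : Matrix ι ι F).map
      (algebraMap F L) = (u : Matrix ι ι K).map (algebraMap K L) := by
    ext i j
    exact (IsScalarTower.algebraMap_apply K F L _).symm
  convert count_jord_eq_of_rank ((GeneralLinearGroup.map (algebraMap K F) u : GL ι F) :
    Matrix ι ι F) (u : Matrix ι ι K) α α (fun k => by rw [h]) e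

theorem exists_mem_subfield_iff [Algebra.IsAlgebraic F L] (hF₀ : Nat.card F₀ = q₀) (x : GL ι F) :
    (∃ h ∈ Geo.subfieldSubgroup F₀ (1 : GL ι F), ujord L h = ujord L x) ↔
      TwA (Fintype.card F : ℤ) q₀ (ujord L x) := by
  have := Fintype.ofFinite F₀
  have : Algebra.IsAlgebraic F₀ L := Algebra.IsAlgebraic.trans F₀ F L
  rw [Nat.card_eq_fintype_card] at hF₀
  subst hF₀
  refine ⟨fun ⟨h, h1, h2⟩ => ?_, fun ⟨c, h1, h2⟩ => ?_⟩
  · obtain ⟨u, z, h3, rfl⟩ := H25.mem_subfieldSubgroup.mp h1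
    obtain ⟨c, hc⟩ := (Geo.mem_scalars_iff z).mp h3
    have h4 := ujord_eq_twist (L := L) (x := 1 * GeneralLinearGroup.map F₀.subtype u * 1⁻¹ * z)
      (y := GeneralLinearGroup.map (algebraMap F₀ F) u) (c := (c⁻¹ : Fˣ))
      (by simp [hc, smul_smul]; rfl) (b := Units.map (algebraMap F L : F →* L) c⁻¹) rfl
    exact ⟨_, units_map_zpow_card _, by rw [← h2, ← h4, ujord_map]; exact (adm_ujord u).stab⟩
  · obtain ⟨u, hu⟩ := exists_ujord_eq (F := F₀) (n := ι) (s := twist c (ujord L x))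
      ⟨((adm_ujord x).twist h1).pos, h2, ((adm_ujord x).twist h1).wt_eq⟩
    obtain ⟨b, hb⟩ := exists_algebraMap_eq (F := F) (d := c⁻¹) (by rw [inv_zpow, h1])
    have hb0 : b ≠ 0 := by rintro rfl; exact c⁻¹.ne_zero (by rw [← hb, map_zero])
    refine ⟨_, H25.mem_subfieldSubgroup.mpr ⟨u, _, ⟨Units.mk0 b hb0, rfl⟩, rfl⟩, ?_⟩
    rw [ujord_eq_twist (x := GeneralLinearGroup.map (algebraMap F₀ F) u) (c := b) (by
      simp [Matrix.scalar_apply, ← Matrix.smul_one_eq_diagonal]; rfl) hb.symm, ujord_map, hu,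
      twist_twist, inv_mul_cancel, twist_one]

omit [Fintype F] in
theorem map_mem_subfieldSubgroup (u : GL ι F₀) :
    GeneralLinearGroup.map F₀.subtype u ∈ Geo.subfieldSubgroup F₀ 1 :=
  H25.mem_subfieldSubgroup.mpr ⟨u, 1, one_mem _, by simp⟩

theorem exists_of_dvd_index_subfield {n k r : ℕ} (hn : 1 ≤ n) (hF₀ : Nat.card F₀ = q₀)
    (hq : Fintype.card F = q₀ ^ k) (hr : r.Prime) (hrq : ¬ r ∣ q₀)
    (h : r ∣ ((Geo.subfieldSubgroup F₀ 1).comap (SpecialLinearGroup.toGL (n := Fin n))).index) :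
    ∃ i, 2 ≤ i ∧ i ≤ n ∧ (r : ℤ) ∣ (Fintype.card F : ℤ) ^ i - 1 ∧
      ((r : ℤ) ∣ (q₀ : ℤ) ^ i - 1 → r ∣ k) := by
  have := Fintype.ofFinite F₀
  obtain ⟨n, rfl⟩ : ∃ m, n = m + 1 := ⟨n - 1, by omega⟩
  have h1 : Nat.card (SpecialLinearGroup (Fin (n + 1)) F₀) ∣ Nat.card ((Geo.subfieldSubgroup
      F₀ 1).comap (SpecialLinearGroup.toGL (n := Fin (n + 1)))) :=
    Subgroup.card_dvd_of_injective ((SpecialLinearGroup.map F₀.subtype).codRestrict _ fun u => by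
      convert map_mem_subfieldSubgroup (SpecialLinearGroup.toGL u) using 1
      exact Subgroup.mem_comap.trans (Iff.of_eq (congrArg _ (Units.ext rfl)))) fun u v huv => Subtype.ext
        (Matrix.map_injective F₀.subtype.injective (congrArg (·.1.1) huv))
  have h2 := Int.natCast_dvd_natCast.mpr ((mul_dvd_mul_left _ h1).trans
    (Subgroup.index_mul_card _).dvd)
  obtain ⟨e, h3⟩ := card_SL_int (F := F) n
  obtain ⟨e₀, h4⟩ := card_SL_int (F := F₀) n
  rw [Nat.card_eq_fintype_card] at hF₀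
  have h5 : 2 ≤ q₀ := hF₀ ▸ Fintype.one_lt_card
  rw [Nat.cast_mul, h3, h4, hF₀, hq, Nat.cast_pow, ← mul_assoc] at h2
  obtain ⟨i, hi, h6⟩ := exists_dvd_geom hr (by exact_mod_cast hrq)
    (fun i _ => pow_ne_one_of_two_le (by simpa) (by omega)) h2
    ((Int.natCast_dvd_natCast.mpr h).mul_right _)
  exact ⟨i + 2, by omega, by have := Finset.mem_range.mp hi; omega, by rwa [hq, Nat.cast_pow]⟩

end Subfield

section Unitary

variable {F : Type*} [Field F] [Fintype F] {L : Type*} [Field L] [Algebra F L] [IsAlgClosed L]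
  [Algebra.IsAlgebraic F L] {ι : Type} [Fintype ι] [DecidableEq ι] {q : ℕ}
  {f : (ι → F) → (ι → F) → F}

theorem exists_pres_herm (hF : Fintype.card F = q ^ 2) {V : Type*} [AddCommGroup V] [Module F V]
    [FiniteDimensional F V] {B : V →ₛₗ[H31.frobQ hF] V →ₗ[F] F} (hB : IsEForm 1 B)
    {s : Multiset (Lˣ × ℕ)} (hs : Adm (-(q : ℤ)) (finrank F V) s) :
    ∃ g, Pres B g ∧ HasJ L g s := by
  obtain ⟨h1, h2⟩ := (adm_neg_iff hF).mpr hs
  obtain ⟨B', g, h3, h4, h5⟩ := exists_model (ε := 1) (dualLaw_frobQ L hF)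
    (H31.isInvol_frobQ hF).invol (by simp) h1 h2 (freeD_frobQ hF s)
  obtain ⟨e, -, h6⟩ := h3.exists_isom_of_sim hB Pres.one Pres.one
    ⟨LinearEquiv.ofFinrankEq _ _ (finrank_fin_fun F), fun _ => rfl⟩
    (Or.inl (H31.exists_pow_q_ne hF))
  exact ⟨e.conj g, fun v w => by
    rw [LinearEquiv.conj_apply_apply, LinearEquiv.conj_apply_apply, h6, h4, ← h6,
      e.apply_symm_apply, e.apply_symm_apply], h5.conj e⟩

theorem exists_mem_sim_herm_iff (hF : Fintype.card F = q ^ 2) (hf : Geo.IsUnitaryFormPow q f)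
    [Nonempty ι] (x : GL ι F) : (∃ h ∈ Geo.similarityGroup f, ujord L h = ujord L x) ↔
      TwA (Fintype.card F : ℤ) (-(q : ℤ)) (ujord L x) := by
  obtain ⟨B, hB, h0⟩ := H31.exists_isHerm_of_isUnitaryFormPow hF hf
  refine ⟨fun ⟨h, ⟨c, h1⟩, h2⟩ => ?_, fun ⟨c, h1, h2⟩ => ?_⟩
  · simp only [← h0] at h1
    obtain ⟨v, hv⟩ := exists_ne (0 : ι → F)
    obtain ⟨w, hw⟩ := hB.exists_eq_one hv
    have h3 := hB.symm ((h : Matrix ι ι F) *ᵥ v) ((h : Matrix ι ι F) *ᵥ w)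
    rw [h1, h1, hw, hB.flip_one hw, mul_one] at h3
    obtain ⟨b, hb⟩ := hB.inv.exists_norm_eq (a := (c⁻¹ : Fˣ)) (by
      rw [Units.val_inv_eq_inv_val, map_inv₀, h3])
    have hb0 : b ≠ 0 := by rintro rfl; exact c⁻¹.ne_zero (by rw [← hb, zero_mul])
    refine ⟨Units.map (algebraMap F L : F →* L) (Units.mk0 b hb0), units_map_zpow_card _, ?_⟩
    refine h2 ▸ ((hasJ_ujord L h).smul (c := b) rfl).dual_eq (dualLaw_frobQ L hF)
      (isEForm_of_isHerm hB).sep fun u v => ?_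
    rw [LinearMap.smul_apply, LinearMap.smul_apply, H31.smul_left, H31.smul_right,
      Matrix.toLin'_apply, Matrix.toLin'_apply, h1, ← mul_assoc, mul_comm _ b, hb,
      Units.inv_mul_cancel_left]
  · have h3 := (adm_ujord x).twist h1
    obtain ⟨g, h4, h5⟩ := exists_pres_herm hF (isEForm_of_isHerm hB) (s := twist c (ujord L x))
      ⟨h3.pos, h2, by rw [h3.wt_eq, finrank_fintype_fun_eq_card]⟩
    obtain ⟨b, hb⟩ := exists_algebraMap_eq (F := F) (d := c⁻¹) (by rw [inv_zpow, h1])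
    have hb0 : b ≠ 0 := by rintro rfl; exact c⁻¹.ne_zero (by rw [← hb, map_zero])
    have h6 := h5.smul hb.symm
    obtain ⟨h, h7⟩ := exists_gl_toLin' h6.isUnit
    rw [twist_twist, inv_mul_cancel, twist_one, ← h7] at h6
    refine ⟨h, ⟨Units.mk0 (H31.frobQ hF b * b) (by simp [hb0]), fun u v => ?_⟩, h6.ujord_eq⟩
    rw [← h0, ← h0, ← Matrix.toLin'_apply, ← Matrix.toLin'_apply, h7, LinearMap.smul_apply,
      LinearMap.smul_apply, H31.smul_left, H31.smul_right, h4, ← mul_assoc]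
    rfl

theorem exists_of_dvd_index_herm {n r : ℕ} {f : (Fin n → F) → (Fin n → F) → F}
    (hF : Fintype.card F = q ^ 2) (hf : Geo.IsUnitaryFormPow q f) (hr : r.Prime) (hrq : ¬ r ∣ q)
    (h : r ∣ (Geo.similarityGroup f).relIndex (Geo.specialLinear (Fin n) F)) :
    ∃ i, 1 ≤ i ∧ i ≤ n ∧ (r : ℤ) ∣ (Fintype.card F : ℤ) ^ i - 1 ∧
      ((r : ℤ) ∣ (-(q : ℤ)) ^ i - 1 → r ∣ 2) := by
  obtain ⟨B, hB, h0⟩ := H31.exists_isHerm_of_isUnitaryFormPow hF hf
  have h1 : Nat.card (H31.isom B) ∣ Nat.card (Geo.similarityGroup f) :=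
    Subgroup.card_dvd_of_injective (((H31.glEquiv (Fin n) F).symm.toMonoidHom.comp
      (H31.isom B).subtype).codRestrict _ fun g => ⟨1, fun u v => by
        simp only [← h0]
        exact (congrArg₂ (B · ·) (H31.glEquiv_symm_mulVec g.1 v)
          (H31.glEquiv_symm_mulVec g.1 u)).trans ((g.2 v u).trans (one_mul _).symm)⟩)
      fun u v huv => Subtype.ext ((H31.glEquiv (Fin n) F).symm.injective (congrArg (·.1) huv))
  have h2 := Int.natCast_dvd_natCast.mpr (relIndex_mul_dvd_card_GL h1)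
  have hq := H31.two_le_of_card_sq hF
  obtain ⟨e, h3⟩ := card_GL_int (F := F) n
  rw [hB.card_isom hF (fun _ => rfl), finrank_fin_fun, Nat.cast_mul, h3, card_cast_eq hF] at h2
  obtain ⟨i, hi, h6⟩ := exists_dvd_geom hr (by rw [dvd_neg]; exact_mod_cast hrq)
    (fun i _ => pow_ne_one_of_two_le (by simpa) (by omega))
    ((mul_dvd_mul_left _ (prod_dvd_ordGU (by omega) n)).trans h2) (Int.natCast_dvd_natCast.mpr h)
  exact ⟨i + 1, by omega, Finset.mem_range.mp hi, card_cast_eq hF ▸ h6⟩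

end Unitary

end Cfsg.Agent.H77
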