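import Cfsg.Agent.H32.CKb

/-!
Groups transitive on independent pairs of vectors over a finite field: subspaces, Sylow
subgroups, perfect pairings and Fourier inversion.
-/

set_option autoImplicit false

namespace Cfsg.Agent.H77.Ck

open Module

section basic
variable {F V : Type*} [Field F] [AddCommGroup V] [Module F V]

/-- The span of two vectors. -/
def sp2 (F : Type*) {V : Type*} [Field F] [AddCommGroup V] [Module F V] (x y : V) :
    Submodule F V := (F ∙ x) ⊔ (F ∙ y)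

theorem mem_sp1 {x v : V} : v ∈ F ∙ x ↔ ∃ a : F, a • x = v := Submodule.mem_span_singleton

theorem mem_sup_sp1 {A : Submodule F V} {v w : V} :
    w ∈ A ⊔ (F ∙ v) ↔ ∃ a : F, w - a • v ∈ A := by
  constructor
  · intro h
    obtain ⟨p, hp, r, hr, rfl⟩ := Submodule.mem_sup.1 h
    obtain ⟨a, rfl⟩ := mem_sp1.1 hr
    exact ⟨a, by simpa using hp⟩
  · rintro ⟨a, h⟩
    exact Submodule.mem_sup.2 ⟨_, h, a • v, mem_sp1.2 ⟨a, rfl⟩, by simp⟩

theorem mem_sp2 {x y v : V} : v ∈ sp2 F x y ↔ ∃ a c : F, a • x + c • y = v := by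
  rw [sp2, mem_sup_sp1]
  simp only [mem_sp1]
  exact ⟨fun ⟨c, a, h⟩ => ⟨a, c, by rw [h]; simp⟩, fun ⟨a, c, h⟩ => ⟨c, a, by rw [← h]; simp⟩⟩

theorem sp1_le {x : V} {A : Submodule F V} (h : x ∈ A) : (F ∙ x) ≤ A :=
  (Submodule.span_singleton_le_iff_mem _ _).2 h

theorem sp2_le {x y : V} {A : Submodule F V} (h : x ∈ A) (h' : y ∈ A) : sp2 F x y ≤ A :=
  sup_le (sp1_le h) (sp1_le h')

theorem x_sp1 (x : V) : x ∈ F ∙ x := Submodule.mem_span_singleton_self x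
theorem smul_sp1 (a : F) (x : V) : a • x ∈ F ∙ x := mem_sp1.2 ⟨a, rfl⟩
theorem x_sp2 (x y : V) : x ∈ sp2 F x y := Submodule.mem_sup_left (x_sp1 x)
theorem y_sp2 (x y : V) : y ∈ sp2 F x y := Submodule.mem_sup_right (x_sp1 y)
theorem sp2_comm (x y : V) : sp2 F x y = sp2 F y x := sup_comm _ _
theorem sp1_le_sp2 (x y : V) : (F ∙ x) ≤ sp2 F x y := le_sup_left

variable {x y z : V}

theorem ne0_of {A : Submodule F V} (h : y ∉ A) : y ≠ 0 := fun e => h (e ▸ A.zero_mem)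

theorem exch {A : Submodule F V} (hy : y ∉ A) (hz : z ∉ A ⊔ (F ∙ y)) : y ∉ A ⊔ (F ∙ z) := by
  rw [mem_sup_sp1] at hz ⊢
  rintro ⟨a, h⟩
  by_cases e : a = 0
  · exact hy (by simpa [e] using h)
  · refine hz ⟨a⁻¹, ?_⟩
    have := A.smul_mem (-a⁻¹) h
    convert this using 1
    rw [smul_sub, smul_smul, neg_mul, inv_mul_cancel₀ e]; module

theorem sp2_exch (hy : y ∉ F ∙ x) (hz : z ∉ sp2 F x y) : y ∉ sp2 F x z := exch hy hz

theorem sp1_symm (hx : x ≠ 0) (hy : y ∉ F ∙ x) : x ∉ F ∙ y := by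
  have := exch (A := (⊥ : Submodule F V)) (y := x) (z := y) (by simpa using hx) (by simpa using hy)
  simpa using this

theorem nsp1_of (hz : z ∉ sp2 F x y) : z ∉ F ∙ x := fun h => hz (sp1_le_sp2 _ _ h)
theorem nsp1_of' (hz : z ∉ sp2 F x y) : z ∉ F ∙ y := nsp1_of (by rwa [sp2_comm])

theorem sup_of_mem {A : Submodule F V} (hz : z ∈ A ⊔ (F ∙ y)) (hz' : z ∉ A) :
    A ⊔ (F ∙ z) = A ⊔ (F ∙ y) := by
  refine le_antisymm (sup_le le_sup_left (sp1_le hz)) (sup_le le_sup_left (sp1_le ?_))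
  by_contra h
  exact exch hz' h hz

theorem sp2_of_mem (hz : z ∈ sp2 F x y) (hz' : z ∉ F ∙ x) : sp2 F x z = sp2 F x y :=
  sup_of_mem hz hz'

theorem sp1_of_mem (hz : z ∈ F ∙ y) (hz' : z ≠ 0) : (F ∙ z) = F ∙ y := by
  simpa using sup_of_mem (A := (⊥ : Submodule F V)) (z := z) (y := y) (by simpa using hz)
    (by simpa using hz')

theorem add_nmem {A : Submodule F V} {a v : V} (h : a ∈ A) (hv : v ∉ A) : v + a ∉ A := by
  rwa [A.add_mem_iff_left h]

theorem sub_nmem {A : Submodule F V} {a v : V} (h : a ∈ A) (hv : v ∉ A) : v - a ∉ A := by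
  rwa [A.sub_mem_iff_left h]

theorem neg_nmem {A : Submodule F V} {v : V} (hv : v ∉ A) : -v ∉ A := by rwa [A.neg_mem_iff]

theorem smul_nmem {A : Submodule F V} {v : V} {a : F} (ha : a ≠ 0) (hv : v ∉ A) : a • v ∉ A := by
  rwa [A.smul_mem_iff ha]

/-- The number of elements of a subspace. -/
noncomputable def cd (A : Submodule F V) : ℕ := (A : Set V).ncard

theorem cd_top : cd (⊤ : Submodule F V) = Nat.card V := by simp [cd, Set.ncard_univ]

theorem cd_bot : cd (⊥ : Submodule F V) = 1 := by simp [cd]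

variable [Finite F] [Finite V]

theorem q2 (F : Type*) [Field F] [Finite F] : 2 ≤ Nat.card F := Finite.one_lt_card

omit [Finite F] in
theorem cd_eq (A : Submodule F V) : cd A = Nat.card F ^ finrank F A := by
  rw [← Module.natCard_eq_pow_finrank (K := F) (V := A)]; rfl

omit [Finite F] in
theorem cd_pow (A : Submodule F V) : ∃ k, cd A = Nat.card F ^ k := ⟨_, cd_eq A⟩

theorem cd_pos (A : Submodule F V) : 0 < cd A := by
  rw [cd_eq]; have := q2 F; positivity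

omit [Finite F] in
theorem cd_sup_inf (A B : Submodule F V) : cd (A ⊔ B) * cd (A ⊓ B) = cd A * cd B := by
  simp only [cd_eq, ← pow_add, Submodule.finrank_sup_add_finrank_inf_eq]

omit [Finite F] in
theorem cd_mono {A B : Submodule F V} (h : A ≤ B) : cd A ≤ cd B :=
  Set.ncard_le_ncard h (Set.toFinite _)

omit [Finite F] in
theorem eq_of_cd {A B : Submodule F V} (h : A ≤ B) (hc : cd B ≤ cd A) : A = B :=
  SetLike.coe_injective (Set.eq_of_subset_of_ncard_le h hc (Set.toFinite _))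

omit [Finite F] in
theorem exists_not_mem {A B : Submodule F V} (hc : cd A < cd B) : ∃ v ∈ B, v ∉ A := by
  by_contra h
  push Not at h
  exact absurd (cd_mono (A := B) (B := A) h) (by omega)

omit [Finite F] in
theorem cd_sp1 (hx : x ≠ 0) : cd (F ∙ x) = Nat.card F := by
  rw [cd_eq, finrank_span_singleton hx, pow_one]

theorem cd_sp1_le (x : V) : cd (F ∙ x) ≤ Nat.card F := by
  by_cases hx : x = 0
  · have := q2 F
    rw [hx, Submodule.span_zero_singleton, cd_bot]; omega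
  · exact (cd_sp1 hx).le

omit [Finite F] in
theorem cd_sup_sp1 {A : Submodule F V} {v : V} (hv : v ∉ A) :
    cd (A ⊔ (F ∙ v)) = Nat.card F * cd A := by
  have hi : A ⊓ (F ∙ v) = ⊥ := (Submodule.disjoint_span_singleton_of_notMem hv).eq_bot
  have := cd_sup_inf A (F ∙ v)
  rw [hi, cd_bot, cd_sp1 (ne0_of hv)] at this
  rw [mul_comm]; omega

theorem cd_sup_sp1_le (A : Submodule F V) (v : V) : cd (A ⊔ (F ∙ v)) ≤ Nat.card F * cd A := by
  by_cases h : v ∈ A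
  · rw [sup_eq_left.2 (sp1_le h)]
    exact Nat.le_mul_of_pos_left _ (by have := q2 F; omega)
  · exact (cd_sup_sp1 h).le

omit [Finite F] in
theorem cd_sp2 (hx : x ≠ 0) (hy : y ∉ F ∙ x) : cd (sp2 F x y) = Nat.card F ^ 2 := by
  rw [sp2, cd_sup_sp1 hy, cd_sp1 hx, sq]

theorem cd_sp2_le (x y : V) : cd (sp2 F x y) ≤ Nat.card F ^ 2 :=
  (cd_sup_sp1_le _ _).trans (by rw [sq]; exact Nat.mul_le_mul_left _ (cd_sp1_le x))

omit [Finite F] in
theorem ncard_diff_sub {A B : Submodule F V} (h : A ≤ B) :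
    {v | v ∈ B ∧ v ∉ A}.ncard = cd B - cd A :=
  Set.ncard_sdiff (s := (A : Set V)) (t := (B : Set V)) h (Set.toFinite _)

omit [Finite F] in
theorem ncard_ne0 (A : Submodule F V) : {v | v ∈ A ∧ v ≠ 0}.ncard = cd A - 1 := by
  rw [← cd_bot (F := F) (V := V), ← ncard_diff_sub (bot_le (a := A))]; simp

theorem exists_nsp1 {A : Submodule F V} (h : Nat.card F < cd A) (x : V) : ∃ y ∈ A, y ∉ F ∙ x :=
  exists_not_mem ((cd_sp1_le x).trans_lt h)

theorem exists_nsp2 {A : Submodule F V} (h : Nat.card F ^ 2 < cd A) (x y : V) :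
    ∃ z ∈ A, z ∉ sp2 F x y :=
  exists_not_mem ((cd_sp2_le x y).trans_lt h)

omit [Finite F] in
theorem exists_ne0 {A : Submodule F V} (h : 1 < cd A) : ∃ y ∈ A, y ≠ 0 := by
  simpa using exists_not_mem (A := ⊥) (B := A) (by rwa [cd_bot])

omit [Finite F] in
theorem sp2_eq_of_mem {u v : V} (hu : u ≠ 0) (hv : v ∉ F ∙ u) (h1 : u ∈ sp2 F x y)
    (h2 : v ∈ sp2 F x y) (hx : x ≠ 0) (hy : y ∉ F ∙ x) : sp2 F u v = sp2 F x y :=
  eq_of_cd (sp2_le h1 h2) (by rw [cd_sp2 hu hv, cd_sp2 hx hy])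

omit [Finite F] in
theorem eq_sp3 {A : Submodule F V} (hx : x ≠ 0) (hy : y ∉ F ∙ x) (hz : z ∉ sp2 F x y)
    (h1 : x ∈ A) (h2 : y ∈ A) (h3 : z ∈ A) (hc : cd A = Nat.card F ^ 3) :
    sp2 F x y ⊔ (F ∙ z) = A :=
  eq_of_cd (sup_le (sp2_le h1 h2) (sp1_le h3)) (by
    rw [cd_sup_sp1 hz, cd_sp2 hx hy, hc]; exact le_of_eq (by ring))

theorem qpow_lt {a c : ℕ} (h : a < c) : Nat.card F ^ a < Nat.card F ^ c :=
  Nat.pow_lt_pow_right (q2 F) h

theorem qpow_le {a c : ℕ} (h : a ≤ c) : Nat.card F ^ a ≤ Nat.card F ^ c :=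
  Nat.pow_le_pow_right (by have := q2 F; omega) h

end basic

section sylow
variable {G : Type*} [Group G] [Finite G]

/-- A Sylow subgroup of a subgroup. -/
def Syl (p : ℕ) (P Γ : Subgroup G) : Prop := P ≤ Γ ∧ IsPGroup p P ∧ ¬ p ∣ P.relIndex Γ

theorem exists_syl {p : ℕ} (hp : p.Prime) (Γ : Subgroup G) : ∃ P, Syl p P Γ := by
  have := Fact.mk hp
  obtain ⟨P⟩ : Nonempty (Sylow p Γ) := inferInstance
  refine ⟨(P : Subgroup Γ).map Γ.subtype, Subgroup.map_subtype_le _, P.2.map _, ?_⟩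
  have : ((P : Subgroup Γ).map Γ.subtype).subgroupOf Γ = P :=
    Subgroup.comap_map_eq_self_of_injective Γ.subtype_injective _
  rw [Subgroup.relIndex, this]
  exact P.not_dvd_index

variable {A : Type*} [MulAction G A] [Finite A]

omit [Finite G] in
theorem Syl.tr {p : ℕ} (hp : p.Prime) {P Γ : Subgroup G} (h : Syl p P Γ) {X : Set A} {k : ℕ}
    (hc : X.ncard = p ^ k) (hi : ∀ g ∈ Γ, ∀ a ∈ X, g • a ∈ X)
    (ht : ∀ a ∈ X, ∀ c ∈ X, ∃ g ∈ Γ, g • a = c) : ∀ a ∈ X, ∀ c ∈ X, ∃ g ∈ P, g • a = c := by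
  intro a ha
  have e : {c | ∃ g ∈ Γ, g • a = c} = X := by
    ext c
    exact ⟨fun ⟨g, hg, e⟩ => e ▸ hi g hg a ha, ht a ha c⟩
  have h1 := H32.CK.ncard_orb Γ a
  have h2 := H32.CK.ncard_orb P a
  rw [e, hc] at h1
  set H := MulAction.stabilizer G a
  have h3 := Subgroup.relIndex_inf_mul_relIndex H P Γ
  rw [inf_eq_left.2 h.1] at h3
  have h4 : H.relIndex Γ ∣ (H ⊓ P).relIndex Γ := Subgroup.relIndex_dvd_of_le_left _ inf_le_left
  rw [← h3, ← h1] at h4
  have h5 : p ^ k ∣ H.relIndex P :=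
    (Nat.Coprime.pow_left k ((Nat.Prime.coprime_iff_not_dvd hp).2 h.2.2)).dvd_of_dvd_mul_right h4
  have hs : {c | ∃ g ∈ P, g • a = c} ⊆ X := fun c ⟨g, hg, e⟩ => e ▸ hi g (h.1 hg) a ha
  have hp : 0 < H.relIndex P := by
    rw [← h2]
    exact (Set.ncard_pos (Set.toFinite _)).2 ⟨a, 1, P.one_mem, one_smul _ _⟩
  have := Set.eq_of_subset_of_ncard_le hs (by rw [hc, h2]; exact Nat.le_of_dvd hp h5)
    (Set.toFinite _)
  intro c hc
  rw [← this] at hc
  exact hc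

omit [Finite G] [Finite A] in
theorem fix_np {p : ℕ} (hp : p.Prime) {P : Subgroup G} (h : IsPGroup p P) {X : Set A}
    (hc : ¬ p ∣ X.ncard) (hi : ∀ g ∈ P, ∀ a ∈ X, g • a ∈ X) : ∃ a ∈ X, ∀ g ∈ P, g • a = a := by
  have := Fact.mk hp
  let Y : SubMulAction P A := ⟨X, fun g a ha => hi g g.2 a ha⟩
  obtain ⟨a, ha⟩ := h.nonempty_fixed_point_of_prime_not_dvd_card Y hc
  exact ⟨a, a.2, fun g hg => congrArg Subtype.val (ha ⟨g, hg⟩)⟩

end sylow

section char
variable (F : Type*) [Field F] [Finite F]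

theorem pF : (ringChar F).Prime := CharP.char_is_prime F _

theorem card_pF : ∃ f, Nat.card F = ringChar F ^ (f + 1) := by
  have := Fintype.ofFinite F
  obtain ⟨n, -, h⟩ := FiniteField.card F (ringChar F)
  exact ⟨n - 1, by rw [Nat.card_eq_fintype_card, h, Nat.sub_add_cancel n.pos]⟩

variable {F} {V : Type*} [AddCommGroup V] [Module F V] [Finite V]

theorem cd_ppow (A : Submodule F V) : ∃ k, cd A = ringChar F ^ k := by
  obtain ⟨f, hf⟩ := card_pF F
  exact ⟨_, by rw [cd_eq, hf, ← pow_mul]⟩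

theorem not_dvd_cd {A : Submodule F V} (h : 1 < cd A) : ¬ ringChar F ∣ cd A - 1 := by
  obtain ⟨k, hk⟩ := cd_ppow A
  intro hd
  have h1 : ringChar F ∣ cd A := by
    rw [hk] at h ⊢
    exact dvd_pow_self _ (by rintro rfl; simp at h)
  exact (pF F).one_lt.ne' (Nat.dvd_one.1 (by simpa [Nat.sub_sub_self h.le] using Nat.dvd_sub h1 hd))

/-- A `p`-group fixes a non-zero vector of every non-zero invariant subspace. -/
theorem fix_ne0 {G : Type*} [Group G] [DistribMulAction G V] {P : Subgroup G}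
    (h : IsPGroup (ringChar F) P) {A : Submodule F V} (hA : 1 < cd A)
    (hi : ∀ g ∈ P, ∀ a ∈ A, g • a ∈ A) : ∃ a ∈ A, a ≠ 0 ∧ ∀ g ∈ P, g • a = a := by
  obtain ⟨a, ha, h2⟩ := fix_np (pF F) h (X := {v | v ∈ A ∧ v ≠ 0})
    (by rw [ncard_ne0]; exact not_dvd_cd hA)
    (fun g hg v hv => ⟨hi g hg v hv.1, (smul_ne_zero_iff_ne g).2 hv.2⟩)
  exact ⟨a, ha.1, ha.2, h2⟩

end char

end Cfsg.Agent.H77.Ck
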