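import Cfsg.Agent.H77.CkA

/-!
A group acting on a perfect pairing over a finite field.
-/

set_option autoImplicit false

namespace Cfsg.Agent.H77.Ck

open Module

/-- A group acting on two spaces in perfect duality. -/
structure Sys (F G V U : Type*) [Field F] [Group G] [AddCommGroup V] [Module F V]
    [AddCommGroup U] [Module F U] [DistribMulAction G V] [DistribMulAction G U] where
  b : U →ₗ[F] V →ₗ[F] F
  inv : ∀ (g : G) φ v, b (g • φ) (g • v) = b φ v
  sepV : ∀ v, (∀ φ, b φ v = 0) → v = 0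
  sepU : ∀ φ, (∀ v, b φ v = 0) → φ = 0

attribute [simp] Sys.inv

variable {F G V U : Type*} [Field F] [Group G] [AddCommGroup V] [Module F V] [AddCommGroup U]
    [Module F U] [DistribMulAction G V] [DistribMulAction G U]

theorem smul_ne0 (g : G) {v : V} (h : v ≠ 0) : g • v ≠ 0 := (smul_ne_zero_iff_ne g).2 h

theorem inv_fix {A : Type*} [MulAction G A] {g : G} {a : A} (h : g • a = a) : g⁻¹ • a = a := by
  rw [inv_smul_eq_iff, h]

theorem gs [SMulCommClass G F V] (g : G) (c : F) (v : V) : g • c • v = c • g • v := smul_comm g c v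

theorem smul_mem_sp1 [SMulCommClass G F V] {g : G} {x v : V} :
    g • v ∈ F ∙ (g • x) ↔ v ∈ F ∙ x := by
  simp only [mem_sp1, ← gs, smul_left_cancel_iff]

theorem smul_mem_sp2 [SMulCommClass G F V] {g : G} {x y v : V} :
    g • v ∈ sp2 F (g • x) (g • y) ↔ v ∈ sp2 F x y := by
  simp only [mem_sp2, ← gs, ← smul_add, smul_left_cancel_iff]

/-- Pointwise stabiliser of a subspace. -/
def fixer (G : Type*) [Group G] [DistribMulAction G V] (L : Submodule F V) : Subgroup G where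
  carrier := {g | ∀ v ∈ L, g • v = v}
  one_mem' := fun _ _ => one_smul _ _
  mul_mem' := fun {g h} x y v hv => by rw [mul_smul, y v hv, x v hv]
  inv_mem' := fun {g} x v hv => inv_fix (x v hv)

/-- The fixed vectors of an element. -/
def fixd (F : Type*) {G : Type*} (V : Type*) [Field F] [Group G] [AddCommGroup V] [Module F V]
    [DistribMulAction G V] [SMulCommClass G F V] (g : G) : Submodule F V where
  carrier := {v | g • v = v}
  zero_mem' := smul_zero g
  add_mem' := fun {a c} (h1 : g • a = a) (h2 : g • c = c) => by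
    change g • (a + c) = a + c
    rw [smul_add, h1, h2]
  smul_mem' := fun c v (h : g • v = v) => by
    change g • c • v = c • v
    rw [gs, h]

theorem mem_fixd [SMulCommClass G F V] {g : G} {v : V} : v ∈ fixd F V g ↔ g • v = v := Iff.rfl

theorem fix_sp1 [SMulCommClass G F V] {g : G} {x v : V} (h : g • x = x) (hv : v ∈ F ∙ x) :
    g • v = v := sp1_le (A := fixd F V g) h hv

theorem mem_fixer_sp2 [SMulCommClass G F V] {x y : V} {g : G} :
    g ∈ fixer G (sp2 F x y) ↔ g • x = x ∧ g • y = y :=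
  ⟨fun h => ⟨h x (x_sp2 _ _), h y (y_sp2 _ _)⟩,
    fun h _ hv => sp2_le (A := fixd F V g) h.1 h.2 hv⟩

/-- Joint stabiliser of two points. -/
def st2 (G : Type*) [Group G] {A B : Type*} [MulAction G A] [MulAction G B] (a : A) (c : B) :
    Subgroup G where
  carrier := {g | g • a = a ∧ g • c = c}
  one_mem' := ⟨one_smul _ _, one_smul _ _⟩
  mul_mem' := fun {g h} x y => ⟨by rw [mul_smul, y.1, x.1], by rw [mul_smul, y.2, x.2]⟩
  inv_mem' := fun {g} x => ⟨inv_fix x.1, inv_fix x.2⟩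

theorem mem_st2 {A B : Type*} [MulAction G A] [MulAction G B] {a : A} {c : B} {g : G} :
    g ∈ st2 G a c ↔ g • a = a ∧ g • c = c := Iff.rfl

theorem exists_chi (F : Type*) [Field F] [Finite F] : ∃ (χ : AddChar F ℂ) (a : F), χ a ≠ 1 := by
  obtain ⟨χ, h⟩ := (AddChar.exists_apply_ne_zero (α := F) (a := 1)).2 one_ne_zero
  exact ⟨χ, 1, h⟩

namespace Sys
variable (S : Sys F G V U)

/-- The dual system. -/
def flip : Sys F G U V where
  b := S.b.flip
  inv g v φ := S.inv g φ v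
  sepV := S.sepU
  sepU := S.sepV

@[simp] theorem flip_b (v : V) (φ : U) : S.flip.b v φ = S.b φ v := rfl

theorem invl (g : G) (φ : U) (v : V) : S.b (g • φ) v = S.b φ (g⁻¹ • v) := by
  rw [← S.inv g φ, smul_inv_smul]

theorem invr (g : G) (φ : U) (v : V) : S.b φ (g • v) = S.b (g⁻¹ • φ) v := by
  rw [← S.inv g (g⁻¹ • φ), smul_inv_smul]

theorem fixl {g : G} {φ : U} (h : g • φ = φ) (v : V) : S.b φ (g • v) = S.b φ v := by
  conv_lhs => rw [← h, S.inv]

theorem fixr {g : G} {v : V} (h : g • v = v) (φ : U) : S.b (g • φ) v = S.b φ v := by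
  conv_lhs => rw [← h, S.inv]

theorem extV {v w : V} (h : ∀ φ, S.b φ v = S.b φ w) : v = w :=
  sub_eq_zero.1 (S.sepV _ fun φ => by simp [h])

theorem to1 {M : Submodule F U} {v : V} {φ : U} (hφ : φ ∈ M) (h : S.b φ v ≠ 0) :
    ∃ φ ∈ M, S.b φ v = 1 :=
  ⟨(S.b φ v)⁻¹ • φ, M.smul_mem _ hφ, by simp [h]⟩

theorem ex1 {v : V} (h : v ≠ 0) : ∃ φ, S.b φ v = 1 := by
  by_contra hn
  refine h (S.sepV v fun φ => ?_)
  by_contra a
  obtain ⟨ψ, -, e⟩ := S.to1 (M := ⊤) (φ := φ) trivial a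
  exact hn ⟨ψ, e⟩

/-- The annihilator of a subspace. -/
def ann (A : Submodule F V) : Submodule F U where
  carrier := {φ | ∀ v ∈ A, S.b φ v = 0}
  zero_mem' := by simp
  add_mem' := fun ha hc v hv => by simp [ha v hv, hc v hv]
  smul_mem' := fun c φ h v hv => by simp [h v hv]

theorem mem_ann {A : Submodule F V} {φ : U} : φ ∈ S.ann A ↔ ∀ v ∈ A, S.b φ v = 0 := Iff.rfl

/-- The kernel of a functional. -/
def ker (φ : U) : Submodule F V := LinearMap.ker (S.b φ)

@[simp] theorem mem_ker {φ : U} {v : V} : v ∈ S.ker φ ↔ S.b φ v = 0 := Iff.rfl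

theorem mem_ann' {A : Submodule F V} {φ : U} : φ ∈ S.ann A ↔ A ≤ S.ker φ := Iff.rfl

theorem ann_sup (A B : Submodule F V) : S.ann (A ⊔ B) = S.ann A ⊓ S.ann B := by
  ext φ
  simp only [Submodule.mem_inf, mem_ann', sup_le_iff]

theorem mem_ann_sp1 {x : V} {φ : U} : φ ∈ S.ann (F ∙ x) ↔ S.b φ x = 0 :=
  ⟨fun h => h x (x_sp1 x), fun h => sp1_le (A := S.ker φ) h⟩

theorem mem_ann_sp2 {x y : V} {φ : U} : φ ∈ S.ann (sp2 F x y) ↔ S.b φ x = 0 ∧ S.b φ y = 0 := by
  rw [sp2, ann_sup, Submodule.mem_inf, mem_ann_sp1, mem_ann_sp1]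

theorem not_ann {A : Submodule F V} {φ : U} (h : φ ∉ S.ann A) : ∃ v ∈ A, S.b φ v = 1 := by
  simp only [mem_ann, not_forall] at h
  obtain ⟨v, hv, e⟩ := h
  exact S.flip.to1 hv e

variable {S} in
theorem ne0_of_one {φ : U} {v : V} (h : S.b φ v = 1) : v ≠ 0 := by
  rintro rfl; simp at h

variable {S} in
theorem ne0_of_one' {φ : U} {v : V} (h : S.b φ v = 1) : φ ≠ 0 := by
  rintro rfl; simp at h

theorem sum_chi [Finite V] {χ : AddChar F ℂ} {a₀ : F} (hχ : χ a₀ ≠ 1) (A : Submodule F V) (φ : U)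
    (h : φ ∉ S.ann A) : ∑ v ∈ (Set.toFinite (A : Set V)).toFinset, χ (S.b φ v) = 0 := by
  obtain ⟨a, ha, h⟩ := S.not_ann h
  have ha' := A.smul_mem a₀ ha
  have : ∑ v ∈ (Set.toFinite (A : Set V)).toFinset, χ (S.b φ v) =
      ∑ v ∈ (Set.toFinite (A : Set V)).toFinset, χ a₀ * χ (S.b φ v) := by
    apply Finset.sum_nbij' (fun v => v - a₀ • a) (fun v => v + a₀ • a)
    · intro v hv; simpa using A.sub_mem (by simpa using hv) ha'
    · intro v hv; simpa using A.add_mem (by simpa using hv) ha'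
    · intro v _; simp
    · intro v _; simp
    · intro v _; rw [← AddChar.map_add_eq_mul]; simp [h]
  rw [← Finset.mul_sum] at this
  by_contra a
  exact hχ (mul_right_cancel₀ a (this.symm.trans (one_mul _).symm))

theorem sum_chi' [Finite V] (χ : AddChar F ℂ) (A : Submodule F V) (φ : U) (h : φ ∈ S.ann A) :
    ∑ v ∈ (Set.toFinite (A : Set V)).toFinset, χ (S.b φ v) = cd A := by
  rw [Finset.sum_congr rfl (g := fun _ => 1) (fun v hv => by
    rw [h v (by simpa using hv), AddChar.map_zero_eq_one])]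
  simp [cd, Set.ncard_eq_toFinset_card (A : Set V)]

variable [Finite F] [Finite V]

theorem cd_ann' [Finite U] (A : Submodule F V) : cd (S.ann A) * cd A = Nat.card U := by
  classical
  obtain ⟨χ, a₀, hχ⟩ := exists_chi F
  have h := Finset.sum_comm (s := (Set.toFinite ((⊤ : Submodule F U) : Set U)).toFinset)
    (t := (Set.toFinite (A : Set V)).toFinset) (f := fun φ v => χ (S.b φ v))
  have h1 : ∀ φ ∈ (Set.toFinite ((⊤ : Submodule F U) : Set U)).toFinset,
      ∑ v ∈ (Set.toFinite (A : Set V)).toFinset, χ (S.b φ v) =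
        if φ ∈ S.ann A then (cd A : ℂ) else 0 := by
    intro φ _
    split_ifs with hφ
    · exact S.sum_chi' χ A φ hφ
    · exact S.sum_chi hχ A φ hφ
  have h2 : ∀ v ∈ (Set.toFinite (A : Set V)).toFinset,
      ∑ φ ∈ (Set.toFinite ((⊤ : Submodule F U) : Set U)).toFinset, χ (S.b φ v) =
        if v = 0 then (Nat.card U : ℂ) else 0 := by
    intro v _
    split_ifs with hv
    · rw [← cd_top (F := F)]
      exact S.flip.sum_chi' χ ⊤ v (fun φ _ => by simp [hv])
    · exact S.flip.sum_chi hχ ⊤ v fun a => hv (S.sepV v fun φ => a φ trivial)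
  rw [Finset.sum_congr rfl h1, Finset.sum_congr rfl h2, Finset.sum_ite_eq', if_pos (by simp),
    ← Finset.sum_filter, Finset.sum_const, nsmul_eq_mul] at h
  have e : ((Set.toFinite ((⊤ : Submodule F U) : Set U)).toFinset.filter
      (fun φ => φ ∈ S.ann A)).card = cd (S.ann A) := by
    rw [cd, ← Set.ncard_coe_finset]; congr 1; ext φ; simp
  rw [e] at h
  exact_mod_cast h

include S in
theorem card_eq [Finite U] : Nat.card U = Nat.card V := by
  have h := S.cd_ann' ⊤
  have : S.ann ⊤ = ⊥ := by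
    rw [eq_bot_iff]; intro φ hφ; exact S.sepU φ (fun v => hφ v trivial)
  rw [this, cd_bot, cd_top] at h
  omega

theorem cd_ann [Finite U] (A : Submodule F V) : cd (S.ann A) * cd A = Nat.card V := by
  rw [S.cd_ann', S.card_eq]

theorem ann_ann [Finite U] (A : Submodule F V) : S.flip.ann (S.ann A) = A := by
  symm
  apply eq_of_cd (fun v hv φ hφ => hφ v hv)
  have h1 := S.cd_ann A
  have h2 := S.flip.cd_ann' (S.ann A)
  rw [← h1, mul_comm] at h2
  exact (Nat.eq_of_mul_eq_mul_left (cd_pos _) h2).le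

theorem sep [Finite U] {A : Submodule F V} {v : V} (h : v ∉ A) : ∃ φ ∈ S.ann A, S.b φ v = 1 :=
  S.flip.not_ann (by rwa [S.ann_ann])

omit [Finite F] in
theorem cd_inf_ker {A : Submodule F V} {φ : U} {a : V} (ha : a ∈ A) (h : S.b φ a = 1) :
    Nat.card F * cd (A ⊓ S.ker φ) = cd A := by
  have hn : a ∉ A ⊓ S.ker φ := fun e => by have := e.2; simp [h] at this
  rw [← cd_sup_sp1 hn]
  congr 1
  apply le_antisymm (sup_le inf_le_left (sp1_le ha))
  intro v hv
  exact mem_sup_sp1.2 ⟨S.b φ v, A.sub_mem hv (A.smul_mem _ ha), by simp [h]⟩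

omit [Finite F] in
theorem cd_ker {φ : U} (h : φ ≠ 0) : Nat.card F * cd (S.ker φ) = Nat.card V := by
  obtain ⟨a, ha⟩ := S.flip.ex1 h
  have := S.cd_inf_ker (A := ⊤) (a := a) trivial ha
  rwa [top_inf_eq, cd_top] at this

omit [Finite F] [Finite V] in
theorem ncard_one {A : Submodule F V} {φ : U} {a : V} (ha : a ∈ A) (h : S.b φ a = 1) :
    {v | v ∈ A ∧ S.b φ v = 1}.ncard = cd (A ⊓ S.ker φ) := by
  rw [cd, ← Set.ncard_image_of_injective (A ⊓ S.ker φ : Submodule F V) (add_left_injective a)]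
  congr 1
  ext v
  refine ⟨fun b => ⟨v - a, ⟨A.sub_mem b.1 ha, by simp [b.2, h]⟩, by simp⟩, ?_⟩
  rintro ⟨w, ⟨h1, h2⟩, rfl⟩
  exact ⟨A.add_mem h1 ha, by simp [h, show S.b φ w = 0 from h2]⟩

/-- Every functional is represented. -/
theorem exists_rep [Finite U] (f : V →ₗ[F] F) : ∃ φ, S.b φ = f := by
  have inj : Function.Injective S.b := fun φ ψ e =>
    S.flip.extV fun v => by simp [e]
  have h1 : finrank F U = finrank F (Module.Dual F V) := by
    rw [Subspace.dual_finrank_eq]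
    have := S.card_eq
    rw [Module.natCard_eq_pow_finrank (K := F), Module.natCard_eq_pow_finrank (K := F) (V := V)]
      at this
    exact Nat.pow_right_injective (q2 F) this
  exact (LinearMap.injective_iff_surjective_of_finrank_eq_finrank h1).1 inj f

/-- Fourier inversion: conjugacy of functionals from the orbits on vectors. -/
theorem fi [Finite G] [Finite U] (Γ : Subgroup G) (M W : Submodule F V)
    (hM : ∀ g ∈ Γ, ∀ v ∈ M, g • v ∈ M) (hW : ∀ g ∈ Γ, ∀ v ∈ W, g • v ∈ W)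
    (h1 : ∀ v ∉ M, ∀ m ∈ M, ∃ g ∈ Γ, g • v = v + m)
    (h2 : ∀ v ∈ M, v ∉ W → ∀ v' ∈ M, v' ∉ W → ∃ g ∈ Γ, g • v = v') {ψ ψ' : U}
    (hψ : ψ ∉ S.ann M) (hψ' : ψ' ∉ S.ann M)
    (hw : ∀ w ∈ W, S.b ψ w = S.b ψ' w) : ∃ g ∈ Γ, g • ψ = ψ' := by
  classical
  obtain ⟨χ, a₀, hχ⟩ := exists_chi F
  have := Fintype.ofFinite Γ
  let Φ : U → V → ℂ := fun θ v => ∑ g : Γ, χ (S.b θ ((g : G) • v))
  have i1 : ∀ θ, ∀ h ∈ Γ, ∀ v, Φ θ (h • v) = Φ θ v := by
    intro θ h hh v
    exact Fintype.sum_equiv (Equiv.mulRight ⟨h, hh⟩) _ _ (fun g => by simp [mul_smul])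
  have i2 : ∀ θ, θ ∉ S.ann M → ∀ v,
      ∑ m ∈ (Set.toFinite (M : Set V)).toFinset, Φ θ (v + m) = 0 := by
    intro θ hθ v
    simp only [Φ]
    rw [Finset.sum_comm]
    apply Finset.sum_eq_zero
    intro g _
    simp only [smul_add, map_add, AddChar.map_add_eq_mul]
    rw [← Finset.mul_sum]
    simp only [S.invr]
    rw [S.sum_chi hχ M _ (fun a => hθ fun m hm => by
      simpa using a _ (hM _ (Γ.inv_mem g.2) m hm)), mul_zero]
  have i3 : ∀ θ, θ ∉ S.ann M → ∀ v ∉ M, Φ θ v = 0 := by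
    intro θ hθ v hv
    have := i2 θ hθ v
    rw [Finset.sum_congr rfl (g := fun _ => Φ θ v) (fun m hm => by
      obtain ⟨g, hg, e⟩ := h1 v hv m (by simpa using hm)
      rw [← e, i1 θ g hg]), Finset.sum_const, nsmul_eq_mul, mul_eq_zero] at this
    refine this.resolve_left ?_
    have : (0 : V) ∈ (Set.toFinite (M : Set V)).toFinset := by simp
    exact_mod_cast (Finset.card_pos.2 ⟨_, this⟩).ne'
  have i4 : ∀ v ∈ W, Φ ψ v = Φ ψ' v := fun v hv =>
    Finset.sum_congr rfl (fun g _ => by rw [hw _ (hW _ g.2 v hv)])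
  have i5 : ∀ v, Φ ψ v = Φ ψ' v := by
    intro v
    by_cases hv : v ∈ M
    swap
    · rw [i3 ψ hψ v hv, i3 ψ' hψ' v hv]
    by_cases hv' : v ∈ W
    · exact i4 v hv'
    have j : ∑ m ∈ (Set.toFinite (M : Set V)).toFinset, (Φ ψ m - Φ ψ' m) = 0 := by
      have a1 := i2 ψ hψ 0
      have a2 := i2 ψ' hψ' 0
      simp only [zero_add] at a1 a2
      rw [Finset.sum_sub_distrib, a1, a2, sub_zero]
    rw [Finset.sum_congr rfl (g := fun m => if m ∉ W then Φ ψ v - Φ ψ' v else 0) (fun m hm => by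
      split_ifs with hmW
      · rw [i4 m hmW, sub_self]
      · obtain ⟨g, hg, e⟩ := h2 v hv hv' m (by simpa using hm) hmW
        rw [← e, i1 _ g hg, i1 _ g hg]), ← Finset.sum_filter, Finset.sum_const, nsmul_eq_mul,
      mul_eq_zero] at j
    refine sub_eq_zero.1 (j.resolve_left ?_)
    have : v ∈ (Set.toFinite (M : Set V)).toFinset.filter (· ∉ W) := by simp [hv, hv']
    exact_mod_cast (Finset.card_pos.2 ⟨_, this⟩).ne'
  have i6 : ∀ θ, ∑ v ∈ (Set.toFinite ((⊤ : Submodule F V) : Set V)).toFinset,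
      Φ θ v * χ (-S.b ψ' v) =
        ((∑ g : Γ, if (g : G)⁻¹ • θ = ψ' then cd (⊤ : Submodule F V) else 0 : ℕ) : ℂ) := by
    intro θ
    simp only [Φ, Finset.sum_mul]
    rw [Finset.sum_comm, Nat.cast_sum]
    apply Finset.sum_congr rfl
    intro g _
    have : ∀ v, χ (S.b θ ((g : G) • v)) * χ (-S.b ψ' v) = χ (S.b ((g : G)⁻¹ • θ - ψ') v) :=
      fun v => by rw [← AddChar.map_add_eq_mul, S.invr]; simp [sub_eq_add_neg]
    simp only [this]
    split_ifs with e
    · exact S.sum_chi' χ ⊤ _ (by rw [e, sub_self]; exact Submodule.zero_mem _)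
    · rw [Nat.cast_zero]
      exact S.sum_chi hχ ⊤ _ fun a => e (sub_eq_zero.1 (S.sepU _ fun v => a v trivial))
  by_contra hn
  push Not at hn
  have a1 := i6 ψ
  have a2 := i6 ψ'
  simp only [i5] at a1
  rw [a1, Finset.sum_eq_zero (fun g _ => if_neg (hn _ (Γ.inv_mem g.2))), Nat.cast_inj] at a2
  have a3 := Finset.single_le_sum (s := Finset.univ) (f := fun g : Γ =>
    if (g : G)⁻¹ • ψ' = ψ' then cd (⊤ : Submodule F V) else 0)
    (fun g _ => Nat.zero_le _) (Finset.mem_univ 1)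
  have := cd_pos (⊤ : Submodule F V)
  simp only [← a2] at a3
  simp at a3
  omega

include S in
/-- A `p`-group fixing `x` fixes a coset of `x` in every larger invariant subspace. -/
theorem fix_pair [SMulCommClass G F V] {P : Subgroup G} (hP : IsPGroup (ringChar F) P) {x : V}
    (hx : x ≠ 0) (hPx : ∀ g ∈ P, g • x = x) {M : Submodule F V} (hxM : x ∈ M)
    (hM : ∀ g ∈ P, ∀ v ∈ M, g • v ∈ M) (h4 : Nat.card F < cd M) :
    ∃ y ∈ M, y ∉ F ∙ x ∧ ∀ g ∈ P, g • y - y ∈ F ∙ x := by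
  obtain ⟨ψ, hψ⟩ := S.ex1 hx
  have := Fact.mk (pF F)
  let f : V → V := fun v => v - S.b ψ v • x
  have f1 : ∀ v, S.b ψ (f v) = 0 := fun v => by simp [f, hψ]
  let X : Set V := {v | v ∈ M ⊓ S.ker ψ ∧ v ≠ 0}
  have n1 : ∀ v ∈ X, v ∉ F ∙ x := by
    rintro v ⟨⟨-, h2⟩, h3⟩ h
    obtain ⟨a, rfl⟩ := mem_sp1.1 h
    have : a = 0 := by simpa [hψ] using h2
    simp [this] at h3
  have hX : ∀ (g : P) (v : X), f ((g : G) • (v : V)) ∈ X := by
    rintro g ⟨v, hv⟩
    refine ⟨⟨M.sub_mem (hM g g.2 v hv.1.1) (M.smul_mem _ hxM), f1 _⟩, fun h => n1 v hv ?_⟩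
    rw [← smul_mem_sp1 (g := (g : G)), hPx g g.2, sub_eq_zero.1 h]
    exact smul_sp1 _ _
  let _ : MulAction P X :=
    { smul := fun g v => ⟨f ((g : G) • (v : V)), hX g v⟩
      one_smul := fun v => Subtype.ext (by
        change f (((1 : P) : G) • (v : V)) = v
        have : S.b ψ v = 0 := v.2.1.2
        simp [f, this])
      mul_smul := fun g h v => Subtype.ext (by
        change f (((g * h : P) : G) • (v : V)) = f ((g : G) • f ((h : G) • (v : V)))
        simp only [f, smul_sub, gs, hPx g g.2, Subgroup.coe_mul, mul_smul, map_sub, map_smul, hψ]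
        generalize (g : G) • (h : G) • (v : V) = u
        generalize S.b ψ ((h : G) • (v : V)) = r
        module) }
  have hn : ¬ ringChar F ∣ Nat.card X := by
    have h1 := S.cd_inf_ker hxM hψ
    have h2 : Nat.card X = _ := ncard_ne0 (M ⊓ S.ker ψ)
    rw [h2]
    refine not_dvd_cd ?_
    by_contra a
    have : cd (M ⊓ S.ker ψ) = 1 := by have := cd_pos (M ⊓ S.ker ψ); omega
    rw [this] at h1; omega
  obtain ⟨y, hy⟩ := hP.nonempty_fixed_point_of_prime_not_dvd_card X hn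
  refine ⟨y, y.2.1.1, n1 _ y.2, fun g hg => ?_⟩
  have : f (g • (y : V)) = y := congrArg Subtype.val (hy ⟨g, hg⟩)
  exact mem_sp1.2 ⟨S.b ψ (g • (y : V)), by nth_rewrite 3 [← this]; simp [f]⟩

end Sys

end Cfsg.Agent.H77.Ck
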