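import Cfsg.Agent.H77.CkB

/-!
First consequences of transitivity on independent pairs, and the subspaces `N` and `T`.
-/

set_option autoImplicit false

namespace Cfsg.Agent.H77.Ck

open Module

variable {F G V U : Type*} [Field F] [Group G] [AddCommGroup V] [Module F V] [AddCommGroup U]
    [Module F U] [DistribMulAction G V] [DistribMulAction G U]

/-- Transitivity on independent pairs. -/
def TwoT (F G V : Type*) [Field F] [Group G] [AddCommGroup V] [Module F V]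
    [DistribMulAction G V] : Prop :=
  ∀ x y x' y' : V, x ≠ 0 → y ∉ F ∙ x → x' ≠ 0 → y' ∉ F ∙ x' → ∃ g : G, g • x = x' ∧ g • y = y'

theorem qq (F : Type*) [Field F] [Finite F] : Nat.card F < Nat.card F ^ 2 := by
  simpa using qpow_lt (F := F) (a := 1) (c := 2) (by norm_num)

namespace Sys

/-- The standing hypothesis. -/
structure Hyp (S : Sys F G V U) : Prop where
  two : TwoT F G V
  big : Nat.card F ^ 2 ≤ Nat.card V

variable {S : Sys F G V U} [SMulCommClass G F V] [SMulCommClass G F U] [Finite F] [Finite G]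
  [Finite V] [Finite U]

omit [SMulCommClass G F V] [SMulCommClass G F U] [Finite F] [Finite G] [Finite V] [Finite U] in
theorem nann_top {φ : U} (h : φ ≠ 0) : φ ∉ S.ann ⊤ := fun a => h (S.sepU φ fun v => a v trivial)

omit [SMulCommClass G F V] [SMulCommClass G F U] [Finite G] [Finite U] in
theorem Hyp.tr1 (h : S.Hyp) {x x' : V} (hx : x ≠ 0) (hx' : x' ≠ 0) : ∃ g : G, g • x = x' := by
  have := (qq F).trans_le h.big
  obtain ⟨y, -, hy⟩ := exists_nsp1 (F := F) (A := ⊤) (by rwa [cd_top]) x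
  obtain ⟨y', -, hy'⟩ := exists_nsp1 (F := F) (A := ⊤) (by rwa [cd_top]) x'
  obtain ⟨g, e, -⟩ := h.two x y x' y' hx hy hx' hy'
  exact ⟨g, e⟩

omit [SMulCommClass G F U] in
theorem Hyp.f2 (h : S.Hyp) {x : V} (hx : x ≠ 0) {φ ψ : U} (hφ : φ ≠ 0) (hψ : ψ ≠ 0)
    (e : S.b φ x = S.b ψ x) : ∃ g : G, g • x = x ∧ g • φ = ψ := by
  refine S.fi (MulAction.stabilizer G x) ⊤ (F ∙ x) (fun _ _ _ _ => trivial) ?_
    (fun v hv => absurd trivial hv) (fun v _ hv v' _ hv' => h.two x v x v' hx hv hx hv')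
    (nann_top hφ) (nann_top hψ) ?_
  · intro g hg v hv
    rw [← show g • x = x from hg, smul_mem_sp1]; exact hv
  · intro w hw
    obtain ⟨a, rfl⟩ := mem_sp1.1 hw
    simp [e]

omit [SMulCommClass G F U] in
theorem Hyp.pair (h : S.Hyp) {x x' : V} (hx : x ≠ 0) (hx' : x' ≠ 0) {φ φ' : U} (hφ : φ ≠ 0)
    (hφ' : φ' ≠ 0) (e : S.b φ x = S.b φ' x') : ∃ g : G, g • x = x' ∧ g • φ = φ' := by
  obtain ⟨g, rfl⟩ := h.tr1 hx hx'
  obtain ⟨k, e1, e2⟩ := h.f2 hx' (smul_ne0 g hφ) hφ' (by simpa using e)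
  exact ⟨k * g, by rw [mul_smul, e1], by rw [mul_smul, e2]⟩

omit [SMulCommClass G F V] [SMulCommClass G F U] [Finite G] in
theorem nann_ker {φ ψ : U} (h : ψ ∉ F ∙ φ) : ψ ∉ S.ann (S.ker φ) := by
  obtain ⟨m, hm, e⟩ := S.flip.sep h
  rw [S.flip.mem_ann_sp1] at hm
  intro a
  have := a m hm
  rw [show S.b ψ m = 1 from e] at this
  exact one_ne_zero this

theorem Hyp.flip (h : S.Hyp) : S.flip.Hyp := by
  refine ⟨fun φ ψ φ' ψ' hφ hψ hφ' hψ' => ?_, by rw [S.card_eq]; exact h.big⟩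
  obtain ⟨a, ha⟩ := S.flip.ex1 hφ
  obtain ⟨c, hc⟩ := S.flip.ex1 hφ'
  obtain ⟨g, -, rfl⟩ := h.pair (ne0_of_one ha) (ne0_of_one hc) hφ hφ' (ha.trans hc.symm)
  obtain ⟨k, e1, e2⟩ := S.fi (MulAction.stabilizer G (g • φ)) (S.ker (g • φ)) ⊥
    (fun k hk v hv => by rw [mem_ker, S.fixl hk]; exact hv)
    (fun k _ v hv => by rw [Submodule.mem_bot] at hv ⊢; simp [hv])
    (fun v hv m hm => by
      obtain ⟨k, e1, e2⟩ := h.pair (ne0_of hv) (ne0_of (add_nmem hm hv)) hφ' hφ'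
        (by rw [map_add, show S.b (g • φ) m = 0 from hm, add_zero])
      exact ⟨k, e2, e1⟩)
    (fun v hv hv0 v' hv' hv0' => by
      obtain ⟨k, e1, e2⟩ := h.pair (ne0_of hv0) (ne0_of hv0') hφ' hφ' (hv.trans hv'.symm)
      exact ⟨k, e2, e1⟩)
    (nann_ker (smul_mem_sp1.not.2 hψ : g • ψ ∉ F ∙ (g • φ))) (nann_ker hψ')
    (fun w hw => by rw [Submodule.mem_bot] at hw; simp [hw])
  exact ⟨k * g, by rw [mul_smul, show k • g • φ = g • φ from e1], by rw [mul_smul, e2]⟩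

omit [SMulCommClass G F V] [SMulCommClass G F U] [Finite G] [Finite U] in
theorem lt_cd_ker {φ : U} (hφ : φ ≠ 0) {k : ℕ} (h : Nat.card F ^ (k + 2) ≤ Nat.card V) :
    Nat.card F ^ k < cd (S.ker φ) := by
  rw [← S.cd_ker hφ, pow_succ'] at h
  have := q2 F
  exact (qpow_lt k.lt_succ_self).trans_le (Nat.le_of_mul_le_mul_left h (by omega))

omit [SMulCommClass G F U] in
theorem Hyp.exists_P (h : S.Hyp) {φ : U} (hφ : φ ≠ 0) :
    ∃ (P : Subgroup G) (x : V), IsPGroup (ringChar F) P ∧ (∀ g ∈ P, g • φ = φ) ∧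
      (∀ g ∈ P, g • x = x) ∧ x ≠ 0 ∧ S.b φ x = 0 ∧
      ∀ v w, S.b φ v = 1 → S.b φ w = 1 → ∃ g ∈ P, g • v = w := by
  obtain ⟨P, hP⟩ := exists_syl (pF F) (MulAction.stabilizer G φ)
  obtain ⟨a, ha⟩ := S.flip.ex1 hφ
  obtain ⟨k, hk⟩ := cd_ppow (⊤ ⊓ S.ker φ)
  rw [← S.ncard_one (A := ⊤) (a := a) trivial ha] at hk
  have t := hP.tr (pF F) hk (fun g hg v hv => ⟨trivial, by rw [S.fixl hg]; exact hv.2⟩)
    (fun v hv w hw => by
      obtain ⟨k, e1, e2⟩ := h.pair (ne0_of_one hv.2) (ne0_of_one hw.2) hφ hφ (hv.2.trans hw.2.symm)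
      exact ⟨k, e2, e1⟩)
  obtain ⟨x, hx, hx0, hx'⟩ := fix_ne0 hP.2.1 (A := S.ker φ)
    (by simpa using lt_cd_ker (k := 0) hφ h.big)
    (fun g hg v hv => by rw [mem_ker, S.fixl (hP.1 hg)]; exact hv)
  exact ⟨P, x, hP.2.1, fun g hg => hP.1 hg, hx', hx0, hx,
    fun v w hv hw => t v ⟨trivial, hv⟩ w ⟨trivial, hw⟩⟩

omit [SMulCommClass G F U] in
theorem Hyp.f3 (h : S.Hyp) {x : V} (hx : x ≠ 0) {φ : U} (e : S.b φ x = 0) {v w : V}
    (hv : S.b φ v = 1) (hw : S.b φ w = 1) : ∃ g ∈ st2 G x φ, g • v = w := by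
  have hφ := ne0_of_one' hv
  obtain ⟨P, y, -, h1, h2, hy, ey, t⟩ := h.exists_P hφ
  obtain ⟨k, rfl, e2⟩ := h.pair hy hx hφ hφ (ey.trans e.symm)
  obtain ⟨g, hg, e3⟩ := t (k⁻¹ • v) (k⁻¹ • w) (by rw [← S.invl, e2, hv]) (by rw [← S.invl, e2, hw])
  refine ⟨k * g * k⁻¹, ⟨?_, ?_⟩, by simp [mul_smul, e3]⟩
  · simp [mul_smul, h2 g hg]
  · simp [mul_smul, inv_fix e2, h1 g hg, e2]

omit [SMulCommClass G F U] [Finite F] [Finite G] [Finite V] [Finite U] in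
theorem scale {Γ : Subgroup G} {v w : V} {a : F} (ha : a ≠ 0) (h : ∃ g ∈ Γ, g • a • v = a • w) :
    ∃ g ∈ Γ, g • v = w := by
  obtain ⟨g, hg, e⟩ := h
  exact ⟨g, hg, smul_right_injective V ha (by simpa [gs] using e)⟩

omit [SMulCommClass G F U] in
theorem Hyp.f3' (h : S.Hyp) {x : V} (hx : x ≠ 0) {φ : U} (e : S.b φ x = 0) {v w : V}
    (hv : S.b φ v ≠ 0) (hw : S.b φ w = S.b φ v) : ∃ g ∈ st2 G x φ, g • v = w :=
  scale (inv_ne_zero hv) (h.f3 hx e (by simp [hv]) (by simp [hw, hv]))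

omit [SMulCommClass G F U] in
theorem Hyp.f4 (h : S.Hyp) {x v : V} (hx : x ≠ 0) {φ ψ : U} (e1 : S.b φ x = 0) (e2 : S.b φ v = 1)
    (e3 : S.b ψ x = 0) (e4 : S.b ψ v = 1) : ∃ g ∈ st2 G x v, g • φ = ψ := by
  obtain ⟨g, a1, rfl⟩ := h.f2 hx (ne0_of_one' e2) (ne0_of_one' e4) (e1.trans e3.symm)
  obtain ⟨k, ⟨a2, a3⟩, a4⟩ := h.f3 hx e3 (v := g • v) (by simpa using e2) e4
  exact ⟨k * g, ⟨by rw [mul_smul, a1, a2], by rw [mul_smul, a4]⟩, by rw [mul_smul, a3]⟩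

omit [SMulCommClass G F U] in
theorem Hyp.f5 (h : S.Hyp) {x y z l : V} (hx : x ≠ 0) (hy : y ∉ F ∙ x) (hz : z ∉ sp2 F x y)
    (hl : l ∈ sp2 F x y) : ∃ g ∈ st2 G x y, g • z = z + l := by
  have i : ∀ g ∈ st2 G x y, ∀ φ ∈ S.ann (sp2 F x y), g • φ ∈ S.ann (sp2 F x y) := by
    intro g hg φ hφ
    rw [mem_ann_sp2] at hφ ⊢
    rw [S.fixr hg.1, S.fixr hg.2]; exact hφ
  refine S.flip.fi (st2 G x y) (S.ann (sp2 F x y)) (S.ann (sp2 F x y)) i i ?_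
    (fun _ a b => absurd a b) (by rwa [S.ann_ann]) (by rw [S.ann_ann]; exact add_nmem hl hz)
    (fun w hw => by simp [hw l hl])
  intro φ hφ μ hμ
  obtain ⟨v, hv, ev⟩ := S.not_ann hφ
  have c := S.cd_inf_ker hv ev
  rw [cd_sp2 hx hy, sq] at c
  have := q2 F
  obtain ⟨u, hu, u0⟩ := exists_ne0 (A := sp2 F x y ⊓ S.ker φ)
    (by rw [Nat.eq_of_mul_eq_mul_left (by omega) c]; omega)
  have eu : S.b φ u = 0 := hu.2
  have n : v ∉ F ∙ u := fun a => by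
    have := S.mem_ann_sp1.2 eu v a
    rw [ev] at this; exact one_ne_zero this
  obtain ⟨g, hg, e⟩ := h.f4 (ψ := φ + μ) u0 eu ev (by simp [eu, hμ u hu.1]) (by simp [ev, hμ v hv])
  refine ⟨g, (mem_fixer_sp2 (F := F)).1 ?_, e⟩
  rw [← sp2_eq_of_mem u0 n hu.1 hv hx hy]
  exact mem_fixer_sp2.2 hg

omit [SMulCommClass G F U] in
theorem Hyp.f6 (h : S.Hyp) {x y z : V} (hx : x ≠ 0) (hy : y ∉ F ∙ x) (hz : z ∉ sp2 F x y) :
    ∃ g : G, g • x = x ∧ g • y = z ∧ g • z = -y := by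
  have h1 : z - y ∉ sp2 F x y := sub_nmem (y_sp2 x y) hz
  obtain ⟨g, hg, e⟩ := h.f5 hx (nsp1_of h1) (sp2_exch hy h1) (y_sp2 _ _)
  have h2 : y ∉ sp2 F x z := sp2_exch hy hz
  have m : z + z ∈ sp2 F x z := Submodule.add_mem _ (y_sp2 _ _) (y_sp2 _ _)
  obtain ⟨k, hk, e'⟩ := h.f5 hx (nsp1_of hz) (add_nmem m (neg_nmem h2)) (Submodule.neg_mem _ m)
  have e1 : g • y = z := by rw [e]; abel
  have e2 : g • z = -y + (z + z) := by
    have := hg.2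
    rw [smul_sub, e1, sub_eq_iff_eq_add] at this
    rw [this]; abel
  exact ⟨k * g, by rw [mul_smul, hg.1, hk.1], by rw [mul_smul, e1, hk.2],
    by rw [mul_smul, e2, e']; abel⟩

end Sys

end Cfsg.Agent.H77.Ck
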