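import Cfsg.Agent.H77.CkC

/-!
The subspaces `N` and `T` attached to lines and flags.
-/

set_option autoImplicit false

namespace Cfsg.Agent.H77.Ck

open Module

variable {F G V U : Type*} [Field F] [Group G] [AddCommGroup V] [Module F V] [AddCommGroup U]
    [Module F U] [DistribMulAction G V] [DistribMulAction G U]

namespace Sys
variable (S : Sys F G V U)

theorem two_val {M : Submodule F V} {φ ψ : U} {u : V} (hu : u ∈ M) (e1 : S.b φ u = 0)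
    (e2 : S.b ψ u ≠ 0) {v : V} (hv : v ∈ M) (a : F) :
    ∃ w ∈ M, S.b φ w = S.b φ v ∧ S.b ψ w = a :=
  ⟨v + ((a - S.b ψ v) / S.b ψ u) • u, M.add_mem hv (M.smul_mem _ hu), by simp [e1],
    by simp [div_mul_cancel₀ _ e2]⟩

theorem prop_of {M : Submodule F V} {φ ψ : U} (h : ∀ u ∈ M, S.b φ u = 0 → S.b ψ u = 0) {v w : V}
    (hv : v ∈ M) (hw : w ∈ M) : S.b ψ w * S.b φ v = S.b ψ v * S.b φ w := by
  have := h (S.b φ v • w - S.b φ w • v) (M.sub_mem (M.smul_mem _ hw) (M.smul_mem _ hv))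
    (by simp [mul_comm])
  simp only [map_sub, map_smul, smul_eq_mul] at this
  linear_combination this

/-- Level sets in `M` lie in orbits of `Γ`. -/
def Lev (Γ : Subgroup G) (M : Submodule F V) (φ : U) : Prop :=
  ∀ v ∈ M, ∀ w ∈ M, S.b φ v ≠ 0 → S.b φ w = S.b φ v → ∃ g ∈ Γ, g • v = w

variable {S} in
theorem Lev.key {Γ : Subgroup G} {M : Submodule F V} {φ ψ : U} (h1 : S.Lev Γ M φ)
    (h2 : S.Lev Γ M ψ) {u : V} (hu : u ∈ M) (e1 : S.b φ u = 0) (e2 : S.b ψ u ≠ 0) {v w : V}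
    (hv : v ∈ M) (hw : w ∈ M) (a1 : S.b φ v ≠ 0) (a2 : S.b ψ w ≠ 0) : ∃ g ∈ Γ, g • v = w := by
  obtain ⟨z, hz, e3, e4⟩ := S.two_val hu e1 e2 hv (S.b ψ w)
  obtain ⟨g, hg, rfl⟩ := h1 v hv z hz a1 e3
  obtain ⟨k, hk, rfl⟩ := h2 _ hz w hw (e4 ▸ a2) e4.symm
  exact ⟨k * g, Γ.mul_mem hk hg, mul_smul _ _ _⟩

theorem conj_symm {Γ : Subgroup G} {v w : V} (h : ∃ g ∈ Γ, g • v = w) : ∃ g ∈ Γ, g • w = v := by
  obtain ⟨g, hg, rfl⟩ := h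
  exact ⟨g⁻¹, Γ.inv_mem hg, inv_smul_smul _ _⟩

theorem conj_trans {Γ : Subgroup G} {u v w : V} (h : ∃ g ∈ Γ, g • u = v)
    (h' : ∃ g ∈ Γ, g • v = w) : ∃ g ∈ Γ, g • u = w := by
  obtain ⟨g, hg, rfl⟩ := h
  obtain ⟨k, hk, rfl⟩ := h'
  exact ⟨k * g, Γ.mul_mem hk hg, mul_smul _ _ _⟩

variable {S} in
theorem Lev.all {Γ : Subgroup G} {M : Submodule F V} {φ ψ : U} (h1 : S.Lev Γ M φ)
    (h2 : S.Lev Γ M ψ) {u : V} (hu : u ∈ M) (e1 : S.b φ u = 0) (e2 : S.b ψ u ≠ 0) {z : V}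
    (hz : z ∈ M) (e3 : S.b φ z ≠ 0) {v w : V} (hv : v ∈ M) (hw : w ∈ M)
    (a1 : S.b φ v ≠ 0 ∨ S.b ψ v ≠ 0) (a2 : S.b φ w ≠ 0 ∨ S.b ψ w ≠ 0) : ∃ g ∈ Γ, g • v = w := by
  have k : ∀ v ∈ M, S.b φ v ≠ 0 ∨ S.b ψ v ≠ 0 → ∃ g ∈ Γ, g • v = u := by
    rintro v hv (a | a)
    · exact h1.key h2 hu e1 e2 hv hu a e2
    · exact conj_trans (conj_symm (h1.key h2 hu e1 e2 hz hv e3 a)) (h1.key h2 hu e1 e2 hz hu e3 e2)
  exact conj_trans (k v hv a1) (conj_symm (k w hw a2))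

/-- Functionals whose affine hyperplanes in `M` lie in orbits of `Γ`. -/
def Big (Γ : Subgroup G) (M : Submodule F V) : Submodule F U where
  carrier := {φ | S.Lev Γ M φ}
  zero_mem' := fun v _ w _ h => by simp at h
  smul_mem' := fun c φ h v hv w hw e1 e2 => by
    simp only [map_smul, LinearMap.smul_apply, smul_eq_mul, ne_eq, mul_eq_zero, not_or] at e1 e2
    exact h v hv w hw e1.2 (mul_left_cancel₀ e1.1 e2)
  add_mem' := fun {φ ψ} h1 h2 v hv w hw e1 e2 => by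
    have key : ∀ φ ψ, S.Lev Γ M φ → S.Lev Γ M ψ → S.b φ v ≠ 0 → S.b φ v + S.b ψ v ≠ 0 →
        S.b φ w + S.b ψ w = S.b φ v + S.b ψ v → ∃ g ∈ Γ, g • v = w := by
      intro φ ψ h1 h2 a e1 e2
      by_cases d : ∀ u ∈ M, S.b φ u = 0 → S.b ψ u = 0
      · refine h1 v hv w hw a (mul_left_cancel₀ e1 ?_)
        linear_combination S.b φ v * e2 - S.prop_of d hv hw
      · push Not at d
        obtain ⟨u, hu, d1, d2⟩ := d
        refine h1.all h2 hu d1 d2 hv a hv hw (Or.inl a) ?_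
        by_contra c
        push Not at c
        rw [c.1, c.2, add_zero] at e2
        exact e1 e2.symm
    simp only [map_add, LinearMap.add_apply] at e1 e2
    by_cases a : S.b φ v = 0
    · exact key ψ φ h2 h1 (by simpa [a] using e1) (by rwa [add_comm]) (by
        rw [add_comm, e2, add_comm])
    · exact key φ ψ h1 h2 a e1 e2

theorem mem_Big {Γ : Subgroup G} {M : Submodule F V} {φ : U} : φ ∈ S.Big Γ M ↔ S.Lev Γ M φ :=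
  Iff.rfl

theorem Big_of [SMulCommClass G F V] {Γ : Subgroup G} {M : Submodule F V} {φ : U}
    (h : ∀ v ∈ M, ∀ w ∈ M, S.b φ v = 1 → S.b φ w = 1 → ∃ g ∈ Γ, g • v = w) : φ ∈ S.Big Γ M :=
  fun v hv w hw e1 e2 => scale (inv_ne_zero e1)
    (h _ (M.smul_mem _ hv) _ (M.smul_mem _ hw) (by simp [e1]) (by simp [e2, e1]))

theorem Big_smul {Γ Γ' : Subgroup G} {M M' : Submodule F V} (k : G)
    (h1 : ∀ g ∈ Γ, k * g * k⁻¹ ∈ Γ') (h2 : ∀ v ∈ M', k⁻¹ • v ∈ M) {φ : U} (h : φ ∈ S.Big Γ M) :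
    k • φ ∈ S.Big Γ' M' := by
  intro v hv w hw e1 e2
  simp only [S.invl] at e1 e2
  obtain ⟨g, hg, e⟩ := h _ (h2 v hv) _ (h2 w hw) e1 e2
  exact ⟨_, h1 g hg, by simp [mul_smul, e]⟩

theorem Big_tr {Γ : Subgroup G} {M : Submodule F V} {A : Submodule F U} (hA : A ≤ S.Big Γ M)
    (h2 : ∀ φ ∈ A, ∃ ψ ∈ A, ∃ u ∈ M, S.b φ u = 0 ∧ S.b ψ u ≠ 0) {v w : V} (hv : v ∈ M)
    (hw : w ∈ M) (hv' : v ∉ S.flip.ann A) (hw' : w ∉ S.flip.ann A) : ∃ g ∈ Γ, g • v = w := by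
  simp only [mem_ann, flip_b, not_forall] at hv' hw'
  obtain ⟨φ, a1, e1⟩ := hv'
  obtain ⟨θ, a2, e2⟩ := hw'
  obtain ⟨ψ, a3, u, hu, e3, e4⟩ := h2 φ a1
  by_cases d : ∀ u ∈ M, S.b φ u = 0 → S.b θ u = 0
  · exact Lev.all (hA a1) (hA a3) hu e3 e4 hv e1 hv hw (Or.inl e1) (Or.inl fun c => e2 (d w hw c))
  · push Not at d
    obtain ⟨u', hu', d1, d2⟩ := d
    exact Lev.key (hA a1) (hA a2) hu' d1 d2 hv hw e1 e2

/-- The subspace attached to a line. -/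
def N (L : Submodule F V) : Submodule F U := S.Big (fixer G L) ⊤ ⊓ S.ann L

/-- The subspace attached to a flag. -/
def T (x : V) (φ : U) : Submodule F V := S.flip.Big (st2 G x φ) (S.flip.ker x) ⊓ S.ker φ

variable {S}

theorem N_x {x y : V} {φ : U} (h : φ ∈ S.N (sp2 F x y)) : S.b φ x = 0 := h.2 x (x_sp2 _ _)
theorem N_y {x y : V} {φ : U} (h : φ ∈ S.N (sp2 F x y)) : S.b φ y = 0 := h.2 y (y_sp2 _ _)
theorem T_ker {x y : V} {φ : U} (h : y ∈ S.T x φ) : S.b φ y = 0 := h.2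

theorem x_T {x : V} {φ : U} (h : S.b φ x = 0) : x ∈ S.T x φ :=
  ⟨fun _ h1 _ _ h2 => absurd h1 h2, h⟩

variable [SMulCommClass G F V] [SMulCommClass G F U]

omit [SMulCommClass G F V] in
theorem T_congr {x : V} {φ ψ : U} (h : ψ ∈ F ∙ φ) (h0 : ψ ≠ 0) : S.T x ψ = S.T x φ := by
  have h' : φ ∈ F ∙ ψ := by rw [sp1_of_mem h h0]; exact x_sp1 φ
  have e1 : st2 G x ψ = st2 G x φ := Subgroup.ext fun g =>
    ⟨fun a => ⟨a.1, fix_sp1 a.2 h'⟩, fun a => ⟨a.1, fix_sp1 a.2 h⟩⟩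
  have e2 : S.ker ψ = S.ker φ := Submodule.ext fun v =>
    ⟨fun a => S.flip.mem_ann_sp1.2 a φ h', fun a => S.flip.mem_ann_sp1.2 a ψ h⟩
  rw [T, T, e1, e2]

omit [SMulCommClass G F U] in
theorem T_congr' {x y : V} {φ : U} (h : y ∈ F ∙ x) (h0 : y ≠ 0) : S.T y φ = S.T x φ := by
  have h' : x ∈ F ∙ y := by rw [sp1_of_mem h h0]; exact x_sp1 x
  have e1 : st2 G y φ = st2 G x φ := Subgroup.ext fun g =>
    ⟨fun a => ⟨fix_sp1 a.1 h', a.2⟩, fun a => ⟨fix_sp1 a.1 h, a.2⟩⟩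
  have e2 : S.flip.ker y = S.flip.ker x := Submodule.ext fun v =>
    ⟨fun a => S.mem_ann_sp1.2 a x h', fun a => S.mem_ann_sp1.2 a y h⟩
  rw [T, T, e1, e2]

omit [SMulCommClass G F U] in
theorem N_smul' (k : G) {x y : V} {φ : U} (h : φ ∈ S.N (sp2 F x y)) :
    k • φ ∈ S.N (sp2 F (k • x) (k • y)) := by
  refine ⟨S.Big_smul k (M := ⊤) (fun g hg => ?_) (fun _ _ => trivial) h.1, ?_⟩
  · rw [mem_fixer_sp2] at hg ⊢
    simp [mul_smul, hg.1, hg.2]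
  · exact S.mem_ann_sp2.2 (by simp [N_x h, N_y h])

omit [SMulCommClass G F U] in
theorem N_smul (k : G) {x y : V} {φ : U} :
    k • φ ∈ S.N (sp2 F (k • x) (k • y)) ↔ φ ∈ S.N (sp2 F x y) :=
  ⟨fun h => by simpa using N_smul' k⁻¹ h, N_smul' k⟩

omit [SMulCommClass G F V] [SMulCommClass G F U] in
theorem T_smul' (k : G) {x y : V} {φ : U} (h : y ∈ S.T x φ) : k • y ∈ S.T (k • x) (k • φ) := by
  refine ⟨S.flip.Big_smul k (fun g hg => ?_) (fun ψ hψ => ?_) h.1, by simpa using T_ker h⟩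
  · exact ⟨by simp [mul_smul, hg.1], by simp [mul_smul, hg.2]⟩
  · rw [mem_ker, flip_b, ← S.invr]; exact hψ

omit [SMulCommClass G F V] [SMulCommClass G F U] in
theorem T_smul (k : G) {x y : V} {φ : U} : k • y ∈ S.T (k • x) (k • φ) ↔ y ∈ S.T x φ :=
  ⟨fun h => by simpa using T_smul' k⁻¹ h, T_smul' k⟩

omit [SMulCommClass G F V] [SMulCommClass G F U] in
theorem ann_smul (k : G) {A A' : Submodule F V} (h : ∀ v, k • v ∈ A' ↔ v ∈ A) {φ : U} :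
    k • φ ∈ S.ann A' ↔ φ ∈ S.ann A := by
  refine ⟨fun h1 v hv => by simpa using h1 _ ((h v).2 hv), fun h1 v hv => ?_⟩
  rw [S.invl]
  exact h1 _ ((h _).1 (by simpa using hv))

omit [SMulCommClass G F V] [SMulCommClass G F U] in
theorem annT_smul (k : G) {x : V} {φ θ : U} :
    k • θ ∈ S.ann (S.T (k • x) (k • φ)) ↔ θ ∈ S.ann (S.T x φ) := ann_smul k fun _ => T_smul k

omit [SMulCommClass G F U] in
theorem annN_smul (k : G) {x y z : V} :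
    k • z ∈ S.flip.ann (S.N (sp2 F (k • x) (k • y))) ↔ z ∈ S.flip.ann (S.N (sp2 F x y)) :=
  ann_smul k fun _ => N_smul k

variable [Finite F] [Finite G] [Finite V] [Finite U]

omit [SMulCommClass G F U] in
theorem N_tr {x y : V} (h2 : Nat.card F < cd (S.N (sp2 F x y))) {φ ψ : U} (hφ : φ ≠ 0)
    (hψ : ψ ≠ 0) (e : φ - ψ ∈ S.N (sp2 F x y)) : ∃ g : G, g • x = x ∧ g • y = y ∧ g • φ = ψ := by
  obtain ⟨g, hg, e⟩ := S.fi (fixer G (sp2 F x y)) ⊤ (S.flip.ann (S.N (sp2 F x y)))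
    (fun _ _ _ _ => trivial) (fun g hg v hv => by
      rw [mem_fixer_sp2] at hg
      rw [← hg.1, ← hg.2, annN_smul]; exact hv)
    (fun v hv => absurd trivial hv) (fun v h1 h3 w h4 h5 => S.Big_tr inf_le_left (fun θ _ => by
      obtain ⟨ψ, a1, a2⟩ := exists_nsp1 h2 θ
      obtain ⟨u, a3, a4⟩ := S.flip.sep a2
      exact ⟨ψ, a1, u, trivial, S.flip.mem_ann_sp1.1 a3, by
        rw [show S.b ψ u = 1 from a4]; exact one_ne_zero⟩) h1 h4 h3 h5)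
    (nann_top hφ) (nann_top hψ) (fun w hw => sub_eq_zero.1 (by simpa using hw _ e))
  rw [mem_fixer_sp2] at hg
  exact ⟨g, hg.1, hg.2, e⟩

omit [SMulCommClass G F V] [SMulCommClass G F U] [Finite G] in
theorem T_trU {x : V} {φ ψ θ : U} (hc : Nat.card F ^ 2 < cd (S.T x φ)) (h1 : S.b ψ x = 0)
    (h2 : S.b θ x = 0) (h3 : ψ ∉ S.ann (S.T x φ)) (h4 : θ ∉ S.ann (S.T x φ)) :
    ∃ g ∈ st2 G x φ, g • ψ = θ :=
  S.flip.Big_tr (M := S.flip.ker x) inf_le_left (fun y _ => by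
    obtain ⟨z, a1, a2⟩ := exists_nsp2 hc x y
    obtain ⟨u, a3, a4⟩ := S.sep a2
    rw [mem_ann_sp2] at a3
    exact ⟨z, a1, u, a3.1, a3.2, by rw [flip_b, a4]; exact one_ne_zero⟩) h1 h2 h3 h4

omit [SMulCommClass G F V] [SMulCommClass G F U] [Finite G] in
theorem nann_kerx {x v : V} (h : v ∉ F ∙ x) : v ∉ S.flip.ann (S.flip.ker x) :=
  nann_ker (S := S.flip) h

theorem Hyp.T_h1 (h : S.Hyp) {x : V} {φ : U} (hφ : φ ≠ 0) (e : S.b φ x = 0) :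
    ∀ ψ ∉ S.flip.ker x, ∀ μ ∈ S.flip.ker x, ∃ g ∈ st2 G x φ, g • ψ = ψ + μ := by
  intro ψ hψ μ hμ
  obtain ⟨g, hg, e'⟩ := h.flip.f3' hφ e (v := ψ) (w := ψ + μ) hψ
    (by rw [map_add, show S.flip.b x μ = 0 from hμ, add_zero])
  exact ⟨g, hg.symm, e'⟩

theorem Hyp.T_tr (h : S.Hyp) {x : V} {φ : U} (hc : Nat.card F ^ 2 < cd (S.T x φ)) (hφ : φ ≠ 0)
    (e : S.b φ x = 0) {v w : V} (hv : v ∉ F ∙ x) (hw : w ∉ F ∙ x) (hvw : v - w ∈ S.T x φ) :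
    ∃ g ∈ st2 G x φ, g • v = w :=
  S.flip.fi (st2 G x φ) (S.flip.ker x) (S.ann (S.T x φ))
    (fun g hg ψ hψ => by rw [mem_ker, flip_b, S.fixr hg.1]; exact hψ)
    (fun g hg ψ hψ => by rw [← hg.1, ← hg.2, annT_smul]; exact hψ) (h.T_h1 hφ e)
    (fun ψ h1 h2 θ h3 h4 => T_trU hc h1 h3 h2 h4) (nann_kerx hv) (nann_kerx hw)
    (fun ψ hψ => sub_eq_zero.1 (by simpa using hψ _ hvw))

theorem Hyp.T_tr0 (h : S.Hyp) {x : V} {φ : U} (hφ : φ ≠ 0) (e : S.b φ x = 0) {v w : V}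
    (hv : v ∉ F ∙ x) (hvw : w - v ∈ F ∙ x) : ∃ g ∈ st2 G x φ, g • v = w :=
  S.flip.fi (st2 G x φ) (S.flip.ker x) (S.flip.ker x)
    (fun g hg ψ hψ => by rw [mem_ker, flip_b, S.fixr hg.1]; exact hψ)
    (fun g hg ψ hψ => by rw [mem_ker, flip_b, S.fixr hg.1]; exact hψ) (h.T_h1 hφ e)
    (fun ψ h1 h2 => absurd h1 h2) (nann_kerx hv)
    (nann_kerx (by simpa using add_nmem hvw hv))
    (fun ψ hψ => (sub_eq_zero.1 (by simpa using S.mem_ann_sp1.2 hψ _ hvw)).symm)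

omit [SMulCommClass G F U] in
theorem Hyp.exists_N (h : S.Hyp) (h8 : Nat.card F ^ 3 ≤ Nat.card V) :
    ∃ (x y : V) (φ : U), x ≠ 0 ∧ y ∉ F ∙ x ∧ φ ≠ 0 ∧ φ ∈ S.N (sp2 F x y) := by
  obtain ⟨φ, -, hφ⟩ := exists_ne0 (A := (⊤ : Submodule F U)) (by
    rw [cd_top, S.card_eq]; exact (qpow_lt (F := F) (a := 0) (by norm_num)).trans_le h8)
  obtain ⟨P, x, hP, h1, h2, hx, ex, t⟩ := h.exists_P hφ
  obtain ⟨y, hy, hy', h3⟩ := S.fix_pair hP hx h2 (M := S.ker φ) ex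
    (fun g hg v hv => by rw [mem_ker, S.fixl (h1 g hg)]; exact hv)
    (by simpa using lt_cd_ker (k := 1) hφ h8)
  refine ⟨x, y, φ, hx, hy', hφ, S.Big_of fun v _ w _ e1 e2 => ?_, S.mem_ann_sp2.2 ⟨ex, hy⟩⟩
  obtain ⟨g, hg, e⟩ := t v w e1 e2
  have a := h3 g hg
  have hw : w ∉ sp2 F x (g • y) := fun c => by
    have := (S.mem_ann_sp2 (x := x) (y := g • y)).2 ⟨ex, by rw [S.fixl (h1 g hg)]; exact hy⟩ w c
    rw [e2] at this; exact one_ne_zero this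
  obtain ⟨k, hk, e'⟩ := h.f5 hx (nsp1_of hw) (sp2_exch (by simpa using add_nmem a hy') hw)
    (sp1_le_sp2 _ _ (Submodule.neg_mem _ a))
  exact ⟨k * g, mem_fixer_sp2.2 ⟨by rw [mul_smul, h2 g hg, hk.1], by rw [mul_smul, e']; abel⟩,
    by rw [mul_smul, e, hk.2]⟩

theorem Hyp.N_T (h : S.Hyp) {x y : V} (hx : x ≠ 0) (hy : y ∉ F ∙ x) {φ : U} (hφ : φ ≠ 0)
    (hN : φ ∈ S.N (sp2 F x y)) : y ∈ S.T x φ := by
  obtain ⟨P, hP⟩ := exists_syl (pF F) (st2 G x y)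
  obtain ⟨m, hm, em⟩ := S.sep hy
  rw [mem_ann_sp1] at hm
  obtain ⟨k, hk⟩ := cd_ppow (S.flip.ker x ⊓ S.flip.ker y)
  rw [← S.flip.ncard_one (A := S.flip.ker x) (φ := y) hm em] at hk
  have t := hP.tr (pF F) hk (fun g hg ψ hψ => ⟨by rw [mem_ker, flip_b, S.fixr hg.1]; exact hψ.1,
      by rw [flip_b, S.fixr hg.2]; exact hψ.2⟩)
    (fun ψ h1 θ h2 => h.f4 hx h1.1 h1.2 h2.1 h2.2)
  have h2 := cd_mono (sp1_le hN)
  rw [cd_sp1 hφ] at h2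
  obtain ⟨ψ, hψ, ψ0, hψ'⟩ := fix_ne0 hP.2.1 (A := S.N (sp2 F x y)) ((q2 F).trans h2)
    (fun g hg v hv => by rw [← (hP.1 hg).1, ← (hP.1 hg).2, N_smul]; exact hv)
  have key : y ∈ S.T x ψ := by
    refine ⟨S.flip.Big_of fun θ h1 θ' h2 a1 a2 => ?_, N_y hψ⟩
    obtain ⟨g, hg, e⟩ := t θ ⟨h1, a1⟩ θ' ⟨h2, a2⟩
    exact ⟨g, ⟨(hP.1 hg).1, hψ' g hg⟩, e⟩
  by_cases a : φ ∈ F ∙ ψ
  · rwa [T_congr a hφ]
  have c := cd_mono (sp2_le hψ hN)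
  rw [cd_sp2 ψ0 a] at c
  obtain ⟨g, e1, e2, e3⟩ := N_tr ((qq F).trans_le c) ψ0 hφ (Submodule.sub_mem _ hψ hN)
  rw [← e1, ← e2, ← e3, T_smul]
  exact key

theorem Hyp.T_N (h : S.Hyp) (h8 : Nat.card F ^ 3 ≤ Nat.card V) {x y : V} (hx : x ≠ 0)
    (hy : y ∉ F ∙ x) {φ : U} (hφ : φ ≠ 0) (e : S.b φ x = 0) (hT : y ∈ S.T x φ) :
    φ ∈ S.N (sp2 F x y) := by
  obtain ⟨x', y', φ', h1, h2, h3, h4⟩ := h.exists_N h8
  obtain ⟨g, rfl, rfl⟩ := h.pair h1 hx h3 hφ ((N_x h4).trans e.symm)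
  have h5 := N_smul' g h4
  have h6 : g • y' ∉ F ∙ (g • x') := smul_mem_sp1.not.2 h2
  have h7 := h.N_T hx h6 hφ h5
  by_cases a : y ∈ sp2 F (g • x') (g • y')
  · rwa [sp2_of_mem a hy]
  have c := cd_mono (sup_le (sp2_le (x_T e) h7) (sp1_le hT))
  rw [cd_sup_sp1 a, cd_sp2 hx h6, ← pow_succ'] at c
  obtain ⟨k, hk, rfl⟩ := h.T_tr ((qpow_lt (by norm_num)).trans_le c) hφ e h6 hy
    (Submodule.sub_mem _ h7 hT)
  have := N_smul' k h5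
  rwa [hk.1, hk.2] at this

/-- The dimensions of `N` and `T`. -/
structure Par (S : Sys F G V U) (c : ℕ) : Prop where
  pos : 1 ≤ c
  cN : ∀ {x y : V}, x ≠ 0 → y ∉ F ∙ x → cd (S.N (sp2 F x y)) = Nat.card F ^ c
  cT : ∀ {x : V} {φ : U}, x ≠ 0 → φ ≠ 0 → S.b φ x = 0 → cd (S.T x φ) = Nat.card F * Nat.card F ^ c

theorem Hyp.par (h : S.Hyp) (h8 : Nat.card F ^ 3 ≤ Nat.card V) : ∃ c, S.Par c := by
  obtain ⟨x', y', φ', h1, h2, h3, h4⟩ := h.exists_N h8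
  obtain ⟨c, hc⟩ := cd_pow (S.N (sp2 F x' y'))
  have cN : ∀ {x y : V}, x ≠ 0 → y ∉ F ∙ x → cd (S.N (sp2 F x y)) = Nat.card F ^ c := by
    intro x y hx hy
    obtain ⟨g, rfl, rfl⟩ := h.two x' y' x y h1 h2 hx hy
    exact (H32.CK.ncard_smul g fun _ => N_smul g).trans hc
  have cT : ∀ {x : V} {φ : U}, x ≠ 0 → φ ≠ 0 → S.b φ x = 0 → cd (S.T x φ) = cd (S.T x' φ') := by
    intro x φ hx hφ e
    obtain ⟨g, rfl, rfl⟩ := h.pair h1 hx h3 hφ ((N_x h4).trans e.symm)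
    exact H32.CK.ncard_smul g fun _ => T_smul g
  have h5 := cd_mono (sp1_le h4)
  rw [cd_sp1 h3, hc] at h5
  have h6 := cd_mono (sp1_le (x_T (N_x h4)))
  rw [cd_sp1 h1] at h6
  have d := H32.CK.dc_eq {y | y ∈ (⊤ : Submodule F V) ∧ y ∉ F ∙ x'}
    {φ | φ ∈ S.flip.ker x' ∧ φ ≠ 0} (fun y φ => φ ∈ S.N (sp2 F x' y)) (Nat.card F ^ c - 1)
    (cd (S.T x' φ') - Nat.card F) (fun y hy => by
      rw [← cN h1 hy.2, ← ncard_ne0]
      congr 1; ext φ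
      exact ⟨fun a => ⟨a.2, a.1.2⟩, fun a => ⟨⟨N_x (S := S) a.1, a.2⟩, a.1⟩⟩) (fun φ hφ => by
      have := ncard_diff_sub (sp1_le (x_T (S := S) hφ.1))
      rw [cd_sp1 h1] at this
      rw [← cT h1 hφ.2 hφ.1, ← this]
      congr 1; ext y
      exact ⟨fun a => ⟨h.N_T h1 a.1.2 hφ.2 a.2, a.1.2⟩,
        fun a => ⟨⟨trivial, a.2⟩, h.T_N h8 h1 a.2 hφ.2 hφ.1 a.1⟩⟩)
  rw [ncard_diff_sub le_top, ncard_ne0, cd_top, cd_sp1 h1] at d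
  have h7 := S.flip.cd_ker h1
  have h9 : 1 < cd (S.flip.ker x') := by
    simpa using lt_cd_ker (S := S.flip) (k := 0) h1 (by rw [S.card_eq]; exact h.big)
  rw [S.card_eq] at h7
  rw [← h7, ← Nat.mul_sub_one, mul_comm (Nat.card F), mul_assoc, Nat.mul_sub_one] at d
  have := Nat.eq_of_mul_eq_mul_left (by omega) d
  have h10 : Nat.card F ≤ Nat.card F * Nat.card F ^ c :=
    Nat.le_mul_of_pos_right _ (by have := q2 F; positivity)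
  refine ⟨c, ?_, cN, fun hx hφ e => by rw [cT hx hφ e]; omega⟩
  rcases c with _ | c
  · rw [pow_zero] at h5; have := q2 F; omega
  · omega

theorem Hyp.swapJ (h : S.Hyp) {φ : U} (hφ : φ ≠ 0) {x z : V} (hx : x ≠ 0) (hz : z ∉ F ∙ x)
    (e1 : S.b φ x = 0) (e2 : S.b φ z = 0) : ∃ g : G, g • φ = φ ∧ g • x = z ∧ g • z = -x := by
  have n := sub_nmem (x_sp1 x) hz
  obtain ⟨g, hg, e⟩ := h.T_tr0 (x := z - x) hφ (by simp [e1, e2]) (sp1_symm hx n) (x_sp1 _)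
  have m : z + z ∈ F ∙ z := Submodule.add_mem _ (x_sp1 _) (x_sp1 _)
  obtain ⟨k, hk, e'⟩ := h.T_tr0 hφ e2 (add_nmem m (neg_nmem (sp1_symm hx hz))) (w := -x)
    (by simpa using Submodule.neg_mem _ m)
  have e3 : g • z = -x + (z + z) := by
    have := hg.1
    rw [smul_sub, e, sub_eq_iff_eq_add] at this
    rw [this]; abel
  exact ⟨k * g, by rw [mul_smul, hg.2, hk.2], by rw [mul_smul, e, hk.1], by rw [mul_smul, e3, e']⟩

theorem Hyp.ksym (h : S.Hyp) {x : V} (hx : x ≠ 0) {φ θ : U} (hφ : φ ≠ 0) (hθ : θ ≠ 0)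
    (e1 : S.b φ x = 0) (h1 : θ ∈ S.ann (S.T x φ)) : φ ∈ S.ann (S.T x θ) := by
  by_cases e : θ ∈ F ∙ φ
  · rw [T_congr e hθ]; exact fun v hv => T_ker hv
  obtain ⟨g, a1, a2, a3⟩ := h.flip.swapJ hx hφ e e1 (h1 x (x_T e1))
  rw [← annT_smul g, a1, a2, a3] at h1
  simpa using h1

omit [SMulCommClass G F U] in
theorem Hyp.bsym (h : S.Hyp) {x y z : V} (hx : x ≠ 0) (hy : y ∉ F ∙ x) (hz : z ∉ F ∙ x)
    (h1 : z ∈ S.flip.ann (S.N (sp2 F x y))) : y ∈ S.flip.ann (S.N (sp2 F x z)) := by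
  by_cases a : z ∈ sp2 F x y
  · rw [sp2_of_mem a hz]; exact fun φ hφ => (N_y hφ :)
  obtain ⟨g, a1, a2, a3⟩ := h.f6 hx hy a
  rw [← annN_smul g, a1, a2, a3] at h1
  simpa using h1

omit [SMulCommClass G F U] in
theorem Hyp.nsum (h : S.Hyp) {x y z : V} (hx : x ≠ 0) (hy : y ∉ F ∙ x) (hz : z ∉ F ∙ x)
    (hyz : y + z ∉ F ∙ x) : S.N (sp2 F x (y + z)) ≤ S.N (sp2 F x y) ⊔ S.N (sp2 F x z) := by
  intro φ hφ
  by_contra hn
  obtain ⟨v, h1, e⟩ := S.flip.sep hn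
  rw [ann_sup] at h1
  have e : S.b φ v = 1 := e
  have hv : v ∉ F ∙ x := fun a => by
    rw [S.mem_ann_sp1.2 (N_x hφ) v a] at e; exact zero_ne_one e
  have h2 := h.bsym hx hv hyz
    (Submodule.add_mem _ (h.bsym hx hy hv h1.1) (h.bsym hx hz hv h1.2)) φ hφ
  rw [flip_b, e] at h2
  exact one_ne_zero h2

end Sys

end Cfsg.Agent.H77.Ck
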