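import Cfsg.Agent.H77.CkD

/-!
The main count comparing the two parameters, and the exclusion of the middle case.
-/

set_option autoImplicit false

namespace Cfsg.Agent.H77.Ck

open Module

theorem arith {q c d e t : ℕ} (hq : 2 ≤ q) (hc : 2 ≤ c) (hd : 2 ≤ d)
    (h : (q ^ d - 1) * q ^ t * (q ^ e - 1) = q * (q ^ c - 1) * (q ^ t - 1))
    (h' : q * q ^ c ≤ q ^ e * q ^ d) : c + 1 ≤ d ∨ (c = d ∧ t = 1) := by
  have pos : ∀ k, 1 ≤ q ^ k := fun k => Nat.one_le_pow _ _ (by omega)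
  have gt : ∀ k, 1 ≤ k → 1 < q ^ k := fun k hk => Nat.one_lt_pow (by omega) hq
  have q0 : (q : ℤ) ≠ 0 := by omega
  have nd : ¬ (q : ℤ) ∣ 1 := fun a => by
    have := Int.le_of_dvd one_pos a
    omega
  rcases Nat.lt_trichotomy t 1 with ht | rfl | ht
  · obtain rfl : t = 0 := by omega
    left
    simp only [pow_zero, mul_one, Nat.sub_self, mul_zero, mul_eq_zero] at h
    have := gt d (by omega)
    have : q ^ e = 1 := by have := pos e; omega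
    rw [this, one_mul, ← pow_succ'] at h'
    exact (Nat.pow_le_pow_iff_right hq).1 h'
  · rcases Nat.lt_trichotomy e 1 with he | rfl | he
    · obtain rfl : e = 0 := by omega
      have := gt c (by omega)
      simp only [pow_zero, Nat.sub_self, mul_zero, pow_one] at h
      have h1 : 0 < q * (q ^ c - 1) * (q - 1) :=
        Nat.mul_pos (Nat.mul_pos (by omega) (by omega)) (by omega)
      omega
    · refine Or.inr ⟨Nat.pow_right_injective hq ?_, rfl⟩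
      change q ^ c = q ^ d
      have h1 : (q ^ d - 1) * (q * (q - 1)) = (q ^ c - 1) * (q * (q - 1)) := by
        simp only [pow_one] at h; linarith
      have := Nat.eq_of_mul_eq_mul_right (Nat.mul_pos (by omega) (by omega)) h1
      have := pos c
      have := pos d
      omega
    · exfalso
      obtain ⟨c, rfl⟩ := Nat.exists_eq_add_of_le hc
      obtain ⟨d, rfl⟩ := Nat.exists_eq_add_of_le hd
      obtain ⟨e, rfl⟩ := Nat.exists_eq_add_of_le he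
      zify [pos] at h
      refine nd ⟨(q : ℤ) ^ c * (q - 1) + q ^ d + q ^ e - q ^ 2 * q ^ d * q ^ e, ?_⟩
      apply mul_left_cancel₀ (mul_ne_zero q0 q0)
      linear_combination h
  · exfalso
    obtain ⟨c, rfl⟩ := Nat.exists_eq_add_of_le hc
    obtain ⟨t, rfl⟩ := Nat.exists_eq_add_of_le ht
    zify [pos] at h
    refine nd ⟨((q : ℤ) ^ d - 1) * q ^ t * (q ^ e - 1) + q * q ^ c + q * q ^ t -
      q ^ 3 * q ^ c * q ^ t, ?_⟩
    apply mul_left_cancel₀ q0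
    linear_combination -h

variable {F G V U : Type*} [Field F] [Group G] [AddCommGroup V] [Module F V] [AddCommGroup U]
    [Module F U] [DistribMulAction G V] [DistribMulAction G U]

namespace Sys
variable {S : Sys F G V U} [SMulCommClass G F V] [SMulCommClass G F U] [Finite F] [Finite G]
  [Finite V] [Finite U]

omit [SMulCommClass G F V] [SMulCommClass G F U] [Finite G] [Finite V] [Finite U] in
theorem Par.big {c : ℕ} (p : S.Par c) (hc : 2 ≤ c) {x : V} {φ : U} (hx : x ≠ 0) (hφ : φ ≠ 0)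
    (e : S.b φ x = 0) : Nat.card F ^ 2 < cd (S.T x φ) := by
  rw [p.cT hx hφ e, ← pow_succ']; exact qpow_lt (by omega)

theorem Hyp.count (h : S.Hyp) {c d : ℕ} (p : S.Par c) (q : S.flip.Par d) (hc : 2 ≤ c)
    (hd : 2 ≤ d) {x y : V} {φ : U} (hx : x ≠ 0) (hφ : φ ≠ 0) (e : S.b φ x = 0)
    (hy : y ∈ S.T x φ) (hy' : y ∉ F ∙ x) :
    c + 1 ≤ d ∨ (c = d ∧ cd (S.flip.T φ x ⊓ S.flip.T φ y) = Nat.card F ^ d) := by
  let W : V → Submodule F V := fun z => S.flip.ann (S.flip.T φ z)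
  have Wk : ∀ z, S.b φ z = 0 → W z ≤ S.ker φ := fun z hz v hv => hv φ (x_T (S := S.flip) hz)
  have Wc : ∀ z, z ≠ 0 → S.b φ z = 0 → cd (W z) * (Nat.card F * Nat.card F ^ d) = Nat.card V :=
    fun z h1 h2 => by rw [← q.cT hφ h1 h2]; exact S.flip.cd_ann' _
  have Ws : ∀ z z', z ≠ 0 → z' ≠ 0 → S.b φ z = 0 → z' ∈ W z → z ∈ W z' :=
    fun z z' h1 h2 h3 h4 => h.flip.ksym hφ h1 h2 h3 h4
  have Wg : ∀ g ∈ st2 G x φ, ∀ z v, g • v ∈ W (g • z) ↔ v ∈ W z := fun g hg z v => by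
    have := annT_smul (S := S.flip) g (x := φ) (φ := z) (θ := v)
    rwa [hg.2] at this
  have Tg : ∀ g ∈ st2 G x φ, ∀ v, g • v ∈ S.T x φ ↔ v ∈ S.T x φ := fun g hg v => by
    have := T_smul (S := S) g (x := x) (φ := φ) (y := v)
    rwa [hg.1, hg.2] at this
  have hk := S.cd_ker hφ
  have w1 := Wc x hx e
  have w2 := Wc y (ne0_of hy') (T_ker hy)
  have hq := q2 F
  have hd' : 1 < Nat.card F ^ d := Nat.one_lt_pow (by omega) hq
  have qd : 0 < Nat.card F * Nat.card F ^ d := by positivity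
  have w0 := cd_pos (W x)
  have w3 : cd (S.ker φ) = cd (W x) * Nat.card F ^ d :=
    Nat.eq_of_mul_eq_mul_left (show 0 < Nat.card F by omega) (by rw [hk, ← w1]; ring)
  have w4 : cd (W y) = cd (W x) := Nat.eq_of_mul_eq_mul_right qd (w2.trans w1.symm)
  obtain ⟨z, hz, hz'⟩ := exists_not_mem (A := W x) (B := S.ker φ) (by nlinarith)
  obtain ⟨E, hE⟩ := cd_pow (S.T x φ ⊓ W z)
  have dc := H32.CK.dc_eq {z | z ∈ S.ker φ ∧ z ∉ W x} {y | y ∈ S.T x φ ∧ y ∉ F ∙ x}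
    (fun z y => y ∈ W z) (Nat.card F ^ E - 1) (cd (W y) - cd (W y ⊓ W x)) (fun z' h1 => by
      obtain ⟨g, hg, rfl⟩ := T_trU (S := S.flip) (x := φ) (φ := x) (q.big hd hφ hx e) hz h1.1 hz'
        h1.2
      have : cd (S.T x φ ⊓ W (g • z)) = cd (S.T x φ ⊓ W z) :=
        H32.CK.ncard_smul g fun v => and_congr (Tg g hg.symm v) (Wg g hg.symm z v)
      rw [← hE, ← this, ← ncard_ne0]
      congr 1; ext v
      refine ⟨fun a => ⟨⟨a.1.1, a.2⟩, ne0_of a.1.2⟩, fun a => ⟨⟨a.1.1, fun b => ?_⟩, a.1.2⟩⟩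
      have : x ∈ F ∙ v := by rw [sp1_of_mem b a.2]; exact x_sp1 x
      exact h1.2 (Ws _ _ (ne0_of h1.2) hx h1.1 (sp1_le a.1.2 this))) (fun y' h1 => by
      obtain ⟨g, hg, rfl⟩ := h.T_tr (p.big hc hx hφ e) hφ e hy' h1.2 (Submodule.sub_mem _ hy h1.1)
      have a1 : cd (W (g • y)) = cd (W y) := H32.CK.ncard_smul g fun v => Wg g hg y v
      have a2 : cd (W (g • y) ⊓ W x) = cd (W y ⊓ W x) := H32.CK.ncard_smul g fun v =>
        and_congr (Wg g hg y v) (by have := Wg g hg x v; rwa [hg.1] at this)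
      rw [← a1, ← a2, ← ncard_diff_sub inf_le_left]
      congr 1; ext v
      refine ⟨fun a => ⟨Ws _ _ (ne0_of a.1.2) (ne0_of h1.2) a.1.1 a.2, fun b => a.1.2 b.2⟩,
        fun a => ?_⟩
      have : v ∉ W x := fun b => a.2 ⟨a.1, b⟩
      exact ⟨⟨Wk _ (T_ker h1.1) a.1, this⟩, Ws _ _ (ne0_of h1.2) (ne0_of this) (T_ker h1.1) a.1⟩)
  rw [ncard_diff_sub (Wk x e), ncard_diff_sub (sp1_le (x_T e)), cd_sp1 hx, p.cT hx hφ e, w3,
    w4] at dc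
  have s1 := cd_sup_inf (S.flip.T φ y) (S.flip.T φ x)
  have s2 := S.flip.cd_ann' (S.flip.T φ y ⊔ S.flip.T φ x)
  rw [ann_sup] at s2
  rw [q.cT hφ hx e, q.cT hφ (ne0_of hy') (T_ker hy :), inf_comm] at s1
  obtain ⟨j, hj⟩ := cd_pow (S.flip.T φ x ⊓ S.flip.T φ y)
  have s3 := cd_mono (inf_le_left (a := S.flip.T φ x) (b := S.flip.T φ y))
  rw [q.cT hφ hx e, hj, ← pow_succ', Nat.pow_le_pow_iff_right hq] at s3
  obtain ⟨t, ht⟩ := Nat.exists_eq_add_of_le s3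
  have s4 : Nat.card F * Nat.card F ^ d = Nat.card F ^ j * Nat.card F ^ t := by
    rw [← pow_add, ← ht, pow_succ']
  have s5 := cd_sup_inf (S.T x φ) (W z)
  have s6 := cd_mono (sup_le (fun v hv => T_ker hv) (Wk z hz) : S.T x φ ⊔ W z ≤ S.ker φ)
  have w5 : cd (W z) = cd (W x) :=
    Nat.eq_of_mul_eq_mul_right qd ((Wc z (ne0_of hz') hz).trans w1.symm)
  rw [p.cT hx hφ e, hE, w5] at s5
  rw [hj] at s1
  change cd (W y ⊓ W x) * _ = _ at s2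
  generalize cd (W y ⊓ W x) = u at *
  generalize cd (S.flip.T φ y ⊔ S.flip.T φ x) = s at *
  have s7 : s = Nat.card F * Nat.card F ^ d * Nat.card F ^ t :=
    Nat.eq_of_mul_eq_mul_right (m := Nat.card F ^ j) (by positivity)
      (by rw [s1]; nth_rewrite 2 [s4]; ring)
  have s8 : cd (W x) = u * Nat.card F ^ t :=
    Nat.eq_of_mul_eq_mul_right qd (by rw [w1, ← s2, s7]; ring)
  have u0 : 0 < u := by rw [s8] at w0; exact Nat.pos_of_mul_pos_right w0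
  have := arith (e := E) (t := t) hq hc hd (by
    apply Nat.eq_of_mul_eq_mul_left u0
    rw [s8, ← Nat.mul_sub_one, ← Nat.mul_sub_one u, ← Nat.mul_sub_one (Nat.card F)] at dc
    linarith) (by
    rw [w3] at s6
    apply Nat.le_of_mul_le_mul_right _ w0
    calc _ = _ := s5.symm
      _ ≤ cd (W x) * Nat.card F ^ d * Nat.card F ^ E := Nat.mul_le_mul_right _ s6
      _ = _ := by ring)
  rcases this with a | ⟨a, rfl⟩
  · exact Or.inl a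
  · exact Or.inr ⟨a, by rw [hj]; congr 1; omega⟩

omit [SMulCommClass G F V] [SMulCommClass G F U] [Finite G] in
theorem s1_of {x y : V} {φ ψ : U} (hd : Nat.card F ^ 2 < cd (S.flip.T φ x))
    (hne : S.T x φ ≠ S.ker φ) (hy : y ∈ S.T x φ) (hψ : ψ ∈ S.flip.T φ x) : S.b ψ y = 0 := by
  by_contra hn
  have h1 : y ∉ S.flip.ann (S.flip.T φ x) := fun a => hn (a ψ hψ)
  have h2 : ∀ z ∈ S.ker φ, z ∉ S.flip.ann (S.flip.T φ x) → z ∈ S.T x φ := fun z a1 a2 => by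
    obtain ⟨g, hg, rfl⟩ := T_trU (S := S.flip) (x := φ) (φ := x) hd (T_ker hy :) a1 h1 a2
    have := T_smul' g hy
    rwa [hg.1, hg.2] at this
  refine hne (le_antisymm (fun v hv => T_ker hv) fun z hz => ?_)
  by_cases a : z ∈ S.flip.ann (S.flip.T φ x)
  · exact (Submodule.add_mem_iff_right _ hy).1
      (h2 _ (Submodule.add_mem _ (T_ker hy) hz) (add_nmem a h1))
  · exact h2 z hz a

/-- The middle case. -/
structure Mid (S : Sys F G V U) (c : ℕ) : Prop where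
  h : S.Hyp
  h8 : Nat.card F ^ 3 ≤ Nat.card V
  p : S.Par c
  q : S.flip.Par c
  c2 : 2 ≤ c
  i1 : ∀ {x y : V} {φ : U}, x ≠ 0 → φ ≠ 0 → S.b φ x = 0 → y ∈ S.T x φ → y ∉ F ∙ x →
    cd (S.flip.T φ x ⊓ S.flip.T φ y) = Nat.card F ^ c
  i2 : ∀ {x : V} {φ ψ : U}, φ ≠ 0 → x ≠ 0 → S.b φ x = 0 → ψ ∈ S.flip.T φ x → ψ ∉ F ∙ φ →
    cd (S.T x φ ⊓ S.T x ψ) = Nat.card F ^ c
  s1 : ∀ {x y : V} {φ ψ : U}, x ≠ 0 → φ ≠ 0 → S.b φ x = 0 → y ∈ S.T x φ → ψ ∈ S.flip.T φ x →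
    S.b ψ y = 0

theorem Mid.flip {c : ℕ} (m : S.Mid c) : S.flip.Mid c :=
  ⟨m.h.flip, by rw [S.card_eq]; exact m.h8, m.q, m.p, m.c2, m.i2, m.i1,
    fun a1 a2 a3 a4 a5 => m.s1 a2 a1 a3 a5 a4⟩

omit [SMulCommClass G F V] [SMulCommClass G F U] [Finite G] [Finite U] in
theorem Par.exists_T {c : ℕ} (p : S.Par c) {x : V} {φ : U} (hx : x ≠ 0) (hφ : φ ≠ 0)
    (e : S.b φ x = 0) : ∃ y ∈ S.T x φ, y ∉ F ∙ x := by
  apply exists_nsp1
  rw [p.cT hx hφ e, ← pow_succ']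
  have := p.pos
  simpa using qpow_lt (F := F) (a := 1) (c := c + 1) (by omega)

omit [SMulCommClass G F U] in
theorem Hyp.exists_flag (h : S.Hyp) : ∃ (x : V) (φ : U), x ≠ 0 ∧ φ ≠ 0 ∧ S.b φ x = 0 := by
  obtain ⟨φ, -, hφ⟩ := exists_ne0 (A := (⊤ : Submodule F U)) (by
    rw [cd_top, S.card_eq]; exact (qpow_lt (F := F) (a := 0) (by norm_num)).trans_le h.big)
  obtain ⟨P, x, -, -, -, hx, ex, -⟩ := h.exists_P hφ
  exact ⟨x, φ, hx, hφ, ex⟩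

theorem Hyp.mid (h : S.Hyp) (h8 : Nat.card F ^ 3 ≤ Nat.card V) {c d : ℕ} (p : S.Par c)
    (q : S.flip.Par d) (hc : c ≠ 1) (hd : d ≠ 1)
    (hn : Nat.card F * (Nat.card F * Nat.card F ^ c) ≠ Nat.card V) : S.Mid c := by
  obtain ⟨x, φ, hx, hφ, e⟩ := h.exists_flag
  obtain ⟨y, hy, hy'⟩ := p.exists_T hx hφ e
  obtain ⟨ψ, hψ, hψ'⟩ := q.exists_T hφ hx e
  have c2 : 2 ≤ c := by have := p.pos; omega
  have d2 : 2 ≤ d := by have := q.pos; omega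
  have a1 := h.count p q c2 d2 hx hφ e hy hy'
  have a2 := h.flip.count q p d2 c2 hφ hx e hψ hψ'
  obtain rfl : c = d := by omega
  refine ⟨h, h8, p, q, c2, fun b1 b2 b3 b4 b5 => ?_, fun b1 b2 b3 b4 b5 => ?_,
    fun b1 b2 b3 b4 b5 => s1_of (q.big c2 b2 b1 b3) (fun a => hn ?_) b4 b5⟩
  · have := h.count p q c2 c2 b1 b2 b3 b4 b5
    omega
  · have := h.flip.count q p c2 c2 b1 b2 b3 b4 b5
    rcases this with a | a
    exacts [by omega, a.2]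
  · rw [← S.cd_ker b2, ← a, p.cT b1 b2 b3]

variable {c : ℕ}

theorem Mid.NT (m : S.Mid c) {x y : V} (hx : x ≠ 0) (hy : y ∉ F ∙ x) {φ : U} (hφ : φ ≠ 0)
    (e : S.b φ x = 0) : φ ∈ S.N (sp2 F x y) ↔ y ∈ S.T x φ :=
  ⟨m.h.N_T hx hy hφ, m.h.T_N m.h8 hx hy hφ e⟩

theorem Mid.r1 (m : S.Mid c) {x : V} {φ ψ : U} (hφ : φ ≠ 0) (hψ : ψ ∉ F ∙ φ) (hx : x ≠ 0)
    (hN : x ∈ S.flip.N (sp2 F φ ψ)) : S.flip.N (sp2 F φ ψ) ≤ S.T x φ := by
  have e : S.b φ x = 0 := (N_x hN :)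
  have sub : ∀ θ, {y | y ∈ {y | y ∈ S.T x φ ∧ y ∉ F ∙ x} ∧ y ∈ S.flip.N (sp2 F φ θ)} ⊆
    {y | y ∈ S.flip.N (sp2 F φ θ) ∧ y ∉ F ∙ x} := fun θ y a => ⟨a.2, a.1.2⟩
  have cN : ∀ θ ∈ S.flip.T φ x, θ ∉ F ∙ φ →
      {y | y ∈ S.flip.N (sp2 F φ θ) ∧ y ∉ F ∙ x}.ncard = Nat.card F ^ c - Nat.card F :=
    fun θ a1 a2 => by
      rw [ncard_diff_sub (sp1_le ((m.flip.NT hφ a2 hx e).2 a1)), cd_sp1 hx, m.q.cN hφ a2]
  have h1 := (m.flip.NT hφ hψ hx e).1 hN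
  have := H32.CK.dc_force {y | y ∈ S.T x φ ∧ y ∉ F ∙ x} {θ | θ ∈ S.flip.T φ x ∧ θ ∉ F ∙ φ}
    (fun y θ => y ∈ S.flip.N (sp2 F φ θ)) (Nat.card F ^ c - Nat.card F)
    (Nat.card F ^ c - Nat.card F) (fun y hy => by
      have := ncard_diff_sub (sp1_le (A := S.flip.T φ x ⊓ S.flip.T φ y)
        ⟨x_T (S := S.flip) e, x_T (S := S.flip) (T_ker hy.1 :)⟩)
      rw [cd_sp1 hφ, m.i1 hx hφ e hy.1 hy.2] at this
      rw [← this]
      congr 1; ext θ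
      exact ⟨fun a => ⟨⟨a.1.1, (m.flip.NT hφ a.1.2 (ne0_of hy.2) (T_ker hy.1 :)).1 a.2⟩, a.1.2⟩,
        fun a => ⟨⟨a.1.1, a.2⟩, (m.flip.NT hφ a.2 (ne0_of hy.2) (T_ker hy.1 :)).2 a.1.2⟩⟩)
    (fun θ hθ => by rw [← cN θ hθ.1 hθ.2]; exact Set.ncard_le_ncard (sub θ) (Set.toFinite _))
    (by rw [ncard_diff_sub (sp1_le (x_T e)), ncard_diff_sub (sp1_le (x_T (S := S.flip) e)),
      cd_sp1 hx, cd_sp1 hφ, m.p.cT hx hφ e, m.q.cT hφ hx e]) ψ ⟨h1, hψ⟩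
  have e2 := Set.eq_of_subset_of_ncard_le (sub ψ) (by rw [this, cN ψ h1 hψ]) (Set.toFinite _)
  intro v hv
  by_cases a : v ∈ F ∙ x
  · exact sp1_le (x_T e) a
  · exact ((Set.ext_iff.1 e2 v).2 ⟨hv, a⟩).1.1

theorem Mid.r2 (m : S.Mid c) {x : V} {φ ψ : U} (hφ : φ ≠ 0) (hψ : ψ ∉ F ∙ φ) (hx : x ≠ 0)
    (hN : x ∈ S.flip.N (sp2 F φ ψ)) : S.flip.N (sp2 F φ ψ) = S.T x φ ⊓ S.T x ψ := by
  have e : S.b φ x = 0 := (N_x hN :)
  apply eq_of_cd (le_inf (m.r1 hφ hψ hx hN) ?_)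
  · rw [m.i2 hφ hx e ((m.flip.NT hφ hψ hx e).1 hN) hψ, m.q.cN hφ hψ]
  · rw [sp2_comm] at hN ⊢
    exact m.r1 (ne0_of hψ) (sp1_symm hφ hψ) hx hN

theorem Mid.r3 (m : S.Mid c) {x y : V} {φ ψ : U} (hφ : φ ≠ 0) (hψ : ψ ∉ F ∙ φ) (hx : x ≠ 0)
    (hy : y ∉ F ∙ x) (h1 : x ∈ S.flip.N (sp2 F φ ψ)) (h2 : y ∈ S.flip.N (sp2 F φ ψ)) :
    φ ∈ S.N (sp2 F x y) ∧ ψ ∈ S.N (sp2 F x y) := by
  have := m.r2 hφ hψ hx h1 ▸ h2
  exact ⟨(m.NT hx hy hφ (N_x h1 :)).2 this.1, (m.NT hx hy (ne0_of hψ) (N_y h1 :)).2 this.2⟩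

omit [SMulCommClass G F V] [SMulCommClass G F U] [Finite G] [Finite V] [Finite U] in
theorem qc_lt : Nat.card F ^ c < Nat.card F * Nat.card F ^ c := by
  rw [← pow_succ']; exact qpow_lt c.lt_succ_self

theorem Mid.b1 (m : S.Mid c) {x y : V} {φ : U} (hx : x ≠ 0) (hφ : φ ≠ 0) (e : S.b φ x = 0)
    (hy : y ∈ S.T x φ) (hy' : y ∉ F ∙ x) : S.T y φ ≠ S.T x φ := by
  intro hT
  have all : ∀ z ∈ S.T x φ, z ≠ 0 → S.T z φ = S.T x φ := by
    intro z hz h0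
    by_cases a : z ∈ F ∙ x
    · exact T_congr' a h0
    obtain ⟨g, hg, rfl⟩ := m.h.T_tr (m.p.big m.c2 hx hφ e) hφ e hy' a (Submodule.sub_mem _ hy hz)
    ext v
    have a1 := T_smul (S := S) g (x := y) (φ := φ) (y := g⁻¹ • v)
    have a2 := T_smul (S := S) g (x := x) (φ := φ) (y := g⁻¹ • v)
    rw [hg.2, smul_inv_smul] at a1 a2
    rw [a1, hT, ← a2, hg.1]
  obtain ⟨ψ, hψ, hψ'⟩ := m.q.exists_T hφ hx e
  have eψ : S.b ψ x = 0 := (T_ker hψ :)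
  have hN := (m.flip.NT hφ hψ' hx e).2 hψ
  obtain ⟨a, ha, ha'⟩ := exists_not_mem (A := S.T x φ ⊓ S.T x ψ) (B := S.T x ψ) (by
    rw [m.i2 hφ hx e hψ hψ', m.p.cT hx (ne0_of hψ') eψ]; exact qc_lt)
  obtain ⟨ω, hω, eω⟩ := S.sep (A := S.T x φ) (fun b => ha' ⟨b, ha⟩)
  have hφ' : φ ∈ S.flip.T ψ x :=
    (m.flip.NT (ne0_of hψ') (sp1_symm hφ hψ') hx eψ).1 (by rwa [sp2_comm])
  have hω' : ω ∉ sp2 F φ ψ := fun b => by
    have : sp2 F φ ψ ≤ S.flip.ker a := sp2_le (m.s1 hx (ne0_of hψ') eψ ha hφ' :) (T_ker ha :)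
    have := this b
    rw [mem_ker, flip_b, eω] at this
    exact one_ne_zero this
  obtain ⟨g, g1, g2, g3⟩ := m.h.flip.f6 (ne0_of hω') (x := ω) (y := ψ) (z := φ)
    (sp1_symm (ne0_of hψ') (nsp1_of' hω'))
    (by rw [sp2_comm]; exact sp2_exch (sp1_symm hφ hψ') (by rwa [sp2_comm]))
  have h2 := N_smul' (S := S.flip) g hN
  rw [g2, g3, sp2_comm, sp2_of_mem (Submodule.neg_mem _ (y_sp2 φ ψ)) (neg_nmem hψ')] at h2
  rw [← all _ (m.r1 hφ hψ' hx hN h2) (smul_ne0 g hx), ← g2, ← g1, annT_smul] at hω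
  rw [hω a ha] at eω
  exact zero_ne_one eω

theorem Mid.two (m : S.Mid c) : c = 2 := by
  by_contra hc
  have h3 : 3 ≤ c := by have := m.c2; omega
  obtain ⟨x, φ, hx, hφ, e⟩ := m.h.exists_flag
  obtain ⟨y, hy, hy'⟩ := m.p.exists_T hx hφ e
  obtain ⟨ψ, hψ, hψ'⟩ := m.q.exists_T hφ hx e
  have hN := (m.flip.NT hφ hψ' hx e).2 hψ
  have hle := m.r1 hφ hψ' hx hN
  obtain ⟨a, ha, ha'⟩ := exists_not_mem (A := S.flip.N (sp2 F φ ψ)) (B := S.T x φ) (by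
    rw [m.q.cN hφ hψ', m.p.cT hx hφ e]; exact qc_lt)
  obtain ⟨θ, hθ, eθ⟩ := S.sep ha'
  have hq := q2 F
  have hE : S.flip.N (sp2 F φ ψ) = S.T x φ ⊓ S.ker θ := by
    apply eq_of_cd (le_inf hle fun v hv => hθ v hv)
    have := S.cd_inf_ker ha eθ
    rw [m.p.cT hx hφ e] at this
    rw [m.q.cN hφ hψ', Nat.eq_of_mul_eq_mul_left (by omega) this]
  refine m.b1 hx hφ e hy hy' (eq_of_cd (fun z hz => ?_)
    (by rw [m.p.cT hx hφ e, m.p.cT (ne0_of hy') hφ (T_ker hy)])).symm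
  obtain ⟨a', hb, hb'⟩ := exists_not_mem (A := sp2 F x y ⊔ (F ∙ z)) (B := S.T x φ) (by
    refine (cd_sup_sp1_le _ _).trans_lt ?_
    rw [m.p.cT hx hφ e, cd_sp2 hx hy', ← pow_succ', ← pow_succ']
    exact qpow_lt (by omega))
  obtain ⟨ω, hω, eω⟩ := S.sep hb'
  rw [ann_sup, Submodule.mem_inf, mem_ann_sp2, mem_ann_sp1] at hω
  obtain ⟨g, hg, rfl⟩ := T_trU (φ := φ) (m.p.big m.c2 hx hφ e) (hθ x hN) hω.1.1
    (fun b => by simp [b a ha] at eθ) (fun b => by simp [b a' hb] at eω)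
  have key : ∀ v ∈ S.T x φ, S.b (g • θ) v = 0 → v ∈ S.flip.N (sp2 F φ (g • ψ)) := by
    intro v h1 h2
    have a1 := N_smul (S := S.flip) g (x := φ) (y := ψ) (φ := g⁻¹ • v)
    have a2 := T_smul (S := S) g (x := x) (φ := φ) (y := g⁻¹ • v)
    rw [hg.2, smul_inv_smul] at a1 a2
    rw [hg.1] at a2
    rw [a1, hE]
    exact ⟨a2.1 h1, by rw [S.invl] at h2; exact h2⟩
  refine m.r1 hφ ?_ (ne0_of hy') (key y hy hω.1.2) (key z hz hω.2)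
  rw [← hg.2, smul_mem_sp1]; exact hψ'

end Sys

end Cfsg.Agent.H77.Ck
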