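import Mathlib
import Cfsg.Agent.H12.UniformCent
import Cfsg.Agent.H11.PermChar
import Cfsg.Agent.H59.Spectral

/-!
Overgroups of the norm-one torus of `GL_n(q)`, `n` prime: definitions and the statements of the
steps (part one: transitivity on independent pairs of vectors).
-/

set_option autoImplicit false

namespace Cfsg.Agent.H77.Sg

open Cfsg Module

universe u v w

section defs
variable (F : Type u) (K : Type v) [Field F] [Field K] [Algebra F K]

/-- Multiplication by a unit of `K` as an `F`-linear automorphism of `K`. -/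
def mulH : Kˣ →* (K ≃ₗ[F] K) where
  toFun a :=
    { toFun := fun x => a * x
      invFun := fun x => (a⁻¹ : Kˣ) * x
      map_add' := mul_add _
      map_smul' := fun c x => mul_smul_comm c _ x
      left_inv := fun x => by simp
      right_inv := fun x => by simp }
  map_one' := by ext x; simp
  map_mul' a b := by ext x; simp [mul_assoc]

/-- The multiplications by the `t`-th roots of unity of `K`. -/
def Pt (t : ℕ) : Subgroup (K ≃ₗ[F] K) := (powMonoidHom t : Kˣ →* Kˣ).ker.map (mulH F K)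

variable {F K}

@[simp] theorem mulH_apply (a : Kˣ) (x : K) : mulH F K a x = a * x := rfl

theorem mulH_injective : Function.Injective (mulH F K) := fun a b h =>
  Units.ext (by simpa using congrArg (fun g : K ≃ₗ[F] K => g 1) h)

theorem mem_Pt {t : ℕ} {g : K ≃ₗ[F] K} : g ∈ Pt F K t ↔ ∃ s : Kˣ, s ^ t = 1 ∧ mulH F K s = g :=
  Iff.rfl

/-- `g` normalises the field of multiplications. -/
def Nm (g : K ≃ₗ[F] K) : Prop := ∀ a : K, ∃ a' : K, ∀ x, g (a * x) = a' * g x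

/-- The subgroup generated by the `X`-conjugates of `Pt`. -/
def SS (X : Subgroup (K ≃ₗ[F] K)) (t : ℕ) : Subgroup (K ≃ₗ[F] K) :=
  Subgroup.closure {j | ∃ g ∈ X, ∃ s ∈ Pt F K t, j = g * s * g⁻¹}

/-- The standing hypotheses.  `X` meets `K^×` in `F^× × Pt`, of index `R`. -/
structure Ct (n q t R : ℕ) (X : Subgroup (K ≃ₗ[F] K)) : Prop where
  hq : Nat.card F = q
  hn : finrank F K = n
  pn : n.Prime
  n13 : 13 ≤ n
  card : Nat.card K = R * (q - 1) * t + 1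
  hR : (R = 1 ∧ n.Coprime (q - 1)) ∨ (R = n ∧ n ∣ q - 1)
  cop : t.Coprime (q - 1)
  copn : t.Coprime n
  big1 : 2 * (R * (q - 1)) ^ 6 + 1 < t
  big2 : (R * (q - 1) * n) ^ 2 + 1 < t
  mem : ∀ a : Kˣ, mulH F K a ∈ X ↔ ∃ (c : F) (s : Kˣ), s ^ t = 1 ∧ (a : K) = c • (s : K)
  ker : ∀ a : Kˣ, Algebra.norm F (a : K) = 1 →
    ∃ (c : F) (s : Kˣ), c ^ n = 1 ∧ s ^ t = 1 ∧ (a : K) = c • (s : K)
  frob : ∃ φ ∈ X, ∀ x, φ x = x ^ q

/-- Transitivity on the non-zero vectors. -/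
def Tr (X : Subgroup (K ≃ₗ[F] K)) : Prop := ∀ x y : K, x ≠ 0 → y ≠ 0 → ∃ g ∈ X, g x = y

end defs

/-- Transitivity on ordered pairs of independent vectors. -/
def Two {F : Type u} {V : Type v} [Field F] [AddCommGroup V] [Module F V]
    (X : Subgroup (V ≃ₗ[F] V)) : Prop :=
  ∀ x y x' y' : V, x ≠ 0 → y ∉ F ∙ x → x' ≠ 0 → y' ∉ F ∙ x' → ∃ g ∈ X, g x = x' ∧ g y = y'

/-- Elementary facts on the field of multiplications. -/
structure Kit (F : Type u) (K : Type v) [Field F] [Field K] [Algebra F K] : Prop where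
  /-- conjugating one non-scalar multiplication into `K` normalises `K` -/
  nm_of : ∀ (g : K ≃ₗ[F] K) (s a' : K), s ∉ F ∙ (1 : K) → (∀ x, g (s * x) = a' * g x) → Nm g
  /-- the centraliser of a non-scalar multiplication -/
  cent : ∀ (g : K ≃ₗ[F] K) (s : K), s ∉ F ∙ (1 : K) → (∀ x, g (s * x) = s * g x) →
    ∃ a : Kˣ, g = mulH F K a
  /-- the `n`-th power of a normalising element is a multiplication -/
  pow : ∀ g : K ≃ₗ[F] K, Nm g → ∃ a : Kˣ, g ^ finrank F K = mulH F K a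
  /-- a normalising element of order prime to `n` is a multiplication -/
  cop : ∀ (g : K ≃ₗ[F] K) (t : ℕ), Nm g → g ^ t = 1 → t.Coprime (finrank F K) →
    ∃ a : Kˣ, g = mulH F K a
  /-- the normaliser is a subgroup in which the multiplications have index at most `n` -/
  sub : ∃ N : Subgroup (K ≃ₗ[F] K), (∀ g, g ∈ N ↔ Nm g) ∧
    (mulH F K).range.relIndex N ∣ finrank F K
  /-- roots of unity of order prime to `q - 1` are not scalars -/
  ns : ∀ (s : Kˣ) (t : ℕ), t.Coprime (Nat.card F - 1) → s ^ t = 1 → s ≠ 1 → (s : K) ∉ F ∙ (1 : K)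
  /-- the number of `t`-th roots of unity -/
  cardP : ∀ t : ℕ, t ∣ Nat.card K - 1 → Nat.card (Pt F K t) = t

def KitStmt : Prop := ∀ (F : Type u) (K : Type v) [Field F] [Field K] [Algebra F K] [Finite F]
  [Finite K], (finrank F K).Prime → Kit F K

/-- Products of linear forms with prescribed reduced coefficients are monomial. -/
def PolyAlgStmt : Prop := ∀ (L : Type v) [Field L] (p : ℕ) [Fact p.Prime] [CharP L p] (n c : ℕ)
  (a : Fin n → Fin n → L),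
    MvPolynomial.coeff (Finsupp.equivFunOnFinite.symm fun _ => c)
      ((∏ i, ∑ j, MvPolynomial.C (a i j) * MvPolynomial.X j) ^ c : MvPolynomial (Fin n) L) ≠ 0 →
    ((1 ≤ c ∧ c + 2 ≤ p ∧ ∀ ν : Fin n →₀ ℕ, (∀ j, ν j < p) → ∑ j, ν j = n * c → (∃ j, ν j ≠ c) →
        MvPolynomial.coeff ν
          ((∏ i, ∑ j, MvPolynomial.C (a i j) * MvPolynomial.X j) ^ c : MvPolynomial (Fin n) L)
          = 0) ∨
      (c + 1 = p ∧ ∀ (ν : Fin n →₀ ℕ) (j₀ : Fin n), p ≤ ν j₀ → ν j₀ < 2 * p →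
        (∀ j, j ≠ j₀ → ν j < p) → ∑ j, ν j = n * c →
        MvPolynomial.coeff ν
          ((∏ i, ∑ j, MvPolynomial.C (a i j) * MvPolynomial.X j) ^ c : MvPolynomial (Fin n) L)
          = 0)) →
    ∀ i j k, j ≠ k → a i j * a i k = 0

/-- A linear map preserving a non-trivial union of fibres of the norm normalises the field. -/
def PolyStmt : Prop := ∀ (F : Type u) (K : Type v) [Field F] [Field K] [Algebra F K] [Finite F]
  [Finite K], 4 ≤ finrank F K → ∀ (g : K ≃ₗ[F] K) (A : Set F),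
    (∀ x : K, x ≠ 0 → (Algebra.norm F (g x) ∈ A ↔ Algebra.norm F x ∈ A)) →
    (∃ a ∈ A, a ≠ 0) → (∃ b, b ∉ A ∧ b ≠ 0) → Nm g

/-- An invariant equivalence relation with small classes. -/
def BlockStmt : Prop := ∀ (F : Type u) (K : Type v) [Field F] [Field K] [Algebra F K] [Finite F]
  [Finite K] (n q t R : ℕ) (X : Subgroup (K ≃ₗ[F] K)), Ct n q t R X → Tr X →
    ∀ Δ : K → K → Prop, (∀ x y, Δ x y → x ≠ 0 ∧ y ≠ 0) → (∀ x y, Δ x y → Δ y x) →
    (∀ x y z, Δ x y → Δ y z → Δ x z) → (∀ g ∈ X, ∀ x y, Δ x y → Δ (g x) (g y)) →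
    (∀ (x : K) (c : F), x ≠ 0 → c ≠ 0 → Δ x (c • x)) →
    (∀ (x : K) (s : Kˣ), s ^ t = 1 → Δ x (s * x) → s = 1) →
    (∃ x y, Δ x y ∧ y ∉ F ∙ x) → ∀ g ∈ X, Nm g

/-- The normal closure of the torus is transitive on the non-zero vectors. -/
def StrStmt : Prop := ∀ (F : Type u) (K : Type v) [Field F] [Field K] [Algebra F K] [Finite F]
  [Finite K] (n q t R : ℕ) (X : Subgroup (K ≃ₗ[F] K)), Ct n q t R X → (∃ g ∈ X, ¬ Nm g) →
    Tr (SS X t)

/-- The torus is a Hall subgroup, and the local data of exceptional character theory. -/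
def UcStmt : Prop := ∀ (F : Type u) (K : Type v) [Field F] [Field K] [Algebra F K] [Finite F]
  [Finite K] (n q t R : ℕ) (X : Subgroup (K ≃ₗ[F] K)), Ct n q t R X →
    t.Coprime ((Pt F K t).relIndex X) ∧
    ∀ Y : Subgroup (K ≃ₗ[F] K), Pt F K t ≤ Y → Y ≤ X → ∃ U : H12.UC Y,
      U.P = (Pt F K t).subgroupOf Y ∧ U.C = (mulH F K).range.subgroupOf Y ∧
      (∀ g : Y, g ∈ U.N ↔ Nm (g : K ≃ₗ[F] K)) ∧ U.e ≤ n

/-- The normal closure of the torus induces a non-trivial automorphism on it. -/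
def E1Stmt : Prop := ∀ (F : Type u) (K : Type v) [Field F] [Field K] [Algebra F K] [Finite F]
  [Finite K] (n q t R : ℕ) (X : Subgroup (K ≃ₗ[F] K)), Ct n q t R X → (∃ g ∈ X, ¬ Nm g) →
    ∃ j ∈ SS X t, Nm j ∧ j ∉ (mulH F K).range

/-- No irreducible character of small degree is non-trivial on the torus. -/
def SmallStmt : Prop := ∀ (F : Type u) (K : Type v) [Field F] [Field K] [Algebra F K] [Finite F]
  [Finite K] (n q t R : ℕ) (X : Subgroup (K ≃ₗ[F] K)), Ct n q t R X → (∃ g ∈ X, ¬ Nm g) →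
    ∀ ψ : X → ℂ, IsIrrCharacter X ψ → ¬ (Pt F K t).subgroupOf X ≤ H11.charKer ψ →
      R * (q - 1) * n < charDegree ψ

/-- Exceptional characters do not occur in a character of small degree vanishing on `C`. -/
def ExcStmt : Prop := ∀ (G : Type w) [Group G] [Fintype G] (U : H12.UC G) (π χ : G → ℂ),
  IsCharacter G π → (∀ c ∈ U.C, c ≠ 1 → π c = 0) →
    (∀ ψ, IsIrrCharacter G ψ → ¬ U.P ≤ H11.charKer ψ →
      charDegree π * U.e < charDegree ψ * (Nat.card U.P - 1)) →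
    IsIrrCharacter G χ → classInner π χ ≠ 0 →
    ∀ x ∈ U.P, ∀ y ∈ U.P, x ≠ 1 → y ≠ 1 → χ x = χ y

/-- The valency estimate. -/
def SpecStmt : Prop := ∀ (G : Type w) (Ω : Type v) [Group G] [Fintype G] [Fintype Ω]
  [MulAction G Ω] (P : Subgroup G) (m t k β : ℕ) (Γ : Ω → Ω → Prop),
    (∀ a ∈ P, ∀ b ∈ P, a * b = b * a) → Nat.card P = t → 2 ≤ t →
    (∀ s ∈ P, ∀ x : Ω, s • x = x → s = 1) → Nat.card Ω = m * t → 1 ≤ m →
    (∀ x y : Ω, ∃ g ∈ Subgroup.normalClosure (P : Set G), g • x = y) →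
    (∀ χ, IsIrrCharacter G χ → classInner (H11.permChar G Ω) χ ≠ 0 →
      ∀ x ∈ P, ∀ y ∈ P, x ≠ 1 → y ≠ 1 → χ x = χ y) →
    (∀ (g : G) x y, Γ x y → Γ (g • x) (g • y)) → (∀ x, ¬ Γ x x) →
    (∀ x, {y | Γ x y}.ncard = k) → ∀ s ∈ P, s ≠ 1 → {x | Γ x (s • x)}.ncard = β * t →
    ((β : ℤ) * (t - 1) - k) ^ 2 ≤ (m : ℤ) ^ 3 * k

/-- The two consequences of the character theory for invariant relations on vectors. -/
structure Cnt {F : Type u} {K : Type v} [Field F] [Field K] [Algebra F K] (q t R : ℕ)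
    (X : Subgroup (K ≃ₗ[F] K)) : Prop where
  tr : Tr X
  const : ∀ Γ : K → K → Prop, (∀ g ∈ X, ∀ x y, Γ x y → Γ (g x) (g y)) →
    ∀ s s' : Kˣ, s ^ t = 1 → s' ^ t = 1 → s ≠ 1 → s' ≠ 1 →
      {x | x ≠ 0 ∧ Γ x (s * x)}.ncard = {x | x ≠ 0 ∧ Γ x (s' * x)}.ncard
  ineq : ∀ Γ : K → K → Prop, (∀ g ∈ X, ∀ x y, Γ x y → Γ (g x) (g y)) → (∀ x, ¬ Γ x x) →
    ∀ k β : ℕ, (∀ x, x ≠ 0 → {y | y ≠ 0 ∧ Γ x y}.ncard = k) → ∀ s : Kˣ, s ^ t = 1 → s ≠ 1 →
      {x | x ≠ 0 ∧ Γ x (s * x)}.ncard = β * t →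
      ((β : ℤ) * (t - 1) - k) ^ 2 ≤ ((R * (q - 1) : ℕ) : ℤ) ^ 3 * k

def CntStmt : Prop := ∀ (F : Type u) (K : Type v) [Field F] [Field K] [Algebra F K] [Finite F]
  [Finite K] (n q t R : ℕ) (X : Subgroup (K ≃ₗ[F] K)), Ct n q t R X → (∃ g ∈ X, ¬ Nm g) →
    Cnt q t R X

/-- Every independent pair is conjugate to a pair `(z, s z)`. -/
def Nu {F : Type u} {K : Type v} [Field F] [Field K] [Algebra F K] (t : ℕ)
    (X : Subgroup (K ≃ₗ[F] K)) : Prop :=
  ∀ x y : K, x ≠ 0 → y ∉ F ∙ x → ∀ s : Kˣ, s ^ t = 1 → s ≠ 1 →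
    ∃ z : K, z ≠ 0 ∧ ∃ g ∈ X, g x = z ∧ g y = s * z

def NuStmt : Prop := ∀ (F : Type u) (K : Type v) [Field F] [Field K] [Algebra F K] [Finite F]
  [Finite K] (n q t R : ℕ) (X : Subgroup (K ≃ₗ[F] K)), Ct n q t R X → (∃ g ∈ X, ¬ Nm g) →
    Cnt q t R X → Nu t X

/-- With fewer than `q` orbits on independent pairs the root elements of a line are induced. -/
def AglStmt : Prop := ∀ (F : Type u) (V : Type v) [Field F] [Finite F] [AddCommGroup V]
  [Module F V] (X : Subgroup (V ≃ₗ[F] V)) (Z : Finset (V × V)), Z.card < Nat.card F →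
    (∀ x y : V, x ≠ 0 → y ∉ F ∙ x → ∃ z ∈ Z, ∃ g ∈ X, g x = z.1 ∧ g y = z.2) →
    ∀ x y : V, x ≠ 0 → y ∉ F ∙ x → ∀ c : F, ∃ g ∈ X, g x = x ∧ g y = y + c • x

/-- Transitivity on lines. -/
def LinesStmt : Prop := ∀ (F : Type u) (K : Type v) [Field F] [Field K] [Algebra F K] [Finite F]
  [Finite K] (n q t : ℕ) (X : Subgroup (K ≃ₗ[F] K)), Ct n q t n X → Cnt q t n X → Nu t X →
    ∀ x y x' y' : K, x ≠ 0 → y ∉ F ∙ x → x' ≠ 0 → y' ∉ F ∙ x' →
      ∃ g ∈ X, g x ∈ Submodule.span F {x', y'} ∧ g y ∈ Submodule.span F {x', y'}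

/-- Transitivity on independent pairs. -/
def FinStmt : Prop := ∀ (F : Type u) (K : Type v) [Field F] [Field K] [Algebra F K] [Finite F]
  [Finite K] (n q t R : ℕ) (X : Subgroup (K ≃ₗ[F] K)), Ct n q t R X → Cnt q t R X → Nu t X →
    Two X

/-- The standing hypotheses hold for an overgroup in `SL`, extended by the scalars. -/
def CtStmt : Prop := ∀ (F : Type u) (K : Type v) [Field F] [Field K] [Algebra F K] [Finite F]
  [Finite K] (M X : Subgroup (K ≃ₗ[F] K)), (finrank F K).Prime → 13 ≤ finrank F K →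
    (∀ g ∈ M, LinearMap.det (g : K →ₗ[F] K) = 1) →
    (∀ g : K ≃ₗ[F] K, LinearMap.det (g : K →ₗ[F] K) = 1 → Nm g → g ∈ M) →
    (∀ g, g ∈ X ↔ ∃ m ∈ M, ∃ c : F, c ≠ 0 ∧ ∀ x, g x = c • m x) →
    ∃ t R, Ct (finrank F K) (Nat.card F) t R X

/-- A symmetric ternary relation whose sections are hyperplanes comes from a trilinear form. -/
def TriStmt : Prop := ∀ (F : Type u) (V : Type v) [Field F] [Finite F] [AddCommGroup V]
  [Module F V] [Finite V] (Z : V → V → V → Prop), 3 ≤ Nat.card F → 4 ≤ finrank F V →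
    (∀ x y z, Z x y z → Z y x z) → (∀ x y z, Z x y z → Z x z y) →
    (∀ x y z, y ∈ F ∙ x → Z x y z) →
    (∀ x y, x ≠ 0 → y ∉ F ∙ x → ∃ φ : V →ₗ[F] F, φ ≠ 0 ∧ ∀ z, Z x y z ↔ φ z = 0) →
    ∃ f : V →ₗ[F] V →ₗ[F] V →ₗ[F] F, (∀ x z, f x x z = 0) ∧ (∀ x y, f x y y = 0) ∧
      ∀ x y, x ≠ 0 → y ∉ F ∙ x → ∃ z, f x y z ≠ 0

/-- There is no alternating trilinear form without singular lines in dimension at least four. -/
def NoFormStmt : Prop := ∀ (F : Type u) (V : Type v) [Field F] [Finite F] [AddCommGroup V]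
  [Module F V] [Finite V] (f : V →ₗ[F] V →ₗ[F] V →ₗ[F] F), 4 ≤ finrank F V →
    (∀ x z, f x x z = 0) → (∀ x y, f x y y = 0) →
    (∀ x y, x ≠ 0 → y ∉ F ∙ x → ∃ z, f x y z ≠ 0) → False

end Cfsg.Agent.H77.Sg
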