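import Cfsg.Agent.H77.CkE
import Cfsg.Agent.H77.SgDefs

/-!
The middle case with parameter two and the case of parameter one are impossible.
-/

set_option autoImplicit false

namespace Cfsg.Agent.H77.Ck

open Module

universe u v

theorem zero_or_one {F : Type*} [Field F] [Finite F] (h : Nat.card F = 2) (a : F) :
    a = 0 ∨ a = 1 := by
  obtain ⟨y, -, hy⟩ := (Nat.card_eq_two_iff' (0 : F)).1 h
  by_cases e : a = 0
  · exact Or.inl e
  · exact Or.inr ((hy a e).trans (hy 1 one_ne_zero).symm)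

theorem tri2 {F V : Type*} [Field F] [Finite F] [AddCommGroup V] [Module F V]
    (Z : V → V → V → Prop) (h : Nat.card F = 2) (z1 : ∀ x y z, Z x y z → Z y x z)
    (z2 : ∀ x y z, Z x y z → Z x z y) (z3 : ∀ x y z, y ∈ F ∙ x → Z x y z)
    (z4 : ∀ x y, x ≠ 0 → y ∉ F ∙ x → ∃ φ : V →ₗ[F] F, φ ≠ 0 ∧ ∀ z, Z x y z ↔ φ z = 0) :
    ∃ f : V →ₗ[F] V →ₗ[F] V →ₗ[F] F, (∀ x z, f x x z = 0) ∧ (∀ x y, f x y y = 0) ∧
      ∀ x y, x ≠ 0 → y ∉ F ∙ x → ∃ z, f x y z ≠ 0 := by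
  classical
  let f : V → V → V → F := fun x y z => if Z x y z then 0 else 1
  have f1 : ∀ x y, ∃ φ : V →ₗ[F] F, ∀ z, f x y z = φ z := by
    intro x y
    by_cases a : x ≠ 0 ∧ y ∉ F ∙ x
    · obtain ⟨φ, -, e⟩ := z4 x y a.1 a.2
      refine ⟨φ, fun z => ?_⟩
      rcases zero_or_one h (φ z) with b | b <;> simp [f, e, b]
    · refine ⟨0, fun z => if_pos ?_⟩
      by_cases b : x = 0
      · exact z1 _ _ _ (z3 _ _ _ (b ▸ Submodule.zero_mem _))
      · exact z3 _ _ _ (by tauto)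
  choose l hl using f1
  have s1 : ∀ x y z, l x y z = l y x z := fun x y z => by
    simp only [← hl, f, (⟨z1 x y z, z1 y x z⟩ : Z x y z ↔ Z y x z)]
  have s2 : ∀ x y z, l x y z = l x z y := fun x y z => by
    simp only [← hl, f, (⟨z2 x y z, z2 x z y⟩ : Z x y z ↔ Z x z y)]
  have s3 : ∀ x y z, l x y z = l y z x := fun x y z => by rw [s1, s2]
  refine ⟨LinearMap.mk₂ F l (fun a c y => LinearMap.ext fun z => ?_)
    (fun a c y => LinearMap.ext fun z => ?_) (fun a c y => LinearMap.ext fun z => ?_)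
    (fun a c y => LinearMap.ext fun z => ?_), fun x z => ?_, fun x y => ?_, fun x y hx hy => ?_⟩
  · rw [LinearMap.add_apply, s3, map_add, s3 a, s3 c]
  · rw [LinearMap.smul_apply, s3, map_smul, s3 c]
  · rw [LinearMap.add_apply, s2, map_add, s2 a c, s2 a y]
  · rw [LinearMap.smul_apply, s2, map_smul, s2 c y]
  · exact (hl x x z).symm.trans (if_pos (z3 _ _ _ (x_sp1 x)))
  · exact (s3 x y y).trans ((hl y y x).symm.trans (if_pos (z3 _ _ _ (x_sp1 y))))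
  · obtain ⟨φ, h1, h2⟩ := z4 x y hx hy
    by_contra a
    push Not at a
    refine h1 (LinearMap.ext fun z => (h2 z).1 ?_)
    by_contra b
    exact one_ne_zero ((if_neg b).symm.trans ((hl x y z).trans (a z)))

theorem Sys.Hyp.not_one (tri : Sg.TriStmt.{u, v}) (nof : Sg.NoFormStmt.{u, v}) {F : Type u}
    {V : Type v} {G U : Type*} [Field F] [Group G] [AddCommGroup V] [Module F V] [AddCommGroup U]
    [Module F U] [DistribMulAction G V] [DistribMulAction G U] {S : Sys F G V U}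
    [SMulCommClass G F V] [Finite F] [Finite G] [Finite V] [Finite U] (h : S.Hyp) (p : S.Par 1)
    (h16 : Nat.card F ^ 4 ≤ Nat.card V) : False := by
  let Z : V → V → V → Prop := fun x y z =>
    x ≠ 0 → y ∉ F ∙ x → z ∈ S.flip.ann (S.N (sp2 F x y))
  have z1 : ∀ x y z, Z x y z → Z y x z := fun x y z a hy hx => by
    rw [sp2_comm]; exact a (ne0_of hx) (sp1_symm hy hx)
  have z2 : ∀ x y z, Z x y z → Z x z y := fun x y z a hx hz => by
    by_cases b : y ∈ F ∙ x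
    · exact fun φ hφ => hφ.2 y (sp1_le_sp2 _ _ b)
    · exact h.bsym hx b hz (a hx b)
  have z3 : ∀ x y z, y ∈ F ∙ x → Z x y z := fun x y z a _ b => absurd a b
  have z4 : ∀ x y, x ≠ 0 → y ∉ F ∙ x → ∃ φ : V →ₗ[F] F, φ ≠ 0 ∧ ∀ z, Z x y z ↔ φ z = 0 := by
    intro x y hx hy
    obtain ⟨φ, h1, h2⟩ := exists_ne0 (A := S.N (sp2 F x y))
      (by rw [p.cN hx hy, pow_one]; exact q2 F)
    have e : (F ∙ φ) = S.N (sp2 F x y) :=
      eq_of_cd (sp1_le h1) (by rw [cd_sp1 h2, p.cN hx hy, pow_one])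
    refine ⟨S.b φ, fun a => h2 (S.sepU φ fun v => by simp [a]), fun z => ?_⟩
    simp [Z, ← e, Sys.mem_ann_sp1, hx, hy]
  have hn : 4 ≤ finrank F V := by
    rw [Module.natCard_eq_pow_finrank (K := F) (V := V)] at h16
    exact (Nat.pow_le_pow_iff_right (q2 F)).1 h16
  rcases (q2 F).eq_or_lt with a | a
  · obtain ⟨f, h1, h2, h3⟩ := tri2 Z a.symm z1 z2 z3 z4
    exact nof F V f hn h1 h2 h3
  · obtain ⟨f, h1, h2, h3⟩ := tri F V Z a hn z1 z2 z3 z4
    exact nof F V f hn h1 h2 h3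

variable {F G V U : Type*} [Field F] [Group G] [AddCommGroup V] [Module F V] [AddCommGroup U]
    [Module F U] [DistribMulAction G V] [DistribMulAction G U]

namespace Sys
variable {S : Sys F G V U} [SMulCommClass G F V] [SMulCommClass G F U] [Finite F] [Finite G]
  [Finite V] [Finite U]

omit [SMulCommClass G F V] [SMulCommClass G F U] [Finite F] [Finite G] [Finite V] [Finite U] in
theorem Mid.cT (m : S.Mid 2) {x : V} {φ : U} (hx : x ≠ 0) (hφ : φ ≠ 0) (e : S.b φ x = 0) :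
    cd (S.T x φ) = Nat.card F ^ 3 := by rw [m.p.cT hx hφ e]; ring

theorem Mid.NN (m : S.Mid 2) {x y : V} {φ ψ : U} (hx : x ≠ 0) (hy : y ∉ F ∙ x) (hφ : φ ≠ 0)
    (hψ : ψ ∉ F ∙ φ) (h1 : φ ∈ S.N (sp2 F x y)) (h2 : ψ ∈ S.N (sp2 F x y)) :
    sp2 F φ ψ = S.N (sp2 F x y) ∧ sp2 F x y = S.flip.N (sp2 F φ ψ) ∧
      sp2 F x y = S.T x φ ⊓ S.T x ψ := by
  have h3 := m.flip.r3 hx hy hφ hψ h1 h2
  have h4 : sp2 F x y = S.flip.N (sp2 F φ ψ) :=
    eq_of_cd (sp2_le h3.1 h3.2) (by rw [m.q.cN hφ hψ, cd_sp2 hx hy])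
  exact ⟨eq_of_cd (sp2_le h1 h2) (by rw [m.p.cN hx hy, cd_sp2 hφ hψ]), h4,
    h4.trans (m.r2 hφ hψ hx h3.1)⟩

theorem Mid.theta (m : S.Mid 2) {x y : V} {φ : U} (hx : x ≠ 0) (hy : y ∉ F ∙ x) (hφ : φ ≠ 0)
    (hN : φ ∈ S.N (sp2 F x y)) : ∃ χ ∈ S.N (sp2 F x y), χ ∉ F ∙ φ ∧ S.T x χ = S.T y φ := by
  have y0 := ne0_of hy
  have hx' := sp1_symm hx hy
  have e := N_y hN
  have h1 : x ∈ S.T y φ := (m.NT y0 hx' hφ e).1 (by rwa [sp2_comm])
  obtain ⟨z, hz, hz'⟩ := exists_nsp2 (A := S.T y φ) (m.p.big le_rfl y0 hφ e) y x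
  obtain ⟨g, g1, g2, g3⟩ := m.h.f6 (ne0_of hz') (sp1_symm y0 (nsp1_of hz'))
    (by rw [sp2_comm]; exact sp2_exch hx' hz')
  have e' : S.b (g • φ) x = 0 := by rw [← g2, S.inv, e]
  have a1 : y ∈ S.T x (g • φ) := by
    have := T_smul' g h1
    rw [g2, g3] at this
    simpa using this
  have a2 : z ∈ S.T x (g • φ) := by
    have := T_smul' g hz
    rwa [g2, g1] at this
  have hT : S.T x (g • φ) = S.T y φ := by
    rw [← eq_sp3 y0 hx' hz' (x_T e) h1 hz (m.cT y0 hφ e)]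
    exact (eq_sp3 y0 hx' hz' a1 (x_T e') a2 (m.cT hx (smul_ne0 g hφ) e')).symm
  refine ⟨g • φ, (m.NT hx hy (smul_ne0 g hφ) e').2 a1, fun b => ?_, hT⟩
  rw [T_congr b (smul_ne0 g hφ)] at hT
  exact m.b1 y0 hφ e h1 hx' hT

theorem Mid.fixN (m : S.Mid 2) {x y : V} {φ : U} (hx : x ≠ 0) (hy : y ∉ F ∙ x) (hφ : φ ≠ 0)
    (hN : φ ∈ S.N (sp2 F x y)) {g : G} (g1 : g • x = x) (g2 : g • y = y) (g3 : g • φ = φ) :
    ∀ ψ ∈ S.N (sp2 F x y), g • ψ = ψ := by
  have key : ∀ w, w ∉ F ∙ x → g • w = w → ∀ χ ∈ S.N (sp2 F x w), χ ≠ 0 → S.T x χ = S.T w φ →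
      g • χ ∈ F ∙ χ := by
    intro w hw gw χ h1 h2 h3
    by_contra a
    have h4 := N_smul' g h1
    rw [g1, gw] at h4
    have h5 : S.T x (g • χ) = S.T x χ := by
      ext v
      have a1 := T_smul (S := S) g (x := x) (φ := χ) (y := g⁻¹ • v)
      have a2 := T_smul (S := S) g (x := w) (φ := φ) (y := g⁻¹ • v)
      rw [smul_inv_smul, g1] at a1
      rw [smul_inv_smul, gw, g3] at a2
      rw [a1, h3, a2]
    have h6 := congrArg cd (m.NN hx hw h2 a h1 h4).2.2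
    rw [h5, inf_idem, m.cT hx h2 (N_x h1), cd_sp2 hx hw] at h6
    exact absurd h6 (qpow_lt (by norm_num)).ne
  have n := add_nmem (x_sp1 x) hy
  have c1 : sp2 F x (y + x) = sp2 F x y :=
    sp2_of_mem (Submodule.add_mem _ (y_sp2 _ _) (x_sp2 _ _)) n
  obtain ⟨χ, b1, b2, b3⟩ := m.theta hx hy hφ hN
  obtain ⟨χ', d1, d2, d3⟩ := m.theta hx n hφ (c1 ▸ hN)
  obtain ⟨a, ha⟩ := mem_sp1.1 (key y hy g2 χ b1 (ne0_of b2) b3)
  obtain ⟨a', ha'⟩ := mem_sp1.1 (key _ n (by rw [smul_add, g1, g2]) χ' d1 (ne0_of d2) d3)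
  have hD := (m.NN hx hy hφ b2 hN b1).1
  rw [c1, ← hD] at d1
  obtain ⟨s, r, rfl⟩ := mem_sp2.1 d1
  have r0 : r ≠ 0 := by rintro rfl; exact d2 (by simpa using smul_sp1 s φ)
  have s0 : s ≠ 0 := by
    rintro rfl
    rw [T_congr (φ := χ) (by simpa using smul_sp1 r χ) (ne0_of d2), b3] at d3
    have h1 : x ∈ S.T y φ := b3 ▸ x_T (N_x b1)
    exact m.b1 (ne0_of hy) hφ (N_y hN) (Submodule.add_mem _ (x_T (N_y hN)) h1)
      (by rw [add_comm]; exact add_nmem (x_sp1 y) (sp1_symm hx hy)) d3.symm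
  rw [smul_add g, gs, gs, g3, ← ha] at ha'
  have e1 : (r * a - a' * r) • χ = (a' * s - s) • φ := by linear_combination (norm := module) -ha'
  have e2 : r * a - a' * r = 0 := by
    by_contra b
    exact smul_nmem b b2 (e1 ▸ smul_sp1 _ _)
  rw [e2, zero_smul, eq_comm, smul_eq_zero, or_iff_left hφ] at e1
  have e3 : a' = 1 := mul_right_cancel₀ s0 (by linear_combination e1)
  have e4 : a = 1 := mul_left_cancel₀ r0 (by rw [e3] at e2; linear_combination e2)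
  rw [e4, one_smul] at ha
  intro ψ hψ
  exact mem_fixer_sp2.2 ⟨g3, ha.symm⟩ ψ (hD ▸ hψ)

theorem Mid.moveN (m : S.Mid 2) {x y : V} (hx : x ≠ 0) (hy : y ∉ F ∙ x) {g : G} (g1 : g • x = x)
    (g2 : g • y ≠ y) : ∃ θ ∈ S.N (sp2 F x y), g • θ ≠ θ := by
  by_contra a
  push Not at a
  have c := m.p.cN hx hy
  obtain ⟨φ, h1, hφ⟩ := exists_ne0 (A := S.N (sp2 F x y))
    (by rw [c]; exact qpow_lt (a := 0) (by norm_num))
  obtain ⟨ψ, h2, hψ⟩ := exists_nsp1 (A := S.N (sp2 F x y)) (by rw [c]; exact qq F) φ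
  have e := (m.NN hx hy hφ hψ h1 h2).2.1
  exact g2 (m.flip.fixN hφ hψ hx (e ▸ x_sp2 x y) (a φ h1) (a ψ h2) g1 y (e ▸ y_sp2 x y))

theorem Mid.false (m : S.Mid 2) : False := by
  obtain ⟨x, y, φ, hx, hy, hφ, hN⟩ := m.h.exists_N m.h8
  obtain ⟨v, ev⟩ := S.flip.ex1 hφ
  have ev : S.b φ v = 1 := ev
  have hv : v ∉ sp2 F x y := fun a => by rw [hN.2 v a] at ev; exact zero_ne_one ev
  let Γ : Subgroup G :=
    { carrier := {g | g • x = x ∧ g • y = y ∧ g • v - v ∈ F ∙ x}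
      one_mem' := ⟨one_smul _ _, one_smul _ _, by simp⟩
      mul_mem' := fun {g h} a b => ⟨by rw [mul_smul, b.1, a.1], by rw [mul_smul, b.2.1, a.2.1], by
        have := Submodule.add_mem _ b.2.2 a.2.2
        rw [← fix_sp1 a.1 b.2.2, smul_sub] at this
        simpa [mul_smul] using this⟩
      inv_mem' := fun {g} a => ⟨inv_fix a.1, inv_fix a.2.1, by
        have := Submodule.neg_mem _ a.2.2
        rw [← fix_sp1 (inv_fix a.1) this] at this
        simpa [smul_sub] using this⟩ }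
  obtain ⟨P, hP⟩ := exists_syl (pF F) Γ
  obtain ⟨k, hk⟩ := cd_ppow (F ∙ x)
  have hX : {w | w - v ∈ F ∙ x}.ncard = ringChar F ^ k := by
    rw [← hk, cd, ← Set.ncard_image_of_injective (F ∙ x : Submodule F V) (add_left_injective v)]
    congr 1; ext w
    exact ⟨fun a => ⟨w - v, a, by simp⟩, by rintro ⟨u, a, rfl⟩; simpa using a⟩
  have gl : ∀ {g : G}, g • x = x → ∀ w, w - v ∈ F ∙ x → g • w - w = g • v - v := fun g1 w hw => by
    have := fix_sp1 g1 hw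
    rw [smul_sub] at this
    linear_combination (norm := abel) this
  obtain ⟨a, ha, av⟩ := hP.tr (pF F) hX (fun g hg w hw => by
      have := Submodule.add_mem _ hg.2.2 hw
      rw [← gl hg.1 w hw] at this
      simpa using this)
    (fun w hw w' hw' => by
      have l : w' - w ∈ F ∙ x := by
        simpa using Submodule.sub_mem (F ∙ x) (x := w' - v) (y := w - v) hw' hw
      obtain ⟨g, hg, e⟩ := m.h.f5 hx hy (z := w)
        (by simpa using add_nmem (sp1_le_sp2 x y hw) hv) (sp1_le_sp2 x y l)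
      exact ⟨g, ⟨hg.1, hg.2, by rw [← gl hg.1 w hw, e]; simpa using l⟩, by rw [e]; abel⟩)
    v (by simp) (v + x) (by simp)
  obtain ⟨a1, a2, -⟩ := hP.1 ha
  obtain ⟨ψ, hψ, ψ0, hψ'⟩ := fix_ne0 hP.2.1 (A := S.N (sp2 F x y))
    (by rw [m.p.cN hx hy]; exact qpow_lt (a := 0) (by norm_num))
    (fun g hg v hv => by rw [← (hP.1 hg).1, ← (hP.1 hg).2.1, N_smul]; exact hv)
  have fx := m.fixN hx hy ψ0 hψ a1 a2 (hψ' a ha)
  have v1 := nsp1_of hv
  have v2 : y + v ∉ F ∙ x := nsp1_of (by rw [add_comm]; exact add_nmem (y_sp2 x y) hv)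
  have st : ∀ w, w ∉ F ∙ x → a • w = w + x → ∀ θ ∈ S.N (sp2 F x w), a • θ - θ ∈ S.N (sp2 F x w) :=
    fun w hw aw θ hθ => by
      have := N_smul' a hθ
      rw [a1, aw, sp2_of_mem (Submodule.add_mem _ (y_sp2 _ _) (x_sp2 _ _))
        (add_nmem (x_sp1 x) hw)] at this
      exact Submodule.sub_mem _ this hθ
  have aw : a • (y + v) = y + v + x := by rw [smul_add, a2, av, add_assoc]
  obtain ⟨θ, h1, h2⟩ := m.moveN hx v2 a1 (by rw [aw]; simpa using hx)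
  obtain ⟨θ₀, h3, θ₁, h4, rfl⟩ := Submodule.mem_sup.1 (m.h.nsum hx hy v1 v2 h1)
  have h5 := st _ v2 aw _ h1
  have h6 := st _ v1 av _ h4
  have e : a • (θ₀ + θ₁) - (θ₀ + θ₁) = a • θ₁ - θ₁ := by rw [smul_add, fx _ h3]; abel
  have ω0 := sub_ne_zero.2 h2
  rw [e] at h5 ω0
  have t1 := m.h.N_T hx v1 ω0 h6
  have t2 := (Submodule.add_mem_iff_left _ t1).1 (m.h.N_T hx v2 ω0 h5)
  have t3 := (m.NT hx hy ω0 (N_x h6)).2 t2
  have := m.s1 hx ω0 (N_x h6) t1 (m.flip.r1 hx hy ω0 t3 hN)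
  rw [ev] at this
  exact one_ne_zero this

end Sys

end Cfsg.Agent.H77.Ck
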