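import Cfsg.Agent.H77.CkF

/-!
A group transitive on independent pairs of vectors induces all transvections.
-/

set_option autoImplicit false

namespace Cfsg.Agent.H77.Ck

open Module

/-- The dual space. -/
def Du (F V : Type*) [Field F] [AddCommGroup V] [Module F V] := V →ₗ[F] F

section du
variable (F V : Type*) [Field F] [AddCommGroup V] [Module F V]

instance : AddCommGroup (Du F V) := inferInstanceAs (AddCommGroup (V →ₗ[F] F))
instance : Module F (Du F V) := inferInstanceAs (Module F (V →ₗ[F] F))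
instance [Finite F] [Finite V] : Finite (Du F V) :=
  (Finite.of_injective _ DFunLike.coe_injective : Finite (V →ₗ[F] F))

variable {F V} in
/-- Evaluation of a functional. -/
def Du.ev (f : Du F V) : V →ₗ[F] F := f

variable (G : Type*) [Group G] [DistribMulAction G V] [SMulCommClass G F V]

instance : DistribMulAction G (Du F V) where
  smul g f := f.ev.comp (DistribSMul.toLinearMap F V g⁻¹)
  one_smul f := LinearMap.ext fun v => congrArg f.ev (by simp)
  mul_smul g h f := LinearMap.ext fun v => congrArg f.ev (by simp [mul_smul])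
  smul_zero _ := rfl
  smul_add _ _ _ := rfl

instance : SMulCommClass G F (Du F V) := ⟨fun _ _ _ => rfl⟩

/-- A space paired with its dual. -/
def duSys : Sys F G V (Du F V) where
  b := (LinearMap.id : (V →ₗ[F] F) →ₗ[F] (V →ₗ[F] F))
  inv g f v := congrArg f.ev (inv_smul_smul g v)
  sepV v h := (Module.forall_dual_apply_eq_zero_iff F v).1 h
  sepU _ h := LinearMap.ext h

end du

variable {F G V U : Type*} [Field F] [Group G] [AddCommGroup V] [Module F V] [AddCommGroup U]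
    [Module F U] [DistribMulAction G V] [DistribMulAction G U]

namespace Sys

/-- All transvections are induced. -/
def Full (S : Sys F G V U) : Prop :=
  ∀ v φ, S.b φ v = 0 → ∃ g : G, ∀ w, g • w = w + S.b φ w • v

/-- The annihilator of a vector as a type. -/
def Sub (S : Sys F G V U) (x : V) : Submodule F U := S.flip.ker x

instance (S : Sys F G V U) (x : V) : DistribMulAction (MulAction.stabilizer G x) (S.Sub x) where
  smul g φ := ⟨(g : G) • φ.1, by
    change S.b _ x = 0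
    rw [S.fixr (show (g : G) • x = x from g.2)]; exact φ.2⟩
  one_smul φ := Subtype.ext (one_smul G φ.1)
  mul_smul g h φ := Subtype.ext (mul_smul (g : G) (h : G) φ.1)
  smul_zero g := Subtype.ext (smul_zero (g : G))
  smul_add g φ ψ := Subtype.ext (smul_add (g : G) φ.1 ψ.1)

instance [SMulCommClass G F U] (S : Sys F G V U) (x : V) :
    SMulCommClass (MulAction.stabilizer G x) F (S.Sub x) :=
  ⟨fun g c φ => Subtype.ext (smul_comm (g : G) c φ.1)⟩

/-- All transvections are induced modulo a fixed vector. -/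
def KF (S : Sys F G V U) (x : V) : Prop :=
  ∀ v θ, S.b θ x = 0 → S.b θ v = 0 → ∃ g : G, g • x = x ∧ ∀ w, g • w - w - S.b θ w • v ∈ F ∙ x

/-- A vector as a functional on the annihilator of `x`. -/
def evs (S : Sys F G V U) (x v : V) : Du F (S.Sub x) := (S.b.flip v).comp (S.Sub x).subtype

variable {S : Sys F G V U}

theorem Full.of_flip (h : S.flip.Full) : S.Full := by
  intro v φ e
  obtain ⟨g, hg⟩ := h φ v e
  exact ⟨g⁻¹, fun w => S.extV fun ψ => by rw [← S.invl, hg]; simp [mul_comm]⟩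

variable [SMulCommClass G F V] [SMulCommClass G F U] [Finite F] [Finite G] [Finite V] [Finite U]

omit [SMulCommClass G F U] in
theorem Hyp.tv0 (h : S.Hyp) {φ : U} (hφ : φ ≠ 0) {d : V} (hd : d ≠ 0) (e : S.b φ d = 0) {g : G}
    (hg : ∀ w, g • w = w + S.b φ w • d) : S.Full := by
  intro v ψ e'
  by_cases a : v = 0
  · exact ⟨1, by simp [a]⟩
  by_cases c : ψ = 0
  · exact ⟨1, by simp [c]⟩
  obtain ⟨k, rfl, rfl⟩ := h.pair hd a hφ c (e.trans e'.symm)
  refine ⟨k * g * k⁻¹, fun w => ?_⟩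
  rw [mul_smul, mul_smul, hg, smul_add, smul_inv_smul, gs, S.invl]

omit [SMulCommClass G F U] in
theorem Hyp.tv (h : S.Hyp) {φ : U} (hφ : φ ≠ 0) {g : G} (h1 : ∀ w, S.b φ w = 0 → g • w = w)
    {u : V} (h2 : g • u ≠ u) : S.Full := by
  obtain ⟨a, ea⟩ := S.flip.ex1 hφ
  have ea : S.b φ a = 1 := ea
  have e3 : ∀ w, g • w = w + S.b φ w • (g • a - a) := fun w => by
    have := h1 (w - S.b φ w • a) (by simp [ea])
    rw [smul_sub g, gs] at this
    generalize g • w = b1, g • a = b2 at this ⊢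
    linear_combination (norm := module) this
  generalize g • a - a = d at e3
  have d0 : d ≠ 0 := by rintro rfl; exact h2 (by simp [e3])
  by_cases b : S.b φ d = 0
  · exact h.tv0 hφ d0 b e3
  obtain ⟨m, hm, m0⟩ := exists_ne0 (A := S.ker φ) (by simpa using lt_cd_ker (k := 0) hφ h.big)
  have hm : S.b φ m = 0 := hm
  obtain ⟨k, k1, k2⟩ := h.pair d0 (x' := d + m)
    (fun c => b (by simpa [hm] using congrArg (S.b φ) c)) hφ hφ (by simp [hm])
  refine h.tv0 hφ m0 hm (g := g⁻¹ * (k * g * k⁻¹)) fun w => ?_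
  rw [mul_smul, inv_smul_eq_iff, mul_smul, mul_smul, e3, smul_add, smul_inv_smul, gs, k1, ← S.invl,
    k2, smul_add g, gs, h1 m hm, e3 w, smul_add, add_assoc]

theorem Hyp.tv' (h : S.Hyp) {x : V} (hx : x ≠ 0) {g : G} (h1 : ∀ w, g • w - w ∈ F ∙ x)
    {u : V} (h2 : g • u ≠ u) : S.Full := by
  have k : ∀ ψ w, S.b (g⁻¹ • ψ) w = S.b ψ (g • w) := fun ψ w => (S.invr g ψ w).symm
  obtain ⟨ψ, hψ⟩ := S.ex1 (sub_ne_zero.2 h2)
  refine (h.flip.tv hx (g := g⁻¹) (fun θ hθ => S.flip.extV fun w => ?_) (u := ψ) fun a => ?_).of_flip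
  · have := S.mem_ann_sp1.2 hθ _ (h1 w)
    rw [flip_b, flip_b, k]
    exact sub_eq_zero.1 (by simpa using this)
  · rw [map_sub, ← k, a] at hψ
    simp at hψ

omit [Finite G] [SMulCommClass G F V] in
theorem KF_of {x : V} (h : (duSys F (S.Sub x) (MulAction.stabilizer G x)).Full) : S.KF x := by
  intro v θ e1 e2
  obtain ⟨g, hg⟩ := h ⟨θ, e1⟩ (S.evs x v) e2
  refine ⟨(g : G)⁻¹, inv_fix g.2, fun w => ?_⟩
  by_contra a
  obtain ⟨ψ, h1, h2⟩ := S.sep a
  have : (g : G) • ψ = ψ + S.b ψ v • θ := congrArg Subtype.val (hg ⟨ψ, S.mem_ann_sp1.1 h1⟩)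
  rw [map_sub, map_sub, ← S.invl, this] at h2
  simp [mul_comm] at h2

theorem Hyp.sub (h : S.Hyp) (h8 : Nat.card F ^ 4 ≤ Nat.card V) {x : V} (hx : x ≠ 0)
    (hT : ∀ φ, φ ≠ 0 → S.b φ x = 0 → S.T x φ = S.ker φ) :
    (duSys F (S.Sub x) (MulAction.stabilizer G x)).Hyp := by
  constructor
  · intro φ ψ φ' ψ' h1 h2 h3 h4
    have n0 : ∀ {φ : S.Sub x}, φ ≠ 0 → φ.1 ≠ 0 := fun a b => a (Subtype.ext b)
    have n1 : ∀ {φ ψ : S.Sub x}, ψ ∉ F ∙ φ → ψ.1 ∉ F ∙ φ.1 := fun a b => by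
      obtain ⟨c, hc⟩ := mem_sp1.1 b
      exact a (mem_sp1.2 ⟨c, Subtype.ext hc⟩)
    have n2 : ∀ {θ : U}, θ ∉ F ∙ φ'.1 → θ ∉ S.ann (S.T x φ'.1) := fun a => by
      rw [hT _ (n0 h3) φ'.2]; exact nann_ker a
    obtain ⟨g, e1, e2⟩ := h.f2 hx (n0 h1) (n0 h3) (φ.2.trans φ'.2.symm)
    obtain ⟨k, hk, e3⟩ := T_trU (ψ := g • ψ.1)
      (by rw [hT _ (n0 h3) φ'.2]; exact lt_cd_ker (n0 h3) h8) (by rw [S.fixr e1]; exact ψ.2) ψ'.2
      (n2 (by rw [← e2, smul_mem_sp1]; exact n1 h2)) (n2 (n1 h4))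
    refine ⟨⟨k * g, ?_⟩, Subtype.ext ?_, Subtype.ext ?_⟩
    · rw [MulAction.mem_stabilizer_iff, mul_smul, e1, hk.1]
    · exact (mul_smul k g φ.1).trans (by rw [e2, hk.2])
    · exact (mul_smul k g ψ.1).trans e3
  · exact (lt_cd_ker (S := S.flip) hx (by rw [S.card_eq]; exact h8)).le

theorem Hyp.full_of_KF (h : S.Hyp) (h32 : Nat.card F ^ 5 ≤ Nat.card V) {x : V} (hx : x ≠ 0)
    (hK : S.KF x) : S.Full := by
  obtain ⟨φ, eφ, hφ⟩ := exists_ne0 (A := S.flip.ker x)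
    (by simpa using lt_cd_ker (S := S.flip) (k := 0) hx h.flip.big)
  have eφ : S.b φ x = 0 := eφ
  have c2 := lt_cd_ker (S := S) (k := 3) hφ h32
  obtain ⟨y, ey, hy⟩ := exists_nsp1 (A := S.ker φ)
    ((by simpa using qpow_le (F := F) (a := 1) (c := 3) (by norm_num) :
      Nat.card F ≤ Nat.card F ^ 3).trans_lt c2) x
  have ey : S.b φ y = 0 := ey
  obtain ⟨g, g1, g2⟩ := hK y φ eφ ey
  by_cases a : ∀ w, S.b φ w = 0 → g • w = w
  · obtain ⟨u, hu⟩ := S.flip.ex1 hφ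
    refine h.tv hφ a (u := u) fun b => hy ?_
    simpa [b, show S.b φ u = 1 from hu] using g2 u
  push Not at a
  obtain ⟨z, ez, hz⟩ := a
  have gz : g • z - z ∈ F ∙ x := by simpa [ez] using g2 z
  obtain ⟨w, ew, hw⟩ := exists_not_mem (A := sp2 F x y ⊔ (F ∙ z)) (B := S.ker φ) (by
    refine ((cd_sup_sp1_le _ _).trans ?_).trans_lt c2
    rw [cd_sp2 hx hy, pow_succ' _ 2])
  have ew : S.b φ w = 0 := ew
  obtain ⟨ψ, h1, e1⟩ := S.sep hw
  rw [ann_sup, Submodule.mem_inf, mem_ann_sp2, mem_ann_sp1] at h1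
  obtain ⟨k, k1, k2⟩ := hK z ψ h1.1.1 h1.2
  have key : ∀ v, (g * k) • v - (k * g) • v =
      S.b ψ v • (g • z - z) - S.b φ v • (k • y - y) := by
    intro v
    have a3 := fix_sp1 k1 (g2 v)
    have a4 := fix_sp1 g1 (k2 v)
    simp only [smul_sub, gs] at a3 a4
    rw [mul_smul, mul_smul]
    generalize g • k • v = b1, k • g • v = b2 at a3 a4 ⊢
    generalize g • v = b3, k • v = b4, g • z = b5, k • y = b6 at a3 a4 ⊢
    linear_combination (norm := module) a4 - a3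
  have kg : (k * g)⁻¹ • x = x := inv_fix (by rw [mul_smul, g1, k1])
  have ky : k • y - y ∈ F ∙ x := by simpa [h1.1.2] using k2 y
  refine h.tv' hx (g := (k * g)⁻¹ * (g * k)) (fun v => ?_) (u := w) fun b => hz ?_
  · have : ((k * g)⁻¹ * (g * k)) • v - v = (k * g)⁻¹ • ((g * k) • v - (k * g) • v) := by
      rw [smul_sub, inv_smul_smul, mul_smul]
    have m : S.b ψ v • (g • z - z) - S.b φ v • (k • y - y) ∈ F ∙ x :=
      Submodule.sub_mem _ (Submodule.smul_mem _ _ gz) (Submodule.smul_mem _ _ ky)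
    rw [this, key, fix_sp1 kg m]; exact m
  · rw [mul_smul, inv_smul_eq_iff] at b
    have := key w
    rw [b, sub_self, e1, ew] at this
    exact sub_eq_zero.1 (by simpa using this.symm)

theorem Hyp.five (h : S.Hyp) (h32 : Nat.card V = Nat.card F ^ 5) {x : V} (hx : x ≠ 0)
    (hs : (duSys F (S.Sub x) (MulAction.stabilizer G x)).Hyp) : S.Full := by
  have hq := q2 F
  have c1 : cd (S.flip.ker x) = Nat.card F ^ 4 := by
    have := S.flip.cd_ker hx
    rw [S.card_eq, h32, pow_succ'] at this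
    exact Nat.eq_of_mul_eq_mul_left (by omega) this
  obtain ⟨P, hP⟩ := exists_syl (pF F) (MulAction.stabilizer G x)
  have Px : ∀ g ∈ P, g • x = x := fun g hg => hP.1 hg
  obtain ⟨φ₀, e0⟩ := S.ex1 hx
  have cX := S.flip.ncard_one (A := ⊤) (φ := x) (a := φ₀) trivial e0
  rw [top_inf_eq] at cX
  obtain ⟨j, hj⟩ := cd_ppow (S.flip.ker x)
  have t := hP.tr (pF F) (cX.trans hj)
    (fun g hg φ hφ => ⟨trivial, by rw [flip_b, S.fixr hg]; exact hφ.2⟩)
    (fun φ h1 ψ h2 => h.f2 hx (ne0_of_one h1.2) (ne0_of_one h2.2) (h1.2.trans h2.2.symm))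
  have iP : ∀ g ∈ P, ∀ φ ∈ S.flip.ker x, g • φ ∈ S.flip.ker x := fun g hg φ hφ => by
    rw [mem_ker, flip_b, S.fixr (Px g hg)]; exact hφ
  obtain ⟨ψ₁, m1, n1, f1⟩ := fix_ne0 hP.2.1 (A := S.flip.ker x)
    (by rw [c1]; exact qpow_lt (a := 0) (by norm_num)) iP
  obtain ⟨ψ₂, m2, n2, f2⟩ := S.flip.fix_pair hP.2.1 n1 f1 m1 iP
    (by rw [c1]; simpa using qpow_lt (F := F) (a := 1) (c := 4) (by norm_num))
  have iD : ∀ g ∈ P, ∀ φ ∈ sp2 F ψ₁ ψ₂, g • φ ∈ sp2 F ψ₁ ψ₂ := fun g hg φ hφ => by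
    have := (smul_mem_sp2 (g := g)).2 hφ
    rw [f1 g hg] at this
    refine sp2_le (x_sp2 _ _) ?_ this
    simpa using Submodule.add_mem _ (sp1_le_sp2 ψ₁ ψ₂ (f2 g hg)) (y_sp2 ψ₁ ψ₂)
  have c3' : ∀ {a : ℕ}, a * Nat.card F ^ 2 = Nat.card V → a = Nat.card F ^ 3 := fun e =>
    Nat.eq_of_mul_eq_mul_right (show 0 < Nat.card F ^ 2 by positivity) (by rw [e, h32]; ring)
  have c2 := S.flip.cd_ann' (sp2 F ψ₁ ψ₂)
  rw [cd_sp2 n1 n2] at c2
  obtain ⟨y, my, ny, fy⟩ := S.fix_pair hP.2.1 hx Px (M := S.flip.ann (sp2 F ψ₁ ψ₂))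
    (S.flip.mem_ann_sp2.2 ⟨m1, m2⟩) (fun g hg v hv φ hφ => by
      rw [flip_b, S.invr]; exact hv _ (iD _ (P.inv_mem hg) φ hφ))
    (by rw [c3' c2]; simpa using qpow_lt (F := F) (a := 1) (c := 3) (by norm_num))
  have c3 := S.cd_ann (sp2 F x y)
  rw [cd_sp2 hx ny] at c3
  have c3 := c3' c3
  have le : sp2 F ψ₁ ψ₂ ≤ S.ann (sp2 F x y) := fun φ hφ =>
    S.mem_ann_sp2.2 ⟨sp2_le (A := S.flip.ker x) m1 m2 hφ, my φ hφ⟩
  obtain ⟨ψ₃, m3, n3⟩ := exists_nsp2 (A := S.ann (sp2 F x y))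
    (by rw [c3]; exact qpow_lt (by norm_num)) ψ₁ ψ₂
  choose! s s1 s2 using t φ₀ ⟨trivial, e0⟩
  obtain ⟨φ, h1, φ', h2, h3, h4⟩ := Set.exists_ne_map_eq_of_ncard_lt_of_maps_to
    (s := {φ | φ ∈ (⊤ : Submodule F U) ∧ S.flip.b x φ = 1})
    (t := ((F ∙ ψ₁ : Submodule F U) : Set U) ×ˢ {θ | θ ∈ S.ann (sp2 F x y) ∧ θ ∉ sp2 F ψ₁ ψ₂})
    (f := fun φ => (s φ • ψ₂ - ψ₂, s φ • ψ₃)) (by
      have c4 := cd_sp1 (F := F) n1
      rw [cd] at c4
      rw [cX, Set.ncard_prod, ncard_diff_sub le, cd_sp2 n1 n2, c4, c1, c3, pow_succ' _ 3]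
      have : 0 < Nat.card F ^ 2 := by positivity
      have : 0 < Nat.card F ^ 3 := by positivity
      exact Nat.mul_lt_mul_of_pos_left (by omega) (by omega))
    (fun φ hφ => ⟨f2 _ (s1 φ hφ), by
      have a := S.mem_ann_sp2.1 m3
      refine S.mem_ann_sp2.2 ⟨iP _ (s1 φ hφ) _ a.1, ?_⟩
      rw [S.invl]
      have := S.mem_ann_sp1.2 a.1 _ (fy _ (P.inv_mem (s1 φ hφ)))
      simpa [a.2] using this, fun a => n3 (by simpa using iD _ (P.inv_mem (s1 φ hφ)) _ a)⟩)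
  have hg := P.mul_mem (P.inv_mem (s1 φ' h2)) (s1 φ h1)
  have g0 : ((s φ')⁻¹ * s φ) • φ₀ ≠ φ₀ := fun a => h3 (by
    rw [mul_smul, inv_smul_eq_iff, s2 φ h1, s2 φ' h2] at a; exact a)
  have g2 : ((s φ')⁻¹ * s φ) • ψ₂ = ψ₂ := by
    rw [mul_smul, inv_smul_eq_iff]; exact sub_left_injective (congrArg Prod.fst h4)
  have g3 : ((s φ')⁻¹ * s φ) • ψ₃ = ψ₃ := by
    rw [mul_smul, inv_smul_eq_iff]; exact congrArg Prod.snd h4
  generalize (s φ')⁻¹ * s φ = g at *
  by_cases a : ∀ θ, S.b θ x = 0 → g • θ = θ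
  · exact (h.flip.tv hx a g0).of_flip
  push Not at a
  obtain ⟨θ, a1, a2⟩ := a
  refine h.full_of_KF h32.ge hx (KF_of (hs.tv (g := ⟨g, hP.1 hg⟩) (u := ⟨θ, a1⟩)
    (φ := S.evs x y) (fun b => ?_) (fun χ hχ => Subtype.ext ?_)
    fun b => a2 (congrArg Subtype.val b)))
  · obtain ⟨m, hm, e⟩ := S.sep ny
    have : S.b m y = 0 := congrArg (fun f : Du F (S.Sub x) => f.ev ⟨m, S.mem_ann_sp1.1 hm⟩) b
    rw [e] at this; exact one_ne_zero this
  · have b : χ.1 ∈ S.ann (sp2 F x y) := S.mem_ann_sp2.2 ⟨χ.2, hχ⟩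
    rw [← eq_sp3 n1 n2 n3 (le (x_sp2 _ _)) (le (y_sp2 _ _)) m3 c3] at b
    exact (sup_le (sp2_le (f1 g hg) g2) (sp1_le g3) : _ ≤ fixd F U g) b

end Sys

universe u w

theorem ck (tri : Sg.TriStmt.{u, u}) (nof : Sg.NoFormStmt.{u, u}) {F : Type u} [Field F]
    [Finite F] (n : ℕ) : ∀ (G : Type w) (V U : Type u) [Group G] [AddCommGroup V] [Module F V]
    [AddCommGroup U] [Module F U] [DistribMulAction G V] [DistribMulAction G U]
    [SMulCommClass G F V] [SMulCommClass G F U] [Finite G] [Finite V] [Finite U]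
    (S : Sys F G V U), Nat.card V = Nat.card F ^ n → S.Hyp → S.Full ∨ n = 4 := by
  have hq := q2 F
  induction n with
  | zero =>
    intro G V U _ _ _ _ _ _ _ _ _ _ _ _ S hn h
    exact absurd (hn ▸ h.big) (qpow_lt (by norm_num)).not_ge
  | succ n ih =>
    intro G V U _ _ _ _ _ _ _ _ _ _ _ _ S hn h
    have hb := h.big
    obtain ⟨x, -, hx⟩ := exists_ne0 (A := (⊤ : Submodule F V))
      (by rw [cd_top]; exact (qpow_lt (a := 0) (by norm_num)).trans_le hb)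
    obtain ⟨y, -, hy⟩ := exists_nsp1 (A := (⊤ : Submodule F V))
      (by rw [cd_top]; exact (qq F).trans_le hb) x
    have ck : ∀ φ, φ ≠ 0 → cd (S.ker φ) = Nat.card F ^ n := fun φ hφ =>
      Nat.eq_of_mul_eq_mul_left (show 0 < Nat.card F by omega)
        (by rw [S.cd_ker hφ, hn, pow_succ'])
    rcases Nat.lt_or_ge n 4 with hl | hl
    · interval_cases n
      · exact absurd (hn ▸ hb) (qpow_lt (by norm_num)).not_ge
      · obtain ⟨g, g1, g2⟩ := h.two x y x (y + x) hx hy hx (add_nmem (x_sp1 x) hy)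
        obtain ⟨φ, h1, h2⟩ := S.sep hy
        have e : (F ∙ x) = S.ker φ :=
          eq_of_cd h1 (by rw [cd_sp1 hx, ck φ (Sys.ne0_of_one' h2), pow_one])
        exact Or.inl (h.tv (Sys.ne0_of_one' h2) (g := g)
          (fun w hw => fix_sp1 g1 (e ▸ hw : w ∈ F ∙ x)) (u := y) (by rw [g2]; simpa using hx))
      · obtain ⟨z, -, hz⟩ := exists_nsp2 (A := (⊤ : Submodule F V))
          (by rw [cd_top, hn]; exact qpow_lt (by norm_num)) x y
        obtain ⟨g, g1, g2⟩ := h.f5 hx hy hz (x_sp2 _ _)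
        obtain ⟨φ, h1, h2⟩ := S.sep hz
        have e : sp2 F x y = S.ker φ :=
          eq_of_cd h1 (by rw [cd_sp2 hx hy, ck φ (Sys.ne0_of_one' h2)])
        exact Or.inl (h.tv (Sys.ne0_of_one' h2) (g := g)
          (fun w hw => mem_fixer_sp2.2 g1 w (e ▸ hw : w ∈ sp2 F x y)) (u := z)
          (by rw [g2]; simpa using hx))
      · exact Or.inr rfl
    left
    have le : ∀ k, k ≤ 5 → Nat.card F ^ k ≤ Nat.card V := fun k hk => hn ▸ qpow_le (by omega)
    obtain ⟨c, p⟩ := h.par (le 3 (by norm_num))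
    obtain ⟨d, q⟩ := h.flip.par (by rw [S.card_eq]; exact le 3 (by norm_num))
    have hc : c ≠ 1 := by rintro rfl; exact h.not_one tri nof p (le 4 (by norm_num))
    have hd : d ≠ 1 := by
      rintro rfl; exact h.flip.not_one tri nof q (by rw [S.card_eq]; exact le 4 (by norm_num))
    have h4 : Nat.card F * (Nat.card F * Nat.card F ^ c) = Nat.card V := by
      by_contra a
      have m := h.mid (le 3 (by norm_num)) p q hc hd a
      obtain rfl := m.two
      exact m.false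
    have hs := h.sub (le 4 (by norm_num)) hx fun φ h1 h2 => eq_of_cd (fun v hv => Sys.T_ker hv) (by
      rw [p.cT hx h1 h2]
      exact (Nat.eq_of_mul_eq_mul_left (show 0 < Nat.card F by omega)
        ((S.cd_ker h1).trans h4.symm)).le)
    have c1 : cd (S.flip.ker x) = Nat.card F ^ n :=
      Nat.eq_of_mul_eq_mul_left (show 0 < Nat.card F by omega)
        (by rw [S.flip.cd_ker hx, S.card_eq, hn, pow_succ'])
    rcases ih _ (S.Sub x) _ _ c1 hs with a | rfl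
    · exact h.full_of_KF (le 5 le_rfl) hx (Sys.KF_of a)
    · exact h.five hn hx hs

/-- A linear group transitive on independent pairs contains all transvections. -/
theorem tv_of_two (tri : Sg.TriStmt.{u, u}) (nof : Sg.NoFormStmt.{u, u}) {F V : Type u} [Field F]
    [Finite F] [AddCommGroup V] [Module F V] [Finite V] (hn : 5 ≤ finrank F V)
    (X : Subgroup (V ≃ₗ[F] V)) (h : Sg.Two X) (v : V) (φ : V →ₗ[F] F) (e : φ v = 0) :
    ∃ g ∈ X, ∀ w, g w = w + φ w • v := by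
  have : Finite (V ≃ₗ[F] V) := Finite.of_injective _ DFunLike.coe_injective
  have hH : (duSys F V X).Hyp := by
    refine ⟨fun x y x' y' h1 h2 h3 h4 => ?_, ?_⟩
    · obtain ⟨g, hg, g1, g2⟩ := h x y x' y' h1 h2 h3 h4
      exact ⟨⟨g, hg⟩, g1, g2⟩
    · rw [Module.natCard_eq_pow_finrank (K := F) (V := V)]
      exact qpow_le (by omega)
  rcases ck tri nof _ X V (Du F V) (duSys F V X) (Module.natCard_eq_pow_finrank (K := F)) hH
    with a | a
  · obtain ⟨g, hg⟩ := a v φ e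
    exact ⟨g, g.2, hg⟩
  · omega

end Cfsg.Agent.H77.Ck
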