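import Cfsg.Agent.H11.CyLp
import Cfsg.Agent.H99.BenderCL

/-! Project CY, chapter LP: for `p ≥ 7` a nonidentity element of `K` fixes only the line. -/

set_option autoImplicit false

namespace Cfsg.Agent.H77.CyTip

open Subgroup MulAction Cfsg.Agent.H11.Cy Cfsg.Agent.H11.Cy.Lp
open Cfsg.Agent.H11.EL (Nm Ct C1 cj Ex)

variable {G : Type} [Group G] {Ω : Type} [MulAction G Ω] {p : ℕ} {A : Ω → Subgroup G}

theorem conj_Fl (h : St p A) (t : G) (x y : Ω) {g : G} (hg : g ∈ Fl A x y) :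
    t * g * t⁻¹ ∈ Fl A (t • x) (t • y) := by
  have : Fl A x y ≤ (Fl A (t • x) (t • y)).comap (MulAut.conj t).toMonoidHom :=
    sup_le (fun a ha => mem_sup_left (h.eqv t x a ha)) fun a ha => mem_sup_right (h.eqv t y a ha)
  exact this hg

theorem conj_Big (h : St p A) (t : G) (x : Ω) {g : G} (hg : Big p g (A x)) :
    Big p (t * g * t⁻¹) (A (t • x)) := by
  obtain ⟨i, hi, hn⟩ := hg
  refine ⟨i, fun a ha => ?_, hn⟩
  have h1 := h.eqv t⁻¹ _ a ha
  rw [inv_smul_smul] at h1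
  have h2 := hi _ h1
  rw [conj_zpow] at h2
  calc t * g * t⁻¹ * a * (t * g * t⁻¹)⁻¹ = t * (g * (t⁻¹ * a * t⁻¹⁻¹) * g⁻¹) * t⁻¹ := by group
    _ = a ^ i := by rw [h2]; group

theorem tr2_of (X : Subgroup G) (Φ : Set Ω) (hΦ : ∀ g ∈ X, ∀ z ∈ Φ, g • z ∈ Φ)
    (h3 : ∀ a b : Ω, ∃ c ∈ Φ, c ≠ a ∧ c ≠ b)
    (h : ∀ u ∈ Φ, ∀ a ∈ Φ, ∀ b ∈ Φ, a ≠ u → b ≠ u → ∃ g ∈ X, g • u = u ∧ g • a = b) :
    Tr2 X Φ := by
  intro a ha b hb a' ha' b' hb' hab hab'
  obtain ⟨c, hc, c1, c2⟩ := h3 a a'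
  obtain ⟨g, hg, -, e⟩ := h c hc a ha a' ha' c1.symm c2.symm
  obtain ⟨k, hk, e1, e2⟩ := h a' ha' (g • b) (hΦ g hg b hb) b' hb'
    (fun e' => hab (MulAction.injective g (e.trans e'.symm))) hab'.symm
  exact ⟨k * g, X.mul_mem hk hg, by rw [mul_smul, e, e1], by rw [mul_smul, e2]⟩

theorem tip : TIpStmt := by
  intro G _ _ Ω _ _ p A h l ng sb h7 x y hxy k hk k1 z hz
  have ep := l.mc.ep
  have la := l.la x y hxy
  have kx : k • x = x := (ep.kfix x y hxy k).1 hk x la.mx
  have ky : k • y = y := (ep.kfix x y hxy k).1 hk y la.my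
  by_cases zx : z = x
  · rw [zx]; exact la.mx
  by_cases zy : z = y
  · rw [zy]; exact la.my
  have hΦ : ∀ g ∈ C1 k, ∀ w ∈ {w : Ω | k • w = w}, g • w ∈ {w : Ω | k • w = w} := by
    intro g hg w hw
    have e : k * g = g * k := mem_centralizer_iff.1 hg k rfl
    change k • g • w = g • w
    rw [← mul_smul, e, mul_smul, show k • w = w from hw]
  have cx : k ∈ centralizer (A x : Set G) := centralizer_le (le_sup_left : A x ≤ Fl A x y) hk
  have hA : ∀ w ∈ {w : Ω | k • w = w}, A w ≤ C1 k := by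
    intro w hw a ha
    have : k ∈ centralizer (A w : Set G) := by
      by_cases e : x = w
      · rw [← e]; exact cx
      · exact centralizer_le (le_sup_right : A w ≤ Fl A x w) (ep.eps x w e k ⟨kx, hw⟩ cx)
    exact mem_centralizer_iff.2 fun b hb => by
      rw [Set.mem_singleton_iff.1 hb]; exact (this a ha).symm
  obtain ⟨r, hr, g, gL, gH, gP, gB⟩ := ng.bigr h7 x y hxy
  refine sb (C1 k) {w : Ω | k • w = w} hΦ hA (tr2_of _ _ hΦ (fun a b => ?_) ?_)
    ⟨k, mem_centralizer_iff.2 fun b hb => by rw [Set.mem_singleton_iff.1 hb], k1, fun _ hw => hw⟩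
    x kx y ky hxy hz
  · by_contra! hc
    by_cases e1 : x = a
    · by_cases e2 : y = a
      · exact hxy (e1.trans e2.symm)
      · have e3 := hc y ky e2
        by_cases e4 : z = a
        · exact zx (e4.trans e1.symm)
        · exact zy ((hc z hz e4).trans e3.symm)
    · have e3 := hc x kx e1
      by_cases e2 : y = a
      · by_cases e4 : z = a
        · exact zy (e4.trans e2.symm)
        · exact zx ((hc z hz e4).trans e3.symm)
      · exact hxy (e3.trans (hc y ky e2).symm)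
  · intro u hu a ha b hb au bu
    refine H99.gleason_rel hr hΦ (fun v hv vu => ?_) ha hb au bu
    obtain ⟨t, -, tx, ty⟩ := h.two x trivial y trivial u trivial v trivial hxy vu.symm
    have f1 : (t * g * t⁻¹) • u = u := by
      rw [← tx, mul_smul, mul_smul, inv_smul_smul, show g • x = x from gH.1]
    have f2 : (t * g * t⁻¹) • v = v := by
      rw [← ty, mul_smul, mul_smul, inv_smul_smul, show g • y = y from gH.2]
    have m := conj_Fl h t x y gL
    have bg := conj_Big h t x gB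
    rw [tx] at bg
    rw [tx, ty] at m
    refine ⟨zpowers (t * g * t⁻¹), zpowers_le.2 (sup_le (hA u hu) (hA v hv) m), ?_,
      zpowers_le.2 f1, zpowers_le.2 f2, fun w _ hw => ?_⟩
    · have := gP.map (MulAut.conj t).toMonoidHom
      rwa [MonoidHom.map_zpowers] at this
    · by_cases e : w = u
      · exact Or.inl e
      · exact Or.inr (ng.two u _ f1 bg w v e vu (hw (mem_zpowers _)) f2)

end Cfsg.Agent.H77.CyTip
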