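import Cfsg.Agent.H77.ElusPol

/-!
# Jordan data that are stable under a second Frobenius map up to a scalar twist
-/

set_option autoImplicit false

namespace Cfsg.Agent.H77

open Cfsg.Agent.H76

section Tw

variable {A : Type*} [CommGroup A] {Q Q₀ : ℤ} {s : Multiset (A × ℕ)} {r : ℕ}

/-- the `Q₀`-th power map acts on the data as multiplication by a `Q`-fixed scalar -/
def Tw (Q Q₀ : ℤ) (s : Multiset (A × ℕ)) : Prop :=
  ∃ c : A, c ^ Q = c ∧ s.map (frob Q₀) = twist c s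

/-- a twist of the data by a `Q`-fixed scalar is stable under the `Q₀`-th power map -/
def TwA (Q Q₀ : ℤ) (s : Multiset (A × ℕ)) : Prop :=
  ∃ c : A, c ^ Q = c ∧ (twist c s).map (frob Q₀) = twist c s

theorem map_frob_twist (c : A) :
    (twist c s).map (frob Q) = twist (c ^ Q) (s.map (frob Q)) := by
  simp only [twist, frob, mul_zpow, Multiset.map_map, Function.comp_def]

theorem TwA.tw (h : TwA Q Q₀ s) : Tw Q Q₀ s := by
  obtain ⟨c, h1, h2⟩ := h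
  refine ⟨(c ^ Q₀)⁻¹ * c, by rw [mul_zpow, inv_zpow, zpow_comm, h1], ?_⟩
  rw [← twist_twist, ← h2, map_frob_twist, twist_twist, inv_mul_cancel, twist_one]

theorem count_le_of_tw [DecidableEq A] {c : A} (h : s.map (frob Q₀) = twist c s) (α : A) (e : ℕ) :
    s.count (α, e) ≤ s.count (c⁻¹ * α ^ Q₀, e) := by
  rw [← count_twist c s (c⁻¹ * α ^ Q₀), mul_inv_cancel_left, ← h, Multiset.count_map,
    Multiset.count_eq_card_filter_eq]
  exact Multiset.card_le_card (Multiset.monotone_filter_right _ fun x hx => by rw [← hx]; rfl)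

theorem mem_of_tw {c : A} (h : s.map (frob Q₀) = twist c s) {x : A × ℕ} (hx : x ∈ s) :
    (c⁻¹ * x.1 ^ Q₀, x.2) ∈ s :=
  mem_twist_iff (x := frob Q₀ x).mp (h ▸ Multiset.mem_map_of_mem _ hx)

theorem twA_of_forall {d : A} (hd : d ^ Q = d) (h : ∀ x ∈ s, (d⁻¹ * x.1) ^ Q₀ = d⁻¹ * x.1) :
    TwA Q Q₀ s := by
  refine ⟨d⁻¹, by rw [inv_zpow, hd], (map_frob_congr (Q' := 1) fun x hx => ?_).trans
    (map_frob_one _)⟩
  have := h _ (mem_twist_iff.mp hx)
  simpa using this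

theorem twA_of_unif {n : ℕ} (hs : Unif Q 1 n s) (h : ∀ x ∈ s, ∀ y ∈ s, x.1 ^ r = y.1 ^ r)
    (hQ₀ : (r : ℤ) ∣ Q₀ - 1) : TwA Q Q₀ s := by
  rcases Multiset.empty_or_exists_mem s with rfl | ⟨y, hy⟩
  · exact twA_of_forall (one_zpow Q) (by simp)
  refine twA_of_forall (per_one_iff.mp (hs.per y hy)) fun x hx => ?_
  rw [zpow_eq_zpow_of_dvd_sub (r := r) (by rw [mul_pow, h x hx y hy, inv_pow, inv_mul_cancel]) hQ₀,
    zpow_one]

theorem exists_fixed_root (hr : r.Prime) (hQ : ¬ (r : ℤ) ∣ Q - 1) {z : A} (hz : z ^ Q = z) :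
    ∃ d : A, d ^ Q = d ∧ d ^ r = z := by
  obtain ⟨a, b, h⟩ := ((Nat.prime_iff_prime_int.mp hr).coprime_iff_not_dvd).mpr hQ
  refine ⟨z ^ a, by rw [zpow_comm, hz], ?_⟩
  have h1 : z ^ (Q - 1) = 1 := by rw [zpow_sub, hz, zpow_one, mul_inv_cancel]
  conv_rhs => rw [← zpow_one z, ← h, zpow_add, mul_comm b, zpow_mul z (Q - 1), h1, one_zpow,
    mul_one, zpow_mul, zpow_natCast]

theorem twA_of_prime {p n : ℕ} (hp : p.Prime) (hr : r.Prime) (hrp : r ≠ p) (hQ : Q = Q₀ ^ r)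
    (h : (r : ℤ) ∣ Q₀ - 1 → (Q ≠ 1 ∧ n ≠ 0) ∧ NoB Q n r) (hs : PElt p Q n r s) (hd : ddet s = 1) :
    TwA Q Q₀ s := by
  have := Fact.mk hr
  have h1 : (r : ℤ) ∣ Q - Q₀ := (ZMod.intCast_eq_intCast_iff_dvd_sub _ _ _).mp (by
    rw [hQ, Int.cast_pow, ZMod.pow_card])
  by_cases h2 : (r : ℤ) ∣ Q - 1
  · have h3 : (r : ℤ) ∣ Q₀ - 1 := by simpa using h2.sub h1
    obtain ⟨⟨h4, h5⟩, h6⟩ := h h3
    exact twA_of_unif ((unif_of_pk hp hr hrp h2 hs.adm hs.pk).resolve_right fun h7 =>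
      not_noB_of_unif hr h2 h4 h5 h7 hd hs.pk.1 h6) hs.pk.1 h3
  obtain ⟨y, hy, -⟩ := hs.exists_ne hp hr hrp
  obtain ⟨d, h3, h4⟩ := exists_fixed_root hr h2 (pow_fixed_of_pk hs.adm hs.pk hy)
  have h5 : d⁻¹ ^ Q = d⁻¹ := by rw [inv_zpow, h3]
  refine ⟨d⁻¹, h5, (map_frob_congr fun x hx => ?_).trans (hs.adm.twist h5).stab⟩
  have h6 := hs.pk.1 _ (mem_twist_iff.mp hx) y hy
  rw [inv_inv, mul_pow, h4] at h6
  exact (zpow_eq_zpow_of_dvd_sub (by simpa using h6) h1).symm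

theorem not_twA_of_unif_two {n : ℕ} (hQ : Q = Q₀ ^ 2) (hQ₀ : (2 : ℤ) ∣ Q₀ - 1)
    (hs : Unif Q 2 n s) (hn : n ≠ 0) (h : ∀ x ∈ s, ∀ y ∈ s, x.1 ^ 2 = y.1 ^ 2) :
    ¬ TwA Q Q₀ s := by
  rintro ⟨c, h1, h2⟩
  rcases Multiset.empty_or_exists_mem s with rfl | ⟨x, hx⟩
  · exact hn hs.adm.wt_eq.symm
  have h3 := mem_of_tw (c := 1) (h2.trans (twist_one _).symm) (mem_twist hx)
  have h4 := h _ (mem_twist_iff.mp h3) x hx
  simp only [inv_one, one_mul] at h4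
  have h5 : ((c * x.1) ^ Q₀ / (c * x.1)) ^ 2 = 1 := by
    rw [div_pow, mul_pow c, ← h4, ← mul_pow, mul_inv_cancel_left, div_self']
  have h6 := zpow_eq_zpow_of_dvd_sub h5 (Q' := -1) (Q := Q₀) (by omega)
  rw [div_zpow, zpow_neg_one, inv_div, ← zpow_mul, ← sq, ← hQ, div_left_inj, mul_zpow, h1,
    mul_right_inj] at h6
  exact (hs.per x hx).ne (by omega) h6

/-- the data `d · ψ(T)` -/
def zd {K : Type*} [AddGroup K] (ψ : AddChar K A) (d : A) (T : Multiset K) : Multiset (A × ℕ) :=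
  T.map fun t => (d * ψ t, 1)

variable {K : Type*} [CommRing K] {ψ : AddChar K A} {d : A} {T : Multiset K}

theorem ddet_zd : ddet (zd ψ d T) = d ^ Multiset.card T * ψ T.sum := by
  induction T using Multiset.induction_on with
  | empty => simp [zd]
  | cons a T ih =>
    rw [zd, Multiset.map_cons, ddet_cons, ← zd, ih, Multiset.card_cons, Multiset.sum_cons,
      AddChar.map_add_eq_mul, pow_one, pow_succ']
    exact mul_mul_mul_comm _ _ _ _

theorem pow_mul_addChar [CharP K r] (t : K) : (d * ψ t) ^ r = d ^ r := by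
  rw [mul_pow, ← AddChar.map_nsmul_eq_pow, nsmul_eq_mul, CharP.cast_eq_zero, zero_mul,
    AddChar.map_zero_eq_one, mul_one]

theorem unif_zd [CharP K r] (hQ : (r : ℤ) ∣ Q - 1) (hd : d ^ Q = d) :
    Unif Q 1 (Multiset.card T) (zd ψ d T) := by
  have h1 : ∀ x ∈ zd ψ d T, x.2 = 1 ∧ x.1 ^ Q = x.1 := fun x hx => by
    obtain ⟨t, -, rfl⟩ := Multiset.mem_map.mp hx
    exact ⟨rfl, fixed_of_pow_eq hQ (pow_mul_addChar t) hd⟩
  refine ⟨(adm_of_fst_fixed (fun x hx => (h1 x hx).1 ▸ one_pos) fun x hx => (h1 x hx).2).cast ?_,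
    fun x hx => (h1 x hx).1, fun x hx => per_one_iff.mpr (h1 x hx).2⟩
  rw [wt_eq_card fun x hx => (h1 x hx).1, zd, Multiset.card_map]

theorem pElt_zd [CharP K r] {p : ℕ} (hp : p.Prime) (hr : r.Prime) (hrp : r ≠ p)
    (hψ : Function.Injective ψ) (hQ : (r : ℤ) ∣ Q - 1) (hd : d ^ Q = d) {a b : K} (ha : a ∈ T)
    (hb : b ∈ T) (hab : a ≠ b) : PElt p Q (Multiset.card T) r (zd ψ d T) := by
  refine (pElt_iff hp hr hrp).mpr ⟨(unif_zd hQ hd).adm, (unif_zd hQ hd).one, fun x hx y hy => ?_,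
    _, Multiset.mem_map_of_mem _ ha, _, Multiset.mem_map_of_mem _ hb,
    fun h => hab (hψ (mul_left_cancel h))⟩
  obtain ⟨t, -, rfl⟩ := Multiset.mem_map.mp hx
  obtain ⟨u, -, rfl⟩ := Multiset.mem_map.mp hy
  exact (pow_mul_addChar t).trans (pow_mul_addChar u).symm

theorem Tw.exists_count_le [DecidableEq K] (hψ : Function.Injective ψ) (h : Tw Q Q₀ (zd ψ d T))
    {a : K} (ha : a ∈ T) : ∃ η : K, ∀ t, T.count t ≤ T.count (Q₀ * t + η) := by
  classical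
  obtain ⟨c, -, h⟩ := h
  obtain ⟨b, -, hb⟩ := Multiset.mem_map.mp (mem_of_tw h (Multiset.mem_map_of_mem _ ha))
  have h1 : Function.Injective fun t => (d * ψ t, 1) := fun t u h =>
    hψ (mul_left_cancel (congrArg Prod.fst h))
  refine ⟨b - Q₀ * a, fun t => ?_⟩
  have h2 := count_le_of_tw h (d * ψ t) 1
  have h3 : c⁻¹ * (d * ψ t) ^ Q₀ = d * ψ (Q₀ * t + (b - Q₀ * a)) := by
    have h4 : d * ψ b = c⁻¹ * (d * ψ a) ^ Q₀ := congrArg Prod.fst hb
    rw [add_sub_left_comm, AddChar.map_add_eq_mul, ← mul_assoc d, h4, ← mul_sub, ← zsmul_eq_mul,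
      AddChar.map_zsmul_eq_zpow, mul_assoc, ← mul_zpow, mul_assoc, ← AddChar.map_add_eq_mul,
      add_sub_cancel]
  rwa [h3, zd, Multiset.count_map_eq_count' _ _ h1, Multiset.count_map_eq_count' _ _ h1] at h2

theorem eq_zero_of_count_le {K : Type*} [DecidableEq K] [Zero K] {T : Multiset K} {k : ℕ} {η : K}
    (h : (Multiset.replicate k 0 + T).count 0 ≤ (Multiset.replicate k 0 + T).count η)
    (hk : Multiset.card T < k) : η = 0 := by
  by_contra h1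
  have := Multiset.count_le_card η T
  rw [Multiset.count_add, Multiset.count_add, Multiset.count_replicate_self,
    Multiset.count_replicate, if_neg (Ne.symm h1)] at h
  omega

theorem twist_zd (η : K) : twist (ψ η) (zd ψ d T) = zd ψ d (T.map (η + ·)) := by
  simp only [twist, zd, Multiset.map_map, Function.comp_def, AddChar.map_add_eq_mul,
    mul_left_comm]

theorem map_frob_zd : (zd ψ 1 T).map (frob (-1)) = zd ψ 1 (T.map Neg.neg) := by
  simp only [frob, zd, Multiset.map_map, Function.comp_def, AddChar.map_neg_eq_inv, one_mul,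
    zpow_neg_one]

theorem exists_addChar [NeZero r] {ζ : A} (h : orderOf ζ = r) :
    ∃ ψ : AddChar (ZMod r) A, Function.Injective ψ ∧ ψ 1 = ζ ∧ ∀ k : ℕ, ψ k = ζ ^ k := by
  have h1 : ζ ^ r = 1 := h ▸ pow_orderOf_eq_one ζ
  refine ⟨AddChar.zmodChar r h1, AddChar.injective_iff.mpr fun x hx => ?_, ?_,
    AddChar.zmodChar_apply' h1⟩
  · rw [AddChar.zmodChar_apply, ← orderOf_dvd_iff_pow_eq_one, h] at hx
    exact (ZMod.val_eq_zero x).mp (Nat.eq_zero_of_dvd_of_lt hx (ZMod.val_lt x))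
  · simpa using AddChar.zmodChar_apply' h1 1

theorem zmod_three_eq_neg_one : ∀ u : ZMod 3, u ≠ 0 → u ≠ 1 → u = -1 := by decide

theorem exists_sym_five (T : Multiset (ZMod 5)) (h : Multiset.card T = 5) (h' : T.sum = 0) :
    ∃ η, (T.map (η + ·)).map Neg.neg = T.map (η + ·) := by
  have H : ∀ a b c d : ZMod 5, ∃ η : ZMod 5,
      (({a, b, c, d, -(a + b + c + d)} : Multiset (ZMod 5)).map (η + ·)).map Neg.neg =
      ({a, b, c, d, -(a + b + c + d)} : Multiset (ZMod 5)).map (η + ·) := by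
    decide +kernel
  induction T using Quotient.inductionOn with | _ l => ?_
  match l, h with
  | [a, b, c, d, e], _ =>
    obtain rfl : e = -(a + b + c + d) := by
      simp only [Multiset.quot_mk_to_coe, Multiset.sum_coe, List.sum_cons, List.sum_nil] at h'
      linear_combination h'
    exact H a b c d

theorem exists_sym_three (T : Multiset (ZMod 3)) (h : Multiset.card T = 3) (h' : T.sum = 0) :
    ∃ η, (T.map (η + ·)).map Neg.neg = T.map (η + ·) := by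
  have H : ∀ a b : ZMod 3, ∃ η : ZMod 3,
      (({a, b, -(a + b)} : Multiset (ZMod 3)).map (η + ·)).map Neg.neg =
      ({a, b, -(a + b)} : Multiset (ZMod 3)).map (η + ·) := by
    decide +kernel
  induction T using Quotient.inductionOn with | _ l => ?_
  match l, h with
  | [a, b, e], _ =>
    obtain rfl : e = -(a + b) := by
      simp only [Multiset.quot_mk_to_coe, Multiset.sum_coe, List.sum_cons, List.sum_nil] at h'
      linear_combination h'
    exact H a b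

end Tw

section Field

variable {L : Type*} [Field L] {p : ℕ} [hp : Fact p.Prime] [CharP L p] {Q Q₀ : ℤ} {r n : ℕ}
  {s : Multiset (Lˣ × ℕ)}

theorem PElt.twA_char (h : PElt p Q n p s) : TwA Q Q₀ s := by
  obtain ⟨α, μ, h1, rfl, -⟩ := h.exists_udata
  exact twA_of_forall h1 fun x hx => by simp [(mem_udata.mp hx).1]

variable [IsAlgClosed L]

theorem exists_not_tw_of_not_dvd (hr : r.Prime) (hrp : r ≠ p) (hQ : ¬ (r : ℤ) ∣ Q - 1)
    (hQ₀ : ¬ (r : ℤ) ∣ Q₀) {i : ℕ} (hi0 : 0 < i) (hi : i ≤ n) (h1 : (r : ℤ) ∣ Q ^ i - 1)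
    (h2 : ¬ (r : ℤ) ∣ Q₀ ^ i - 1) :
    ∃ s : Multiset (Lˣ × ℕ), PElt p Q n r s ∧ ddet s = 1 ∧ ¬ Tw Q Q₀ s := by
  have h3 : (Q : ZMod r) ^ i = 1 := by
    have := (ZMod.intCast_eq_intCast_iff_dvd_sub _ _ _).mpr h1
    exact_mod_cast this.symm
  have h4 := Nat.le_of_dvd hi0 (orderOf_dvd_of_pow_eq_one h3)
  have h5 := Nat.pos_of_dvd_of_pos (orderOf_dvd_of_pow_eq_one h3) hi0
  obtain ⟨ζ, h6, -, -, h7, h8, -⟩ := exists_pElt_of_not_dvd (L := L) (n := n)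
    (k := n - orderOf (Q : ZMod r)) hr hrp hQ h5 one_ne_zero (by omega)
  refine ⟨_, h7, h8, fun ⟨c, h9, h10⟩ => ?_⟩
  have h11 := mem_of_tw h10 (Multiset.mem_add.mpr (Or.inr ((one_nsmul (orb Q ζ _ 1)).symm ▸
    self_mem_orb Q ζ h5 1)))
  have h12 := pow_eq_one_of_mem_std h6 _ h11
  rw [mul_pow, ← zpow_natCast (_ ^ Q₀), zpow_comm, zpow_natCast, ← h6, pow_orderOf_eq_one, h6,
    one_zpow, mul_one, inv_pow, inv_eq_one] at h12
  rw [eq_one_of_fixed hr hQ h12 h9, inv_one, one_mul, Multiset.mem_add, one_nsmul, mem_orb] at h11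
  rcases h11 with h11 | ⟨j, -, h11⟩
  · exact hQ₀ (h6 ▸ orderOf_dvd_iff_zpow_eq_one.mpr
      (congrArg Prod.fst (Multiset.eq_of_mem_replicate h11)))
  have h13 := (zpow_eq_zpow_iff_modEq.mp (congrArg Prod.fst h11)).pow i
  rw [h6, ← pow_mul, mul_comm, pow_mul] at h13
  exact h2 (h13.trans (by simpa using (Int.modEq_iff_dvd.mpr h1).symm.pow j)).symm.dvd

theorem necessary_of_forall_tw (hr : r.Prime) (hrp : r ≠ p) (hr2 : r ≠ 2) (hQ : (r : ℤ) ∣ Q - 1)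
    (hQ1 : Q ≠ 1) (hQ₀ : ¬ (r : ℤ) ∣ Q₀) (hQ₀' : ¬ (r : ℤ) ∣ Q₀ - 1) (hn : 2 ≤ n)
    (hn' : n = 2 → ¬ (r : ℤ) ∣ Q₀ + 1)
    (h : ∀ s : Multiset (Lˣ × ℕ), PElt p Q n r s → ddet s = 1 → Tw Q Q₀ s) :
    (r : ℤ) ∣ Q₀ + 1 ∧ padicValNat r (Q - 1).natAbs ≤ padicValNat r n ∧
      (n = r ∧ (r = 3 ∨ r = 5) ∨ n = 6 ∧ r = 3) := by
  have := Fact.mk hr
  have hu0 : (Q₀ : ZMod r) ≠ 0 := fun h => hQ₀ ((ZMod.intCast_zmod_eq_zero_iff_dvd _ _).mp h)
  have hu1 : (Q₀ : ZMod r) ≠ 1 := fun h => hQ₀' ((ZMod.intCast_zmod_eq_zero_iff_dvd _ _).mp (by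
    rw [Int.cast_sub, h]; simp))
  have hu2 : (r : ℤ) ∣ Q₀ + 1 ↔ (Q₀ : ZMod r) = -1 := by
    rw [← ZMod.intCast_zmod_eq_zero_iff_dvd, Int.cast_add, Int.cast_one, add_eq_zero_iff_eq_neg]
  have h2 : (-1 : ZMod r) ≠ 1 := fun h => zmod_two_ne_zero hr2 (by linear_combination -h)
  have hN : (Q - 1).natAbs ≠ 0 := Int.natAbs_ne_zero.mpr (sub_ne_zero.mpr hQ1)
  have key : ∀ {ζ d : Lˣ}, orderOf ζ = r → d ^ Q = d → ∀ (k : ℕ) (T : Multiset (ZMod r)) (j : ℕ),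
      1 ∈ T → 0 < k → k + Multiset.card T = n → T.sum = j → d ^ n * ζ ^ j = 1 →
      ∃ η, ∀ t, (Multiset.replicate k 0 + T).count t ≤
        (Multiset.replicate k 0 + T).count (Q₀ * t + η) := fun {ζ d} h3 h4 k T j h5 h6 h7 h8 h9 => by
    obtain ⟨ψ, h10, -, h11⟩ := exists_addChar h3
    have h12 : 1 ∈ Multiset.replicate k 0 + T := Multiset.mem_add.mpr (Or.inr h5)
    have h13 : Multiset.card (Multiset.replicate k 0 + T) = n := by simpa using h7
    refine (h _ (h13 ▸ pElt_zd hp.out hr hrp h10 hQ h4 h12 (b := 0) (by simp [h6.ne', Multiset.mem_replicate])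
      one_ne_zero) ?_).exists_count_le h10 h12
    rw [ddet_zd, h13, Multiset.sum_add, h8, Multiset.sum_replicate, nsmul_zero, zero_add, h11, h9]
  have h3 : padicValNat r (Q - 1).natAbs ≤ padicValNat r n := by
    by_contra! h3
    obtain ⟨γ, hγ⟩ := exists_units_orderOf_eq (L := L) p (m := r ^ (padicValNat r n + 1))
      fun h => hrp ((Nat.prime_dvd_prime_iff_eq hp.out hr).mp (hp.out.dvd_of_dvd_pow h)).symm
    obtain ⟨η, h4⟩ := key (ζ := (γ ^ n)⁻¹) (d := γ) (by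
      rw [orderOf_inv]
      refine orderOf_eq_prime ?_ fun h4 => ?_
      · rw [← pow_mul, ← orderOf_dvd_iff_pow_eq_one, hγ, pow_succ]
        exact mul_dvd_mul_right pow_padicValNat_dvd r
      · rw [← orderOf_dvd_iff_pow_eq_one, hγ, padicValNat_dvd_iff_le (by omega)] at h4
        omega) (zpow_eq_self_iff.mpr (by
      rw [hγ, Int.natCast_dvd]; exact (padicValNat_dvd_iff_le hN).mpr h3)) (n - 1) {1} 1 (by simp)
      (by omega) (by simp; omega) (by simp) (by simp)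
    have h5 := h4 0
    have h6 := Multiset.one_le_count_iff_mem.mp (le_trans (by simp) (h4 1))
    rw [mul_zero, zero_add] at h5
    simp only [mul_one, Multiset.mem_add, Multiset.mem_replicate, Multiset.mem_singleton] at h6
    rcases hn.eq_or_lt with rfl | h7
    · have h7 := Multiset.one_le_count_iff_mem.mp (le_trans (by simp) h5)
      simp only [Multiset.mem_add, Multiset.mem_replicate, Multiset.mem_singleton] at h7
      rcases h7 with ⟨-, rfl⟩ | rfl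
      · simp [hu0, hu1] at h6
      · exact h6.elim (fun h6 => hn' rfl (hu2.mpr (by linear_combination h6.2)))
          fun h6 => hu0 (by linear_combination h6)
    · rw [eq_zero_of_count_le h5 (by simp; omega)] at h6
      simp [hu0, hu1] at h6
  have h4 : r ∣ n := dvd_of_one_le_padicValNat (le_trans
    (one_le_padicValNat_of_dvd hN (Int.natCast_dvd.mp hQ)) h3)
  obtain ⟨ζ, hζ⟩ := exists_units_orderOf_eq (L := L) p (m := r)
    fun h => hrp ((Nat.prime_dvd_prime_iff_eq hp.out hr).mp h).symm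
  have h5 : ∀ k ≤ 6, r ∣ k → k ≠ 0 → k = r ∧ (r = 3 ∨ r = 5) ∨ k = 6 ∧ r = 3 := fun k h5 h6 h7 => by
    have h8 := Nat.le_of_dvd (Nat.pos_of_ne_zero h7) h6
    have h9 := hr.two_le
    have h10 : r ≠ 4 := by rintro rfl; exact absurd hr (by decide)
    have h11 : r ≠ 6 := by rintro rfl; exact absurd hr (by decide)
    interval_cases k <;> interval_cases r <;> simp_all
  have h6 : (Q₀ : ZMod r) = -1 := by
    by_cases h6 : n ≤ 4
    · obtain rfl : r = 3 := by have := h5 n (by omega) h4 (by omega); omega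
      exact zmod_three_eq_neg_one _ hu0 hu1
    obtain ⟨η, h7⟩ := key hζ (one_zpow Q) (n - 2) {1, -1} 0 (by simp) (by omega) (by simp; omega)
      (by simp) (by simp)
    have h8 := h7 0
    have h9 := Multiset.one_le_count_iff_mem.mp (le_trans (by simp) (h7 1))
    rw [mul_zero, zero_add] at h8
    rw [eq_zero_of_count_le h8 (by simp; omega)] at h9
    simpa [hu0, hu1, Multiset.mem_replicate] using h9
  refine ⟨hu2.mpr h6, h3, h5 n (by_contra fun h7 => ?_) h4 (by omega)⟩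
  obtain ⟨η, h8⟩ := key hζ (one_zpow Q) (n - 3) {1, 1, -2} 0 (by simp) (by omega) (by simp; omega)
    (by simp; ring) (by simp)
  have h9 := h8 0
  have h10 := h8 1
  rw [mul_zero, zero_add] at h9
  rw [eq_zero_of_count_le h9 (by simp; omega), h6] at h10
  simp [Multiset.count_replicate, h2, Multiset.count_singleton] at h10
  split_ifs at h10 <;> omega

theorem exists_sym_twist (hr : r = 3 ∨ r = 5) (hrp : r ≠ p) (hQ : padicValNat r (Q - 1).natAbs = 1)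
    (hs : PElt p Q r r s) (hd : ddet s = 1) : (∀ x ∈ s, x.2 = 1 ∧ x.1 ^ r = 1) ∧
      ∃ c : Lˣ, c ^ r = 1 ∧ (twist c s).map (frob (-1)) = twist c s := by
  have hr' : r.Prime := by rcases hr with rfl | rfl <;> decide
  have := Fact.mk hr'
  have hN : (Q - 1).natAbs ≠ 0 := fun h => by simp [h] at hQ
  have h1 : (r : ℤ) ∣ Q - 1 := Int.natCast_dvd.mpr (dvd_of_one_le_padicValNat hQ.ge)
  have h2 := (unif_of_pk hp.out hr' hrp h1 hs.adm hs.pk).resolve_right fun h =>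
    not_noB_of_unif hr' h1 (fun h => by simp [h] at hN) hr'.ne_zero h hd hs.pk.1
      ⟨by rw [hQ, padicValNat_self], by omega⟩
  have h3 : ∀ x ∈ s, x.2 = 1 ∧ x.1 ^ r = 1 := fun x hx => by
    refine ⟨h2.one x hx, ?_⟩
    have h3 := congrArg (· ^ r) hd
    have h4 := ddet_eq_pow_wt (s := dpow r s) (b := x.1 ^ r) fun y hy => by
      obtain ⟨z, hz, rfl⟩ := Multiset.mem_map.mp hy
      exact (zpow_natCast _ _).trans (hs.pk.1 z hz x hx)
    have h5 : ddet (dpow r s) = ddet s ^ r := by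
      simp only [ddet, dpow, Multiset.map_map, Function.comp_def, zpow_natCast, ← Multiset.prod_map_pow,
        ← pow_mul, mul_comm]
    rw [h5, hd, one_pow, dpow, wt_map, hs.adm.wt_eq, ← pow_mul, ← sq, eq_comm,
      ← orderOf_dvd_iff_pow_eq_one, Nat.dvd_prime_pow hr'] at h4
    obtain ⟨k, h6, h7⟩ := h4
    have h8 := zpow_eq_self_iff.mp (per_one_iff.mp (h2.per x hx))
    rw [h7, Int.natCast_dvd, padicValNat_dvd_iff_le hN, hQ] at h8
    rw [← orderOf_dvd_iff_pow_eq_one, h7]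
    exact (pow_dvd_pow r h8).trans (pow_one r).dvd
  refine ⟨h3, ?_⟩
  obtain ⟨ζ, hζ⟩ := exists_units_orderOf_eq (L := L) p (m := r)
    fun h => hrp ((Nat.prime_dvd_prime_iff_eq hp.out hr').mp h).symm
  obtain ⟨ψ, h4, -, h5⟩ := exists_addChar hζ
  have h6 : ∀ x ∈ s, ∃ t, (1 * ψ t, 1) = x := fun x hx => by
    obtain ⟨j, hj⟩ := exists_pow_eq_of_pow_orderOf (hζ ▸ hr'.pos) (hζ ▸ (h3 x hx).2)
    exact ⟨j, Prod.ext (by simp [h5, hj]) (h3 x hx).1.symm⟩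
  choose! f hf using h6
  obtain ⟨T, rfl⟩ : ∃ T, zd ψ 1 T = s :=
    ⟨s.map f, by rw [zd, Multiset.map_map]; exact (Multiset.map_congr rfl hf).trans (s.map_id)⟩
  have h7 : Multiset.card T = r := by
    have := hs.adm.wt_eq
    rwa [wt_eq_card h2.one, zd, Multiset.card_map] at this
  rw [ddet_zd, one_pow, one_mul, ← ψ.map_zero_eq_one] at hd
  obtain ⟨η, h8⟩ : ∃ η, (T.map (η + ·)).map Neg.neg = T.map (η + ·) := by
    rcases hr with rfl | rfl
    exacts [exists_sym_three T h7 (h4 hd), exists_sym_five T h7 (h4 hd)]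
  exact ⟨ψ η, by simpa using pow_mul_addChar (d := 1) (ψ := ψ) (r := r) η,
    by rw [twist_zd, map_frob_zd, h8]⟩

theorem twA_of_sym (hr : r = 3 ∨ r = 5) (hrp : r ≠ p) (hQ : padicValNat r (Q - 1).natAbs = 1)
    (hQ₀ : (r : ℤ) ∣ Q₀ + 1) (hs : PElt p Q r r s) (hd : ddet s = 1) : TwA Q Q₀ s := by
  obtain ⟨h1, c, h2, h3⟩ := exists_sym_twist hr hrp hQ hs hd
  have := Fact.mk (show r.Prime by rcases hr with rfl | rfl <;> decide)
  refine ⟨c, fixed_of_pow_eq (Int.natCast_dvd.mpr (dvd_of_one_le_padicValNat hQ.ge))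
    (h2.trans (one_pow r).symm) (one_zpow Q), (map_frob_congr fun x hx => ?_).trans h3⟩
  have h4 := (h1 _ (mem_twist_iff.mp hx)).2
  rw [mul_pow, inv_pow, h2, inv_one, one_mul] at h4
  exact zpow_eq_zpow_of_dvd_sub h4 (by simpa using hQ₀)

theorem forall_twA_two_iff (hp2 : 2 ≠ p) (hQ : Q = Q₀ ^ 2) (hQ₀ : Odd Q₀) (hQ1 : Q ≠ 1)
    (hn : n ≠ 0) : (∀ s : Multiset (Lˣ × ℕ), PElt p Q n 2 s → ddet s = 1 → TwA Q Q₀ s) ↔
      padicValNat 2 n ≤ padicValNat 2 (Q - 1).natAbs := by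
  obtain ⟨k, rfl⟩ := hQ₀
  have h1 : Q % 4 = 1 := by rw [hQ, show (2 * k + 1) ^ 2 = 1 + 4 * (k ^ 2 + k) by ring]; omega
  refine ⟨fun h => by_contra fun h2 => ?_, fun h s hs =>
    twA_of_prime hp.out Nat.prime_two hp2 hQ (fun _ => ⟨⟨hQ1, hn⟩, h, fun _ _ => h1⟩) hs⟩
  obtain ⟨s, h3, h4, h5⟩ := exists_unif_of_not_noB (L := L) Nat.prime_two hp2 (by omega) hQ1
    (fun h3 => h2 h3.1) hn
  exact not_twA_of_unif_two hQ (by omega) h5 hn h3.pk.1 (h s h3 h4)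

theorem forall_twA_odd_iff (hr : r.Prime) (hrp : r ≠ p) (hr2 : r ≠ 2) {k : ℕ} (hk : k.Prime)
    (hQ : Q = Q₀ ^ k) (hQ1 : Q ≠ 1) (hQ₀ : ¬ (r : ℤ) ∣ Q₀) (hgap : ¬ (n = 6 ∧ r = 3)) {i : ℕ}
    (hi0 : 0 < i) (hi : i ≤ n) (hn : 2 ≤ n) (hn' : n = 2 → i = 2) (h1 : (r : ℤ) ∣ Q ^ i - 1)
    (h2 : ¬ (r : ℤ) ∣ Q₀ ^ i - 1) :
    (∀ s : Multiset (Lˣ × ℕ), PElt p Q n r s → ddet s = 1 → TwA Q Q₀ s) ↔
      k = 2 ∧ n = r ∧ (r = 3 ∨ r = 5) ∧ padicValNat r (Q₀ + 1).natAbs = 1 := by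
  have := Fact.mk hr
  have h3 : ¬ (r : ℤ) ∣ Q₀ - 1 := fun h => h2 (h.trans (by simpa using sub_dvd_pow_sub_pow Q₀ 1 i))
  have h4 : k = 2 → padicValNat r (Q - 1).natAbs = padicValNat r (Q₀ + 1).natAbs := by
    rintro rfl
    have h4 : Q - 1 = (Q₀ + 1) * (Q₀ - 1) := by rw [hQ]; ring
    have h5 := mul_ne_zero_iff.mp (h4 ▸ sub_ne_zero.mpr hQ1)
    rw [h4, Int.natAbs_mul, padicValNat.mul (Int.natAbs_ne_zero.mpr h5.1)
      (Int.natAbs_ne_zero.mpr h5.2), padicValNat.eq_zero_of_not_dvd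
      (fun h => h3 (Int.natCast_dvd.mpr h)), add_zero]
  refine ⟨fun h => ?_, fun ⟨h5, h6, h7, h8⟩ s hs => twA_of_sym h7 hrp ((h4 h5).trans h8)
    (Int.natCast_dvd.mpr (dvd_of_one_le_padicValNat h8.ge)) (h6 ▸ hs)⟩
  by_cases h5 : (r : ℤ) ∣ Q - 1
  swap
  · obtain ⟨s, h6, h7, h8⟩ := exists_not_tw_of_not_dvd (L := L) hr hrp h5 hQ₀ hi0 hi h1 h2
    exact absurd (h s h6 h7).tw h8
  obtain ⟨h6, h7, h8⟩ := necessary_of_forall_tw (L := L) hr hrp hr2 h5 hQ1 hQ₀ h3 hn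
    (fun h6 h7 => h2 (by rw [hn' h6]; exact h7.trans ⟨Q₀ - 1, by ring⟩))
    fun s hs hd => (h s hs hd).tw
  obtain ⟨rfl, h9⟩ := h8.resolve_right hgap
  have h10 : k = 2 := by
    refine by_contra fun h10 => ?_
    have h11 := (hk.odd_of_ne_two h10).add_dvd_pow_add_pow Q₀ 1
    rw [one_pow, ← hQ] at h11
    have h12 : (n : ℤ) ∣ 2 := by simpa using (h6.trans h11).sub h5
    exact hr2 ((Nat.prime_dvd_prime_iff_eq hr Nat.prime_two).mp (by exact_mod_cast h12))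
  refine ⟨h10, rfl, h9, h4 h10 ▸ le_antisymm (padicValNat_self (p := n) ▸ h7)
    (one_le_padicValNat_of_dvd (Int.natAbs_ne_zero.mpr (sub_ne_zero.mpr hQ1))
      (Int.natCast_dvd.mp h5))⟩

end Field

end Cfsg.Agent.H77
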