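import Cfsg.Agent.H99.HNDefs

/-!
The elementary abelian subgroup `V₁ V₂ V₃` of order `64` of the alternating group of degree twelve.
-/

set_option autoImplicit false

namespace Cfsg.Agent.H77.HN

open Cfsg Equiv Cfsg.Agent.H99.HN

/-- a four-group -/
abbrev K4 : Type := ZMod 2 × ZMod 2
/-- coordinates -/
abbrev T6 : Type := K4 × K4 × K4

/-- `(0 1)(2 3)` -/
def g1 : A12 := dd 0 1 2 3
/-- `(4 5)(6 7)` -/
def g3 : A12 := dd 4 5 6 7
/-- `(4 6)(5 7)` -/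
def g4 : A12 := dd 4 6 5 7
/-- a four-group with two generators -/
def kv (x y : A12) (a : K4) : A12 := (if a.1 = 0 then 1 else x) * (if a.2 = 0 then 1 else y)
/-- the elementary abelian group -/
def fv (τ : T6) : A12 := kv g1 σ0 τ.1 * kv g3 g4 τ.2.1 * kv t0 s0 τ.2.2

/-- coordinates of `u0` -/
def uT : T6 := ((1, 0), (1, 0), 0)
/-- coordinates of `t0` -/
def tT : T6 := (0, 0, (1, 0))
/-- coordinates of `s0` -/
def sT : T6 := (0, 0, (0, 1))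
/-- coordinates of `σ0` -/
def σT : T6 := ((0, 1), 0, 0)
/-- coordinates of `g1` -/
def aT : T6 := ((1, 0), 0, 0)
/-- coordinates of `g3` -/
def bT : T6 := (0, (1, 0), 0)
/-- coordinates of `x2` -/
def xT : T6 := ((0, 1), (0, 1), 0)

theorem fv_u : fv uT = u0 := by decide +kernel
theorem fv_t : fv tT = t0 := by decide +kernel
theorem fv_s : fv sT = s0 := by decide +kernel
theorem fv_σ : fv σT = σ0 := by decide +kernel
theorem fv_a : fv aT = g1 := by decide +kernel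
theorem fv_b : fv bT = g3 := by decide +kernel
theorem fv_x : fv xT = x2 := by decide +kernel
theorem fv_zero : fv 0 = 1 := by decide +kernel
theorem fv_k1 : ∀ a, fv (a, 0, 0) = kv g1 σ0 a := by decide +kernel
theorem fv_k3 : ∀ a, fv (0, 0, a) = kv t0 s0 a := by decide +kernel

theorem fv_add (τ μ : T6) : fv (τ + μ) = fv τ * fv μ := by
  have h1 : ∀ a b, kv g1 σ0 (a + b) = kv g1 σ0 a * kv g1 σ0 b := by decide +kernel
  have h2 : ∀ a b, kv g3 g4 (a + b) = kv g3 g4 a * kv g3 g4 b := by decide +kernel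
  have h3 : ∀ a b, kv t0 s0 (a + b) = kv t0 s0 a * kv t0 s0 b := by decide +kernel
  have c1 : ∀ a b, kv g3 g4 a * kv g1 σ0 b = kv g1 σ0 b * kv g3 g4 a := by decide +kernel
  have c2 : ∀ a b, kv t0 s0 a * kv g1 σ0 b = kv g1 σ0 b * kv t0 s0 a := by decide +kernel
  have c3 : ∀ a b, kv t0 s0 a * kv g3 g4 b = kv g3 g4 b * kv t0 s0 a := by decide +kernel
  simp only [fv, Prod.fst_add, Prod.snd_add, h1, h2, h3, mul_assoc]
  rw [← mul_assoc (kv t0 s0 τ.2.2), c2, mul_assoc, ← mul_assoc (kv t0 s0 τ.2.2), c3,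
    ← mul_assoc (kv g3 g4 τ.2.1) (kv g1 σ0 μ.1), c1]
  simp only [mul_assoc]

theorem T6_add : ∀ τ : T6, τ + τ = 0 := by decide +kernel

theorem fv_sq (τ : T6) : fv τ * fv τ = 1 := by rw [← fv_add, T6_add, fv_zero]

theorem fv_comm (τ μ : T6) : fv τ * fv μ = fv μ * fv τ := by rw [← fv_add, add_comm, fv_add]

theorem fv_inj : Function.Injective fv := fun τ μ h => by
  have h0 : ∀ τ, fv τ = 1 → τ = 0 := by decide +kernel
  have := h0 (τ + μ) (by rw [fv_add, h, fv_sq])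
  rw [← add_zero τ, ← T6_add μ, ← add_assoc, this, zero_add]

/-- the class of an element -/
def cls (τ : T6) : Fin 3 :=
  if τ = 0 then 0 else
    if (if τ.1 = 0 then 0 else 1) + (if τ.2.1 = 0 then 0 else 1) + (if τ.2.2 = 0 then 0 else 1) = 2
    then 2 else 1

/-- a representative -/
def rep (τ : T6) : T6 :=
  if cls τ = 0 then 0 else if cls τ = 2 then uT else if τ.1 ≠ 0 ∧ τ.2.1 ≠ 0 then tT + uT else tT

/-- normalizes the group -/
def NF (γ : A12) : Prop := ∀ τ, ∃ μ, γ * fv τ * γ⁻¹ = fv μ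

theorem NF.one : NF 1 := fun τ => ⟨τ, by simp⟩

theorem NF.mul {γ δ : A12} (h : NF γ) (h' : NF δ) : NF (γ * δ) := fun τ => by
  obtain ⟨μ, e⟩ := h' τ
  obtain ⟨ν, e'⟩ := h μ
  exact ⟨ν, by rw [← e', ← e]; group⟩

theorem NF.pow {γ : A12} (h : NF γ) : ∀ n : ℕ, NF (γ ^ n)
  | 0 => by rw [pow_zero]; exact NF.one
  | n + 1 => by rw [pow_succ]; exact (NF.pow h n).mul h

/-- `(4 8)(5 9)(6 10)(7 11)` -/
def β2 : A12 := dd 4 8 5 9 * dd 6 10 7 11
/-- rotation -/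
def rt (a : K4) : K4 := (a.2, a.1 + a.2)
/-- exponent -/
def ex (a : K4) : ℕ := if a.2 = 0 then 0 else if a.1 = 0 then 2 else 1
/-- block permutation -/
def bt (τ : T6) : A12 :=
  if τ.1 = 0 then (if τ.2.1 = 0 then 1 else if τ.2.2 = 0 then β2 else β2 * x4)
  else (if τ.2.1 = 0 then (if τ.2.2 = 0 then β2 * x4 else β2) else 1)

theorem ex_cj (τ : T6) : ∃ γ, NF γ ∧ γ * fv τ * γ⁻¹ = fv (rep τ) := by
  have r1 : NF (dd 1 2 2 3) := fun τ => ⟨(rt τ.1, τ.2), by revert τ; decide +kernel⟩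
  have r2 : NF (dd 5 6 6 7) := fun τ => ⟨(τ.1, rt τ.2.1, τ.2.2), by revert τ; decide +kernel⟩
  have r3 : NF (dd 9 10 10 11) := fun τ => ⟨(τ.1, τ.2.1, rt τ.2.2), by revert τ; decide +kernel⟩
  have b1 : NF x4 := fun τ => ⟨(τ.2.1, τ.1, τ.2.2), by revert τ; decide +kernel⟩
  have b2 : NF β2 := fun τ => ⟨(τ.1, τ.2.2, τ.2.1), by revert τ; decide +kernel⟩
  refine ⟨bt τ * dd 1 2 2 3 ^ ex τ.1 * dd 5 6 6 7 ^ ex τ.2.1 * dd 9 10 10 11 ^ ex τ.2.2,
    ((NF.mul ?_ (r1.pow _)).mul (r2.pow _)).mul (r3.pow _), by revert τ; decide +kernel⟩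
  unfold bt
  split_ifs
  exacts [NF.one, b2, b2.mul b1, b2.mul b1, b2, NF.one]

section Pt
variable {γ δ : A12}

theorem pt (h : γ * δ = δ * γ) (x : Fin 12) : γ.1 (δ.1 x) = δ.1 (γ.1 x) :=
  congrArg (fun p : A12 => p.1 x) h

theorem mv (h : γ * δ = δ * γ) {x : Fin 12} (hx : δ.1 x ≠ x) : δ.1 (γ.1 x) ≠ γ.1 x := by
  rw [← pt h]; exact fun e => hx (γ.1.injective e)

theorem step (h : γ * δ = δ * γ) {x y : Fin 12} (hx : γ.1 x = x)
    (e : δ.1 x = y := by decide +kernel) : γ.1 y = y := by rw [← e, pt h, hx]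

theorem small (δ : A12) (S : Finset (Fin 12)) (h : ∀ x, x ∉ S → δ.1 x = x)
    (hc : S.card ≤ 2 ∨ S.card ≤ 3 ∧ δ * δ = 1) : δ = 1 := by
  have h1 : δ.1.support.card ≤ S.card := Finset.card_le_card fun x hx => by
    by_contra e
    exact Perm.mem_support.1 hx (h x e)
  have h2 : δ.1.support.card ≠ 2 := fun e => by
    have := δ.2
    rw [Perm.mem_alternatingGroup, (Perm.card_support_eq_two.1 e).sign_eq] at this
    exact absurd this (by decide)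
  refine Subtype.ext (Perm.card_support_le_one.1 ?_)
  rcases hc with hc | ⟨hc, h3⟩
  · omega
  have h4 : δ.1.support.card ≠ 3 := fun e => by
    have a := (card_support_eq_three_iff.1 e).orderOf
    have b : orderOf δ.1 ∣ 2 := orderOf_dvd_of_pow_eq_one (by
      rw [pow_two]; exact congrArg Subtype.val h3)
    rw [a] at b
    omega
  omega

/-- fixes the points from `n` on -/
def Fx (n : ℕ) (γ : A12) : Prop := ∀ x : Fin 12, n ≤ x.val → γ.1 x = x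

theorem Fx.lt {n : ℕ} (h : Fx n γ) {x : Fin 12} (hx : x.val < n) : (γ.1 x).val < n := by
  by_contra e
  have := γ.1.injective (h _ (not_lt.1 e))
  rw [this] at e
  exact e hx

theorem Fx.mul {n : ℕ} (h : Fx n γ) (h' : Fx n δ) : Fx n (γ * δ) := fun x hx => by
  change γ.1 (δ.1 x) = x
  rw [h' x hx, h x hx]

theorem Fx.inv {n : ℕ} (h : Fx n γ) : Fx n γ⁻¹ := fun x hx =>
  γ.1.injective (by rw [h x hx]; exact γ.1.apply_symm_apply x)

theorem Fx.comm {n : ℕ} (h : Fx n γ) (h' : ∀ x : Fin 12, x.val < n → δ.1 x = x) :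
    γ * δ = δ * γ :=
  Subtype.ext (Perm.Disjoint.commute fun x => (le_or_gt n x.val).imp (h x) (h' x))

theorem fix8 (ht : γ * t0 = t0 * γ) (hs : γ * s0 = s0 * γ) (hc : γ * c4 = c4 * γ) : Fx 8 γ := by
  have h11 : γ.1 11 = 11 :=
    (by decide +kernel : ∀ x, t0.1 x ≠ x → c4.1 x = x → x = 11) _ (mv ht (by decide +kernel))
      (by rw [← pt hc, show c4.1 11 = 11 by decide +kernel])
  have h10 : γ.1 10 = 10 := step ht h11
  have h9 : γ.1 9 = 9 := step hs h11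
  have h8 : γ.1 8 = 8 := step ht h9
  intro x hx
  rcases (by decide : ∀ x : Fin 12, 8 ≤ x.val → x = 8 ∨ x = 9 ∨ x = 10 ∨ x = 11) x hx with
    rfl | rfl | rfl | rfl <;> assumption

theorem s4 (h : Fx 4 γ) (h2 : γ * γ = 1) : ∃ a, γ = kv g1 σ0 a := by
  by_cases e : γ.1 0 = 0
  · refine ⟨0, (small γ {1, 2, 3} (fun x hx => ?_) (Or.inr ⟨by decide, h2⟩)).trans
      (by decide +kernel)⟩
    rcases (by decide : ∀ x : Fin 12, x ∉ ({1, 2, 3} : Finset _) → x = 0 ∨ 4 ≤ x.val) x hx with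
      rfl | hx
    exacts [e, h x hx]
  obtain ⟨a, a1, a2, a3⟩ := (by decide +kernel : ∀ p : Fin 12, p.val < 4 →
    ∃ a, (kv g1 σ0 a).1 0 = p ∧ (kv g1 σ0 a).1 p = 0 ∧ ∀ x : Fin 12, 4 ≤ x.val →
      (kv g1 σ0 a).1 x = x) _ (h.lt (x := 0) (by decide))
  have e1 : kv g1 σ0 a * γ = 1 := by
    refine small _ (Finset.univ.filter fun x => x.val < 4 ∧ x ≠ 0 ∧ x ≠ γ.1 0) (fun x hx => ?_)
      (Or.inl ((by decide +kernel : ∀ p : Fin 12, p.val < 4 → p ≠ 0 → (Finset.univ.filter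
        fun x : Fin 12 => x.val < 4 ∧ x ≠ 0 ∧ x ≠ p).card ≤ 2) _ (h.lt (by decide)) e))
    change (kv g1 σ0 a).1 (γ.1 x) = x
    by_cases x0 : x = 0
    · rw [x0, a2]
    by_cases x1 : x = γ.1 0
    · rw [x1, show γ.1 (γ.1 0) = 0 from congrArg (fun p : A12 => p.1 0) h2, a1]
    have x4 : 4 ≤ x.val := by simpa [x0, x1] using hx
    rw [h x x4, a3 x x4]
  exact ⟨a, by rw [eq_inv_of_mul_eq_one_left e1, inv_eq_of_mul_eq_one_left h2]⟩

theorem base (h1 : γ * fv aT = fv aT * γ) (h3 : γ * fv bT = fv bT * γ)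
    (ht : γ * fv tT = fv tT * γ) (hs : γ * fv sT = fv sT * γ) : ∃ τ,
    (∀ μ, γ * fv μ = fv μ * γ → fv τ * γ * fv μ = fv μ * (fv τ * γ)) ∧ (fv τ * γ).1 0 = 0 ∧
      (fv τ * γ).1 1 = 1 ∧ (fv τ * γ).1 4 = 4 ∧ (fv τ * γ).1 5 = 5 ∧ Fx 8 (fv τ * γ) := by
  obtain ⟨τ, a0, a4, a8⟩ := (by decide +kernel : ∀ p, (fv aT).1 p ≠ p → ∀ q, (fv bT).1 q ≠ q →
    ∀ r, (fv tT).1 r ≠ r → ∃ τ, (fv τ).1 p = 0 ∧ (fv τ).1 q = 4 ∧ (fv τ).1 r = 8)
    _ (mv h1 (x := 0) (by decide +kernel)) _ (mv h3 (x := 4) (by decide +kernel))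
    _ (mv ht (x := 8) (by decide +kernel))
  have c : ∀ μ, γ * fv μ = fv μ * γ → fv τ * γ * fv μ = fv μ * (fv τ * γ) := fun μ h => by
    rw [mul_assoc, h, ← mul_assoc, fv_comm, mul_assoc]
  have h8 : (fv τ * γ).1 8 = 8 := a8
  have h9 : (fv τ * γ).1 9 = 9 := step (c _ ht) h8
  have h10 : (fv τ * γ).1 10 = 10 := step (c _ hs) h8
  have h11 : (fv τ * γ).1 11 = 11 := step (c _ ht) h10
  refine ⟨τ, c, a0, step (c _ h1) (x := 0) a0, a4, step (c _ h3) (x := 4) a4, fun x hx => ?_⟩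
  rcases (by decide : ∀ x : Fin 12, 8 ≤ x.val → x = 8 ∨ x = 9 ∨ x = 10 ∨ x = 11) x hx with
    rfl | rfl | rfl | rfl <;> assumption

theorem fin (τ : T6) (h2 : (fv τ * γ).1 2 = 2) (h1 : fv τ * γ * fv aT = fv aT * (fv τ * γ))
    (a0 : (fv τ * γ).1 0 = 0) (a1 : (fv τ * γ).1 1 = 1) (a4 : (fv τ * γ).1 4 = 4)
    (a5 : (fv τ * γ).1 5 = 5) (a8 : Fx 8 (fv τ * γ)) : γ = fv τ := by
  have h3 : (fv τ * γ).1 3 = 3 := step h1 h2
  have e : fv τ * γ = 1 := small _ {6, 7} (fun x hx => by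
    rcases (by decide : ∀ x : Fin 12, x ∉ ({6, 7} : Finset _) → x = 0 ∨ x = 1 ∨ x = 2 ∨ x = 3 ∨
      x = 4 ∨ x = 5 ∨ 8 ≤ x.val) x hx with rfl | rfl | rfl | rfl | rfl | rfl | hx
    exacts [a0, a1, h2, h3, a4, a5, a8 x hx]) (Or.inl (by decide))
  rw [eq_inv_of_mul_eq_one_right e, inv_eq_of_mul_eq_one_left (fv_sq τ)]

theorem cF0 (h1 : γ * fv aT = fv aT * γ) (h3 : γ * fv bT = fv bT * γ)
    (ht : γ * fv tT = fv tT * γ) (hs : γ * fv sT = fv sT * γ) (hx : γ * fv xT = fv xT * γ) :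
    ∃ τ, γ = fv τ := by
  obtain ⟨τ, c, a0, a1, a4, a5, a8⟩ := base h1 h3 ht hs
  exact ⟨τ, fin τ (step (c _ hx) a0) (c _ h1) a0 a1 a4 a5 a8⟩

theorem cU (h1 : γ * fv aT = fv aT * γ) (h3 : γ * fv bT = fv bT * γ)
    (ht : γ * fv tT = fv tT * γ) (hs : γ * fv sT = fv sT * γ) (hx : γ * fv σT = fv σT * γ) :
    ∃ τ, γ = fv τ := by
  obtain ⟨τ, c, a0, a1, a4, a5, a8⟩ := base h1 h3 ht hs
  exact ⟨τ, fin τ (step (c _ hx) a0) (c _ h1) a0 a1 a4 a5 a8⟩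

theorem eta (h : γ * g3 = g3 * γ) (h3 : γ ^ 3 = 1) : ∀ x, g3.1 x ≠ x → γ.1 x = x := by
  let f : Fin 12 → Fin 12 → Fin 12 → Fin 12 := fun p q x =>
    if x = 4 then p else if x = 5 then g3.1 p else if x = 6 then q else g3.1 q
  have four := (by decide +kernel : ∀ x : Fin 12, g3.1 x ≠ x → x = 4 ∨ x = 5 ∨ x = 6 ∨ x = 7)
  have hf : ∀ x, g3.1 x ≠ x → f (γ.1 4) (γ.1 6) x = γ.1 x := fun x hx => by
    rcases four x hx with rfl | rfl | rfl | rfl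
    · rfl
    · exact (pt h 4).symm.trans (congrArg γ.1 (by decide +kernel))
    · rfl
    · exact (pt h 6).symm.trans (congrArg γ.1 (by decide +kernel))
  have h4 : ∀ x, g3.1 x ≠ x → f (γ.1 4) (γ.1 6) (f (γ.1 4) (γ.1 6) (f (γ.1 4) (γ.1 6) x)) = x :=
    fun x hx => by
      rw [hf x hx, hf _ (mv h hx), hf _ (mv h (mv h hx))]
      exact congrArg (fun p : A12 => p.1 x) ((pow_three γ).symm.trans h3)
  obtain ⟨e4, e6⟩ := (by decide +kernel : ∀ p, g3.1 p ≠ p → ∀ q, g3.1 q ≠ q →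
    f p q (f p q (f p q 4)) = 4 → f p q (f p q (f p q 6)) = 6 → p = 4 ∧ q = 6)
    _ (mv h (x := 4) (by decide +kernel)) _ (mv h (x := 6) (by decide +kernel))
    (h4 4 (by decide +kernel)) (h4 6 (by decide +kernel))
  intro x hx
  rcases four x hx with rfl | rfl | rfl | rfl
  exacts [e4, step h e4, e6, step h e6]

theorem conjW {w : A12} (hw : Fx 8 w) (h2 : w * w = 1) (h1 : w ≠ 1) :
    ∃ π : A12, Fx 8 π ∧ ∃ a, π * w * π⁻¹ = fv (a, (1, 0), 0) := by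
  have ww : ∀ x, w.1 (w.1 x) = x := fun x => congrArg (fun p : A12 => p.1 x) h2
  have lt : ∀ x, w.1 x ≠ x → x.val < 8 := fun x hx => not_le.1 fun e => hx (hw x e)
  obtain ⟨a, ha⟩ : ∃ a, w.1 a ≠ a := by
    by_contra e
    push Not at e
    exact h1 (Subtype.ext (Equiv.ext e))
  obtain ⟨c, hc', hc⟩ : ∃ c, c ∉ ({a, w.1 a} : Finset _) ∧ w.1 c ≠ c := by
    by_contra e
    push Not at e
    exact h1 (small w _ e (Or.inl Finset.card_le_two))
  simp only [Finset.mem_insert, Finset.mem_singleton, not_or] at hc'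
  have d1 : w.1 c ≠ a := fun e => hc'.2 (by rw [← e, ww])
  have d2 : w.1 c ≠ w.1 a := fun e => hc'.1 (w.1.injective e)
  have l1 := lt a ha
  have l2 := hw.lt l1
  have l3 := lt c hc
  have l4 := hw.lt l3
  have inj : Function.Injective ![a, w.1 a, c, w.1 c, 8, 9, 10, 11] := by
    rw [← List.nodup_ofFn]
    obtain ⟨d3, d4⟩ := hc'
    simp only [ne_eq, Fin.ext_iff] at ha hc d1 d2 d3 d4
    simp only [List.ofFn_succ, List.ofFn_zero, Matrix.cons_val_zero, Matrix.cons_val_succ,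
      List.nodup_cons, List.mem_cons, List.not_mem_nil, List.nodup_nil, Fin.ext_iff,
      Fin.coe_ofNat_eq_mod, or_false, not_false_eq_true, and_true]
    omega
  obtain ⟨π₀, h0⟩ := Perm.exists_extending_pair _ ![(4 : Fin 12), 5, 6, 7, 8, 9, 10, 11] inj
    (by decide)
  obtain ⟨π, hπ⟩ : ∃ π : A12, ∀ i, π.1 (![a, w.1 a, c, w.1 c, 8, 9, 10, 11] i) =
      ![(4 : Fin 12), 5, 6, 7, 8, 9, 10, 11] i := by
    rcases Int.units_eq_one_or (Perm.sign π₀) with e | e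
    · exact ⟨⟨π₀, e⟩, h0⟩
    · refine ⟨⟨swap 0 1 * π₀, by simp [Perm.mem_alternatingGroup, e]⟩, fun i => ?_⟩
      change swap 0 1 (π₀ _) = _
      rw [h0]
      revert i; decide
  have p8 : Fx 8 π := fun x hx => by
    rcases (by decide : ∀ x : Fin 12, 8 ≤ x.val → x = 8 ∨ x = 9 ∨ x = 10 ∨ x = 11) x hx with
      rfl | rfl | rfl | rfl
    exacts [hπ 4, hπ 5, hπ 6, hπ 7]
  have val : ∀ x y, π.1 x = y → (g3 * (π * w * π⁻¹)).1 y = g3.1 (π.1 (w.1 x)) := by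
    rintro x _ rfl
    change g3.1 (π.1 (w.1 (π.1⁻¹ (π.1 x)))) = _
    rw [Perm.inv_def, Equiv.symm_apply_apply]
  have f4 : Fx 4 (g3 * (π * w * π⁻¹)) := fun x hx => by
    rcases (by decide : ∀ x : Fin 12, 4 ≤ x.val → x = 4 ∨ x = 5 ∨ x = 6 ∨ x = 7 ∨ 8 ≤ x.val) x hx
      with rfl | rfl | rfl | rfl | hx
    · rw [val a 4 (hπ 0), show π.1 (w.1 a) = 5 from hπ 1]; decide +kernel
    · rw [val (w.1 a) 5 (hπ 1), show π.1 (w.1 _) = 4 from (congrArg π.1 (ww a)).trans (hπ 0)]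
      decide +kernel
    · rw [val c 6 (hπ 2), show π.1 (w.1 c) = 7 from hπ 3]; decide +kernel
    · rw [val (w.1 c) 7 (hπ 3), show π.1 (w.1 _) = 6 from (congrArg π.1 (ww c)).trans (hπ 2)]
      decide +kernel
    · exact Fx.mul (by unfold Fx; decide +kernel) ((p8.mul hw).mul p8.inv) x hx
  have cm := f4.comm (δ := g3) (by decide +kernel)
  have gg : g3 * g3 = 1 := by decide +kernel
  obtain ⟨b, hb⟩ := s4 f4 (by
    calc g3 * (π * w * π⁻¹) * (g3 * (π * w * π⁻¹))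
        = g3 * (π * w * π⁻¹) * g3 * (π * w * π⁻¹) := by group
      _ = (g3 * g3) * (π * (w * w) * π⁻¹) := by rw [cm]; group
      _ = 1 := by rw [gg, h2]; group)
  refine ⟨π, p8, b, ?_⟩
  rw [← (by decide +kernel : ∀ b, g3 * kv g1 σ0 b = fv (b, (1, 0), 0)), ← hb, ← mul_assoc, gg,
    one_mul]

theorem lemA {w q1 q2 η : A12} (fw : Fx 8 w) (f1 : Fx 8 q1) (f2 : Fx 8 q2) (ww : w * w = 1)
    (w1 : w ≠ 1) (hw : ¬ IsConj u0 w) (η3 : η ^ 3 = 1) (ηw : η * w = w * η)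
    (c1 : q1 * w = w * q1) (c2 : q2 * w = w * q2) (s1 : q1 * q1 = 1) (s2 : q2 * q2 = 1)
    (e1 : η * q1 = q2 * η) (e2 : η * q2 = q1 * q2 * η) (n1 : q1 ≠ 1) :
    ∃ π : A12, Fx 8 π ∧ π * w * π⁻¹ = fv bT ∧ ∃ a b : K4, a ≠ 0 ∧ b ≠ 0 ∧ a ≠ b ∧
      π * q1 * π⁻¹ = fv (a, 0, 0) ∧ π * q2 * π⁻¹ = fv (b, 0, 0) := by
  obtain ⟨π, p8, a, ha⟩ := conjW fw ww w1
  obtain rfl : a = 0 := by
    by_contra e
    obtain ⟨γ, -, hγ⟩ := ex_cj (a, (1, 0), 0)
    rw [(by decide +kernel : ∀ a : K4, a ≠ 0 → rep (a, (1, 0), 0) = uT) a e, fv_u, ← ha] at hγ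
    exact hw (IsConj.symm (isConj_iff.2 ⟨γ * π, by rw [← hγ]; group⟩))
  have hb : π * w * π⁻¹ = g3 := ha.trans fv_b
  let Θ := MulAut.conj π
  have hb' : Θ w = g3 := hb
  have tr : ∀ {x : A12}, x * w = w * x → Θ x * g3 = g3 * Θ x := fun h => by
    rw [← hb', ← map_mul, ← map_mul, h]
  have hη := eta (tr ηw) (by rw [← map_pow, η3, map_one])
  have k1 : ∀ x, g3.1 x ≠ x → (Θ q2).1 x = (Θ q1).1 x := fun x hx => by
    have : (Θ η).1 ((Θ q1).1 x) = (Θ q2).1 ((Θ η).1 x) :=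
      congrArg (fun p : A12 => p.1 x) (show Θ η * Θ q1 = Θ q2 * Θ η by
        rw [← map_mul, ← map_mul, e1])
    rwa [hη x hx, hη _ (mv (tr c1) hx), eq_comm] at this
  have k2 : ∀ x, g3.1 x ≠ x → (Θ q2).1 x = x := fun x hx => by
    have : (Θ η).1 ((Θ q2).1 x) = (Θ q1).1 ((Θ q2).1 ((Θ η).1 x)) :=
      congrArg (fun p : A12 => p.1 x) (show Θ η * Θ q2 = Θ q1 * Θ q2 * Θ η by
        rw [← map_mul, ← map_mul, ← map_mul, e2])
    rw [hη x hx, hη _ (mv (tr c2) hx), ← k1 _ (mv (tr c2) hx)] at this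
    exact ((Θ q2).1.injective this).symm
  have up : ∀ {q : A12}, Fx 8 q → (∀ x, g3.1 x ≠ x → (Θ q).1 x = x) → Fx 4 (Θ q) :=
    fun h h' x hx => ((by decide +kernel : ∀ x : Fin 12, 4 ≤ x.val → g3.1 x ≠ x ∨ 8 ≤ x.val)
      x hx).elim (h' x) ((p8.mul h).mul p8.inv x)
  obtain ⟨a, ha⟩ := s4 (up f1 fun x hx => (k1 x hx).symm.trans (k2 x hx))
    (by rw [← map_mul, s1, map_one])
  obtain ⟨b, hb2⟩ := s4 (up f2 k2) (by rw [← map_mul, s2, map_one])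
  rw [← fv_k1] at ha hb2
  have n2 : q2 ≠ 1 := by
    rintro rfl
    exact n1 (by simpa using e1)
  refine ⟨π, p8, hb.trans fv_b.symm, a, b, ?_, ?_, ?_, ha, hb2⟩
  · rintro rfl
    exact n1 (Θ.injective (ha.trans (fv_zero.trans (map_one Θ).symm)))
  · rintro rfl
    exact n2 (Θ.injective (hb2.trans (fv_zero.trans (map_one Θ).symm)))
  · rintro rfl
    have := Θ.injective (ha.trans hb2.symm)
    rw [this, s2] at e2
    exact n2 (by simpa using e2)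

end Pt

end Cfsg.Agent.H77.HN
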