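import Cfsg.Agent.H77.HNF5a

/-!
An element of order five normalizing the extraspecial group.
-/

set_option autoImplicit false

namespace Cfsg.Agent.H77.HN

open Cfsg Subgroup Cfsg.Agent.H99.HN
open Cfsg.Agent.H67.T3 (slF slF_X)
open scoped Pointwise

universe u

variable {G : Type u} [Group G]

theorem zp_two {u c : G} (hu : u * u = 1) (hc : c ∈ zpowers u) : c = 1 ∨ c = u := by
  obtain ⟨k, rfl⟩ := mem_zpowers_iff.1 hc
  have : u ^ (2 : ℤ) = 1 := by rw [zpow_two, hu]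
  obtain ⟨j, rfl | rfl⟩ := Int.even_or_odd' k
  · exact Or.inl (by rw [zpow_mul, this, one_zpow])
  · exact Or.inr (by rw [zpow_add_one, zpow_mul, this, one_zpow, one_mul])

/-- the elements acting trivially on `X` modulo `u` -/
def Hs (u : G) (X : Set G) : Subgroup G where
  carrier := {g | Commute g u ∧ ∀ x ∈ X, g * x * g⁻¹ * x⁻¹ ∈ zpowers u}
  one_mem' := ⟨Commute.one_left u, fun x _ => by simp⟩
  mul_mem' := by
    rintro g h ⟨g1, g2⟩ ⟨h1, h2⟩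
    refine ⟨g1.mul_left h1, fun x hx => ?_⟩
    obtain ⟨k, hk⟩ := mem_zpowers_iff.1 (h2 x hx)
    have : g * h * x * (g * h)⁻¹ * x⁻¹ = g * u ^ k * g⁻¹ * (g * x * g⁻¹ * x⁻¹) := by
      rw [hk]; group
    rw [this, (g1.zpow_right k).eq, mul_inv_cancel_right]
    exact mul_mem (zpow_mem_zpowers u k) (g2 x hx)
  inv_mem' := by
    rintro g ⟨g1, g2⟩
    refine ⟨g1.inv_left, fun x hx => ?_⟩
    obtain ⟨k, hk⟩ := mem_zpowers_iff.1 (inv_mem (g2 x hx))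
    have : g⁻¹ * x * g⁻¹⁻¹ * x⁻¹ = g⁻¹ * (u ^ k * g) := by rw [hk]; group
    rw [this, ← (g1.zpow_right k).eq, inv_mul_cancel_left]
    exact zpow_mem_zpowers u k

theorem relIndex_le {u x : G} (hu : u * u = 1) {X : Set G} (hx : x ∈ X) :
    (centralizer {x}).relIndex (Hs u X) ≤ 2 := by
  refine Nat.le_of_dvd two_pos (relIndex_dvd_two_iff.2 ?_)
  have c : ∀ b : G, b * x * b⁻¹ * x⁻¹ = 1 → b ∈ centralizer {x} := fun b hb =>
    mem_centralizer_singleton_iff.2 (by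
      rw [mul_inv_eq_one, mul_inv_eq_iff_eq_mul] at hb; exact hb)
  by_cases h : ∀ b ∈ Hs u X, b * x * b⁻¹ * x⁻¹ = 1
  · exact ⟨1, one_mem _, fun b hb => Or.inr (c b (h b hb))⟩
  push Not at h
  obtain ⟨a, ha, ha'⟩ := h
  have e1 := (zp_two hu (ha.2 x hx)).resolve_left ha'
  refine ⟨a, ha, fun b hb => (zp_two hu (hb.2 x hx)).symm.imp (fun e2 => c _ ?_) (c b)⟩
  calc b * a * x * (b * a)⁻¹ * x⁻¹ = b * (a * x * a⁻¹ * x⁻¹) * b⁻¹ * (b * x * b⁻¹ * x⁻¹) := by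
        group
    _ = 1 := by rw [e1, e2, hb.1.eq, mul_inv_cancel_right, hu]

theorem comm_cl {ψ : A12 →* G} {a b : A12} {g : G} (ha : Commute g (ψ a)) (hb : Commute g (ψ b)) :
    ∀ y ∈ (closure {a, b}).map ψ, Commute g y := by
  have : (closure {a, b}).map ψ ≤ centralizer {g} := by
    rw [map_le_iff_le_comap, closure_le]
    rintro x (rfl | rfl)
    exacts [mem_centralizer_singleton_iff.2 ha.symm, mem_centralizer_singleton_iff.2 hb.symm]
  exact fun y hy => (mem_centralizer_singleton_iff.1 (this hy)).symm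

variable (U : HB G)

/-- the elementary abelian group in `G` -/
def Φ (τ : T6) : G := U.ψ (fv τ)

theorem Φ_add (τ μ : T6) : Φ U (τ + μ) = Φ U τ * Φ U μ := by rw [Φ, fv_add, map_mul]; rfl
theorem Φ_inj : Function.Injective (Φ U) := U.inj.comp fv_inj
theorem Φ_u : Φ U uT = U.u := congrArg U.ψ fv_u
theorem Φ_t : Φ U tT = U.t := congrArg U.ψ fv_t
theorem Φ_s : Φ U sT = U.s := congrArg U.ψ fv_s
theorem Φ_σ : Φ U σT = U.σ := congrArg U.ψ fv_σ
theorem Φ_zero : Φ U 0 = 1 := by rw [Φ, fv_zero, map_one]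
theorem Φ_sq (τ : T6) : Φ U τ * Φ U τ = 1 := by rw [← Φ_add, T6_add, Φ_zero]
theorem Φ_comm (τ μ : T6) : Commute (Φ U τ) (Φ U μ) := by
  rw [Commute, SemiconjBy, ← Φ_add, add_comm, Φ_add]
theorem uu : U.u * U.u = 1 := Φ_u U ▸ Φ_sq U uT

theorem d_am : U.d * U.am * U.d⁻¹ = U.ap := by
  have h1 : U.d * U.z * U.d⁻¹ = U.z := mul_inv_eq_of_eq_mul (U.ιz slF)
  have h2 : U.d * U.ψ (c1 * c2 * c4⁻¹) * U.d⁻¹ = (U.ψ (c1 * c2 * c4⁻¹))⁻¹ := by
    rw [← U.ιX, HB.d, ← map_inv, ← map_mul, ← map_mul, slF_X, map_inv]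
  have e1 : U.am = (U.z * U.ψ (c1 * c2 * c4⁻¹))⁻¹ := by
    rw [HB.z, ← map_mul, ← map_inv]; exact congrArg U.ψ (by decide +kernel)
  have e2 : U.ap = (U.z * (U.ψ (c1 * c2 * c4⁻¹))⁻¹)⁻¹ := by
    rw [HB.z, ← map_inv, ← map_mul, ← map_inv]; exact congrArg U.ψ (by decide +kernel)
  rw [e2, ← h2, ← h1, e1]
  group

theorem cardF [Finite G] {K H : Subgroup G} (h : ∀ g ∈ H, g ∈ K → ∃ τ, g = Φ U τ) :
    Nat.card H ≤ 64 * K.relIndex H := by
  choose f hf using h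
  have h1 : Nat.card (K.subgroupOf H) ≤ Nat.card T6 :=
    Nat.card_le_card_of_injective (fun g => f g.1.1 g.1.2 g.2) fun a b e =>
      Subtype.ext (Subtype.ext (by rw [hf a.1.1 a.1.2 a.2, hf b.1.1 b.1.2 b.2]; exact congrArg _ e))
  rw [show Nat.card T6 = 64 by simp] at h1
  rw [← (K.subgroupOf H).card_mul_index]
  exact Nat.mul_le_mul_right _ h1

/-- normalizes the elementary abelian group -/
def NG (f : G) : Prop := ∀ τ, ∃ μ, f * Φ U τ * f⁻¹ = Φ U μ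

variable {U}

theorem NG.mul {f g : G} (h : NG U f) (h' : NG U g) : NG U (f * g) := fun τ => by
  obtain ⟨μ, e⟩ := h' τ
  obtain ⟨ν, e'⟩ := h μ
  exact ⟨ν, by rw [← e', ← e]; group⟩

theorem NG.pow {f : G} (h : NG U f) : ∀ n : ℕ, NG U (f ^ n)
  | 0 => fun τ => ⟨τ, by simp⟩
  | n + 1 => by rw [pow_succ]; exact (NG.pow h n).mul h

theorem NG.inv [Finite G] {f : G} (h : NG U f) : NG U f⁻¹ := by
  rw [show f⁻¹ = f ^ (Nat.card G - 1) from inv_eq_of_mul_eq_one_right (by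
    rw [← pow_succ', Nat.sub_add_cancel Nat.card_pos, pow_card_eq_one'])]
  exact h.pow _

theorem NF.ng {γ : A12} (h : NF γ) : NG U (U.ψ γ) := fun τ => (h τ).imp fun μ e => by
  rw [Φ, Φ, ← e, map_mul, map_mul, map_inv]

theorem conjE (ef : U.EF) {x : G} (hx : x ∈ U.E) (h1 : x ≠ 1) (h2 : x ≠ U.u) :
    IsConj x (U.u * x) := by
  by_contra h
  refine (zp_two (uu U) (ef.cE x fun e he => ?_)).elim h1 h2
  rcases zp_two (uu U) (ef.com e he x hx) with e1 | e1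
  · rw [mul_inv_eq_one, mul_inv_eq_iff_eq_mul] at e1; exact e1.symm
  · exact absurd (isConj_iff.2 ⟨e, mul_inv_eq_iff_eq_mul.1 e1⟩) h

theorem V3_le (ef : U.EF) : V30.map U.ψ ≤ U.E := by
  rw [← ef.dV]
  refine le_sup_of_le_right (pointwise_smul_le_pointwise_smul_iff.2 (map_mono (closure_mono ?_)))
  rintro x (rfl | rfl) <;> simp

theorem memE (ef : U.EF) (τ : T6) (h : τ.1.2 = τ.2.1.2) : Φ U τ ∈ U.E := by
  have n : ∀ (μ : T6) (k : ℕ), Φ U μ ∈ U.E → Φ U (k • μ) ∈ U.E := fun μ k hμ => by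
    induction k with
    | zero => rw [zero_nsmul, Φ_zero]; exact one_mem _
    | succ k ih => rw [succ_nsmul, Φ_add]; exact mul_mem ih hμ
  have p : ∀ x ∈ Ep0, U.ψ x ∈ U.E := fun x hx => mem_sup_left (mem_map_of_mem _ hx)
  rw [(by decide +kernel : ∀ τ : T6, τ.1.2 = τ.2.1.2 → τ = τ.1.1.val • aT + τ.2.1.1.val • bT +
    τ.1.2.val • xT + τ.2.2.1.val • tT + τ.2.2.2.val • sT) τ h]
  simp only [Φ_add]
  refine mul_mem (mul_mem (mul_mem (mul_mem (n _ _ ?_) (n _ _ ?_)) (n _ _ ?_)) (n _ _ ?_))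
    (n _ _ ?_)
  · exact p _ (fv_a ▸ subset_closure (by simp [g1]))
  · exact p _ (fv_b ▸ subset_closure (by simp [g3]))
  · exact p _ (fv_x ▸ subset_closure (by simp))
  · exact V3_le ef (mem_map_of_mem _ (fv_t ▸ subset_closure (by simp)))
  · exact V3_le ef (mem_map_of_mem _ (fv_s ▸ subset_closure (by simp)))

theorem Φ_ne {τ μ : T6} (h : τ ≠ μ := by decide +kernel) : Φ U τ ≠ Φ U μ := (Φ_inj U).ne h

theorem t_ut (ef : U.EF) : IsConj U.t (U.u * U.t) :=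
  conjE ef (Φ_t U ▸ memE ef tT rfl) (Φ_t U ▸ Φ_zero U ▸ Φ_ne) (Φ_t U ▸ Φ_u U ▸ Φ_ne)

theorem cls_eq (cl : U.CL) (ef : U.EF) {τ μ : T6} (h : IsConj (Φ U τ) (Φ U μ)) :
    cls τ = cls μ := by
  have c : ∀ τ, IsConj (Φ U τ) (![1, U.t, U.u] (cls τ)) := fun τ => by
    obtain ⟨γ, -, hγ⟩ := ex_cj τ
    refine (U.ψ.map_isConj (isConj_iff.2 ⟨γ, hγ⟩)).trans ?_
    change IsConj (Φ U _) _
    rcases (by decide +kernel : ∀ τ, cls τ = 0 ∧ rep τ = 0 ∨ cls τ = 2 ∧ rep τ = uT ∨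
      cls τ = 1 ∧ rep τ = tT ∨ cls τ = 1 ∧ rep τ = tT + uT) τ with e | e | e | e <;> rw [e.1, e.2]
    · rw [Φ_zero]; rfl
    · rw [Φ_u]; rfl
    · rw [Φ_t]; rfl
    · rw [add_comm, Φ_add, Φ_t, Φ_u]; exact (t_ut ef).symm
  have h1 := (c τ).symm.trans (h.trans (c μ))
  have t1 : U.t ≠ 1 := Φ_t U ▸ Φ_zero U ▸ Φ_ne
  have u1 : U.u ≠ 1 := Φ_u U ▸ Φ_zero U ▸ Φ_ne
  have nc := cl.nc
  have nc' : ¬ IsConj U.u U.t := fun e => nc e.symm
  generalize cls τ = i, cls μ = j at h1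
  fin_cases i <;> fin_cases j <;> simp_all [-isConj_iff]

theorem cen (cv : U.CV) {g : G} (ht : Commute g (Φ U tT)) (hs : Commute g (Φ U sT))
    (ha : Commute g (Φ U aT)) (hb : Commute g (Φ U bT))
    (hx : Commute g (Φ U xT) ∨ Commute g (Φ U σT)) : ∃ τ, g = Φ U τ := by
  obtain ⟨γ, rfl⟩ := cv g (Φ_t U ▸ ht) (Φ_s U ▸ hs)
  have p : ∀ {τ}, Commute (U.ψ γ) (Φ U τ) → γ * fv τ = fv τ * γ := fun h =>
    U.inj (by rw [map_mul, map_mul]; exact h)
  rcases hx with hx | hx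
  · exact (cF0 (p ha) (p hb) (p ht) (p hs) (p hx)).imp fun τ e => congrArg U.ψ e
  · exact (cU (p ha) (p hb) (p ht) (p hs) (p hx)).imp fun τ e => congrArg U.ψ e

/-- `(2 3)(4 5)` -/
def p2 : A12 := dd 2 3 4 5
/-- `(6 7)(8 9)` -/
def q1 : A12 := dd 6 7 8 9
/-- `(6 8 10)(7 9 11)` -/
def y3 : A12 := dd 6 8 8 10 * dd 7 9 9 11
/-- `(0 2 4 6 8)(1 3 5 7 9)` -/
def ρ5 : A12 := dd 0 2 2 4 * dd 4 6 6 8 * (dd 1 3 3 5 * dd 5 7 7 9)

theorem cVp (ef : U.EF) (g : G) : Commute g (U.ψ g1) ∧ Commute g (U.ψ p2) ↔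
    Commute (MulAut.conj U.d g) U.t ∧ Commute (MulAut.conj U.d g) U.s := by
  constructor
  · rintro ⟨h1, h2⟩
    have : ∀ x ∈ V30, Commute (MulAut.conj U.d g) (U.ψ x) := fun x hx => by
      have := mem_map_of_mem U.ψ hx
      rw [← ef.dV] at this
      obtain ⟨y, hy, e⟩ := this
      rw [← e]
      exact (comm_cl h1 h2 y hy).map (MulAut.conj U.d)
    exact ⟨this _ (subset_closure (by simp)), this _ (subset_closure (by simp))⟩
  · rintro ⟨h1, h2⟩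
    have : ∀ x ∈ Vp0, Commute g (U.ψ x) := fun x hx =>
      Commute.of_map (MulAut.conj U.d).injective (comm_cl h1 h2 _ (by
        change _ ∈ V30.map U.ψ
        rw [← ef.dV]
        exact ⟨_, mem_map_of_mem _ hx, rfl⟩))
    exact ⟨this _ (subset_closure (by simp [g1])), this _ (subset_closure (by simp [p2]))⟩

theorem pull (cv : U.CV) (ef : U.EF) (x : A12) (h1 : x * g1 = g1 * x := by decide +kernel)
    (h2 : x * p2 = p2 * x := by decide +kernel)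
    (h3 : x * (c1 * c2) = c1 * c2 * x := by decide +kernel) :
    ∃ x', U.ψ x' = MulAut.conj U.d (U.ψ x) ∧ Fx 8 x' := by
  obtain ⟨a, b⟩ := (cVp ef (U.ψ x)).1 ⟨Commute.map h1 U.ψ, Commute.map h2 U.ψ⟩
  have c : Commute (MulAut.conj U.d (U.ψ x)) U.ap :=
    d_am U ▸ (Commute.map h3 U.ψ).map (MulAut.conj U.d)
  obtain ⟨x', e⟩ := cv _ a b
  rw [← e] at a b c
  exact ⟨x', e, fix8 (Commute.of_map U.inj a) (Commute.of_map U.inj b) (Commute.of_map U.inj c)⟩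

theorem stepB (cv : U.CV) (cl : U.CL) (ef : U.EF) : ∃ f, NG U f ∧ f ^ 5 = 1 ∧ f ≠ 1 := by
  obtain ⟨w, hw, fw⟩ := pull cv ef (u0 * t0)
  obtain ⟨r1, h1, f1⟩ := pull cv ef q1
  obtain ⟨r2, h2, f2⟩ := pull cv ef t0
  obtain ⟨η, hη, -⟩ := pull cv ef y3
  let Ξ : A12 →* G := (MulAut.conj U.d).toMonoidHom.comp U.ψ
  have inj : Function.Injective Ξ := (MulAut.conj U.d).injective.comp U.inj
  change _ = Ξ _ at hw h1 h2 hη
  obtain ⟨π, p8, e0, a, b, a0, b0, ab, e1, e2⟩ := lemA (η := η) fw f1 f2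
    (U.inj (by
      rw [map_mul, hw, map_one, ← map_mul, ← map_one Ξ]
      exact congrArg Ξ (by decide +kernel)))
    (fun e => by
      rw [e, map_one, ← map_one Ξ] at hw
      exact absurd (inj hw) (by decide +kernel))
    (fun e => cl.nc ((t_ut ef).trans (IsConj.symm ((U.ψ.map_isConj e).trans (by
      rw [hw, HB.u, HB.t, ← map_mul]
      exact (isConj_iff.2 ⟨U.d, rfl⟩).symm)))))
    (U.inj (by
      rw [map_pow, hη, map_one, ← map_pow, ← map_one Ξ]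
      exact congrArg Ξ (by decide +kernel)))
    (U.inj (by
      simp only [map_mul U.ψ, hw, hη, ← map_mul Ξ]
      exact congrArg Ξ (by decide +kernel)))
    (U.inj (by
      simp only [map_mul U.ψ, hw, h1, ← map_mul Ξ]
      exact congrArg Ξ (by decide +kernel)))
    (U.inj (by
      simp only [map_mul U.ψ, hw, h2, ← map_mul Ξ]
      exact congrArg Ξ (by decide +kernel)))
    (U.inj (by
      rw [map_mul, h1, map_one, ← map_mul, ← map_one Ξ]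
      exact congrArg Ξ (by decide +kernel)))
    (U.inj (by
      rw [map_mul, h2, map_one, ← map_mul, ← map_one Ξ]
      exact congrArg Ξ (by decide +kernel)))
    (U.inj (by
      simp only [map_mul U.ψ, h1, h2, hη, ← map_mul Ξ]
      exact congrArg Ξ (by decide +kernel)))
    (U.inj (by
      simp only [map_mul U.ψ, h1, h2, hη, ← map_mul Ξ]
      exact congrArg Ξ (by decide +kernel)))
    (fun e => by
      rw [e, map_one, ← map_one Ξ] at h1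
      exact absurd (inj h1) (by decide +kernel))
  let P := MulAut.conj (U.ψ π)
  let Θ : MulAut G := P * MulAut.conj U.d
  have tr : ∀ {x x' : A12} {τ : T6}, U.ψ x' = Ξ x → π * x' * π⁻¹ = fv τ →
      Θ (U.ψ x) = Φ U τ := fun h e => by
    rw [Φ, ← e, map_mul, map_mul, map_inv, h]; rfl
  have Pt : P U.t = U.t := mul_inv_eq_of_eq_mul
    (Commute.map (p8.comm (δ := t0) (by decide +kernel)) U.ψ)
  have Ps : P U.s = U.s := mul_inv_eq_of_eq_mul
    (Commute.map (p8.comm (δ := s0) (by decide +kernel)) U.ψ)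
  have E0 := tr hw e0
  have E1 := tr h1 e1
  have E2 := tr h2 e2
  have key : ∀ g, (∃ τ, Θ g = Φ U τ) ↔ (Commute g (U.ψ g1) ∧ Commute g (U.ψ p2)) ∧
      Commute g (U.ψ (u0 * t0)) ∧ Commute g (U.ψ q1) ∧ Commute g (U.ψ t0) := fun g => by
    rw [cVp ef]
    constructor
    · rintro ⟨τ, e⟩
      have c : ∀ μ, Commute (Θ g) (Φ U μ) := fun μ => e ▸ Φ_comm U τ μ
      refine ⟨⟨Commute.of_map P.injective ?_, Commute.of_map P.injective ?_⟩,
        Commute.of_map Θ.injective (E0 ▸ c _), Commute.of_map Θ.injective (E1 ▸ c _),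
        Commute.of_map Θ.injective (E2 ▸ c _)⟩
      · rw [Pt, ← Φ_t]; exact c _
      · rw [Ps, ← Φ_s]; exact c _
    · rintro ⟨⟨c1, c2⟩, c3, c4, c5⟩
      have d4 : Commute (Θ g) (Φ U (a, 0, 0)) := E1 ▸ c4.map Θ
      have d5 : Commute (Θ g) (Φ U (b, 0, 0)) := E2 ▸ c5.map Θ
      have all : ∀ c : K4, c ≠ 0 → Commute (Θ g) (Φ U (c, 0, 0)) := fun c hc => by
        rcases (by decide +kernel : ∀ a b c : K4, a ≠ 0 → b ≠ 0 → a ≠ b → c ≠ 0 →
          c = a ∨ c = b ∨ ((c, 0, 0) : T6) = (a, 0, 0) + (b, 0, 0)) a b c a0 b0 ab hc with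
          e | e | e <;> rw [e]
        exacts [d4, d5, Φ_add U _ _ ▸ d4.mul_right d5]
      exact cen cv (Φ_t U ▸ Pt ▸ c1.map P) (Φ_s U ▸ Ps ▸ c2.map P) (all _ (by decide))
        (E0 ▸ c3.map Θ) (Or.inr (all _ (by decide)))
  refine ⟨Θ (U.ψ ρ5), fun τ => ?_, ?_, fun e => ?_⟩
  · obtain ⟨⟨c1, c2⟩, c3, c4, c5⟩ := (key (Θ.symm (Φ U τ))).1 ⟨τ, Θ.apply_symm_apply _⟩
    have cj : ∀ x y : A12, x * ρ5 = ρ5 * y → Commute (Θ.symm (Φ U τ)) (U.ψ y) →
        Commute (U.ψ ρ5 * Θ.symm (Φ U τ) * (U.ψ ρ5)⁻¹) (U.ψ x) := fun x y e h => by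
      rw [show x = ρ5 * y * ρ5⁻¹ from eq_mul_inv_of_mul_eq e, map_mul, map_mul, map_inv]
      exact h.map (MulAut.conj (U.ψ ρ5))
    obtain ⟨μ, hμ⟩ := (key _).2 ⟨⟨cj _ (u0 * t0 * p2 * q1 * t0) (by decide +kernel) (by
        rw [map_mul, map_mul, map_mul]; exact ((c3.mul_right c2).mul_right c4).mul_right c5),
      cj _ g1 (by decide +kernel) c1⟩, cj _ _ (by decide +kernel) c3,
      cj _ (u0 * t0 * g1 * t0) (by decide +kernel) (by
        rw [map_mul, map_mul]; exact (c3.mul_right c1).mul_right c5),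
      cj _ (q1 * t0) (by decide +kernel) (by rw [map_mul]; exact c4.mul_right c5)⟩
    exact ⟨μ, by rw [← hμ, map_mul, map_mul, map_inv, Θ.apply_symm_apply]⟩
  · rw [← map_pow, ← map_pow, show ρ5 ^ 5 = 1 by decide +kernel, map_one, map_one]
  · rw [← map_one Θ, ← map_one U.ψ] at e
    exact absurd (U.inj (Θ.injective e)) (by decide +kernel)

theorem stepC [Finite G] (cv : U.CV) (cl : U.CL) (ef : U.EF) :
    ∃ f, NG U f ∧ f ^ 5 = 1 ∧ f ≠ 1 ∧ Commute f U.u := by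
  obtain ⟨f, hf, f5, f1⟩ := stepB cv cl ef
  have hf' := hf
  choose θ hθ using hf'
  let θ' : {τ // cls τ = 2} → {τ // cls τ = 2} := fun x =>
    ⟨θ x.1, (cls_eq cl ef (isConj_iff.2 ⟨f, hθ x.1⟩)).symm.trans x.2⟩
  have it : ∀ n x, Φ U (θ'^[n] x).1 = f ^ n * Φ U x.1 * (f ^ n)⁻¹ := fun n x => by
    induction n with
    | zero => simp
    | succ n ih =>
      rw [Function.iterate_succ_apply', pow_succ']
      change Φ U (θ _) = _
      rw [← hθ, ih]; group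
  have i5 : ∀ x, θ'^[5] x = x := fun x => Subtype.ext (Φ_inj U (by rw [it, f5]; simp))
  let σ : Equiv.Perm {τ // cls τ = 2} := ⟨θ', θ'^[4],
    fun x => (Function.iterate_succ_apply θ' 4 x).symm.trans (i5 x),
    fun x => (Function.iterate_succ_apply' θ' 4 x).symm.trans (i5 x)⟩
  have : Fact (Nat.Prime 5) := ⟨by norm_num⟩
  obtain ⟨x, hx⟩ := Equiv.Perm.exists_fixed_point_of_prime (p := 5) (n := 1) (σ := σ)
    (by decide +kernel) (Equiv.ext fun x => by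
      rw [pow_one, Equiv.Perm.coe_pow, Equiv.Perm.one_apply]; exact i5 x)
  obtain ⟨γ, n, hγ⟩ := ex_cj x.1
  rw [(by decide +kernel : ∀ τ, cls τ = 2 → rep τ = uT) _ x.2, fv_u] at hγ
  have c : Commute f (Φ U x.1) := by
    have hx' : θ x.1 = x.1 := congrArg Subtype.val hx
    have := hθ x.1
    rw [hx'] at this
    exact mul_inv_eq_iff_eq_mul.1 this
  have hu : U.u = MulAut.conj (U.ψ γ) (Φ U x.1) := by
    rw [HB.u, ← hγ, map_mul, map_mul, map_inv, MulAut.conj_apply, Φ]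
  refine ⟨MulAut.conj (U.ψ γ) f, ?_, by rw [← map_pow, f5, map_one],
    fun e => f1 ((map_eq_one_iff _ (MulAut.conj (U.ψ γ)).injective).1 e), ?_⟩
  · rw [MulAut.conj_apply]; exact (n.ng.mul hf).mul n.ng.inv
  · rw [hu]; exact c.map _

theorem pres (cl : U.CL) (ef : U.EF) {f : G} (hu : Commute f U.u) {τ μ : T6}
    (h : f * Φ U τ * f⁻¹ = Φ U μ) : τ.1.2 = τ.2.1.2 ↔ μ.1.2 = μ.2.1.2 :=
  (by decide +kernel : ∀ τ μ : T6, cls τ = cls μ → cls (uT + τ) = cls (uT + μ) →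
    (τ.1.2 = τ.2.1.2 ↔ μ.1.2 = μ.2.1.2)) τ μ (cls_eq cl ef (isConj_iff.2 ⟨f, h⟩))
    (cls_eq cl ef (isConj_iff.2 ⟨f, by
      rw [Φ_add, Φ_add, Φ_u, ← h, ← mul_assoc, hu.eq]; group⟩))

theorem stepD [Finite G] (cv : U.CV) (cl : U.CL) (ef : U.EF) {f : G} (hf : NG U f)
    (hu : Commute f U.u) : ∀ e ∈ U.E, f * e * f⁻¹ ∈ U.E := by
  let X : Set G := {x | ∃ τ : T6, τ.1.2 = τ.2.1.2 ∧ Φ U τ = x}
  let H := Hs U.u X
  let E' := U.E.map (MulAut.conj f).toMonoidHom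
  have Eu : ∀ e ∈ U.E, Commute e U.u := fun e he => mem_centralizer_singleton_iff.1 (ef.EL he).1
  have E'u : ∀ e ∈ E', Commute e U.u := by
    rintro _ ⟨e, he, rfl⟩
    exact (hu.mul_left (Eu e he)).mul_left hu.inv_left
  have com' : ∀ a ∈ E', ∀ b ∈ E', a * b * a⁻¹ * b⁻¹ ∈ zpowers U.u := by
    rintro _ ⟨a, ha, rfl⟩ _ ⟨b, hb, rfl⟩
    obtain ⟨k, hk⟩ := mem_zpowers_iff.1 (ef.com a ha b hb)
    rw [← map_inv, ← map_inv, ← map_mul, ← map_mul, ← map_mul, ← hk]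
    change f * U.u ^ k * f⁻¹ ∈ _
    rw [(hu.zpow_right k).eq, mul_inv_cancel_right]
    exact zpow_mem_zpowers _ k
  have XE' : ∀ x ∈ X, x ∈ E' := by
    rintro _ ⟨τ, hτ, rfl⟩
    obtain ⟨μ, hμ⟩ := hf.inv τ
    refine ⟨Φ U μ, memE ef μ ((pres cl ef hu.inv_left hμ).1 hτ), ?_⟩
    change f * Φ U μ * f⁻¹ = _
    rw [← hμ]; group
  have EH : U.E ≤ H := fun e he => ⟨Eu e he, by
    rintro _ ⟨τ, hτ, rfl⟩
    exact ef.com e he _ (memE ef τ hτ)⟩
  have E'H : E' ≤ H := fun e he => ⟨E'u e he, fun x hx => com' e he x (XE' x hx)⟩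
  have σH : Φ U σT ∈ H := ⟨Φ_u U ▸ Φ_comm U _ _, by
    rintro _ ⟨τ, -, rfl⟩
    rw [(Φ_comm U _ _).eq]; simp⟩
  have σE : Φ U σT ∉ U.E := fun h => by
    have := conjE ef h (Φ_zero U ▸ Φ_ne) (Φ_u U ▸ Φ_ne)
    rw [← Φ_u, ← Φ_add] at this
    exact absurd (cls_eq cl ef this) (by decide +kernel)
  have cH : Nat.card H ≤ 64 * 16 := by
    refine (cardF U (K := centralizer {Φ U tT} ⊓ centralizer {Φ U sT} ⊓
      (centralizer {Φ U aT} ⊓ centralizer {Φ U xT})) fun g hg hK => ?_).trans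
      (Nat.mul_le_mul_left _ ?_)
    · have ha : Commute g (Φ U aT) := mem_centralizer_singleton_iff.1 hK.2.1
      refine cen cv (mem_centralizer_singleton_iff.1 hK.1.1)
        (mem_centralizer_singleton_iff.1 hK.1.2) ha ?_
        (Or.inl (mem_centralizer_singleton_iff.1 hK.2.2))
      rw [show bT = aT + uT by decide +kernel, Φ_add, Φ_u]
      exact ha.mul_right hg.1
    · have r : ∀ τ : T6, τ.1.2 = τ.2.1.2 → (centralizer {Φ U τ}).relIndex H ≤ 2 := fun τ hτ =>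
        relIndex_le (uu U) ⟨τ, hτ, rfl⟩
      exact relIndex_inf_le.trans (Nat.mul_le_mul
        (relIndex_inf_le.trans (Nat.mul_le_mul (r _ rfl) (r _ rfl)))
        (relIndex_inf_le.trans (Nat.mul_le_mul (r _ rfl) (r _ rfl))))
  have idx : U.E.relIndex H = 2 := by
    have h1 := (U.E.subgroupOf H).card_mul_index
    rw [Nat.card_congr (subgroupOfEquivOfLe EH).toEquiv, ef.card] at h1
    have h2 : U.E.relIndex H ≠ 1 := fun e => σE (relIndex_eq_one.1 e σH)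
    have h3 : 0 < Nat.card H := Nat.card_pos
    change 512 * U.E.relIndex H = _ at h1
    omega
  intro e₁ he₁
  by_contra hn
  have m' : f * e₁ * f⁻¹ ∈ E' := ⟨e₁, he₁, rfl⟩
  have e0 : f * e₁ * f⁻¹ * Φ U σT ∈ U.E :=
    (mul_mem_iff_of_index_two idx (a := ⟨_, E'H m'⟩) (b := ⟨_, σH⟩)).2 (iff_of_false hn σE)
  have c1 : Nat.card E' ≤ 64 * U.E.relIndex E' := cardF U fun e he' he => by
    have a1 : ∀ x ∈ U.E, x ∈ Hs U.u {e} := fun x hx => ⟨Eu x hx, by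
      rintro _ rfl; exact ef.com x hx _ he⟩
    have a2 : f * e₁ * f⁻¹ ∈ Hs U.u {e} := ⟨E'u _ m', by rintro _ rfl; exact com' _ m' _ he'⟩
    have a3 : Φ U σT ∈ Hs U.u {e} := (mul_mem_cancel_left a2).1 (a1 _ e0)
    have a4 : ∀ τ : T6, τ.1.2 = τ.2.1.2 → Commute e (Φ U (σT + τ)) := fun τ hτ => by
      have m : Φ U (σT + τ) ∈ Hs U.u {e} := Φ_add U _ _ ▸ mul_mem a3 (a1 _ (memE ef τ hτ))
      rcases zp_two (uu U) (m.2 e rfl) with e1 | e1
      · rw [mul_inv_eq_one, mul_inv_eq_iff_eq_mul] at e1; exact e1.symm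
      · refine absurd (cls_eq cl ef (isConj_iff.2 ⟨e, ?_⟩))
          ((by decide +kernel : ∀ τ : T6, τ.1.2 = τ.2.1.2 → cls (σT + τ) ≠ cls (σT + τ + uT)) τ hτ)
        rw [Φ_add U _ uT, Φ_u, ← e1, inv_eq_of_mul_eq_one_left (Φ_sq U _), ← mul_assoc,
          ← mul_assoc, ← mul_assoc, Φ_sq, one_mul]
    have a5 : ∀ τ : T6, τ.1.2 = τ.2.1.2 → Commute e (Φ U τ) := fun τ hτ => by
      have := (a4 0 rfl).mul_right (a4 τ hτ)
      rwa [← Φ_add, add_zero, ← add_assoc, T6_add, zero_add] at this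
    exact cen cv (a5 _ rfl) (a5 _ rfl) (a5 _ rfl) (a5 _ rfl) (Or.inl (a5 _ rfl))
  have c2 : U.E.relIndex E' ≤ 2 := idx ▸ relIndex_le_of_le_right E'H (by rw [idx]; decide)
  rw [card_map_of_injective (MulAut.conj f).injective, ef.card] at c1
  omega

theorem f5Stmt : F5Stmt.{u} := by
  intro G _ _ U cv cl ef
  obtain ⟨f, hf, f5, f1, hu⟩ := stepC cv cl ef
  refine ⟨f, ⟨mem_centralizer_singleton_iff.2 hu, mem_normalizer_fintype (stepD cv cl ef hf hu)⟩,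
    f5, f1, ?_⟩
  obtain ⟨μ, hμ⟩ := hf σT
  have h := (pres cl ef hu hμ).not.1 (by decide)
  rw [← Φ_σ, hμ, inv_eq_of_mul_eq_one_left (Φ_sq U _), ← Φ_add]
  exact memE ef _ ((by decide +kernel : ∀ μ : T6, ¬ μ.1.2 = μ.2.1.2 →
    (μ + σT).1.2 = (μ + σT).2.1.2) μ h)

end Cfsg.Agent.H77.HN
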