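import Cfsg.Agent.H50.L81Defs

/-! The labels of the indecomposable roots in the support of a root subgroup of `SL₂(81)`. -/

set_option autoImplicit false

namespace Cfsg.Agent.H77.L81Ind

open Equiv Cfsg.Lie H37 H40 H34 H29 Module H82 H50.SL2S Finset H50.E83 H50.L81
open H42.Fv (al cp Sum2 Clo Pos Supp Ph sg frV)

theorem ind (kit : KitStmt) (add : AddStmt) (exc : ExcStmt) (pol : PolStmt) : IndStmt := by
  intro p u t f A ht hu hc hA hU hD
  obtain ⟨-, a2, a3, a4⟩ := add A hA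
  have k3 := kit.2.2.1 _ _ _ ht
  have conj : ∀ a x c, Cf A a x c → Cf A a (t * x * t⁻¹) (((zy p ^ f a : Kˣ) : K) * c) := by
    intro a x c h v hv
    have e : act t (act t⁻¹ v) = v := by
      rw [← Module.End.mul_apply, ← map_mul, mul_inv_cancel, map_one, Module.End.one_apply]
    obtain ⟨w1, w2⟩ := k3 (act t⁻¹ v)
    rw [e] at w1 w2
    have hw : Supp A (act t⁻¹ v) := fun r hr => hv r (by
      rw [w2 r]; exact mul_ne_zero (Units.ne_zero _) hr)
    have e2 : al a (act t⁻¹ v) = al a v := by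
      unfold al
      exact Finset.sum_congr rfl fun i _ => by rw [w1 i]
    rw [map_mul, map_mul, Module.End.mul_apply, Module.End.mul_apply, (k3 _).2 a, h _ hw, e2, w2 a]
    ring
  have key : ∀ a ∈ Ind A, ∃ k < 4, (f a : ZMod 40) = 3 ^ k ∧ ∃ γ : K, γ ≠ 0 ∧
      ∀ s, Cf A a (u s) (γ * p.κ s ^ 3 ^ k) := by
    intro a ha
    choose c hcf using fun s => a2 a ha (u s) (hU s)
    obtain ⟨k, hk, h1, γ, h2, h3⟩ := (pol p).1 c (f a)
      (fun s s' => a3 a _ _ _ (hcf (s + s')) (by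
        rw [hu]; exact a4 a _ _ _ (hU s') _ (hcf s) (hcf s')))
      (by
        obtain ⟨_, ⟨s, rfl⟩, h, hh, hne⟩ := hD ha
        refine ⟨s, fun h0 => hne ?_⟩
        rw [hcf s h fun r hr => absurd (hh r) hr, h0, hh a, zero_mul, sub_zero])
      (fun s => a3 a _ _ _ (hcf _) (by rw [← hc]; exact conj a _ _ (hcf s)))
    exact ⟨k, hk, h1, γ, h2, fun s => h3 s ▸ hcf s⟩
  refine ⟨fun r hr => ?_, fun a b c h => ?_⟩
  · obtain ⟨k, hk, h1, -⟩ := key r hr
    exact ⟨k, hk, h1⟩
  · obtain ⟨k, hk, h1, γ, h2, h3⟩ := key a h.1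
    obtain ⟨k', hk', h1', γ', h2', h3'⟩ := key b h.2.1
    have : k = k' := (pol p).2 k hk k' hk' fun s s' => by
      have cm : Commute (u s) (u s') := by
        rw [Commute, SemiconjBy, ← hu, ← hu, add_comm]
      have := exc A hA a b c h _ (hU s) _ (hU s') cm _ _ _ _ (h3 s) (h3' s) (h3 s') (h3' s')
      apply mul_left_cancel₀ (mul_ne_zero h2 h2')
      linear_combination this
    rw [h1, h1', this]

end Cfsg.Agent.H77.L81Ind
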