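import Cfsg.Agent.H71.P3Defs

/-!
Rank three actions of symplectic groups: an upper bound for the degree.
-/

set_option autoImplicit false

namespace Cfsg.Agent.H77.P3K3

open Cfsg.Agent.H71.P3 Cfsg.Agent.H27 Module

theorem same {G : Type*} [Group G] {K : Subgroup G} {a x y : G}
    (hx : ∃ h ∈ K, ∃ h' ∈ K, x = h * a * h') (hy : ∃ h ∈ K, ∃ h' ∈ K, y = h * a * h') :
    ∃ m ∈ K, y⁻¹ * (m * x * m⁻¹) ∈ K := by
  obtain ⟨h, hh, h', hh', rfl⟩ := hx
  obtain ⟨k, hk, k', hk', rfl⟩ := hy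
  refine ⟨k * h⁻¹, K.mul_mem hk (K.inv_mem hh), ?_⟩
  have : (k * a * k')⁻¹ * (k * h⁻¹ * (h * a * h') * (k * h⁻¹)⁻¹) = k'⁻¹ * h' * h * k⁻¹ := by group
  rw [this]
  exact K.mul_mem (K.mul_mem (K.mul_mem (K.inv_mem hk') hh') hh) (K.inv_mem hk)

theorem k3 : K3Stmt := by
  intro F V _ _ _ _ _ S K hK ⟨a, b, r3⟩ nt h2
  classical
  have := Fintype.ofFinite F
  have := Fintype.ofFinite V
  have c2 : ringChar F ≠ 2 := fun h => S.two_ne_zero (by
    have := ringChar.Nat.cast_ringChar (R := F)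
    rw [h] at this; exact_mod_cast this)
  obtain ⟨e, he⟩ := FiniteField.exists_nonsquare c2
  have e0 : e ≠ 0 := by rintro rfl; exact he IsSquare.zero
  have : Nontrivial V := Module.nontrivial_of_finrank_pos (R := F) (by rw [S.dim]; have := S.hk; omega)
  obtain ⟨v, hv⟩ := exists_ne (0 : V)
  have cj : ∀ m ∈ K, ∀ c, m * S.t v c * m⁻¹ = S.t (m v) c := fun m hm c =>
    altTv_conj S.alt (hK hm) v c
  have n0 : ∀ m : V ≃ₗ[F] V, m v ≠ 0 := fun m => (map_ne_zero_iff m m.injective).2 hv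
  have ns : ∀ c : V ≃ₗ[F] V, (∃ h ∈ K, ∃ h' ∈ K, S.t v 1 = h * c * h') →
      (∃ h ∈ K, ∃ h' ∈ K, S.t v e = h * c * h') → False := by
    intro c h1 h1'
    obtain ⟨m, hm, h⟩ := same h1 h1'
    rw [cj m hm, altTv_inv] at h
    exact h2 _ _ e (n0 m) hv he h
  have all : ∀ g ∈ S.G, g ∈ K ∨ ∃ y, y ≠ 0 ∧ (g⁻¹ * S.t y 1 ∈ K ∨ g⁻¹ * S.t y e ∈ K) := by
    intro g hg
    have k1 : ∀ c : V ≃ₗ[F] V, ∀ d, (∃ h ∈ K, ∃ h' ∈ K, S.t v d = h * c * h') →
        (∃ h ∈ K, ∃ h' ∈ K, g = h * c * h') → ∃ y, y ≠ 0 ∧ g⁻¹ * S.t y d ∈ K := by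
      intro c d h1 h1'
      obtain ⟨m, hm, h⟩ := same h1 h1'
      exact ⟨m v, n0 m, by rwa [cj m hm] at h⟩
    have a1 := (r3 _ (altTv_mem_isomGroup S.alt v 1)).resolve_left (nt v 1 hv one_ne_zero)
    have a2 := (r3 _ (altTv_mem_isomGroup S.alt v e)).resolve_left (nt v e hv e0)
    refine (r3 g hg).imp id ?_
    rintro (h | h)
    · rcases a1 with a1 | a1
      · obtain ⟨y, h1, h3⟩ := k1 _ _ a1 h
        exact ⟨y, h1, Or.inl h3⟩
      · obtain ⟨y, h1, h3⟩ := k1 _ _ (a2.resolve_right (ns _ a1)) h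
        exact ⟨y, h1, Or.inr h3⟩
    · rcases a1 with a1 | a1
      · obtain ⟨y, h1, h3⟩ := k1 _ _ (a2.resolve_left (ns _ a1)) h
        exact ⟨y, h1, Or.inr h3⟩
      · obtain ⟨y, h1, h3⟩ := k1 _ _ a1 h
        exact ⟨y, h1, Or.inl h3⟩
  let ix := Fintype.equivFin V
  let f : V → S.G ⧸ K.subgroupOf S.G := fun y => QuotientGroup.mk
    ⟨S.t y (if ix y < ix (-y) then 1 else e), altTv_mem_isomGroup S.alt _ _⟩
  have tn : ∀ y c, S.t (-y) c = S.t y c := fun y c => by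
    rw [← neg_one_smul F y, Sp.t, altTv_smul]; simp
  have hf : Function.Surjective f := by
    intro x
    obtain ⟨g, rfl⟩ := QuotientGroup.mk_surjective x
    have key : ∀ y, (g : V ≃ₗ[F] V)⁻¹ * S.t y (if ix y < ix (-y) then 1 else e) ∈ K →
        ∃ y, f y = QuotientGroup.mk g := fun y h =>
      ⟨y, (QuotientGroup.eq.2 (Subgroup.mem_subgroupOf.2 h)).symm⟩
    rcases all g g.2 with h | ⟨y, hy, h⟩
    · refine key 0 ?_
      rw [Sp.t, (altTv_eq_one_iff S.nd S.alt).2 (Or.inl rfl), mul_one]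
      exact K.inv_mem h
    · have ne : ix y ≠ ix (-y) := fun e => hy (by
        have h1 : y = -y := ix.injective e
        have h3 : (2 : F) • y = 0 := by rw [two_smul]; nth_rw 1 [h1]; simp
        exact (smul_eq_zero.1 h3).resolve_left S.two_ne_zero)
      rcases lt_or_gt_of_ne ne with l | l <;> rcases h with h | h
      · exact key y (by rwa [if_pos l])
      · exact key (-y) (by rwa [neg_neg, if_neg l.not_gt, tn])
      · exact key (-y) (by rwa [neg_neg, if_pos l, tn])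
      · exact key y (by rwa [if_neg l.not_gt])
  have := Nat.card_le_card_of_surjective f hf
  rwa [Module.natCard_eq_pow_finrank (K := F) (V := V), S.dim] at this

end Cfsg.Agent.H77.P3K3
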