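import Cfsg.Agent.H4.PfDefs
import Cfsg.Agent.H53.MWPk
import Cfsg.Agent.H24.FrobQuot

/-!
Pálfy's three primes theorem: two primes with the unique Sylow property are adjacent.
-/

set_option autoImplicit false

namespace Cfsg.Agent.H77.Pf

open Cfsg Cfsg.Agent.H12.RO Cfsg.Agent.H53.MW Cfsg.Agent.H4.Pf MulAction

universe u

theorem arith {s a b c d v : ℕ} (hs : s.Prime) (hb : 0 < b) (hab : b < a) (hv : 1 < v)
    (h1 : s ^ a - 1 = v * (s ^ c - 1)) (h2 : s ^ b - 1 = v * (s ^ d - 1)) : False := by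
  have p1 : ∀ n, 1 ≤ s ^ n := fun n => Nat.one_le_pow _ _ hs.pos
  have q1 := Nat.one_lt_pow hb.ne' hs.one_lt
  have hd : d < b := by
    rw [← Nat.pow_lt_pow_iff_right hs.one_lt]
    have := p1 d
    nlinarith [Nat.sub_add_cancel (p1 b), Nat.sub_add_cancel (p1 d)]
  have hc : d < c := by
    rw [← Nat.pow_lt_pow_iff_right hs.one_lt]
    have h3 := Nat.pow_lt_pow_right hs.one_lt hab
    have h4 : v * (s ^ d - 1) < v * (s ^ c - 1) := by rw [← h1, ← h2]; have := p1 b; omega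
    have := Nat.lt_of_mul_lt_mul_left h4
    omega
  zify [p1] at h1 h2
  have e : (v : ℤ) * s ^ d = s ^ b - s ^ a + v * s ^ c := by linear_combination h1 - h2
  have h3 : (s : ℤ) ^ (d + 1) ∣ v * s ^ d := e ▸ dvd_add (dvd_sub (pow_dvd_pow _ hd)
    (pow_dvd_pow _ (by omega))) ((pow_dvd_pow _ hc).mul_left _)
  rw [pow_succ', mul_dvd_mul_iff_right (pow_ne_zero _ (by exact_mod_cast hs.ne_zero))] at h3
  have h4 : (s : ℤ) ∣ 1 := by
    have : (1 : ℤ) = s ^ b - v * (s ^ d - 1) := by linear_combination -h2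
    rw [this]
    exact dvd_sub (dvd_pow_self _ hb.ne') (h3.mul_right _)
  exact hs.one_lt.ne' (by exact_mod_cast Int.eq_one_of_dvd_one (by positivity) h4)

theorem arith0 {s k c n : ℕ} (hs : 2 ≤ s) (hk : 0 < k) (hn : 1 < n)
    (h : s ^ k - 1 = n * (s ^ c - 1)) : 0 < c ∧ c < k := by
  have q1 := Nat.one_lt_pow hk.ne' hs
  have p1 : 1 ≤ s ^ c := Nat.one_le_pow _ _ (by omega)
  constructor
  · rcases Nat.eq_zero_or_pos c with rfl | e
    · rw [pow_zero, Nat.sub_self, mul_zero] at h; omega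
    · exact e
  · rw [← Nat.pow_lt_pow_iff_right hs]
    nlinarith [Nat.sub_add_cancel q1.le, Nat.sub_add_cancel p1]

theorem arith1 {s k c n : ℕ} (hs : 3 ≤ s) (hk : 0 < k) (hn : 1 < n) (h8 : n ≤ 8)
    (h : s ^ k - 1 = n * (s ^ c - 1)) : k = 2 := by
  obtain ⟨c0, ck⟩ := arith0 (by omega) hk hn h
  have p1 : ∀ m, 1 ≤ s ^ m := fun m => Nat.one_le_pow _ _ (by omega)
  have d : s ^ c ∣ n - 1 := by
    have e : n - 1 + s ^ k = n * s ^ c := by
      have := p1 k
      have := p1 c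
      zify [p1, hn.le] at h ⊢
      linear_combination h
    exact (Nat.dvd_add_left (pow_dvd_pow s ck.le)).1 (e ▸ Dvd.intro_left _ rfl)
  have l := Nat.le_of_dvd (by omega) d
  have c1 : c = 1 := by
    by_contra e
    have h1 : s ^ 2 ≤ s ^ c := Nat.pow_le_pow_right (by omega) (by omega)
    have : 3 ^ 2 ≤ s ^ 2 := Nat.pow_le_pow_left hs 2
    omega
  subst c1
  by_contra e
  have h1 : s ^ 3 ≤ s ^ k := Nat.pow_le_pow_right (by omega) (by omega)
  have h2 : n * (s ^ 1 - 1) ≤ 8 * (s - 1) := by rw [pow_one]; exact Nat.mul_le_mul_right _ h8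
  have h3 : 3 ^ 2 * s ≤ s ^ 3 := by
    rw [pow_succ s 2]; exact Nat.mul_le_mul_right _ (Nat.pow_le_pow_left hs 2)
  omega

theorem arith2 {s c n : ℕ} (hs : 2 ≤ s) (hn : 1 < n) (h : s ^ 2 - 1 = n * (s ^ c - 1)) :
    n = s + 1 := by
  obtain ⟨c0, ck⟩ := arith0 hs two_pos hn h
  obtain rfl : c = 1 := by omega
  obtain ⟨t, rfl⟩ : ∃ t, s = t + 1 := ⟨s - 1, by omega⟩
  rw [pow_one, Nat.add_sub_cancel, show (t + 1) ^ 2 = (t + 1 + 1) * t + 1 by ring,
    Nat.add_sub_cancel] at h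
  exact (Nat.eq_of_mul_eq_mul_right (by omega) h).symm

section
variable {G V : Type u} [Group G] [Finite G] [AddCommGroup V] [Finite V] [DistribMulAction G V]
  {s k p : ℕ} [hp : Fact p.Prime]

theorem cnt' (hs : s.Prime) (hV : Nat.card V = s ^ k) (h : Uq p G V) {A : AddSubgroup V}
    (hA : Inv G A) : ∃ c, Nat.card A - 1 = Nat.card (Sylow p G) * (s ^ c - 1) := by
  obtain ⟨P⟩ : Nonempty (Sylow p G) := inferInstance
  let B : AddSubgroup V :=
    { carrier := {v : V | v ∈ A ∧ ∀ g ∈ (P : Subgroup G), g • v = v}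
      add_mem' := fun ha hb => ⟨A.add_mem ha.1 hb.1, fun g hg => by
        rw [smul_add, ha.2 g hg, hb.2 g hg]⟩
      zero_mem' := ⟨A.zero_mem, fun g _ => smul_zero g⟩
      neg_mem' := fun ha => ⟨A.neg_mem ha.1, fun g hg => by rw [smul_neg, ha.2 g hg]⟩ }
  obtain ⟨c, -, hc⟩ := (Nat.dvd_prime_pow hs).1 (hV ▸ B.card_addSubgroup_dvd_card)
  exact ⟨c, by rw [cnt G V p h P A hA, ← hc]; rfl⟩

omit [Finite V] in
theorem not_triv (hf : ∀ g : G, (∀ x : V, g • x = x) → g = 1) (hd : p ∣ Nat.card G)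
    (P : Sylow p G) : ¬ ∀ g ∈ (P : Subgroup G), ∀ x : V, g • x = x := fun h =>
  P.ne_bot_of_dvd_card hd (eq_bot_iff.2 fun g hg => hf g (h g hg))

omit [Finite V] in
theorem one_lt (hf : ∀ g : G, (∀ x : V, g • x = x) → g = 1) (hd : p ∣ Nat.card G)
    (h : Uq p G V) : 1 < Nat.card (Sylow p G) := by
  rw [Finite.one_lt_card_iff_nontrivial, ← not_subsingleton_iff_nontrivial]
  intro hs
  obtain ⟨P⟩ : Nonempty (Sylow p G) := inferInstance
  refine not_triv hf hd P fun g hg x => ?_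
  by_cases e : x = 0
  · rw [e, smul_zero]
  · obtain ⟨Q, hQ, -⟩ := h x e
    exact hQ g (Subsingleton.elim P Q ▸ hg)

theorem irr (hs : s.Prime) (hV : Nat.card V = s ^ k)
    (hf : ∀ g : G, (∀ x : V, g • x = x) → g = 1) (hd : p ∣ Nat.card G) (h : Uq p G V) :
    Irr G V := by
  intro A hA
  by_contra hh
  rw [not_or] at hh
  obtain ⟨b, -, hb⟩ := (Nat.dvd_prime_pow hs).1 (hV ▸ A.card_addSubgroup_dvd_card)
  obtain ⟨c, hc⟩ := cnt' hs hV h (A := ⊤) fun _ _ _ => trivial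
  obtain ⟨d, hd'⟩ := cnt' hs hV h hA
  rw [AddSubgroup.card_top, hV] at hc
  rw [hb] at hd'
  refine arith hs (Nat.pos_of_ne_zero ?_) ?_ (one_lt hf hd h) hc hd'
  · rintro rfl
    exact hh.1 (AddSubgroup.card_eq_one.1 hb)
  · rw [← Nat.pow_lt_pow_iff_right hs.one_lt, ← hb, ← hV]
    exact card_lt_of_ne_top hh.2

omit [Finite V] in
theorem sys_sub (hf : ∀ g : G, (∀ x : V, g • x = x) → g = 1) (hd : p ∣ Nat.card G) (h : Uq p G V)
    (h2 : p ≠ 2) (Ω : Type u) [MulAction G Ω] [Fintype Ω] (S : Sys G V Ω) : Subsingleton Ω := by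
  by_contra hΩ
  rw [not_subsingleton_iff_nontrivial] at hΩ
  have key : ∀ ω ω' x x', ω ≠ ω' → S.e ω x ≠ 0 → S.e ω' x' ≠ 0 → ∃ L : Sylow p G,
      (∀ g ∈ (L : Subgroup G), g • S.e ω x = S.e ω x) ∧
        ∀ g ∈ (L : Subgroup G), g • S.e ω' x' = S.e ω' x' := by
    intro ω ω' x x' hne h0 h0'
    have e1 : S.e ω (S.e ω x + S.e ω' x') = S.e ω x := by
      rw [map_add, S.idem, S.orth _ _ hne, add_zero]
    have e2 : S.e ω' (S.e ω x + S.e ω' x') = S.e ω' x' := by
      rw [map_add, S.idem, S.orth _ _ hne.symm, zero_add]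
    obtain ⟨L, hL, -⟩ := h (S.e ω x + S.e ω' x') fun e => h0 (by rw [← e1, e, map_zero])
    have sup : ∀ g ∈ (L : Subgroup G), ∀ τ, S.e τ (S.e ω x + S.e ω' x') ≠ 0 →
        g • τ = ω ∨ g • τ = ω' := fun g hg τ hτ => by
      by_contra hc
      rw [not_or] at hc
      have := S.equiv g τ (S.e ω x + S.e ω' x')
      rw [hL g hg, map_add, S.orth _ _ hc.1, S.orth _ _ hc.2, add_zero] at this
      exact hτ ((smul_eq_zero_iff_eq g).1 this.symm)
    have fx : ∀ g ∈ (L : Subgroup G), g • ω = ω := fun g hg => by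
      refine (sup g hg ω (e1.symm ▸ h0)).resolve_right fun a => ?_
      have b : g • ω' = ω := (sup g hg ω' (e2.symm ▸ h0')).resolve_right fun b =>
        hne (smul_left_cancel g (a.trans b.symm))
      have m2 : g ^ 2 ∈ stabilizer G ω := by rw [mem_stabilizer_iff, pow_two, mul_smul, a, b]
      obtain ⟨n, hn⟩ := L.isPGroup' ⟨g, hg⟩
      obtain ⟨r, hr⟩ := (hp.out.odd_of_ne_two h2).pow (n := n)
      have hn' : g ^ p ^ n = 1 := congrArg Subtype.val hn
      have : g ∈ stabilizer G ω := by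
        rw [← (stabilizer G ω).mul_mem_cancel_left (pow_mem m2 r), ← pow_mul, ← pow_succ, ← hr, hn']
        exact one_mem _
      exact hne (this.symm.trans a)
    have f1 : ∀ g ∈ (L : Subgroup G), g • S.e ω x = S.e ω x := fun g hg => by
      have := S.equiv g ω (S.e ω x + S.e ω' x')
      rw [hL g hg, fx g hg, e1] at this
      exact this.symm
    refine ⟨L, f1, fun g hg => ?_⟩
    have := hL g hg
    rwa [smul_add, f1 g hg, add_right_inj] at this
  obtain ⟨ω₀, ω₁, hne⟩ := exists_pair_ne Ω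
  obtain ⟨x₀, h0⟩ := S.ne ω₀
  obtain ⟨x₁, h1⟩ := S.ne ω₁
  obtain ⟨L, a0, a1⟩ := key ω₀ ω₁ x₀ x₁ hne h0 h1
  refine not_triv hf hd L fun g hg x => ?_
  rw [← S.sum x, Finset.smul_sum]
  refine Finset.sum_congr rfl fun ω _ => ?_
  by_cases e : S.e ω x = 0
  · rw [e, smul_zero]
  by_cases e0 : ω = ω₀
  · obtain ⟨L', b0, b1⟩ := key ω ω₁ x x₁ (e0 ▸ hne) e h1
    exact b0 g ((h _ h1).unique a1 b1 ▸ hg)
  · obtain ⟨L', b0, b1⟩ := key ω ω₀ x x₀ e0 e h0
    exact b0 g ((h _ h0).unique a0 b1 ▸ hg)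

omit [Finite G] in
theorem le_of_not_dvd {N : Subgroup G} [N.Normal] (h : ¬ p ∣ N.index) (P : Sylow p G) :
    (P : Subgroup G) ≤ N := fun g hg => by
  obtain ⟨n, hn⟩ := P.isPGroup' ⟨g, hg⟩
  have hn' : g ^ p ^ n = 1 := congrArg Subtype.val hn
  have c : (p ^ n).Coprime N.index := ((Nat.Prime.coprime_iff_not_dvd hp.out).2 h).pow_left n
  rw [← QuotientGroup.eq_one_iff, ← orderOf_eq_one_iff]
  refine Nat.eq_one_of_dvd_coprimes c (orderOf_dvd_of_pow_eq_one ?_) (orderOf_dvd_natCard _)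
  rw [← QuotientGroup.mk_pow, hn', QuotientGroup.mk_one]

theorem index_dvd_cd {U N : Subgroup G} [hU : U.Normal] (hc : IsCyclic U)
    (h : ∀ g : G, (∀ u ∈ U, g * u = u * g) → g ∈ N) : ∃ d ∈ charDegrees G, N.index ∣ d := by
  classical
  have := Fintype.ofFinite G
  have : NeZero (Nat.card U) := ⟨Nat.card_pos.ne'⟩
  let e : U ≃* rootsOfUnity (Nat.card U) ℂ := mulEquivOfCyclicCardEq (by
    rw [Complex.card_rootsOfUnity])
  let μ : H24.Lin U := H24.Lin.mk ((rootsOfUnity _ ℂ).subtype.comp e.toMonoidHom)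
  obtain ⟨χ, hχ, h1⟩ := H14.exists_irr_over U (H24.isIrr_lin μ)
  refine ⟨_, H24.deg_mem_cd hχ, ?_⟩
  refine (Subgroup.index_dvd_of_le fun g hg => h g fun u hu => ?_).trans
    ((dvd_mul_right _ _).trans (H24.index_inertia_mul_deg_dvd U hχ (H24.isIrr_lin μ) h1))
  have h2 := (H14.mem_inertia' U).1 hg ⟨u, hu⟩
  have h3 := congrArg Subtype.val (e.injective (Subtype.ext (Units.ext h2)))
  exact mul_inv_eq_iff_eq_mul.1 h3

end

section
variable {G V K W : Type u} [Group G] [Finite G] [AddCommGroup V] [DistribMulAction G V] [Field K]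
  [Module K V] [AddCommGroup W] [Finite W] [DistribMulAction G W] {σ : G →* RingAut K}
  {U To E M : Subgroup G} {π : G → W} {b : W → W → Kˣ} {e : ℕ}

omit [Finite G] [Finite W] in
theorem U_free (h : Str G V K σ U To E) {v : V} (hv : v ≠ 0) : ∀ g ∈ U, g • v = v → g = 1 := by
  intro g hg e
  obtain ⟨c, hc⟩ := h.Usc g hg
  have : c = 1 := smul_left_injective K hv (show c • v = (1 : K) • v by rw [← hc, e, one_smul])
  exact h.faith g fun x => by rw [hc, this, one_smul]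

omit [Finite G] in
theorem card_W (h : Pk G V K W σ U To E M π b e) (hT : To ≤ U)
    (hE : ∀ t ∈ E, t ^ 2 = 1 → t ∈ U) : Nat.card W ≤ 4 := by
  classical
  have := h.Un
  have EM : E ≤ M := h.M_eq ▸ le_sup_of_le_right le_sup_right
  have sj : ∀ w : W, ∃ x ∈ E, π x = w := fun w => by
    obtain ⟨t, ht, rfl⟩ := h.sec.surj w
    have ht' := ht
    rw [h.M_eq, ← sup_assoc, sup_eq_left.2 hT] at ht'
    obtain ⟨u, hu, x, hx, rfl⟩ := Subgroup.mem_sup_of_normal_left.1 ht'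
    have uM := H4.Mw.U_le_M h hu
    exact ⟨x, hx, by rw [h.sec.mul _ uM _ (EM hx), (h.sec.ker _ uM).2 hu, zero_add]⟩
  have two : ∀ w : W, w + w = 0 := fun w => by
    obtain ⟨x, hx, rfl⟩ := sj w
    rw [← h.sec.mul _ (EM hx) _ (EM hx), ← pow_two, h.sec.ker _ (pow_mem (EM hx) 2)]
    exact h.sqE x hx
  have ne : ∀ {x y : W}, x ≠ y → x + y ≠ 0 := fun {x y} hxy e0 =>
    hxy (add_right_cancel (e0.trans (two y).symm))
  have sq : ∀ x ∈ E, π x ≠ 0 → x ^ 2 ≠ 1 := fun x hx h0 e0 =>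
    h0 ((h.sec.ker _ (EM hx)).2 (hE x hx e0))
  have nc : ∀ x ∈ E, ∀ y ∈ E, π x ≠ 0 → π y ≠ 0 → π x ≠ π y → ¬ Commute x y :=
    fun x hx y hy a1 a2 a3 c => sq _ (mul_mem hx hy) (by
      rw [h.sec.mul _ (EM hx) _ (EM hy)]; exact ne a3)
      ((h.toStr.sq_mul_iff hx hy).2 (iff_of_true (iff_of_false (sq x hx a1) (sq y hy a2)) c))
  by_contra hc
  have := Fintype.ofFinite W
  have ex : ∀ T : Finset W, T.card ≤ 4 → ∃ w, w ∉ T := fun T hT => by
    by_contra hh
    push Not at hh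
    rw [Finset.eq_univ_iff_forall.2 hh, Finset.card_univ, ← Nat.card_eq_fintype_card] at hT
    exact hc hT
  obtain ⟨x, hx⟩ := ex {0} (by simp)
  obtain ⟨y, hy⟩ := ex {0, x} (Finset.card_le_two.trans (by norm_num))
  obtain ⟨z, hz⟩ := ex {0, x, y, x + y} Finset.card_le_four
  obtain ⟨x, xE, rfl⟩ := sj x
  obtain ⟨y, yE, rfl⟩ := sj y
  obtain ⟨z, zE, rfl⟩ := sj z
  simp only [Finset.mem_insert, Finset.mem_singleton, not_or] at hx hy hz
  have m := h.sec.mul _ (EM xE) _ (EM yE)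
  exact nc _ (mul_mem xE yE) z zE (m ▸ ne (Ne.symm hy.2)) hz.1 (m ▸ Ne.symm hz.2.2.2)
    ((h.toStr.comm_mul_iff xE yE zE).2 (iff_of_false (nc x xE z zE hx hz.1 (Ne.symm hz.2.1))
      (nc y yE z zE hy.1 hz.1 (Ne.symm hz.2.2.1))))

theorem card_ker (h : Pk G V K W σ U To E M π b 2) : Nat.card σ.ker ≤ 24 * Nat.card U := by
  classical
  have := Fintype.ofFinite W
  have c4 : Nat.card W = 4 := h.card
  have h1 : Nat.card (toPermHom σ.ker W).ker ≤ Nat.card U * 2 ^ 2 := by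
    rw [← H4.Mw.card_M h,
      ← Nat.card_congr (Subgroup.subgroupOfEquivOfLe (show M ≤ σ.ker from h.σM)).toEquiv]
    exact Subgroup.card_le_of_le fun g hg => h.kerW g g.2 (Equiv.ext_iff.1 hg)
  have h2 : Nat.card (toPermHom σ.ker W).range ≤ Nat.card (stabilizer (Equiv.Perm W) (0 : W)) := by
    refine Subgroup.card_le_of_le ?_
    rintro _ ⟨g, rfl⟩
    exact smul_zero g
  have h3 := (stabilizer (Equiv.Perm W) (0 : W)).card_mul_index
  rw [index_stabilizer_of_transitive, c4, Nat.card_perm, c4] at h3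
  have h4 : Nat.card (toPermHom σ.ker W).range ≤ 6 := by
    rw [show Nat.factorial 4 = 24 from rfl] at h3; omega
  rw [← (toPermHom σ.ker W).ker.card_mul_index, Subgroup.index_ker]
  nlinarith

omit [Finite W] in
theorem not_dvd_U [Nontrivial V] (h : Str G V K σ U To E) {p : ℕ} [hp : Fact p.Prime]
    (hq : Uq p G V) : ¬ p ∣ Nat.card U := fun hd => by
  obtain ⟨u, hu⟩ := exists_prime_orderOf_dvd_card' p hd
  obtain ⟨v, hv⟩ := exists_ne (0 : V)
  obtain ⟨P, hP, -⟩ := hq v hv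
  have h1 : IsPGroup p (Subgroup.zpowers (u : G)) := IsPGroup.of_card (n := 1) (by
    rw [Nat.card_zpowers, Subgroup.orderOf_coe, hu, pow_one])
  obtain ⟨Q, hQ⟩ := h1.exists_le_sylow
  obtain ⟨x, rfl⟩ := MulAction.exists_smul_eq G P Q
  obtain ⟨g, hg, e⟩ := hQ (Subgroup.mem_zpowers (u : G))
  have e' : x * g * x⁻¹ = u := e
  have : (u : G) = 1 := U_free h ((smul_ne_zero_iff_ne x).2 hv) u u.2 (by
    rw [← e', mul_smul, inv_smul_smul, mul_smul, hP g hg])
  rw [← Subgroup.orderOf_coe, this, orderOf_one] at hu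
  exact hp.out.one_lt.ne hu

theorem sylow_le [Nontrivial V] (h : Pk G V K W σ U To E M π b 2) {p : ℕ} [hp : Fact p.Prime]
    (hd : p ∣ Nat.card G) (hq : Uq p G V) (h3 : 3 ≤ p)
    (hk : ∀ P : Sylow p G, (P : Subgroup G) ≤ σ.ker) : Nat.card (Sylow p G) ≤ 8 := by
  obtain ⟨P⟩ : Nonempty (Sylow p G) := inferInstance
  have h1 : Nat.card (Sylow p G) ≤ Nat.card (Sylow p σ.ker) :=
    Nat.card_le_card_of_injective (fun P => P.subtype (hk P)) fun _ _ => Sylow.subtype_injective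
  have UK : U ≤ σ.ker := fun u hu => h.toStr.σ_U hu
  let N := Subgroup.normalizer ((P.subtype (hk P) : Subgroup σ.ker) : Set σ.ker)
  have d1 : Nat.card U ∣ Nat.card N := by
    rw [← Nat.card_congr (Subgroup.subgroupOfEquivOfLe UK).toEquiv]
    refine Subgroup.card_dvd_of_le (le_trans ?_ (Subgroup.center_le_normalizer _))
    intro u hu
    exact Subgroup.mem_center_iff.2 fun g => Subtype.ext (h.toStr.comm_U g.2 hu).symm
  have d2 : p ∣ Nat.card N := by
    refine (P.dvd_card_of_dvd_card hd).trans ?_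
    rw [← Nat.card_congr (Subgroup.subgroupOfEquivOfLe (hk P)).toEquiv]
    exact Subgroup.card_dvd_of_le Subgroup.le_normalizer
  have d3 := Nat.le_of_dvd Nat.card_pos
    (((Nat.Prime.coprime_iff_not_dvd hp.out).2 (not_dvd_U h.toStr hq)).mul_dvd_of_dvd_of_dvd d2 d1)
  have h2 : Nat.card N * Nat.card (Sylow p σ.ker) = Nat.card σ.ker := by
    rw [(P.subtype (hk P)).card_eq_index_normalizer]
    exact N.card_mul_index
  have h4 := card_ker h
  have h5 : 0 < Nat.card U := Nat.card_pos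
  have h6 : 3 * Nat.card U * Nat.card (Sylow p σ.ker) ≤ 24 * Nat.card U :=
    le_trans (Nat.mul_le_mul_right _ ((Nat.mul_le_mul_right _ h3).trans d3)) (h2 ▸ h4)
  nlinarith

end

theorem faithful (n : NStmt.{u}) {G V : Type u} [Group G] [Finite G] [Group.IsSolvable G]
    [AddCommGroup V] [Finite V] [DistribMulAction G V] {s k p q : ℕ} [hp : Fact p.Prime]
    [hq : Fact q.Prime] (hs : s.Prime) (hV : Nat.card V = s ^ k) (hpq : p ≠ q) (up : Uq p G V)
    (uq : Uq q G V) (hf : ∀ g : G, (∀ x : V, g • x = x) → g = 1) (dp : p ∣ Nat.card G)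
    (dq : q ∣ Nat.card G) : ∃ d ∈ charDegrees G, p * q ∣ d := by
  have : Nontrivial V := by
    rw [← not_subsingleton_iff_nontrivial]
    exact fun _ => not_triv hf dp default fun _ _ _ => Subsingleton.elim _ _
  have k0 : 0 < k := Nat.pos_of_ne_zero (by
    rintro rfl
    exact Finite.one_lt_card.ne' hV)
  have pr : Prim G V := ⟨irr hs hV hf dp up, by
    by_cases e : p = 2
    · exact sys_sub hf dq uq (e ▸ hpq.symm)
    · exact sys_sub hf dp up e⟩
  obtain ⟨K, _, _, _, W, _, _, _, σ, U, To, E, M, π, b, e, h⟩ := pk G V hf pr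
  have := h.Un
  obtain ⟨d, hd, hd'⟩ := index_dvd_cd (N := σ.ker) h.cyc h.σU
  have top : Inv G (⊤ : AddSubgroup V) := fun _ _ _ => trivial
  have key : ∀ (p q : ℕ) [Fact p.Prime] [Fact q.Prime], p ≠ q → Uq p G V → Uq q G V →
      p ∣ Nat.card G → q ∣ Nat.card G → p ∣ σ.ker.index := by
    intro p q hp hq hpq up uq dp dq
    by_contra hi
    have hk := le_of_not_dvd hi
    obtain ⟨hT, hE⟩ := n G V K σ U To E h.toStr p dp up hk
    have c4 := card_W h hT hE
    rw [h.card] at c4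
    have e0 := h.pos
    obtain rfl | rfl : e = 1 ∨ e = 2 := by
      have : e < 3 := by nlinarith
      omega
    · have : Subsingleton W := (Nat.card_eq_one_iff_unique.1 h.card).1
      refine not_dvd_U h.toStr up (((default : Sylow p G).dvd_card_of_dvd_card dp).trans
        (Subgroup.card_dvd_of_le fun g hg => ?_))
      have gM := h.kerW g (hk default hg) fun _ => Subsingleton.elim _ _
      exact (h.sec.ker g gM).1 (Subsingleton.elim _ _)
    have d2 := h.dvd 2 Nat.prime_two dvd_rfl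
    have p3 : 3 ≤ p := hp.out.two_le.lt_of_ne fun e => not_dvd_U h.toStr up (e ▸ d2)
    have s3 : 3 ≤ s := hs.two_le.lt_of_ne (by
      rintro rfl
      have : Module.Finite K V := Module.Finite.of_finite
      have a1 := Module.natCard_eq_pow_finrank (K := K) (V := V)
      have a2 : 2 ∣ Nat.card K := Nat.prime_two.dvd_of_dvd_pow
        (a1 ▸ hV ▸ dvd_pow_self 2 k0.ne')
      have a3 := d2.trans h.U_dvd
      have a4 : 0 < Nat.card K := Nat.card_pos
      omega)
    obtain ⟨c, hc⟩ := cnt' hs hV up top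
    obtain ⟨c', hc'⟩ := cnt' hs hV uq top
    rw [AddSubgroup.card_top, hV] at hc hc'
    obtain rfl := arith1 s3 k0 (one_lt hf dp up) (sylow_le h dp up p3 hk) hc
    have fin : ∀ (p : ℕ) [Fact p.Prime], Nat.card (Sylow p G) = s + 1 → p = s := fun p hp e => by
      have := card_sylow_modEq_one p G
      rw [e] at this
      exact (Nat.prime_dvd_prime_iff_eq hp.out hs).1
        (by simpa using (Nat.modEq_iff_dvd' (by omega)).1 this.symm)
    exact hpq ((fin p (arith2 hs.two_le (one_lt hf dp up) hc)).trans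
      (fin q (arith2 hs.two_le (one_lt hf dq uq) hc')).symm)
  exact ⟨d, hd, (((Nat.coprime_primes hp.out hq.out).2 hpq).mul_dvd_of_dvd_of_dvd
    (key p q hpq up uq dp dq) (key q p hpq.symm uq up dq dp)).trans hd'⟩

theorem m (n : NStmt.{u}) : MStmt.{u} := by
  intro G V _ _ _ _ _ _ s k p q _ _ hs hV hpq up uq mp mq
  let f := DistribMulAction.toModuleAut ℤ V (S := G)
  have sj := f.rangeRestrict_surjective
  have hfin : Finite f.range := Finite.of_surjective _ sj
  have hsol : Group.IsSolvable f.range := Group.isSolvable_of_surjective sj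
  have hf : ∀ g : f.range, (∀ x : V, g • x = x) → g = 1 := fun g hg =>
    Subtype.ext (LinearEquiv.ext hg)
  have U : ∀ (p : ℕ) [Fact p.Prime], Uq p G V → Uq p f.range V := by
    intro p _ up v hv
    obtain ⟨P, hP, hu⟩ := up v hv
    refine ⟨P.mapSurjective sj, ?_, fun Q hQ => ?_⟩
    · rintro _ ⟨g, hg, rfl⟩
      exact hP g hg
    · obtain ⟨Q, rfl⟩ := Sylow.mapSurjective_surjective sj p Q
      rw [hu Q fun g hg => hQ _ ⟨g, hg, rfl⟩]
  have D : ∀ (p : ℕ) [Fact p.Prime],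
      (∃ (P : Sylow p G), ∃ g ∈ (P : Subgroup G), ∃ v : V, g • v ≠ v) → p ∣ Nat.card f.range := by
    rintro p hp ⟨P, g, hg, v, hv⟩
    have h1 : IsPGroup p ((P : Subgroup G).map f.rangeRestrict) := P.isPGroup'.map _
    obtain ⟨j, hj⟩ := h1.exists_card_eq
    refine (dvd_pow_self p ?_).trans (hj ▸ Subgroup.card_subgroup_dvd_card _)
    rintro rfl
    have : f.rangeRestrict g ∈ (⊥ : Subgroup f.range) :=
      Subgroup.card_eq_one.1 hj ▸ Subgroup.mem_map_of_mem _ hg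
    exact hv (by
      change f.rangeRestrict g • v = v
      rw [Subgroup.mem_bot.1 this, one_smul])
  obtain ⟨d, hd, hd'⟩ := faithful n hs hV hpq (U p up) (U q uq) hf (D p mp) (D q mq)
  exact ⟨d, H24.cd_subset_of_surjective _ sj hd, hd'⟩

end Cfsg.Agent.H77.Pf
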