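import Cfsg.Agent.H38.R3Cov
import Cfsg.Agent.H77.CkA

/-!
From double transitivity on points to transitivity on independent pairs of vectors.
-/

set_option autoImplicit false

namespace Cfsg.Agent.H77.R3

open Cfsg.Agent.H79.R3 Cfsg.Agent.H38.R3Cov Cfsg.Agent.H77.Ck Module
open scoped Pointwise

universe u

variable {F V : Type u} [Field F] [AddCommGroup V] [Module F V]

theorem sle {g : V ≃ₗ[F] V} {A B : Submodule F V} : g • A ≤ g • B ↔ A ≤ B :=
  H79.R3.smul_le_smul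

theorem dm_sp1 {v : V} (h : v ≠ 0) : dm (F ∙ v) = 1 := finrank_span_singleton h

theorem dm_bot : dm (⊥ : Submodule F V) = 0 := finrank_bot F V

theorem dm_top : dm (⊤ : Submodule F V) = finrank F V := finrank_top F V

theorem exists_gen {x : Submodule F V} (h : dm x = 1) : ∃ v : V, v ≠ 0 ∧ x = F ∙ v := by
  have : Module.Finite F x := Module.finite_of_finrank_pos (by rw [dm] at h; omega)
  have hne : x ≠ ⊥ := by rintro rfl; simp [dm] at h
  obtain ⟨v, hv, h0⟩ := Submodule.exists_mem_ne_zero_of_ne_bot hne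
  exact ⟨v, h0, (Submodule.eq_of_le_of_finrank_eq (sp1_le hv) ((dm_sp1 h0).trans h.symm)).symm⟩

theorem mem_iff_le {v : V} {A : Submodule F V} : v ∈ A ↔ (F ∙ v) ≤ A :=
  (Submodule.span_singleton_le_iff_mem _ _).symm

theorem apply_mem {g : V ≃ₗ[F] V} {A B : Submodule F V} (h : g • A = B) {v : V} :
    g v ∈ B ↔ v ∈ A := by rw [← h, smul_mem_smul]

/-- An element of `p`-power order has only the eigenvalue one on sections. -/
theorem eig1 [Finite F] {g : V ≃ₗ[F] V} {k : ℕ} (hg : g ^ ringChar F ^ k = 1) {H : Submodule F V}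
    (hH : g • H = H) {v : V} (hv : v ∉ H) {c : F} (h : g v - c • v ∈ H) : c = 1 := by
  have := Fact.mk (pF F)
  have h1 : ∀ m : ℕ, (g ^ m) v - c ^ m • v ∈ H := by
    intro m
    induction m with
    | zero => simp
    | succ m ih =>
      have a := (apply_mem hH).2 ih
      rw [map_sub, map_smul] at a
      have b := H.add_mem a (H.smul_mem (c ^ m) h)
      rw [pow_succ', LinearEquiv.mul_apply]
      convert b using 1
      generalize g ((g ^ m) v) = a1
      generalize g v = a2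
      module
  have h2 := h1 (ringChar F ^ k)
  rw [hg] at h2
  have h3 : (1 - c ^ ringChar F ^ k) • v ∈ H := by simpa [sub_smul] using h2
  have h4 : (1 - c) ^ ringChar F ^ k = 0 := by
    rw [sub_pow_char_pow, one_pow]
    by_contra e
    exact hv ((H.smul_mem_iff e).1 h3)
  exact (sub_eq_zero.1 (pow_eq_zero_iff (pow_pos (pF F).pos k).ne' |>.1 h4)).symm

theorem eig1' [Finite F] {P : Subgroup (V ≃ₗ[F] V)} (hP : IsPGroup (ringChar F) P) {g : V ≃ₗ[F] V}
    (hg : g ∈ P) {H : Submodule F V} (hH : g • H = H) {v : V} (hv : v ∉ H) {c : F}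
    (h : g v - c • v ∈ H) : c = 1 := by
  obtain ⟨k, hk⟩ := hP ⟨g, hg⟩
  exact eig1 (k := k) (by simpa using congrArg Subtype.val hk) hH hv h

variable [Finite F] [Finite V]

/-- Transitivity on hyperplanes from transitivity on points. -/
theorem hyp_tr (Γ : Subgroup (V ≃ₗ[F] V)) (x : Submodule F V)
    (ht : ∀ v ∉ x, ∀ w ∉ x, ∃ g ∈ Γ, g • (F ∙ v) = F ∙ w) {H H' : Submodule F V}
    (hH : dm H + 1 = finrank F V) (hH' : dm H' + 1 = finrank F V)
    (e : H ⊓ x = H' ⊓ x) : ∃ g ∈ Γ, g • H = H' := by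
  classical
  have : Finite (V ≃ₗ[F] V) := finEquiv
  have : FiniteDimensional F V := Module.Finite.of_finite
  have := Fintype.ofFinite Γ
  have := Fintype.ofFinite V
  by_contra hn
  push Not at hn
  have c0 : ∀ B : Submodule F V, cd B = ∑ v : V, if v ∈ B then 1 else 0 := by
    intro B
    rw [Finset.sum_boole, cd, ← Set.ncard_coe_finset]
    simp only [Finset.coe_filter, Finset.mem_univ, true_and, Nat.cast_id]
    rfl
  let f : V → ℕ := fun v => ∑ g : Γ, if v ∈ (g : V ≃ₗ[F] V) • H then 1 else 0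
  have f1 : ∀ v ∉ x, ∀ w ∉ x, f v = f w := by
    intro v hv w hw
    obtain ⟨g, hg, e⟩ := ht v hv w hw
    refine Fintype.sum_equiv (Equiv.mulLeft ⟨g, hg⟩) _ _ fun h => ?_
    have : v ∈ (h : V ≃ₗ[F] V) • H ↔ w ∈ (g * h : V ≃ₗ[F] V) • H := by
      rw [mem_iff_le, mem_iff_le, ← e, mul_smul, sle]
    exact if_congr this rfl rfl
  have f2 : ∀ A : Submodule F V, ∑ v : V, (if v ∈ A then f v else 0) =
      ∑ g : Γ, cd (A ⊓ (g : V ≃ₗ[F] V) • H) := by
    intro A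
    have : ∀ v : V, (if v ∈ A then f v else 0) =
        ∑ g : Γ, if v ∈ A ⊓ (g : V ≃ₗ[F] V) • H then 1 else 0 := by
      intro v
      by_cases h : v ∈ A <;> simp [h, f]
    simp only [this]
    rw [Finset.sum_comm]
    refine Finset.sum_congr rfl fun g _ => ?_
    exact (c0 _).symm
  obtain ⟨α, hα⟩ : ∃ α, ∀ v ∉ x, f v = α := by
    by_cases h : ∃ v, v ∉ x
    · obtain ⟨v, hv⟩ := h
      exact ⟨f v, fun w hw => f1 w hw v hv⟩
    · exact ⟨0, fun v hv => absurd ⟨v, hv⟩ h⟩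
  have f3 : ∀ A : Submodule F V, ∑ v : V, (if v ∈ A then f v else 0) + α * cd (A ⊓ x) =
      ∑ v : V, (if v ∈ A ⊓ x then f v else 0) + α * cd A := by
    intro A
    have c1 : ∀ B : Submodule F V, α * cd B = ∑ v : V, if v ∈ B then α else 0 := by
      intro B
      rw [c0, Finset.mul_sum]
      simp
    rw [c1, c1, ← Finset.sum_add_distrib, ← Finset.sum_add_distrib]
    refine Finset.sum_congr rfl fun v _ => ?_
    by_cases a : v ∈ A <;> by_cases b : v ∈ x <;> simp [a, b, hα, add_comm]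
  have c2 : cd H = cd H' := by
    rw [cd_eq, cd_eq]; congr 1; unfold dm at hH hH'; omega
  have f4 : ∑ g : Γ, cd (H ⊓ (g : V ≃ₗ[F] V) • H) = ∑ g : Γ, cd (H' ⊓ (g : V ≃ₗ[F] V) • H) := by
    have a := f3 H
    have b := f3 H'
    rw [e, c2, ← b, f2, f2] at a
    omega
  refine absurd f4 (ne_of_gt (Finset.sum_lt_sum (fun g _ => ?_) ⟨1, Finset.mem_univ _, ?_⟩))
  · have a := dm_inf_of_ne (L := H') (M := (g : V ≃ₗ[F] V) • H) (E := ⊤) le_top le_top
      (by rw [dm_top]; exact hH') (by rw [dm_top, dm_smul]; exact hH) (hn g g.2).symm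
    have b := dm_sup_inf H ((g : V ≃ₗ[F] V) • H)
    have c := dm_mono (le_top : H ⊔ (g : V ≃ₗ[F] V) • H ≤ ⊤)
    rw [dm_smul] at b
    rw [dm_top] at a c
    rw [cd_eq, cd_eq]
    exact qpow_le (by unfold dm at *; omega)
  · have a := dm_inf_of_ne (L := H') (M := H) (E := ⊤) le_top le_top
      (by rw [dm_top]; exact hH') (by rw [dm_top]; exact hH) (by simpa using (hn 1 Γ.one_mem).symm)
    rw [dm_top] at a
    simp only [OneMemClass.coe_one, one_smul, inf_idem]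
    rw [cd_eq, cd_eq]
    exact qpow_lt (by unfold dm at *; omega)

omit [Finite F] in
/-- Double transitivity on points. -/
theorem two_pts {K : Subgroup (V ≃ₗ[F] V)} {L : Submodule F V} (h12 : Tr2 K 1 2) (hL : dm L = 2)
    (h2 : Two K L) {x y z : Submodule F V} (hx : dm x = 1) (hy : dm y = 1) (hz : dm z = 1)
    (e1 : y ≠ x) (e2 : z ≠ x) : ∃ g ∈ K, g • x = x ∧ g • y = z := by
  have : FiniteDimensional F V := Module.Finite.of_finite
  obtain ⟨x₀, -, l0, d0⟩ := exists_cov (bot_le : ⊥ ≤ L) (by rw [dm_bot]; omega)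
  rw [dm_bot] at d0
  have dl : ∀ y, dm y = 1 → y ≠ x → dm (x ⊔ y) = 2 := fun y hy e => by
    have := dm_sup_of_ne (A := ⊥) bot_le (by rw [dm_bot]; exact hx) bot_le
      (by rw [dm_bot]; exact hy) e.symm
    rwa [dm_bot] at this
  obtain ⟨g, hg, a1, a2⟩ := h12 x (x ⊔ y) x₀ L le_sup_left hx (dl y hy e1) l0 d0 hL
  obtain ⟨h, hh, b1, b2⟩ := h12 x (x ⊔ z) x₀ L le_sup_left hx (dl z hz e2) l0 d0 hL
  obtain ⟨k, hk, c1, c2⟩ := h2 x₀ (g • y) (h • z) d0 (by rw [dm_smul, hy]) (by rw [dm_smul, hz]) l0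
    (by rw [← a2, sle]; exact le_sup_right)
    (by rw [← b2, sle]; exact le_sup_right)
    (by rw [← a1]; exact fun e => e1 (MulAction.injective g e))
    (by rw [← b1]; exact fun e => e2 (MulAction.injective h e))
  refine ⟨h⁻¹ * k * g, K.mul_mem (K.mul_mem (K.inv_mem hh) hk) hg, ?_, ?_⟩
  · rw [mul_smul, mul_smul, a1, c1, ← b1, inv_smul_smul]
  · rw [mul_smul, mul_smul, c2, inv_smul_smul]

theorem tt1 : Tt1Stmt.{u} := by
  intro F V _ _ _ _ _ K L h12 hL h2 x H x' H' hx hH hx' hH' e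
  have : FiniteDimensional F V := Module.Finite.of_finite
  have hn : 2 ≤ finrank F V := by rw [← hL, ← dm_top]; exact dm_mono le_top
  obtain ⟨M, m1, -, m2⟩ := exists_cov (le_top : x ≤ ⊤) (by rw [dm_top]; omega)
  obtain ⟨M', m1', -, m2'⟩ := exists_cov (le_top : x' ≤ ⊤) (by rw [dm_top]; omega)
  obtain ⟨g, hg, a1, -⟩ := h12 x M x' M' m1 hx (by omega) m1' hx' (by omega)
  obtain ⟨h, hh, b⟩ := hyp_tr (K ⊓ MulAction.stabilizer _ x') x' (H := g • H) (H' := H')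
    (fun v hv w hw => by
      obtain ⟨k, hk, c1, c2⟩ := two_pts h12 hL h2 hx' (dm_sp1 (ne0_of hv)) (dm_sp1 (ne0_of hw))
        (fun e => hv (e ▸ x_sp1 v)) (fun e => hw (e ▸ x_sp1 w))
      exact ⟨k, ⟨hk, c1⟩, c2⟩)
    (by rw [dm_smul, hH]) hH' (by
      have e' : x' ≤ g • H ↔ x' ≤ H' := by rw [← e, ← a1, sle]
      by_cases c : x' ≤ H'
      · rw [inf_eq_right.2 c, inf_eq_right.2 (e'.2 c)]
      · rw [inf_comm, inf_comm H', inf_eq_of_not_le (A := ⊥) bot_le (by rw [dm_bot]; exact hx')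
          bot_le c, inf_eq_of_not_le (A := ⊥) bot_le (by rw [dm_bot]; exact hx') bot_le
          (fun k => c (e'.1 k))])
  exact ⟨h * g, K.mul_mem hh.1 hg, by rw [mul_smul, a1]; exact hh.2, by rw [mul_smul, b]⟩

theorem ncard_off {H : Submodule F V} (hH : dm H + 1 = finrank F V) :
    {y : Submodule F V | dm y = 1 ∧ ¬ y ≤ H}.ncard = Nat.card F ^ dm H := by
  have a := cnt_add_not (fun y => y ≤ H) (⊥ : Submodule F V) ⊤
  rw [ncard_cov (k := dm H + 1) bot_le (by rw [dm_top, dm_bot]; omega), br_succ] at a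
  have b : cnt (fun y => y ≤ H) (⊥ : Submodule F V) ⊤ = br (Nat.card F) (dm H) := by
    rw [← ncard_cov (A := ⊥) (D := H) bot_le (by rw [dm_bot]; omega), cnt]
    congr 1
    ext y
    simp [Cov, and_comm]
  have c : cnt (fun y => ¬ y ≤ H) (⊥ : Submodule F V) ⊤ =
      {y : Submodule F V | dm y = 1 ∧ ¬ y ≤ H}.ncard := by
    rw [cnt]
    congr 1
    ext y
    simp [Cov]
  omega

theorem PH_coset {K : Subgroup (V ≃ₗ[F] V)} (h3 : 2 ≤ finrank F V) (h : PH K) {x : V} (hx : x ≠ 0)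
    {H : Submodule F V} (hH : dm H + 1 = finrank F V) (xH : x ∈ H) {v w : V} (hv : v ∉ H)
    (hw : w - v ∈ H) : ∃ g ∈ K, g x = x ∧ g v = w := by
  have : Finite (V ≃ₗ[F] V) := finEquiv
  have : Finite (Submodule F V) := finSub
  obtain ⟨P, hP⟩ := exists_syl (pF F) (K ⊓ MulAction.stabilizer _ H)
  obtain ⟨f, hf⟩ := card_pF F
  have pH : ∀ g ∈ P, g • H = H := fun g hg => (hP.1 hg).2
  have t := hP.tr (pF F) (X := {y : Submodule F V | dm y = 1 ∧ ¬ y ≤ H})
    (k := (f + 1) * dm H) (by rw [ncard_off hH, hf, pow_mul])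
    (fun g hg a ha => ⟨by rw [dm_smul]; exact ha.1, by
      have e : g • H = H := hg.2
      rw [← e, sle]; exact ha.2⟩)
    (fun a ha c hc => by
      obtain ⟨g, hg, e1, e2⟩ := h a H c H ha.1 hH hc.1 hH (iff_of_false ha.2 hc.2)
      exact ⟨g, ⟨hg, e2⟩, e1⟩)
  obtain ⟨x₀, x1, x2, x3⟩ := fix_ne0 hP.2.1 (A := H)
    (by rw [cd_eq]; exact Nat.one_lt_pow (by unfold dm at hH; omega) (q2 F))
    (fun g hg a ha => (apply_mem (pH g hg)).2 ha)
  have t2 : ∀ v ∉ H, ∀ w, w - v ∈ H → ∃ g ∈ K, g x₀ = x₀ ∧ g v = w := by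
    intro v hv w hw
    have hw' : w ∉ H := fun a => hv (by simpa using H.sub_mem a hw)
    obtain ⟨g, hg, e⟩ := t (F ∙ v) ⟨dm_sp1 (ne0_of hv), fun a => hv (mem_iff_le.2 a)⟩ (F ∙ w)
      ⟨dm_sp1 (ne0_of hw'), fun a => hw' (mem_iff_le.2 a)⟩
    obtain ⟨c, hc⟩ := mem_sp1.1 ((apply_mem e).2 (x_sp1 v))
    have : c = 1 := eig1' hP.2.1 hg (pH g hg) hv (by
      rw [← hc, ← smul_sub]; exact H.smul_mem _ hw)
    exact ⟨g, (hP.1 hg).1, x3 g hg, by rw [← hc, this, one_smul]⟩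
  obtain ⟨k, hk, k1, k2⟩ := h (F ∙ x) H (F ∙ x₀) H (dm_sp1 hx) hH (dm_sp1 x2) hH
    (iff_of_true (mem_iff_le.1 xH) (mem_iff_le.1 x1))
  obtain ⟨g, hg, g1, g2⟩ := t2 (k v) (fun a => hv ((apply_mem k2).1 a)) (k w)
    (by rw [← map_sub]; exact (apply_mem k2).2 hw)
  obtain ⟨c, hc⟩ := mem_sp1.1 ((apply_mem k1).2 (x_sp1 x))
  refine ⟨k⁻¹ * g * k, K.mul_mem (K.mul_mem (K.inv_mem hk) hg) hk, ?_, ?_⟩
  · rw [LinearEquiv.mul_apply, LinearEquiv.mul_apply, ← hc, map_smul, g1, hc]; simp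
  · rw [LinearEquiv.mul_apply, LinearEquiv.mul_apply, g2]; simp

theorem tt2 : Tt2Stmt.{u} := by
  intro F V _ _ _ _ _ K h3 h
  have : FiniteDimensional F V := Module.Finite.of_finite
  have ex : ∀ x y : V, ∃ z, z ∉ sp2 F x y := fun x y => by
    obtain ⟨z, -, hz⟩ := exists_nsp2 (F := F) (A := ⊤) (by rw [cd_eq, finrank_top]; exact qpow_lt h3)
      x y
    exact ⟨z, hz⟩
  have s1 : ∀ x y z : V, x ≠ 0 → y ∉ F ∙ x → z ∉ sp2 F x y → ∃ g ∈ K, g x = x ∧ g y = z := by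
    intro x y z hx hy hz
    have a : y ∉ sp2 F x (z - y) := by
      refine sp2_exch hy fun a => hz ?_
      simpa using (sp2 F x y).add_mem a (y_sp2 x y)
    obtain ⟨φ, h1, h2⟩ := Submodule.exists_le_ker_of_notMem a
    exact PH_coset (by omega) h hx (H := LinearMap.ker φ)
      (Module.Dual.finrank_ker_add_one_of_ne_zero (ne_of_apply_ne (· y) h1)) (h2 (x_sp2 _ _)) h1
      (h2 (y_sp2 _ _))
  have s2 : ∀ x y y' : V, x ≠ 0 → y ∉ F ∙ x → y' ∉ F ∙ x → ∃ g ∈ K, g x = x ∧ g y = y' := by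
    intro x y y' hx hy hy'
    by_cases a : y' ∈ sp2 F x y
    · obtain ⟨z, hz⟩ := ex x y
      obtain ⟨g, hg, a1, a2⟩ := s1 x y z hx hy hz
      obtain ⟨k, hk, b1, b2⟩ := s1 x y' z hx hy' (by rwa [sp2_of_mem a hy'])
      refine ⟨k⁻¹ * g, K.mul_mem (K.inv_mem hk) hg, ?_, ?_⟩
      · rw [LinearEquiv.mul_apply, a1]; nth_rw 1 [← b1]; simp
      · rw [LinearEquiv.mul_apply, a2, ← b2]; simp
    · exact s1 x y y' hx hy a
  intro x y x' y' hx hy hx' hy'
  obtain ⟨z, hz⟩ := ex x x'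
  obtain ⟨g, hg, -, a⟩ := s2 z x x' (ne0_of hz) (sp1_symm hx (nsp1_of hz))
    (sp1_symm hx' (nsp1_of' hz))
  obtain ⟨k, hk, b1, b2⟩ := s2 x' (g y) y' hx'
    (by rw [← a, ← smul_span, smul_mem_smul]; exact hy) hy'
  exact ⟨k * g, K.mul_mem hk hg, by rw [LinearEquiv.mul_apply, a, b1],
    by rw [LinearEquiv.mul_apply, b2]⟩

end Cfsg.Agent.H77.R3
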