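import Cfsg.Agent.H54.RfKitP

/-! # Standard subgroups of type `²F₄(q)`: the doubled root elements of the ray `5` -/

set_option autoImplicit false
set_option linter.unusedSimpArgs false
set_option linter.unnecessarySeqFocus false
set_option linter.unusedSectionVars false

namespace Cfsg.Agent.H77.RfP5

open Cfsg Cfsg.Agent.H15.O8 Cfsg.Agent.H39 Cfsg.Agent.H36.O8T Cfsg.Agent.H54.RF Subgroup
open scoped commutatorElement

universe u v

/-- Averaging in an abelian subgroup over a finite group of operators. -/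
theorem avg {G : Type*} [Group G] (A : Subgroup G) (hA : ∀ a ∈ A, ∀ b ∈ A, Commute a b)
    {Γ : Type*} [Group Γ] [Finite Γ] (η : Γ →* G) (hη : ∀ γ, ∀ a ∈ A, η γ * a * (η γ)⁻¹ ∈ A)
    (P : ℕ → G → Prop) (P0 : P 0 1) {g : G} (hg : g ∈ A)
    (Ps : ∀ n γ, ∀ x ∈ A, P n x → P (n + 1) (η γ * g * (η γ)⁻¹ * x)) :
    ∃ r ∈ A, P (Nat.card Γ) r ∧ ∀ γ, Commute (η γ) r := by
  classical
  have := Fintype.ofFinite Γ
  let _ : CommGroup A :=
    { (inferInstance : Group A) with mul_comm := fun a b => Subtype.ext (hA _ a.2 _ b.2) }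
  let f : Γ → A →* A := fun γ => MonoidHom.mk' (fun a => ⟨η γ * a * (η γ)⁻¹, hη γ a a.2⟩)
    (fun a b => Subtype.ext (by simp [mul_assoc]))
  refine ⟨(∏ γ, f γ ⟨g, hg⟩ : A), Subtype.prop _, ?_, fun γ => ?_⟩
  · rw [Nat.card_eq_fintype_card, ← Finset.card_univ]
    induction (Finset.univ : Finset Γ) using Finset.induction_on with
    | empty => simpa using P0
    | insert a s ha ih =>
      rw [Finset.prod_insert ha, Finset.card_insert_of_notMem ha]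
      exact Ps _ _ _ (Subtype.prop _) ih
  · have : f γ (∏ δ, f δ ⟨g, hg⟩) = ∏ δ, f δ ⟨g, hg⟩ := by
      rw [map_prod]
      exact Fintype.prod_equiv (Equiv.mulLeft γ) _ _ fun δ => Subtype.ext (by simp [f, mul_assoc])
    exact conj_eq_iff.1 (congrArg Subtype.val this)

theorem conj_mul_of {G : Type*} [Group G] {u g g' a a' : G} (h1 : u * g * u⁻¹ = g * a)
    (h2 : u * g' * u⁻¹ = g' * a') (hc : Commute a g') :
    u * (g * g') * u⁻¹ = g * g' * (a * a') := by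
  calc _ = u * g * u⁻¹ * (u * g' * u⁻¹) := by group
    _ = g * (a * g') * a' := by rw [h1, h2]; group
    _ = _ := by rw [hc.eq]; group

variable {K : Type*} [Field K] {T : Tits K}

theorem y2x5 (w c : K) : y2 T w * x5 T c * (y2 T w)⁻¹ = x5 T c * x4 T (w * c) := by
  ext <;> o8s <;> o8ring T

theorem x5Tc (m : K) {u : U T} (hu : u ∈ Tc T) : x5 T m * u = u * x5 T m := by
  obtain ⟨k1, k2⟩ := hu
  ext <;> o8s <;> (try simp only [k1, k2]) <;> o8ring T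

theorem x4_inj {a b : K} (h : x4 T a = x4 T b) : a = b := congrArg U.a4 h

theorem x5_ne {a : K} (h : a ≠ 0) : x5 T a ≠ 1 := fun e => h (congrArg U.a5 e)

theorem x5V (a : K) : x5 T a ∈ V T := by o8s
theorem x4V (a : K) : x4 T a ∈ V T := by o8s

variable {G : Type*} [Group G] {M : FF T G} {t : G} {p r : K → G}

theorem φV {u : U T} (hu : u ∈ V T) : M.φ u ∈ Vh M p := mem_sup_right (mem_map_of_mem _ hu)

theorem P6V (a : K) : P6 M p a ∈ Vh M p :=
  mem_sup_left (subset_closure ⟨1, one_mem _, a, by simp⟩)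

theorem vinv (v : VH M t p) {g : G} (hg : g ∈ Vh M p) : g⁻¹ = g :=
  inv_eq_of_mul_eq_one_right (v.sq g hg)

theorem vcomm (v : VH M t p) {g g' : G} (hg : g ∈ Vh M p) (hg' : g' ∈ Vh M p) : Commute g g' := by
  have := vinv v (mul_mem hg hg')
  rw [mul_inv_rev, vinv v hg, vinv v hg'] at this
  exact this.symm

theorem n8V (v : VH M t p) {g : G} (hg : g ∈ Vh M p) : M.n8 * g * M.n8 ∈ Vh M p := by
  have := v.nK _ (n8K M) g hg
  rwa [n8_inv] at this

theorem mov_mul (v : VH M t p) {g g' : G} {a b : U T} (hg : g ∈ Vh M p) (hb : b ∈ V T)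
    (h1 : g * t * g⁻¹ = t * M.φ a) (h2 : g' * t * g'⁻¹ = t * M.φ b) :
    g * g' * t * (g * g')⁻¹ = t * M.φ (a * b) := by
  calc _ = g * (g' * t * g'⁻¹) * g⁻¹ := by group
    _ = g * t * g⁻¹ * (g * M.φ b * g⁻¹) := by rw [h2]; group
    _ = _ := by rw [h1, conj_eq_iff.2 (vcomm v hg (φV hb)), map_mul, mul_assoc]

theorem mov_conj {g l w : G} (hl : Commute l t) (h1 : g * t * g⁻¹ = t * w) :
    l * g * l⁻¹ * t * (l * g * l⁻¹)⁻¹ = t * (l * w * l⁻¹) := by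
  calc _ = l * (g * (l⁻¹ * t * l⁻¹⁻¹) * g⁻¹) * l⁻¹ := by group
    _ = l * t * l⁻¹ * (l * w * l⁻¹) := by rw [conj_eq_iff.2 hl.inv_left, h1]; group
    _ = _ := by rw [conj_eq_iff.2 hl]

theorem mov_φ (c : Ctx M t) (u : U T) : M.φ u * t * (M.φ u)⁻¹ = t * M.φ 1 := by
  rw [conj_eq_iff.2 (c.tφ u), map_one, mul_one]

theorem mov_uniq {a b : U T} (h : t * M.φ a = t * M.φ b) : a = b := M.inj (mul_left_cancel h)

/-- The data before the normalization. -/
structure R0 (M : FF T G) (t : G) (p r : K → G) : Prop where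
  mem : ∀ a, r a ∈ Vh M p
  zero : r 0 = 1
  mov : ∀ a, r a * t * (r a)⁻¹ = t * M.φ (x5 T a)
  tor : ∀ (d : Kˣ × Kˣ) a, M.h d * r a * (M.h d)⁻¹ = r (d.1 * d.2 * a)

theorem R0.h5 (ρ : R0 M t p r) (α : Kˣ) (a : K) : Commute (M.h (α, α⁻¹)) (r a) := by
  rw [← conj_eq_iff, ρ.tor]; simp

variable [Finite K]

theorem exists_unit (c : Ctx M t) : ∃ α : Kˣ, α ≠ 1 := by
  obtain ⟨a, h0, h1⟩ := H92.UL.exists_ne c.q2
  exact ⟨Units.mk0 a h0, fun e => h1 (congrArg Units.val e)⟩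

theorem exists_R0 (c : Ctx M t) (v : VH M t p) : ∃ r, R0 M t p r := by
  classical
  obtain ⟨g, hg, eg⟩ := v.sur _ (x5V (T := T) 1)
  let η : Kˣ →* G := M.h.comp (MonoidHom.mk' (fun α : Kˣ => (α, α⁻¹)) fun a b => by
    simp [mul_comm])
  have hη : ∀ α, η α = M.h (α, α⁻¹) := fun _ => rfl
  obtain ⟨r1, m1, e1, c1⟩ := avg (Vh M p) (fun a ha b hb => vcomm v ha hb) η
    (fun γ a ha => v.nH _ a ha) (fun n x => x * t * x⁻¹ = t * M.φ (x5 T (n : K)))
    (by simp [x5_zero]) hg (fun n γ x hx e => by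
      have := mov_conj (c.th (γ, γ⁻¹)) eg
      rw [M.hφ, tor_x5] at this
      have := mov_mul v (v.nH _ g hg) (x5V _) this e
      rw [← x5_add] at this
      rw [hη]
      simpa [add_comm] using this)
  have hq : ((Nat.card Kˣ : ℕ) : K) = 1 := by
    have := Fintype.ofFinite K
    have h1 : Nat.card Kˣ + 1 = Fintype.card K := by
      rw [Nat.card_units, Nat.card_eq_fintype_card]
      have := Fintype.card_pos (α := K)
      omega
    have h2 := congrArg (Nat.cast : ℕ → K) h1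
    rw [FiniteField.cast_card_eq_zero, Nat.cast_add, Nat.cast_one] at h2
    have := add_self (T := T) (1 : K)
    linear_combination h2 - this
  rw [hq] at e1
  refine ⟨fun a => if h : a = 0 then 1 else M.h (Units.mk0 a h, 1) * r1 * (M.h (Units.mk0 a h, 1))⁻¹,
    fun a => ?_, by simp, fun a => ?_, fun d a => ?_⟩
  · split_ifs with h
    · exact one_mem _
    · exact v.nH _ _ m1
  · split_ifs with h
    · simp [h, x5_zero]
    · have := mov_conj (c.th (Units.mk0 a h, 1)) e1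
      rw [M.hφ, tor_x5] at this
      simpa using this
  · by_cases h : a = 0
    · simp [h]
    · have h' : (d.1 : K) * d.2 * a ≠ 0 := mul_ne_zero (mul_ne_zero d.1.ne_zero d.2.ne_zero) h
      rw [dif_neg h, dif_neg h']
      have e : M.h d * M.h (Units.mk0 a h, 1) = M.h (Units.mk0 _ h', 1) * η d.2⁻¹ := by
        rw [hη, ← map_mul, ← map_mul]
        congr 1
        refine Prod.ext (Units.ext ?_) (by simp)
        have := d.2.ne_zero
        simp
        field_simp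
      calc _ = M.h d * M.h (Units.mk0 a h, 1) * r1 * (M.h d * M.h (Units.mk0 a h, 1))⁻¹ := by group
        _ = M.h (Units.mk0 _ h', 1) * (η d.2⁻¹ * r1 * (η d.2⁻¹)⁻¹) * (M.h (Units.mk0 _ h', 1))⁻¹ := by
          rw [e]; group
        _ = _ := by rw [conj_eq_iff.2 (c1 _)]

omit [Finite K] in
theorem exists_y2 (c : Ctx M t) (h : H4 M t p) (v : VH M t p) (ρ : R0 M t p r) (w a : K) :
    ∃ b, M.φ (y2 T w) * r a * (M.φ (y2 T w))⁻¹ = r a * (p (w * a) * M.φ (x4 T b)) := by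
  obtain ⟨a', b, e⟩ := v.qz (y2 T w) ⟨rfl, rfl⟩ _ (ρ.mem a)
  have e1 := mov_conj (c.tφ (y2 T w)) (ρ.mov a)
  rw [← map_inv, ← map_mul, ← map_mul, y2x5, map_inv, e] at e1
  have e2 := mov_mul v (mul_mem (ρ.mem a) (v.pm a')) (one_mem _)
    (mov_mul v (ρ.mem a) (x4V a') (ρ.mov a) (h.mov a')) (mov_φ c (x4 T b))
  rw [e2, mul_one] at e1
  refine ⟨b, ?_⟩
  rw [e, x4_inj (mul_left_cancel (mov_uniq e1)), mul_assoc]

theorem exists_R1 (c : Ctx M t) (h : H4 M t p) (v : VH M t p) : ∃ r, R0 M t p r ∧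
    ∀ w a, M.φ (y2 T w) * r a * (M.φ (y2 T w))⁻¹ = r a * p (w * a) := by
  obtain ⟨r, ρ⟩ := exists_R0 c v
  choose κ hκ using exists_y2 c h v ρ
  have uq : ∀ w a b, M.φ (y2 T w) * r a * (M.φ (y2 T w))⁻¹ = r a * (p (w * a) * M.φ (x4 T b)) →
      κ w a = b := fun w a b e =>
    x4_inj (M.inj (mul_left_cancel (mul_left_cancel ((hκ w a).symm.trans e))))
  have hom : ∀ d : Kˣ × Kˣ, κ (wy2 T d) (d.1 * d.2 : Kˣ) = Nu T d.1 * κ 1 1 := fun d => by
    refine uq _ _ _ ?_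
    have e := congrArg (fun x => M.h d * x * (M.h d)⁻¹) (hκ 1 1)
    have e1 : M.h d * (M.φ (y2 T 1) * r 1 * (M.φ (y2 T 1))⁻¹) * (M.h d)⁻¹ =
        M.h d * M.φ (y2 T 1) * (M.h d)⁻¹ * (M.h d * r 1 * (M.h d)⁻¹) *
          (M.h d * M.φ (y2 T 1) * (M.h d)⁻¹)⁻¹ := by group
    have e2 : M.h d * (r 1 * (p (1 * 1) * M.φ (x4 T (κ 1 1)))) * (M.h d)⁻¹ =
        M.h d * r 1 * (M.h d)⁻¹ * (M.h d * p (1 * 1) * (M.h d)⁻¹ *
          (M.h d * M.φ (x4 T (κ 1 1)) * (M.h d)⁻¹)) := by group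
    rw [e1, e2] at e
    simp only [M.hφ, ρ.tor, h.tor, tor_y2, tor_x4, mul_one] at e
    have e3 : (wy2 T d : K) * (d.1 * d.2 : Kˣ) = d.1 * T.θ d.1 :=
      (congrArg Units.val (iy25 (T := T) d)).symm
    rw [e3]
    exact e
  have hκ' : ∀ w a, κ w a = κ 1 1 * (w * a) := fun w a => by
    by_cases hw : w = 0
    · refine uq _ _ _ ?_
      simp [hw, y2_zero, x4_zero, h.f4.zero]
    by_cases ha : a = 0
    · refine uq _ _ _ ?_
      simp [ha, ρ.zero, x4_zero, h.f4.zero]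
    exact hom_pair (wy2 T) (fun d => d.1 * d.2) (fun d => Nu T d.1) wy25 (fun a b => a * b)
      (fun d => congrArg Units.val (iy25 d)) κ hom hw ha
  refine ⟨fun a => r a * M.φ (x5 T (κ 1 1 * a)), ⟨fun a => mul_mem (ρ.mem a) (φV (x5V _)),
    by simp [ρ.zero, x5_zero], fun a => ?_, fun d a => ?_⟩, fun w a => ?_⟩
  · have := mov_mul v (ρ.mem a) (one_mem _) (ρ.mov a) (mov_φ c (x5 T (κ 1 1 * a)))
    rwa [mul_one] at this
  · have e1 : M.h d * (r a * M.φ (x5 T (κ 1 1 * a))) * (M.h d)⁻¹ =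
        M.h d * r a * (M.h d)⁻¹ * (M.h d * M.φ (x5 T (κ 1 1 * a)) * (M.h d)⁻¹) := by group
    rw [e1, ρ.tor, M.hφ, tor_x5, mul_left_comm]
  · have e1 : M.φ (y2 T w) * M.φ (x5 T (κ 1 1 * a)) * (M.φ (y2 T w))⁻¹ =
        M.φ (x5 T (κ 1 1 * a)) * M.φ (x4 T (w * (κ 1 1 * a))) := by
      rw [← map_inv, ← map_mul, ← map_mul, y2x5, map_mul]
    rw [conj_mul_of (hκ w a) e1 (vcomm v (mul_mem (v.pm _) (φV (x4V _))) (φV (x5V _))), hκ' w a,
      mul_assoc (p _), ← map_mul, ← x4_add, mul_left_comm w, add_self (T := T), x4_zero, map_one,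
      mul_one]

omit [Finite K] in
theorem eq_x5 (v : VH M t p) {g : G} (hg : g ∈ Vh M p) (ht : Commute g t) {α : Kˣ} (h1 : α ≠ 1)
    (hc : Commute (M.h (α, α⁻¹)) g) : ∃ m, g = M.φ (x5 T m) := by
  obtain ⟨u, -, rfl⟩ := v.fix g hg ht
  have := conj_eq_iff.2 hc
  rw [M.hφ] at this
  exact ⟨u.a5, congrArg M.φ (fix5 h1 u (M.inj this))⟩

theorem radd (c : Ctx M t) (h : H4 M t p) (v : VH M t p) (ρ : R0 M t p r)
    (hy : ∀ w a, M.φ (y2 T w) * r a * (M.φ (y2 T w))⁻¹ = r a * p (w * a)) (a b : K) :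
    r (a + b) = r a * r b := by
  obtain ⟨α, hα⟩ := exists_unit c
  have e0 := mov_mul v (ρ.mem (a + b)) (mul_mem (x5V _) (x5V _)) (ρ.mov (a + b))
    (mov_mul v (ρ.mem a) (x5V _) (ρ.mov a) (ρ.mov b))
  rw [← x5_add, ← x5_add, add_self (T := T), x5_zero, map_one, mul_one, conj_eq_iff] at e0
  obtain ⟨m, e⟩ := eq_x5 v (mul_mem (ρ.mem _) (mul_mem (ρ.mem _) (ρ.mem _))) e0 hα
    ((ρ.h5 α _).mul_right ((ρ.h5 α _).mul_right (ρ.h5 α _)))
  have e1 := conj_mul_of (hy 1 (a + b)) (conj_mul_of (hy 1 a) (hy 1 b)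
    (vcomm v (v.pm _) (ρ.mem _))) (vcomm v (v.pm _) (mul_mem (ρ.mem _) (ρ.mem _)))
  rw [e, ← map_inv, ← map_mul, ← map_mul, y2x5, ← h.add, ← h.add, map_mul, one_mul, one_mul,
    one_mul, one_mul, add_self (T := T), h.f4.zero] at e1
  have e2 : m = 0 := x4_inj (φ_eq_one M (mul_left_cancel e1))
  rw [e2, x5_zero, map_one] at e
  rw [← vinv v (ρ.mem (a + b))]
  exact inv_eq_of_mul_eq_one_right e

variable [Finite G]

theorem n1_r (c : Ctx2 M t) (v : VH M t p) (ρ : R0 M t p r) (a : K) :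
    ∃ m, r a = M.n1 * r a * M.n1 * M.φ (x5 T m) := by
  by_cases ha : a = 0
  · exact ⟨0, by simp [ha, ρ.zero, M.n1n1, x5_zero]⟩
  obtain ⟨α, hα⟩ := exists_unit c.toCtx
  have i1 := vinv v (ρ.mem a)
  have j1 : (M.n1 * r a * M.n1)⁻¹ = M.n1 * r a * M.n1 := by rw [← conj_inv' M.n1n1, i1]
  have tj := rel_conj M.n1n1 (ρ.mov a)
  rw [conj_mul' M.n1n1 t, conj_fix' M.n1n1 c.tn1.symm, n1_x5] at tj
  have ht := mov_mul v (ρ.mem a) (x5V a) (ρ.mov a) tj
  rw [← x5_add, add_self (T := T), x5_zero, map_one, mul_one, conj_eq_iff] at ht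
  obtain ⟨e, -, o, ho, -, hd⟩ := c.cw ht fun w hw => by
    have hw' : w1 w ∈ W T := by revert hw; o8s; rintro ⟨a, b, c, d, e, f, g, h, i, j⟩; simp [*]
    have := comm_conj' M.n1n1 (v.cD _ (ρ.mem a) _ (V_le_D (R_le_V (W_le_R hw'))))
    rw [M.n1φ _ (w1_mem _), w1_w1 (V_le_E (R_le_V (W_le_R hw)))] at this
    exact (v.cD _ (ρ.mem a) _ (V_le_D (R_le_V (W_le_R hw)))).mul_left this
  have h5 : Commute (r a * (M.n1 * r a * M.n1)) (M.h (α, α⁻¹)) := by
    have := comm_conj' M.n1n1 (ρ.h5 α⁻¹ a)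
    rw [M.n1h, inv_inv] at this
    exact (ρ.h5 α a).symm.mul_left this.symm
  have he := fix5 hα e (c.dec_h hd ho h5)
  have := c.di hd ho (v.odd _ (ρ.mem a) o ho) (he ▸ vcomm v (ρ.mem a) (φV (x5V _)))
    (by rw [he, ← x5_add, add_self (T := T), x5_zero]) (ρ.mov a) (x5_ne ha) (by
      rw [mul_inv_rev, i1, j1, ← mul_assoc, v.sq _ (ρ.mem a), one_mul])
  refine ⟨e.a5, ?_⟩
  rw [he] at this
  have e1 : r a = M.φ (x5 T e.a5) * (M.n1 * r a * M.n1) := by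
    rw [← this, mul_assoc, mul_eq_one_iff_inv_eq.2 j1, mul_one]
  have e2 : Commute (M.n1 * r a * M.n1) (M.φ (x5 T e.a5)) := by
    have := comm_conj' M.n1n1 (vcomm v (ρ.mem a) (φV (x5V e.a5)))
    rwa [n1_x5] at this
  exact e1.trans e2.eq.symm

theorem cenO (c : Ctx2 M t) (v : VH M t p) (ρ : R0 M t p r) (a : K) {u : U T} (hu : u ∈ O T) :
    Commute (r a) (M.φ u) := by
  obtain ⟨m, e⟩ := n1_r c v ρ a
  have h1 : ∀ d ∈ D T, Commute (r a) (M.φ d) := v.cD _ (ρ.mem a)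
  have h2 : ∀ d ∈ D T, w1 d ∈ Tc T → Commute (r a) (M.φ (w1 d)) := fun d hd hd' => by
    have := comm_conj' M.n1n1 (h1 d hd)
    rw [M.n1φ _ (D_le_E hd)] at this
    rw [e]
    exact this.mul_left ((φ_comm M).2 (x5Tc m hd'))
  rw [eq_O hu]
  simp only [map_mul]
  refine (((((((Commute.mul_right (h1 _ ?_) (h1 _ ?_)).mul_right (h1 _ ?_)).mul_right
    (h1 _ ?_)).mul_right (h1 _ ?_)).mul_right ?_).mul_right (h1 _ ?_)).mul_right ?_).mul_right ?_
  · o8s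
  · o8s
  · o8s
  · o8s
  · o8s
  · exact w1_y4 (T := T) u.b6 ▸ h2 _ (by o8s) (by o8s)
  · o8s
  · exact w1_x3 (T := T) u.a7 ▸ h2 _ (by o8s) (by o8s)
  · exact w1_x2 (T := T) u.a8 ▸ h2 _ (by o8s) (by o8s)

omit [Finite G] in
theorem cen1 (c : Ctx M t) (h : H4 M t p) (v : VH M t p) (ρ : R0 M t p r)
    (add : ∀ a b, r (a + b) = r a * r b) (w a : K) : Commute (r a) (M.φ (x1 T w)) := by
  have ex : ∀ a, ∃ b, M.φ (x1 T w) * r a * (M.φ (x1 T w))⁻¹ = r a * M.φ (x4 T b) := fun a => by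
    obtain ⟨a', b, e⟩ := v.qz (x1 T w) ⟨rfl, rfl⟩ _ (ρ.mem a)
    have e1 := mov_conj (c.tφ (x1 T w)) (ρ.mov a)
    rw [conj_eq_iff.2 ((φ_comm M).2 (x5Tc a ⟨rfl, rfl⟩)).symm, e] at e1
    have e2 := mov_mul v (mul_mem (ρ.mem a) (v.pm a')) (one_mem _)
      (mov_mul v (ρ.mem a) (x4V a') (ρ.mov a) (h.mov a')) (mov_φ c (x4 T b))
    rw [e2, mul_one] at e1
    have e3 : a' = 0 := x4_inj (mul_eq_left.1 (mov_uniq e1))
    exact ⟨b, by rw [e, e3, h.f4.zero, mul_one]⟩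
  choose f hf using ex
  have uq : ∀ a b, M.φ (x1 T w) * r a * (M.φ (x1 T w))⁻¹ = r a * M.φ (x4 T b) → f a = b :=
    fun a b e => x4_inj (M.inj (mul_left_cancel ((hf a).symm.trans e)))
  have z := hom_zero (fun α : Kˣ => (α : K) * α) (fun α => (α : K) * T.θ α) f
    (fun a b => uq _ _ (by
      rw [add, conj_mul_of (hf a) (hf b) (vcomm v (φV (x4V _)) (ρ.mem _)), x4_add, map_mul]))
    (fun α => uq _ _ (by
      have e := congrArg (fun x => M.h (α, α) * x * (M.h (α, α))⁻¹) (hf 1)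
      have e1 : M.h (α, α) * (M.φ (x1 T w) * r 1 * (M.φ (x1 T w))⁻¹) * (M.h (α, α))⁻¹ =
          M.h (α, α) * M.φ (x1 T w) * (M.h (α, α))⁻¹ * (M.h (α, α) * r 1 * (M.h (α, α))⁻¹) *
            (M.h (α, α) * M.φ (x1 T w) * (M.h (α, α))⁻¹)⁻¹ := by group
      have e2 : M.h (α, α) * (r 1 * M.φ (x4 T (f 1))) * (M.h (α, α))⁻¹ =
          M.h (α, α) * r 1 * (M.h (α, α))⁻¹ *
            (M.h (α, α) * M.φ (x4 T (f 1)) * (M.h (α, α))⁻¹) := by group
      rw [e1, e2] at e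
      simp only [M.hφ, ρ.tor, tor_x1, tor_x4, mul_one, wt1, div_self', Units.val_one,
        one_mul] at e
      exact e))
    (fun a ha => by
      obtain ⟨b, hb⟩ := θu_surj (T := T) (Units.mk0 a ha)
      obtain ⟨d, hd⟩ := θu_surj (T := T) b
      refine ⟨d, ?_⟩
      have := θu_θu (T := T) d
      rw [hd, hb] at this
      exact (congrArg Units.val this).symm)
    (by
      obtain ⟨a, h0, h1, h2⟩ := N_not_add (T := T) c.q2
      refine ⟨Units.mk0 a h0, 1, Units.mk0 _ h1, ?_, by simpa using h2⟩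
      have := add_self (T := T) a
      simp only [Units.val_mk0, Units.val_one]
      linear_combination this) a
  have := hf a
  rw [z, x4_zero, map_one, mul_one, conj_eq_iff] at this
  exact this.symm

end Cfsg.Agent.H77.RfP5

namespace Cfsg.Agent.H77

open Cfsg Cfsg.Agent.H15.O8 Cfsg.Agent.H39 Cfsg.Agent.H36.O8T Cfsg.Agent.H54.RF Subgroup RfP5

universe u v

/-- **P5** -/
theorem rfP5 : P5Stmt.{u, v} := by
  intro K _ _ T G _ _ M t c p h v
  obtain ⟨r, ρ, hy⟩ := exists_R1 c.toCtx h v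
  have add := radd c.toCtx h v ρ hy
  have c1 := cen1 c.toCtx h v ρ add
  refine ⟨r, ⟨h, add, ρ.mov, fun a u hu => ?_, fun a => ?_, fun a => v.odd _ (ρ.mem a), ρ.tor, hy,
    fun a b => vcomm v (v.pm a) (ρ.mem b), fun a b => vcomm v (n8V v (P6V a)) (ρ.mem b),
    fun a b => vcomm v (n8V v (P6V a)) (P6V b), fun a b => vcomm v (n8V v (ρ.mem a)) (ρ.mem b)⟩,
    ρ.mem⟩
  · obtain ⟨j, hj, e⟩ := eq_Tc hu
    rw [e, map_mul]
    exact (c1 _ a).mul_right (RfP5.cenO c v ρ a hj)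
  · obtain ⟨m, e⟩ := RfP5.n1_r c v ρ a
    have h1 : Commute (r a) (M.n1 * M.φ (x1 T 1) * M.n1) := by
      have := comm_conj' M.n1n1 ((φ_comm M).2 (x5Tc m (u := x1 T 1) ⟨rfl, rfl⟩))
      rw [n1_x5] at this
      rw [e]
      exact (comm_conj' M.n1n1 (c1 1 a)).mul_left this
    have := ((c1 1 a).inv_right.mul_right h1).mul_right (c1 1 a).inv_right
    rwa [← n1_eq M.toPF] at this

end Cfsg.Agent.H77
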