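import Cfsg.Agent.H58.SWDefs

/-! Project SW: the element that twists the centraliser of an extraspecial-type element. -/

set_option autoImplicit false
set_option linter.unusedSectionVars false
open Matrix Cfsg Polynomial
open scoped commutatorElement

namespace Cfsg.Agent.H77.SWUz
open Cfsg.Agent.H58.SW

section Det
variable {K : Type} [Field K] {n : ℕ}

/-- `z ^ r` is the scalar `c` and `z` is conjugate to a primitive multiple of itself. -/
def Tw (r : ℕ) (c : K) (z : Mt n K) : Prop :=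
  z ^ r = c • (1 : Mt n K) ∧ ∃ (a : K) (y y' : Mt n K), IsPrimitiveRoot a r ∧ y * y' = 1 ∧
    y * z * y' = a • z

theorem det_conj {y y' : Mt n K} (h : y * y' = 1) (x : Mt n K) : (y * x * y').det = x.det := by
  rw [det_mul, det_mul, mul_right_comm, ← det_mul, h, det_one, one_mul]

theorem det_pow_eq [Infinite K] {r : ℕ} (hr : 0 < r) {c : K} {z : Mt n K} (h : Tw r c z) (t : K) :
    (t • (1 : Mt n K) - z).det ^ r = (t ^ r - c) ^ n := by
  obtain ⟨hz, a, y, y', ha, hy, hc⟩ := h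
  have hD : ∀ j : ℕ, (t • (1 : Mt n K) - a ^ j • z).det = (t • (1 : Mt n K) - z).det := by
    intro j
    induction j with
    | zero => simp
    | succ j ih =>
      rw [← ih, ← det_conj hy (t • (1 : Mt n K) - a ^ j • z)]
      congr 1
      rw [mul_sub, sub_mul, mul_smul_comm, smul_mul_assoc, mul_one, hy, mul_smul_comm,
        smul_mul_assoc, hc, smul_smul, pow_succ]
  have hP : ∏ j ∈ Finset.range r, (C t - C (a ^ j) * X : K[X]) = C (t ^ r) - X ^ r := by
    apply Polynomial.funext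
    intro x
    have := congrArg (eval t) (X_pow_sub_C_eq_prod ha hr (rfl : x ^ r = x ^ r))
    simp only [eval_sub, eval_pow, eval_X, eval_C, eval_prod] at this
    simp only [eval_sub, eval_pow, eval_X, eval_C, eval_prod, eval_mul]
    exact this.symm
  let Φ : K[X] →* K := (detMonoidHom (n := Fin n) (R := K)).comp (aeval z).toRingHom.toMonoidHom
  have hΦ : ∀ f, Φ f = (aeval z f).det := fun f => rfl
  have h1 := congrArg Φ hP
  rw [map_prod] at h1
  have h2 : ∀ j ∈ Finset.range r, Φ (C t - C (a ^ j) * X) = (t • (1 : Mt n K) - z).det := by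
    intro j _
    rw [hΦ, ← hD j]
    simp [Algebra.algebraMap_eq_smul_one, _root_.smul_pow]
  rw [Finset.prod_congr rfl h2, Finset.prod_const, Finset.card_range] at h1
  rw [h1, hΦ]
  simp only [map_sub, aeval_C, map_pow, aeval_X, hz, Algebra.algebraMap_eq_smul_one]
  rw [_root_.smul_pow, one_pow, ← sub_smul, det_smul]
  simp

theorem eval_cp (z : Mt n K) (t : K) : z.charpoly.eval t = (t • (1 : Mt n K) - z).det := by
  rw [Matrix.eval_charpoly]
  congr 2
  ext i j
  by_cases h : i = j <;> simp [h]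

theorem charpoly_eq [Infinite K] {r : ℕ} (hr : 0 < r) {c : K} {z z' : Mt n K} (h : Tw r c z)
    (h' : Tw r c z') : z.charpoly = z'.charpoly := by
  have e : z.charpoly ^ r = z'.charpoly ^ r := by
    apply Polynomial.funext
    intro t
    rw [eval_pow, eval_pow, eval_cp, eval_cp, det_pow_eq hr h, det_pow_eq hr h']
  apply eq_of_monic_of_associated (charpoly_monic z) (charpoly_monic z')
  apply associated_of_dvd_dvd
  · exact (IsIntegrallyClosed.pow_dvd_pow_iff hr.ne').1 e.dvd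
  · exact (IsIntegrallyClosed.pow_dvd_pow_iff hr.ne').1 e.symm.dvd

theorem det_aeval_closed [IsAlgClosed K] {z z' : Mt n K} (h : z.charpoly = z'.charpoly)
    (f : K[X]) : (aeval z f).det = (aeval z' f).det := by
  have hs : f.Splits := IsAlgClosed.splits f
  unfold Polynomial.Splits at hs
  induction hs using Submonoid.closure_induction with
  | mem x hx =>
    rcases hx with ⟨a, rfl⟩ | ⟨a, rfl⟩
    · simp
    · have key : ∀ w : Mt n K, (aeval w (X + C a)).det = (-1) ^ n * w.charpoly.eval (-a) := by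
        intro w
        rw [eval_cp]
        have : aeval w (X + C a) = (-1 : K) • ((-a) • (1 : Mt n K) - w) := by
          simp [Algebra.algebraMap_eq_smul_one]
        rw [this, det_smul]
        simp
      rw [key, key, h]
  | one => simp
  | mul x y _ _ hx hy => rw [map_mul, map_mul, det_mul, det_mul, hx, hy]

theorem Tw.map {L : Type} [Field L] (φ : K →+* L) {r : ℕ} {c : K} {z : Mt n K} (h : Tw r c z) :
    Tw r (φ c) (z.map φ) := by
  obtain ⟨hz, a, y, y', ha, hy, hc⟩ := h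
  have hs : ∀ (b : K) (x : Mt n K), (b • x).map φ = φ b • x.map φ := by
    intro b x; ext i j; simp
  refine ⟨?_, φ a, y.map φ, y'.map φ, ha.map_of_injective φ.injective, ?_, ?_⟩
  · have := congrArg (φ.mapMatrix (m := Fin n)) hz
    rw [map_pow] at this
    simp only [RingHom.mapMatrix_apply] at this
    rw [this, hs, Matrix.map_one _ (map_zero φ) (map_one φ)]
  · rw [← Matrix.map_mul, hy, Matrix.map_one _ (map_zero φ) (map_one φ)]
  · rw [← Matrix.map_mul, ← Matrix.map_mul, hc, hs]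

theorem det_aeval_eq {r : ℕ} (hr : 0 < r) {c : K} {z z' : Mt n K} (h : Tw r c z)
    (h' : Tw r c z') (f : K[X]) : (aeval z f).det = (aeval z' f).det := by
  let L := AlgebraicClosure K
  let φ : K →+* L := algebraMap K L
  apply φ.injective
  have key : ∀ w : Mt n K, φ (aeval w f).det = (aeval (w.map φ) (f.map φ)).det := by
    intro w
    rw [RingHom.map_det]
    congr 1
    refine map_aeval_eq_aeval_map (φ := φ) (ψ := φ.mapMatrix (m := Fin n)) ?_ f w
    ext a i j
    by_cases hij : i = j <;> simp [hij, Matrix.algebraMap_matrix_apply]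
  rw [key, key]
  exact det_aeval_closed (charpoly_eq hr (h.map φ) (h'.map φ)) _

end Det

section Gauss
variable {K : Type} [Field K] {n : ℕ}

/-- the coefficient -/
def mm (ζ β : K) (i : ℕ) : K := ζ ^ i.choose 2 * β ^ i

theorem mm_succ (ζ β : K) (i : ℕ) : mm ζ β (i + 1) = mm ζ β i * (β * ζ ^ i) := by
  unfold mm
  rw [Nat.choose_succ_succ i 1, Nat.choose_one_right]
  ring

/-- the Gauss sum of a matrix -/
def VV (ζ β : K) (r : ℕ) (z : Mt n K) (b : K) : Mt n K :=
  ∑ i ∈ Finset.range r, (mm ζ β i * b ^ i) • z ^ i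

variable {ζ β c : K} {r : ℕ} {z : Mt n K}

theorem VV_shift (hz : z ^ r = c • (1 : Mt n K)) (hc : mm ζ β r * c = 1) {b : K} (hb : b ^ r = 1) :
    VV ζ β r z b = (β * b) • (z * VV ζ β r z (ζ * b)) := by
  let T : ℕ → Mt n K := fun i => (mm ζ β i * b ^ i) • z ^ i
  have h1 : (β * b) • (z * VV ζ β r z (ζ * b)) = ∑ i ∈ Finset.range r, T (i + 1) := by
    unfold VV
    rw [Finset.mul_sum, Finset.smul_sum]
    refine Finset.sum_congr rfl fun i _ => ?_
    simp only [T]
    rw [mul_smul_comm, smul_smul, ← pow_succ', mm_succ]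
    congr 1
    ring
  have h2 : T r = T 0 := by
    simp only [T]
    rw [hz, smul_smul, hb, mul_one, hc]
    simp [mm]
  have h3 := Finset.sum_range_succ' T r
  rw [Finset.sum_range_succ, h2] at h3
  rw [h1]
  exact add_right_cancel h3

theorem VV_iter (hz : z ^ r = c • (1 : Mt n K)) (hc : mm ζ β r * c = 1) (hζ : ζ ^ r = 1) (k : ℕ) :
    VV ζ β r z 1 = mm ζ β k • (z ^ k * VV ζ β r z (ζ ^ k)) := by
  induction k with
  | zero => simp [mm]
  | succ k ih =>
    have hb : (ζ ^ k) ^ r = 1 := by rw [← pow_mul, mul_comm, pow_mul, hζ, one_pow]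
    rw [ih, VV_shift hz hc hb, mul_smul_comm, smul_smul, mm_succ, ← mul_assoc (z ^ k),
      ← pow_succ, ← pow_succ']

theorem VV_conj {g g' : Mt n K} {a : K} (h1 : g * g' = 1) (h2 : g' * g = 1)
    (h : g * z * g' = a • z) : g * VV ζ β r z 1 * g' = VV ζ β r z a := by
  have hp : ∀ i : ℕ, g * z ^ i * g' = a ^ i • z ^ i := by
    intro i
    induction i with
    | zero => simp [h1]
    | succ i ih =>
      have : g * z ^ (i + 1) * g' = (g * z ^ i * g') * (g * z * g') := by
        rw [pow_succ]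
        simp only [mul_assoc]
        rw [← mul_assoc g' g, h2, one_mul]
      rw [this, ih, h, smul_mul_assoc, mul_smul_comm, smul_smul, ← pow_succ, ← pow_succ]
  unfold VV
  rw [Finset.mul_sum, Finset.sum_mul]
  refine Finset.sum_congr rfl fun i _ => ?_
  rw [mul_smul_comm, smul_mul_assoc, hp, smul_smul, one_pow, mul_one]

theorem VV_inv (hr : r.Prime) (hz : z ^ r = c • (1 : Mt n K)) (hc : mm ζ β r * c = 1)
    (hζ : IsPrimitiveRoot ζ r) (hβ : β ≠ 0) {z' : Mt n K} (hz' : z' * z = 1) :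
    (∑ j ∈ Finset.range r, (mm ζ β j)⁻¹ • z' ^ j) * VV ζ β r z 1 = (r : K) • (1 : Mt n K) := by
  have hζ0 : ζ ≠ 0 := hζ.ne_zero hr.ne_zero
  have hp : ∀ j : ℕ, z' ^ j * z ^ j = 1 := by
    intro j
    induction j with
    | zero => simp
    | succ j ih => rw [pow_succ z', pow_succ' z, mul_assoc, ← mul_assoc z' z, hz', one_mul, ih]
  have h1 : ∀ j ∈ Finset.range r, ((mm ζ β j)⁻¹ • z' ^ j) * VV ζ β r z 1 = VV ζ β r z (ζ ^ j) := by
    intro j _
    have hm : mm ζ β j ≠ 0 := mul_ne_zero (pow_ne_zero _ hζ0) (pow_ne_zero _ hβ)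
    rw [VV_iter hz hc hζ.pow_eq_one j, smul_mul_assoc, mul_smul_comm, smul_smul,
      inv_mul_cancel₀ hm, one_smul, ← mul_assoc, hp, one_mul]
  rw [Finset.sum_mul, Finset.sum_congr rfl h1]
  unfold VV
  rw [Finset.sum_comm, Finset.sum_eq_single 0]
  · simp [mm, Nat.cast_smul_eq_nsmul]
  · intro i hi hi0
    have hco : i.Coprime r :=
      (Nat.coprime_comm.1 ((Nat.Prime.coprime_iff_not_dvd hr).2
        (Nat.not_dvd_of_pos_of_lt (Nat.pos_of_ne_zero hi0) (Finset.mem_range.1 hi))))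
    have h0 := (hζ.pow_of_coprime i hco).geom_sum_eq_zero hr.one_lt
    rw [← Finset.sum_smul, ← Finset.mul_sum]
    have : ∑ j ∈ Finset.range r, (ζ ^ j) ^ i = 0 := by
      rw [← h0]
      exact Finset.sum_congr rfl fun j _ => by rw [← pow_mul, ← pow_mul, mul_comm]
    rw [this, mul_zero, zero_smul]
  · intro h
    exact absurd (Finset.mem_range.2 hr.pos) h

theorem VV_aeval (ζ β : K) (r : ℕ) (z : Mt n K) :
    VV ζ β r z 1 = aeval z (∑ i ∈ Finset.range r, C (mm ζ β i) * X ^ i : K[X]) := by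
  unfold VV
  rw [map_sum]
  refine Finset.sum_congr rfl fun i _ => ?_
  simp [Algebra.algebraMap_eq_smul_one]

end Gauss

section Main
variable {F : Type} [Field F] [Fintype F] [DecidableEq F] {n : ℕ} {c : Cl F n}

theorem zv_mul {a b : F} (ha : c.ZV a) (hb : c.ZV b) : c.ZV (a * b) :=
  ⟨mul_ne_zero ha.1 hb.1, fun h => by rw [mul_pow, ha.2 h, hb.2 h, one_mul]⟩

theorem zv_pow {a : F} (ha : c.ZV a) (k : ℕ) : c.ZV (a ^ k) :=
  ⟨pow_ne_zero _ ha.1, fun h => by rw [← pow_mul, mul_comm, pow_mul, ha.2 h, one_pow]⟩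

theorem smul_one_inj (c : Cl F n) {a b : F} (h : a • (1 : Mt n F) = b • (1 : Mt n F)) : a = b := by
  have h0 : 0 < n := lt_of_lt_of_le (by norm_num) c.hn
  have := congrFun (congrFun h ⟨0, h0⟩) ⟨0, h0⟩
  simpa using this

/-- a commutator in the scalars gives a scalar twist by a root of unity -/
theorem twist (ka : KA c) {r : ℕ} {e : F} (he : e ≠ 0) {z g : Gl n F}
    (hz : (z : Mt n F) ^ r = e • (1 : Mt n F)) (hg : ⁅g, z⁆ ∈ c.Z) :
    ∃ a, c.ZV a ∧ a ^ r = 1 ∧ (g : Mt n F) * z * ((g⁻¹ : Gl n F) : Mt n F) = a • (z : Mt n F) ∧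
      (a = 1 → Commute g z) := by
  obtain ⟨a, ha, h⟩ := (ka.mem_Z _).1 hg
  have e1 : g * z * g⁻¹ = ⁅g, z⁆ * z := by rw [commutatorElement_def]; group
  have e2 : (g : Mt n F) * z * ((g⁻¹ : Gl n F) : Mt n F) = a • (z : Mt n F) := by
    have := congrArg (fun x : Gl n F => (x : Mt n F)) e1
    simp only [Units.val_mul] at this
    rw [this, h, smul_mul_assoc, one_mul]
  refine ⟨a, ha, ?_, e2, fun h1 => ?_⟩
  · have e3 : (g * z * g⁻¹) ^ r = g * z ^ r * g⁻¹ := conj_pow
    have := congrArg (fun x : Gl n F => (x : Mt n F)) e3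
    simp only [Units.val_mul, Units.val_pow_eq_pow_val] at this
    rw [e2, _root_.smul_pow, hz, smul_smul, mul_smul_comm, smul_mul_assoc, mul_one,
      Units.mul_inv] at this
    have := smul_one_inj c this
    exact mul_right_cancel₀ he (this.trans (one_mul e).symm)
  · rw [h1, one_smul] at h
    exact commutatorElement_eq_one_iff_commute.1 (Units.ext h)

theorem st_pow (ka : KA c) (hu : c.u = true) (x : Mt n F) (i : ℕ) : c.st (x ^ i) = c.st x ^ i := by
  induction i with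
  | zero => simpa using ka.st_one
  | succ i ih => rw [pow_succ, ka.st_mul hu, ih, ← pow_succ']

theorem st_sum (ka : KA c) (hu : c.u = true) (T : ℕ → Mt n F) (r : ℕ) :
    c.st (∑ i ∈ Finset.range r, T i) = ∑ i ∈ Finset.range r, c.st (T i) := by
  induction r with
  | zero =>
    have := ka.st_sub hu 0 0
    simpa using this
  | succ r ih => rw [Finset.sum_range_succ, Finset.sum_range_succ, ka.st_add hu, ih]

theorem uel (ka : KA c) {r : ℕ} (hr : r.Prime) (hr0 : (r : F) ≠ 0) {ζ β e : F}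
    (hζ : IsPrimitiveRoot ζ r) (hζ' : c.ZV ζ) (hβ : c.ZV β) (he : mm ζ β r * e = 1) :
    ∃ l : F, ∀ z ∈ c.St, (z : Mt n F) ^ r = e • (1 : Mt n F) →
      ∃ v, UEl c r z v ∧ (v : Mt n F) = l • VV ζ β r (z : Mt n F) 1 := by
  have he0 : e ≠ 0 := fun h => by simp [h] at he
  have hm : ∀ k, c.ZV (mm ζ β k) := fun k => zv_mul (zv_pow hζ' _) (zv_pow hβ _)
  obtain ⟨l, hl0, hl⟩ : ∃ l : F, l ≠ 0 ∧ (c.u = true → l ^ (c.q + 1) * r = 1) := by
    by_cases hu : c.u = true
    · obtain ⟨F0, -, hF0⟩ := ka.fx hu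
      have h1 : ((r : F)⁻¹) ^ c.q = (r : F)⁻¹ := (hF0 _).1 (F0.inv_mem (natCast_mem F0 r))
      obtain ⟨b, hb⟩ := ka.nsurj hu _ h1 (inv_ne_zero hr0)
      refine ⟨b, fun h => ?_, fun _ => by rw [hb, inv_mul_cancel₀ hr0]⟩
      rw [h, zero_pow (Nat.succ_ne_zero _)] at hb
      exact inv_ne_zero hr0 hb.symm
    · exact ⟨1, one_ne_zero, fun h => absurd h hu⟩
  refine ⟨l, fun z hzS hz => ?_⟩
  have hz' : ((z⁻¹ : Gl n F) : Mt n F) * z = 1 := Units.inv_mul z
  have hinv := VV_inv hr hz he hζ hβ.1 hz'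
  set W := ∑ j ∈ Finset.range r, (mm ζ β j)⁻¹ • ((z⁻¹ : Gl n F) : Mt n F) ^ j with hW
  set V := VV ζ β r (z : Mt n F) 1 with hV
  have i1 : ((l * r)⁻¹ • W) * (l • V) = 1 := by
    rw [smul_mul_assoc, mul_smul_comm, hinv, smul_smul, smul_smul, mul_assoc,
      inv_mul_cancel₀ (mul_ne_zero hl0 hr0), one_smul]
  let v : Gl n F := ⟨l • V, (l * r)⁻¹ • W, mul_eq_one_comm.1 i1, i1⟩
  have hv : (v : Mt n F) = l • V := rfl
  refine ⟨v, ⟨(ka.mem_St v).2 fun hu => ?_, fun g _ hg => ?_⟩, hv⟩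
  · have hst : c.st (z : Mt n F) = ((z⁻¹ : Gl n F) : Mt n F) := by
      have := (ka.mem_St z).1 hzS hu
      calc c.st (z : Mt n F) = c.st (z : Mt n F) * (z * ((z⁻¹ : Gl n F) : Mt n F)) := by
            rw [Units.mul_inv, mul_one]
        _ = _ := by rw [← mul_assoc, this, one_mul]
    have hsV : c.st V = W := by
      rw [hV, hW]
      unfold VV
      rw [st_sum ka hu]
      refine Finset.sum_congr rfl fun i _ => ?_
      rw [ka.st_smul, st_pow ka hu, hst, one_pow, mul_one]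
      congr 1
      have := (hm i).2 hu
      rw [pow_succ] at this
      exact eq_inv_of_mul_eq_one_left this
    rw [hv, ka.st_smul, hsV, smul_mul_assoc, mul_smul_comm, hinv, smul_smul, smul_smul,
      ← pow_succ, hl hu, one_smul]
  · obtain ⟨a, -, har, hga, hcm⟩ := twist ka he0 hz hg
    have : NeZero r := ⟨hr.ne_zero⟩
    obtain ⟨k, hk, rfl⟩ := hζ.eq_pow_of_pow_eq_one har
    obtain ⟨m, hmZ, hmv⟩ := ka.ex_Z _ (hm k)
    refine ⟨k, m, hmZ, ?_, fun hn hd => hn (hcm ?_)⟩
    · rw [mul_inv_eq_iff_eq_mul]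
      apply Units.ext
      simp only [Units.val_mul, Units.val_pow_eq_pow_val]
      have h1 := VV_conj (ζ := ζ) (β := β) (r := r) (Units.mul_inv g) (Units.inv_mul g) hga
      have h2 := VV_iter hz he hζ.pow_eq_one k
      rw [← h1, ← hV] at h2
      have h3 : V * g = mm ζ β k • ((z : Mt n F) ^ k * (g * V)) := by
        conv_lhs => rw [h2]
        rw [smul_mul_assoc]
        simp only [mul_assoc]
        rw [Units.inv_mul, mul_one]
      rw [hv, hmv, smul_mul_assoc, h3]
      simp only [smul_mul_assoc, mul_smul_comm, one_mul, mul_assoc]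
    · obtain ⟨j, rfl⟩ := hd
      rw [pow_mul, hζ.pow_eq_one, one_pow]

theorem good_tw (ka : KA c) {r : ℕ} (hr : r.Prime) {e : F} (he : e ≠ 0) {z : Gl n F}
    (hz : (z : Mt n F) ^ r = e • (1 : Mt n F)) (h : ∃ y ∈ c.St, ⁅y, z⁆ ∈ c.Z ∧ ¬ Commute y z) :
    Tw r e (z : Mt n F) ∧ ∃ ζ, c.ZV ζ ∧ IsPrimitiveRoot ζ r := by
  obtain ⟨y, -, hy, hn⟩ := h
  obtain ⟨a, ha, har, hga, hcm⟩ := twist ka he hz hy
  have : Fact r.Prime := ⟨hr⟩
  have hp : IsPrimitiveRoot a r := by
    have := orderOf_eq_prime har fun h => hn (hcm h)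
    exact this ▸ IsPrimitiveRoot.orderOf a
  exact ⟨⟨hz, a, y, _, hp, Units.mul_inv y, hga⟩, a, ha, hp⟩

theorem main (ka : KA c) {r : ℕ} (hr : r.Prime) (hp : r ≠ c.p) {e : F} (he : e ≠ 0)
    (hg : ∀ z, Good c r z → (z : Mt n F) ^ r = e • (1 : Mt n F))
    (hβ : ∀ ζ : F, IsPrimitiveRoot ζ r → ∃ β, c.ZV β ∧ mm ζ β r * e = 1) :
    ∃ w : F, ∀ z, Good c r z → ∃ v, UEl c r z v ∧ (v : Mt n F).det = w := by
  by_cases h : ∃ z0, Good c r z0
  · obtain ⟨z0, h0⟩ := h
    obtain ⟨t0, ζ, hζ', hζ⟩ := good_tw ka hr he (hg z0 h0) h0.2.2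
    obtain ⟨β, hβ', hβe⟩ := hβ ζ hζ
    have hr0 : (r : F) ≠ 0 := by
      have := c.chr
      intro h
      exact hp ((Nat.prime_dvd_prime_iff_eq c.hp hr).1 ((CharP.cast_eq_zero_iff F c.p r).1 h)).symm
    obtain ⟨l, hl⟩ := uel ka hr hr0 hζ hζ' hβ' hβe
    refine ⟨(l • VV ζ β r (z0 : Mt n F) 1).det, fun z hz => ?_⟩
    obtain ⟨v, hv, hv'⟩ := hl z hz.1 (hg z hz)
    refine ⟨v, hv, ?_⟩
    rw [hv', det_smul, det_smul, VV_aeval, VV_aeval,
      det_aeval_eq hr.pos (good_tw ka hr he (hg z hz) hz.2.2).1 t0]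
  · exact ⟨0, fun z hz => absurd ⟨z, hz⟩ h⟩

end Main

theorem uz1 (hKA : KAStmt) : Uz1Stmt := by
  intro F _ _ _ n c r hr hp h2 _
  refine main (hKA F n c) hr hp one_ne_zero (fun z hz => ?_) fun ζ hζ => ⟨1, ⟨one_ne_zero, by simp⟩, ?_⟩
  · have := hz.2.1
    rw [if_neg (fun h => h2 h.1), Units.val_pow_eq_pow_val] at this
    rw [this, one_smul]
  · obtain ⟨j, hj⟩ : r ∣ r.choose 2 :=
      hr.dvd_choose_self (by norm_num) (lt_of_le_of_ne hr.two_le (Ne.symm h2))
    simp [mm, hj, pow_mul, hζ.pow_eq_one]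

theorem uz2 (hKA : KAStmt) : Uz2Stmt := by
  intro F _ _ _ n c hp
  have ka := hKA F n c
  by_cases h4 : 4 ∣ c.zc
  · refine main ka Nat.prime_two (Ne.symm hp) one_ne_zero (fun z hz => ?_) fun ζ hζ => ?_
    · have := hz.2.1
      rw [if_neg (fun h => h.2 h4), Units.val_pow_eq_pow_val] at this
      rw [this, one_smul]
    · have hq := c.hq
      have h2 := ka.two_le
      have hsq : IsSquare (-1 : F) := by
        rw [FiniteField.isSquare_neg_one_iff, hq]
        unfold Cl.zc at h4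
        split_ifs at h4 ⊢ with hu
        · have : c.q % 4 = 3 := by omega
          rw [pow_two, Nat.mul_mod, this]
          norm_num
        · omega
      obtain ⟨β, hβ⟩ := hsq
      have hβ0 : β ≠ 0 := fun h => by simp [h] at hβ
      refine ⟨β, ⟨hβ0, fun hu => ?_⟩, ?_⟩
      · unfold Cl.zc at h4
        rw [if_pos hu] at h4
        obtain ⟨j, hj⟩ := h4
        have : β ^ 4 = 1 := by
          have : β ^ 4 = (β * β) * (β * β) := by ring
          rw [this, ← hβ]; ring
        rw [hj, pow_mul, this, one_pow]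
      · rw [mm, hζ.eq_neg_one_of_two_right, pow_two β, ← hβ]
        simp
  · refine main ka Nat.prime_two (Ne.symm hp) (neg_ne_zero.2 one_ne_zero) (fun z hz => ?_)
      fun ζ hζ => ⟨1, ⟨one_ne_zero, by simp⟩, ?_⟩
    · have := hz.2.1
      rw [if_pos ⟨rfl, h4⟩, Units.val_pow_eq_pow_val] at this
      rw [this, neg_smul, one_smul]
    · rw [mm, hζ.eq_neg_one_of_two_right]
      simp

end Cfsg.Agent.H77.SWUz
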