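import Cfsg.Agent.H42.VpDefs

set_option autoImplicit false

namespace Cfsg.Agent.H77.VpZ

open Subgroup Cfsg Cfsg.Agent.H42.Vp

universe u

theorem aux (z0 : Z0Stmt.{u}) (p : ℕ) (hp : p.Prime) (n : ℕ) :
    ∀ (G : Type u) [Group G] [Finite G], Nat.card G = n → IsPGroup p G →
      ∀ x : G, x ∉ center G → Van x := by
  induction n using Nat.strong_induction_on with
  | _ n ih =>
    intro G _ _ hn hG x hx
    have : Fact p.Prime := ⟨hp⟩
    by_cases hq : (QuotientGroup.mk' (center G) x) ∈ center (G ⧸ center G)
    · have hx' : ∃ g : G, g * x ≠ x * g := by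
        by_contra hc
        refine hx (Subgroup.mem_center_iff.2 fun g => ?_)
        by_contra h
        exact hc ⟨g, h⟩
      obtain ⟨g, hg⟩ := hx'
      have h1 := Subgroup.mem_center_iff.1 hq (QuotientGroup.mk' (center G) g)
      have hz : x⁻¹ * (g * x * g⁻¹) ∈ center G := by
        rw [← QuotientGroup.eq_one_iff, ← QuotientGroup.mk'_apply]
        simp only [map_mul, map_inv]
        rw [h1]
        group
      refine z0 G x g (x⁻¹ * (g * x * g⁻¹)) hz ?_ (by group)
      intro h
      apply hg
      have h2 : g * x = x * (x⁻¹ * (g * x * g⁻¹)) * g := by group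
      rw [h2, h, mul_one]
    · have hnt : Nontrivial G := by
        by_contra hc
        rw [not_nontrivial_iff_subsingleton] at hc
        exact hx (Subgroup.mem_center_iff.2 fun g => Subsingleton.elim _ _)
      have hc : Nontrivial (center G) := hG.center_nontrivial
      have hlt : Nat.card (G ⧸ center G) < n := by
        rw [← hn, Subgroup.card_eq_card_quotient_mul_card_subgroup (center G)]
        have h1 : 1 < Nat.card (center G) := Finite.one_lt_card
        have h2 : 0 < Nat.card (G ⧸ center G) := Nat.card_pos
        nlinarith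
      have hv := ih _ hlt (G ⧸ center G) rfl (hG.to_quotient _) _ hq
      exact H22.VanP.Van.comp (QuotientGroup.mk' (center G)) (QuotientGroup.mk'_surjective _) hv

theorem z (z0 : Z0Stmt.{u}) : ZStmt.{u} := fun G _ _ p hp hG x hx =>
  aux z0 p hp _ G rfl hG x hx

end Cfsg.Agent.H77.VpZ
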